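import Mathlib
import Cfsg.Agent.LAE79.OffenderGeometry
import Cfsg.Agent.LocEven.Chermak.Weight

/-!
Weights `|A| |C_X(A)|` for a group acting on a finite abelian group, quadratic actions,
and fixed points of `p`-groups on invariant sections.
-/

set_option autoImplicit false
set_option linter.unusedSectionVars false

namespace Cfsg.Agent.MovesFix

open LAE79 (fixV mem_fixV)

variable {P : Type*} [Group P] {X : Type*} [AddCommGroup X] [DistribMulAction P X]

variable (X) in
/-- `|B| |C_X(B)|`. -/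
noncomputable def wt (B : Subgroup P) : ℕ := Nat.card B * Nat.card (fixV (V := X) B)

theorem fixV_anti {A B : Subgroup P} (h : A ≤ B) : fixV (V := X) B ≤ fixV A :=
  fun _ hv a ha => hv a (h ha)

theorem fixV_bot : fixV (V := X) (⊥ : Subgroup P) = ⊤ :=
  eq_top_iff.2 fun v _ a ha => by rw [Subgroup.mem_bot.1 ha, one_smul]

theorem fixV_sup (A B : Subgroup P) : fixV (V := X) (A ⊔ B) = fixV A ⊓ fixV B := by
  refine le_antisymm (le_inf (fixV_anti le_sup_left) (fixV_anti le_sup_right)) fun v hv g hg => ?_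
  exact (sup_le (fun a ha => hv.1 a ha) (fun b hb => hv.2 b hb) : A ⊔ B ≤ MulAction.stabilizer P v) hg

theorem wt_bot : wt X (⊥ : Subgroup P) = Nat.card X := by
  rw [wt, fixV_bot, Subgroup.card_bot, one_mul, AddSubgroup.card_top]

/-- Fixed points of a conjugate. -/
theorem mem_fixV_map_conj {g : P} {A : Subgroup P} {v : X} :
    v ∈ fixV (A.map (MulAut.conj g).toMonoidHom) ↔ g⁻¹ • v ∈ fixV A := by
  constructor
  · intro h a ha
    have h1 := h _ ⟨a, ha, rfl⟩
    rw [MulEquiv.coe_toMonoidHom, MulAut.conj_apply, mul_smul, mul_smul] at h1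
    exact eq_inv_smul_iff.2 h1
  · rintro h _ ⟨a, ha, rfl⟩
    rw [MulEquiv.coe_toMonoidHom, MulAut.conj_apply, mul_smul, mul_smul, h a ha, smul_inv_smul]

theorem card_fixV_map_conj (g : P) (A : Subgroup P) :
    Nat.card (fixV (V := X) (A.map (MulAut.conj g).toMonoidHom)) = Nat.card (fixV (V := X) A) :=
  Nat.card_congr
    { toFun := fun v => ⟨g⁻¹ • (v : X), mem_fixV_map_conj.1 v.2⟩
      invFun := fun v => ⟨g • (v : X), mem_fixV_map_conj.2 (by rw [inv_smul_smul]; exact v.2)⟩
      left_inv := fun v => Subtype.ext (smul_inv_smul g _)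
      right_inv := fun v => Subtype.ext (inv_smul_smul g _) }

theorem wt_map_conj (g : P) (A : Subgroup P) : wt X (A.map (MulAut.conj g).toMonoidHom) = wt X A := by
  rw [wt, wt, card_fixV_map_conj, Subgroup.card_map_of_injective (MulAut.conj g).injective]

/-- The subgroup generated by all `g • x - x` with `g ∈ A`. -/
def comm (A : Subgroup P) : AddSubgroup X :=
  AddSubgroup.closure {w | ∃ a ∈ A, ∃ x : X, w = a • x - x}

theorem diff_mem_comm {A : Subgroup P} {a : P} (ha : a ∈ A) (x : X) : a • x - x ∈ comm A :=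
  AddSubgroup.subset_closure ⟨a, ha, x, rfl⟩

theorem comm_le {A : Subgroup P} {Y : AddSubgroup X} (h : ∀ a ∈ A, ∀ x : X, a • x - x ∈ Y) :
    comm A ≤ Y :=
  (AddSubgroup.closure_le _).2 fun _ ⟨a, ha, x, hw⟩ => hw ▸ h a ha x

theorem comm_mono {A B : Subgroup P} (h : A ≤ B) : comm (X := X) A ≤ comm B :=
  comm_le fun _ ha x => diff_mem_comm (h ha) x

/-- The elements acting trivially modulo `Y`. -/
def trivMod (Y : AddSubgroup X) : Subgroup P where
  carrier := {g | ∀ x : X, g • x - x ∈ Y}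
  one_mem' x := by rw [one_smul, sub_self]; exact zero_mem _
  mul_mem' {a b} ha hb x := by
    rw [mul_smul, show a • b • x - x = (a • b • x - b • x) + (b • x - x) by abel]
    exact add_mem (ha _) (hb x)
  inv_mem' {a} ha x := by
    have h := ha (a⁻¹ • x)
    rw [smul_inv_smul] at h
    rw [show a⁻¹ • x - x = -(x - a⁻¹ • x) by abel]
    exact neg_mem h

/-- Quadratic action. -/
def Quad (A : Subgroup P) : Prop := ∀ a ∈ A, ∀ b ∈ A, ∀ x : X, b • (a • x - x) = a • x - x

theorem Quad.diff_mem {A : Subgroup P} (h : Quad (X := X) A) {a : P} (ha : a ∈ A) (x : X) :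
    a • x - x ∈ fixV A := fun b hb => h a ha b hb x

theorem Quad.comm_le_fix {A : Subgroup P} (h : Quad (X := X) A) : comm A ≤ fixV (V := X) A :=
  comm_le fun _ ha x => h.diff_mem ha x

theorem Quad.mono {A B : Subgroup P} (h : Quad (X := X) A) (hBA : B ≤ A) : Quad (X := X) B :=
  fun a ha b hb x => h a (hBA ha) b (hBA hb) x

/-- A `p`-group fixes a nonzero class in an invariant section. -/
theorem exists_fixed_mod [Finite X] {p : ℕ} [Fact p.Prime] (hX : IsPGroup p (Multiplicative X))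
    {R : Subgroup P} (hR : IsPGroup p R) {Y H : AddSubgroup X}
    (hY : ∀ r ∈ R, ∀ y ∈ Y, r • y ∈ Y) (hH : ∀ r ∈ R, ∀ y ∈ H, r • y ∈ H) (h : ¬ Y ≤ H) :
    ∃ y ∈ Y, y ∉ H ∧ ∀ r ∈ R, r • y - y ∈ H := by
  classical
  let π := QuotientAddGroup.mk' H
  let S : AddSubgroup (X ⧸ H) := Y.map π
  let φ : ↥R → (X ⧸ H) →+ (X ⧸ H) := fun r =>
    QuotientAddGroup.map H H (DistribMulAction.toAddMonoidHom X (r : P)) fun y hy => hH r r.2 y hy
  have hφ : ∀ (r : ↥R) (x : X), φ r (π x) = π ((r : P) • x) := fun r x => rfl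
  have hS : ∀ (r : ↥R), ∀ s ∈ S, φ r s ∈ S := by
    rintro r _ ⟨y, hy, rfl⟩
    exact ⟨(r : P) • y, hY r r.2 y hy, (hφ r y).symm⟩
  letI : MulAction ↥R ↥S :=
    { smul := fun r s => ⟨φ r s, hS r s s.2⟩
      one_smul := fun s => by
        obtain ⟨y, -, hy⟩ := s.2
        apply Subtype.ext
        show φ 1 (s : X ⧸ H) = s
        rw [← hy, hφ, OneMemClass.coe_one, one_smul]
      mul_smul := fun r t s => by
        obtain ⟨y, -, hy⟩ := s.2
        apply Subtype.ext
        show φ (r * t) (s : X ⧸ H) = φ r (φ t (s : X ⧸ H))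
        rw [← hy, hφ, hφ, hφ, Subgroup.coe_mul, mul_smul] }
  have hne : S ≠ ⊥ := by
    intro hS0
    refine h fun y hy => ?_
    have : π y ∈ S := ⟨y, hy, rfl⟩
    rw [hS0, AddSubgroup.mem_bot] at this
    exact (QuotientAddGroup.eq_zero_iff y).1 this
  have hdvd : p ∣ Nat.card ↥S := by
    haveI := (AddSubgroup.nontrivial_iff_ne_bot _).2 hne
    have h1 : Nat.card ↥S ∣ Nat.card (Multiplicative X) :=
      (AddSubgroup.card_addSubgroup_dvd_card S).trans (AddSubgroup.card_quotient_dvd_card H)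
    obtain ⟨n, hn⟩ := IsPGroup.iff_card.1 hX
    rw [hn] at h1
    obtain ⟨k, -, hk⟩ := (Nat.dvd_prime_pow (Fact.out : p.Prime)).1 h1
    have h2 : 1 < Nat.card ↥S := Finite.one_lt_card
    rw [hk] at h2 ⊢
    exact dvd_pow_self p (by rintro rfl; simp at h2)
  have h0 : (0 : ↥S) ∈ MulAction.fixedPoints ↥R ↥S := fun r => Subtype.ext (map_zero (φ r))
  obtain ⟨s, hs, hs0⟩ := hR.exists_fixed_point_of_prime_dvd_card_of_fixed_point (↥S) hdvd h0
  obtain ⟨y, hy, hys⟩ := s.2
  refine ⟨y, hy, fun hyH => hs0 (Subtype.ext ?_), fun r hr => ?_⟩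
  · show (0 : X ⧸ H) = (s : X ⧸ H)
    rw [← hys]
    exact ((QuotientAddGroup.eq_zero_iff y).2 hyH).symm
  · have h1 : φ ⟨r, hr⟩ (s : X ⧸ H) = (s : X ⧸ H) := congrArg Subtype.val (hs ⟨r, hr⟩)
    rw [← hys, hφ] at h1
    exact (QuotientAddGroup.eq_iff_sub_mem).1 h1

/-- A `p`-group fixes a nonzero vector in a nonzero invariant subgroup. -/
theorem exists_fixed [Finite X] {p : ℕ} [Fact p.Prime] (hX : IsPGroup p (Multiplicative X))
    {R : Subgroup P} (hR : IsPGroup p R) {Y : AddSubgroup X} (hY : ∀ r ∈ R, ∀ y ∈ Y, r • y ∈ Y)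
    (h : Y ≠ ⊥) : ∃ y ∈ Y, y ≠ 0 ∧ y ∈ fixV R := by
  obtain ⟨y, hy, hy0, hfix⟩ := exists_fixed_mod hX hR hY (H := ⊥)
    (fun r _ z hz => by rw [AddSubgroup.mem_bot.1 hz, smul_zero]; exact zero_mem _)
    fun hle => h (eq_bot_iff.2 hle)
  exact ⟨y, hy, fun h0 => hy0 (AddSubgroup.mem_bot.2 h0),
    fun r hr => sub_eq_zero.1 (AddSubgroup.mem_bot.1 (hfix r hr))⟩

/-- `[X, R]` is proper for a `p`-group `R`. -/
theorem comm_ne_top [Finite X] [Nontrivial X] {p : ℕ} [Fact p.Prime]
    (hX : IsPGroup p (Multiplicative X)) {R : Subgroup P} (hR : IsPGroup p R) :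
    comm (X := X) R ≠ ⊤ := by
  obtain ⟨H, ⟨hne, hinv⟩, hmax⟩ := (Set.toFinite
    {H : AddSubgroup X | H ≠ ⊤ ∧ ∀ r ∈ R, ∀ y ∈ H, r • y ∈ H}).exists_maximal
    ⟨⊥, bot_ne_top, fun r _ z hz => by rw [AddSubgroup.mem_bot.1 hz, smul_zero]; exact zero_mem _⟩
  obtain ⟨y, -, hyH, hy⟩ := exists_fixed_mod hX hR (Y := ⊤) (fun _ _ _ _ => trivial) hinv
    fun hle => hne (top_le_iff.1 hle)
  let H' := H ⊔ AddSubgroup.zmultiples y
  have hinv' : ∀ r ∈ R, ∀ v ∈ H', r • v ∈ H' := by
    intro r hr v hv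
    have : H' ≤ H'.comap (DistribMulAction.toAddMonoidHom X r) :=
      sup_le (fun z hz => AddSubgroup.mem_sup_left (hinv r hr z hz))
        ((AddSubgroup.zmultiples_le_of_mem) (by
          show r • y ∈ H'
          rw [show r • y = (r • y - y) + y by abel]
          exact add_mem (AddSubgroup.mem_sup_left (hy r hr))
            (AddSubgroup.mem_sup_right (AddSubgroup.mem_zmultiples y))))
    exact this hv
  have htop : H' = ⊤ := by
    by_contra hne'
    exact hyH (hmax ⟨hne', hinv'⟩ le_sup_left (AddSubgroup.mem_sup_right (AddSubgroup.mem_zmultiples y)))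
  intro hc
  refine hne (top_le_iff.1 (hc.ge.trans (comm_le fun r hr x => ?_)))
  have : H' ≤ (H.comap ((DistribMulAction.toAddMonoidHom X r) - AddMonoidHom.id X)) :=
    sup_le (fun z hz => by
      show r • z - z ∈ H
      exact sub_mem (hinv r hr z hz) hz) (AddSubgroup.zmultiples_le_of_mem (hy r hr))
  exact this (htop ▸ AddSubgroup.mem_top x)

/-- A subgroup of maximal weight none of whose proper nontrivial subgroups has this weight
is quadratic. -/
theorem quad_of_minimal [Finite P] [Finite X] {p : ℕ} [Fact p.Prime]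
    (hX : IsPGroup p (Multiplicative X)) {A : Subgroup P} (hA : IsPGroup p A)
    (hab : ∀ a ∈ A, ∀ b ∈ A, a * b = b * a) (hbest : ∀ B ≤ A, wt X B ≤ wt X A)
    (hmin : ∀ B ≤ A, B ≠ ⊥ → wt X B = wt X A → B = A) : Quad (X := X) A := by
  classical
  letI : CommGroup ↥A :=
    { (inferInstance : Group ↥A) with mul_comm := fun a b => Subtype.ext (hab a a.2 b b.2) }
  let α : ↥A →* AddMonoid.End X := (DistribMulAction.toAddMonoidEnd P X).comp A.subtype
  have hα : ∀ (a : ↥A) (x : X), α a x = (a : P) • x := fun _ _ => rfl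
  have hfix : ∀ B : Subgroup ↥A, LocEven.Chermak.fixA α B = fixV (B.map A.subtype) := fun B => by
    ext v
    rw [LocEven.Chermak.mem_fixA, mem_fixV]
    exact ⟨fun h g ⟨b, hb, e⟩ => e ▸ h b hb, fun h b hb => h _ ⟨b, hb, rfl⟩⟩
  have hwt : ∀ B : Subgroup ↥A, LocEven.Chermak.wt α B = wt X (B.map A.subtype) := fun B => by
    rw [LocEven.Chermak.wt, wt, hfix, Subgroup.card_map_of_injective A.subtype_injective]
  have htop : (⊤ : Subgroup ↥A).map A.subtype = A := by rw [← MonoidHom.range_eq_map, A.range_subtype]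
  obtain ⟨h1, h2⟩ := LocEven.Chermak.replacement (α := α) fun B => by
    rw [hwt, hwt, htop]; exact hbest _ (Subgroup.map_subtype_le B)
  rw [hwt, hwt, htop] at h1
  by_cases hB : (LocEven.Chermak.bar α).map A.subtype = ⊥
  · have hbar : LocEven.Chermak.bar α = ⊥ :=
      (Subgroup.map_eq_bot_iff_of_injective _ A.subtype_injective).1 hB
    by_cases hnt : Nontrivial X
    · intro a ha b hb x
      -- the action is trivial
      rw [hfix, hB, fixV_bot] at h2
      set Y := comm (X := X) A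
      have hY : ∀ g ∈ A, ∀ y ∈ Y, g • y ∈ Y := fun g hg y hy => by
        rw [show g • y = (g • y - y) + y by abel]
        exact add_mem (diff_mem_comm hg y) hy
      have hsplit : ∀ v : X, v ∈ Y ⊔ fixV A := fun v => by
        have hv := h2 (AddSubgroup.mem_top v)
        rw [LocEven.Chermak.augSpan, hfix, htop] at hv
        refine (sup_le_sup_right ((AddSubgroup.closure_le _).2 ?_) _) hv
        rintro _ ⟨c, w, rfl⟩
        exact diff_mem_comm c.2 w
      have hY0 : Y = ⊥ := by
        by_contra hne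
        haveI := (AddSubgroup.nontrivial_iff_ne_bot _).2 hne
        obtain ⟨H, ⟨hHY, hH⟩, hmax⟩ := (Set.toFinite
          {H : AddSubgroup X | H < Y ∧ ∀ r ∈ A, ∀ y ∈ H, r • y ∈ H}).exists_maximal
          ⟨⊥, bot_lt_iff_ne_bot.2 hne,
            fun r _ z hz => by rw [AddSubgroup.mem_bot.1 hz, smul_zero]; exact zero_mem _⟩
        obtain ⟨y, hy, hyH, hfy⟩ := exists_fixed_mod hX hA hY hH hHY.not_ge
        let H' := H ⊔ AddSubgroup.zmultiples y
        have hinv' : ∀ r ∈ A, ∀ v ∈ H', r • v ∈ H' := by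
          intro r hr v hv
          have : H' ≤ H'.comap (DistribMulAction.toAddMonoidHom X r) :=
            sup_le (fun z hz => AddSubgroup.mem_sup_left (hH r hr z hz))
              ((AddSubgroup.zmultiples_le_of_mem) (by
                show r • y ∈ H'
                rw [show r • y = (r • y - y) + y by abel]
                exact add_mem (AddSubgroup.mem_sup_left (hfy r hr))
                  (AddSubgroup.mem_sup_right (AddSubgroup.mem_zmultiples y))))
          exact this hv
        have hH'Y : H' = Y := by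
          refine le_antisymm (sup_le hHY.le (AddSubgroup.zmultiples_le_of_mem hy)) ?_
          by_contra hle
          exact hyH (hmax ⟨lt_of_le_not_ge (sup_le hHY.le (AddSubgroup.zmultiples_le_of_mem hy)) hle,
            hinv'⟩ le_sup_left (AddSubgroup.mem_sup_right (AddSubgroup.mem_zmultiples y)))
        refine hHY.not_ge (comm_le fun r hr v => ?_)
        have h3 : Y ≤ H.comap ((DistribMulAction.toAddMonoidHom X r) - AddMonoidHom.id X) :=
          hH'Y.ge.trans (sup_le (fun z hz => sub_mem (hH r hr z hz) hz)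
            (AddSubgroup.zmultiples_le_of_mem (hfy r hr)))
        obtain ⟨w, hw, c, hc, rfl⟩ := AddSubgroup.mem_sup.1 (hsplit v)
        rw [smul_add, hc r hr, add_sub_add_right_eq_sub]
        exact h3 hw
      have ht : ∀ c ∈ A, ∀ v : X, c • v - v = 0 := fun c hc v =>
        AddSubgroup.mem_bot.1 (hY0 ▸ diff_mem_comm hc v)
      rw [ht a ha x, smul_zero]
    · haveI := not_nontrivial_iff_subsingleton.1 hnt
      exact fun a _ b _ x => Subsingleton.elim _ _
  · have hBA := hmin _ (Subgroup.map_subtype_le _) hB h1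
    intro a ha b hb x
    obtain ⟨c, hc, hcb⟩ := hBA.ge hb
    have := hc (⟨a, ha⟩ : ↥A) x
    rw [hα, hα] at this
    rw [← hcb]
    exact this

end Cfsg.Agent.MovesFix
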