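import Mathlib
import Cfsg.Prelude.Def_LocalEven
import Cfsg.Agent.Cores.Basic
import Cfsg.Agent.Fusion.Basic
import Cfsg.Agent.LocalEven.SylowSubnormal
import Cfsg.Agent.MovesFix.Basic

/-!
Sylow subgroups of a `p`-minimal group with trivial core, their maximal subgroups, and an
irreducible module.
-/

set_option autoImplicit false
set_option linter.unusedSectionVars false
set_option linter.style.haveILetI false

namespace Cfsg.Agent.MovesFix

open LAE79 (fixV mem_fixV)
open Fusion (cj mem_cj cj_cj cj_one cj_mono coe_smul_sylow cj_eq_of_mem cj_eq_iff_mem_normalizer)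

/-- A normal subgroup inside a maximal subgroup that is unique over a Sylow subgroup meets the
Sylow subgroup in `O_p`. -/
theorem inf_normal_le_pCore {G : Type*} [Group G] [Finite G] {p : ℕ} [Fact p.Prime] (T : Sylow p G)
    {M N : Subgroup G} (hM : M ≠ ⊤) (huniq : ∀ H : Subgroup G, H ≠ ⊤ → (T : Subgroup G) ≤ H → H ≤ M)
    [hN : N.Normal] (hNM : N ≤ M) : (T : Subgroup G) ⊓ N ≤ Cfsg.pCore p G := by
  refine Cores.le_pCore ?_ (T.2.to_le inf_le_left)
  have hS : ¬ p ∣ ((T : Subgroup G).subgroupOf N).index := by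
    have h := LocalEven.not_dvd_relIndex_sylow_inf_subnormal T hN.isSubnormal
    rwa [Subgroup.inf_relIndex_right] at h
  set S : Sylow p N := ((T.2.comap_of_injective N.subtype N.subtype_injective)).toSylow hS
  have hfr := Sylow.normalizer_sup_eq_top S
  have hmap : ((S : Subgroup N).map N.subtype) = (T : Subgroup G) ⊓ N := by
    show ((T : Subgroup G).subgroupOf N).map N.subtype = _
    rw [Subgroup.subgroupOf_map_subtype]
  rw [hmap] at hfr
  have hTn : (T : Subgroup G) ≤ Subgroup.normalizer ((T : Subgroup G) ⊓ N : Subgroup G) := fun g hg =>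
    Subgroup.inf_normalizer_le_normalizer_inf ⟨Subgroup.le_normalizer hg,
      (Subgroup.normalizer_eq_top_iff.2 hN).ge (Subgroup.mem_top g)⟩
  by_contra hnn
  refine hM (top_le_iff.1 (hfr ▸ sup_le (huniq _ (fun h => hnn ?_) hTn) hNM))
  exact Subgroup.normalizer_eq_top_iff.1 h

variable {P : Type*} [Group P] {X : Type*} [AddCommGroup X] [DistribMulAction P X]

variable (P X) in
/-- A `p`-minimal group with trivial core acting irreducibly, no `p`-element trivially. -/
structure Hyp (p : ℕ) : Prop where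
  pmin : Cfsg.IsPMinimal p P
  core : Cfsg.pCore p P = ⊥
  faithp : ∀ g : P, (∃ k : ℕ, g ^ p ^ k = 1) → (∀ x : X, g • x = x) → g = 1
  exp : ∀ x : X, p • x = 0
  nontriv : Nontrivial X
  irr : ∀ Y : AddSubgroup X, (∀ g : P, ∀ y ∈ Y, g • y ∈ Y) → Y = ⊥ ∨ Y = ⊤
  nofix : fixV (V := X) (⊤ : Subgroup P) = ⊥

variable {p : ℕ}

theorem isPGroup_of_exp (h : ∀ x : X, p • x = 0) : IsPGroup p (Multiplicative X) := fun x =>
  ⟨1, Multiplicative.toAdd.injective (by rw [pow_one, toAdd_pow, h]; rfl)⟩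

namespace Hyp

/-- The maximal subgroup containing a Sylow subgroup. -/
noncomputable def Mx (D : Hyp P X p) (T : Sylow p P) : Subgroup P := (D.pmin T).2.choose

variable (D : Hyp P X p)

theorem mx_coatom (T : Sylow p P) : IsCoatom (D.Mx T) := (D.pmin T).2.choose_spec.1.1

theorem le_mx (T : Sylow p P) : (T : Subgroup P) ≤ D.Mx T := (D.pmin T).2.choose_spec.1.2

theorem mx_eq (T : Sylow p P) {M : Subgroup P} (hM : IsCoatom M) (h : (T : Subgroup P) ≤ M) :
    M = D.Mx T := (D.pmin T).2.choose_spec.2 M ⟨hM, h⟩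

variable [Finite P] [hp : Fact p.Prime] [Finite X]
include D

theorem xp : IsPGroup p (Multiplicative X) := isPGroup_of_exp D.exp

theorem uniq (T : Sylow p P) {H : Subgroup P} (hH : H ≠ ⊤) (h : (T : Subgroup P) ≤ H) : H ≤ D.Mx T := by
  obtain ⟨M, hM, hle⟩ := (eq_top_or_exists_le_coatom H).resolve_left hH
  exact D.mx_eq T hM (h.trans hle) ▸ hle

theorem sylow_ne_bot (T : Sylow p P) : (T : Subgroup P) ≠ ⊥ := fun h =>
  (D.pmin T).1 (by rw [h]; infer_instance)

theorem normal_pGroup_eq_bot {R : Subgroup P} [R.Normal] (hR : IsPGroup p R) : R = ⊥ :=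
  eq_bot_iff.2 ((Cores.le_pCore inferInstance hR).trans D.core.le)

theorem normalizer_ne_top {R : Subgroup P} (hR : IsPGroup p R) (h : R ≠ ⊥) :
    Subgroup.normalizer (R : Set P) ≠ ⊤ := fun e => by
  haveI := Subgroup.normalizer_eq_top_iff.1 e
  exact h (D.normal_pGroup_eq_bot hR)

theorem inf_normal_eq_bot (T : Sylow p P) {N : Subgroup P} [N.Normal] (hN : N ≤ D.Mx T) :
    (T : Subgroup P) ⊓ N = ⊥ :=
  eq_bot_iff.2 ((inf_normal_le_pCore T (D.mx_coatom T).1 (fun _ => D.uniq T) hN).trans D.core.le)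

theorem mem_mx_of_conj (T : Sylow p P) {g : P} (h : cj g (D.Mx T) = D.Mx T) : g ∈ D.Mx T := by
  have hg := cj_eq_iff_mem_normalizer.1 h
  by_contra hgM
  have hn : Subgroup.normalizer (D.Mx T : Set P) = ⊤ := by
    by_contra hne
    exact hgM (D.uniq T hne ((D.le_mx T).trans Subgroup.le_normalizer) hg)
  haveI := Subgroup.normalizer_eq_top_iff.1 hn
  have h1 := D.inf_normal_eq_bot T (N := D.Mx T) le_rfl
  rw [inf_eq_left.2 (D.le_mx T)] at h1
  exact D.sylow_ne_bot T h1

theorem mx_smul (g : P) (T : Sylow p P) : D.Mx (g • T) = cj g (D.Mx T) := by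
  refine (D.mx_eq (g • T) ?_ ?_).symm
  · exact (OrderIso.isCoatom_iff (MulEquiv.mapSubgroup (MulAut.conj g)) (D.Mx T)).2 (D.mx_coatom T)
  · rw [coe_smul_sylow]; exact cj_mono g (D.le_mx T)

theorem mx_eq_of_le (T T' : Sylow p P) (h : (T' : Subgroup P) ≤ D.Mx T) : D.Mx T' = D.Mx T :=
  (D.mx_eq T' (D.mx_coatom T) h).symm

theorem exists_sylow_of_le (T : Sylow p P) {R : Subgroup P} (hR : IsPGroup p R) (h : R ≤ D.Mx T) :
    ∃ T' : Sylow p P, R ≤ (T' : Subgroup P) ∧ D.Mx T' = D.Mx T := by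
  obtain ⟨S, hS⟩ := (hR.comap_subtype (K := D.Mx T)).exists_le_sylow
  obtain ⟨m, hm⟩ := MulAction.exists_smul_eq (D.Mx T) (T.subtype (D.le_mx T)) S
  refine ⟨(m : P) • T, fun r hr => ?_, ?_⟩
  · have h1 : (⟨r, h hr⟩ : D.Mx T) ∈ (S : Subgroup (D.Mx T)) := hS hr
    rw [← hm, coe_smul_sylow, mem_cj] at h1
    rw [coe_smul_sylow, mem_cj]
    exact h1
  · rw [D.mx_smul, Fusion.cj_eq_self_of_mem m.2]

theorem exists_moved (T : Sylow p P) :
    ∃ z ∈ fixV (V := X) (T : Subgroup P), MulAction.stabilizer P z ≤ D.Mx T := by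
  haveI := D.nontriv
  obtain ⟨z, -, hz0, hz⟩ := exists_fixed D.xp T.2 (Y := (⊤ : AddSubgroup X)) (fun _ _ _ _ => trivial)
    top_ne_bot
  refine ⟨z, hz, D.uniq T (fun h => hz0 ?_) hz⟩
  rw [← AddSubgroup.mem_bot, ← D.nofix]
  exact fun g _ => (h ▸ Subgroup.mem_top g : g ∈ MulAction.stabilizer P z)

theorem trivMod_le (T : Sylow p P) : trivMod (comm (X := X) (T : Subgroup P)) ≤ D.Mx T := by
  haveI := D.nontriv
  refine D.uniq T (fun h => ?_) fun t ht x => diff_mem_comm ht x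
  have hd : ∀ (g : P) (x : X), g • x - x ∈ comm (X := X) (T : Subgroup P) := fun g x =>
    (h ▸ Subgroup.mem_top g : g ∈ trivMod _) x
  rcases D.irr _ (fun g y hy => by
    rw [show g • y = (g • y - y) + y by abel]; exact add_mem (hd g y) hy) with h0 | h0
  · refine top_ne_bot (α := AddSubgroup X) (eq_bot_iff.2 fun x _ => ?_)
    rw [← D.nofix]
    exact fun g _ => sub_eq_zero.1 (AddSubgroup.mem_bot.1 (h0 ▸ hd g x))
  · exact comm_ne_top D.xp T.2 h0

end Hyp

end Cfsg.Agent.MovesFix
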