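import Mathlib
import Cfsg.Agent.FFTorus.Field
import Cfsg.Agent.LocEven.Chermak.Basic
import Cfsg.Agent.MovesFix.Points

/-!
An offender generating a group with any of its conjugates leaving a maximal subgroup: the core of the
generated group carries the offender inequality, and on its fixed points the natural geometry holds.
-/

set_option autoImplicit false
set_option linter.unusedSectionVars false
set_option linter.style.haveILetI false

namespace Cfsg.Agent.MovesFix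

open LAE79 (fixV mem_fixV)

variable {P : Type*} [Group P] {X : Type*} [AddCommGroup X] [DistribMulAction P X] {p : ℕ}

variable (X) in
/-- `L` acts on `U` modulo `W` as `SL₂` over a field with `q` elements on its natural module, the
kernel being trivial on `U`. -/
def NatAct (L : Subgroup P) (U W : AddSubgroup X) (q : ℕ) : Prop :=
  ∃ (F : Type) (_ : Field F) (_ : Fintype F), Fintype.card F = q ∧
    ∃ (ρ : ↥L →* Matrix.SpecialLinearGroup (Fin 2) F) (ψ : ↥U →+ (Fin 2 → F)),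
      Function.Surjective ρ ∧ Function.Surjective ψ ∧ (∀ u : ↥U, ψ u = 0 ↔ (u : X) ∈ W) ∧
      (∀ g : ↥L, ρ g = 1 → ∀ u : ↥U, (g : P) • (u : X) = (u : X)) ∧
      ∀ (g : ↥L) (u v : ↥U), (v : X) = (g : P) • (u : X) →
        ψ v = (ρ g : Matrix (Fin 2) (Fin 2) F).mulVec (ψ u)

variable (X) in
/-- What the natural geometry on the fixed points of `Q` gives. -/
structure CoreData (p : ℕ) (M0 E L Q : Subgroup P) : Prop where
  qle : Q ≤ L
  qnorm : L ≤ Subgroup.normalizer (Q : Set P)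
  qp : IsPGroup p Q
  notle : ¬ E ≤ Q
  weight : wt X (E ⊓ Q) = wt X E
  decomp : fixV (V := X) (E ⊓ Q) = fixV Q ⊔ fixV E
  cardE : Nat.card (fixV (V := X) Q) * Nat.card ↥(E ⊓ Q) =
    Nat.card E * Nat.card (fixV Q ⊓ fixV E : AddSubgroup X)
  cardL : Nat.card (fixV Q ⊓ fixV E : AddSubgroup X) * Nat.card ↥(E ⊓ Q) =
    Nat.card E * Nat.card (fixV Q ⊓ fixV L : AddSubgroup X)
  disp : ∀ a ∈ E, a ∉ Q → ∀ u ∈ fixV (V := X) Q, a • u - u ∈ fixV L → u ∈ fixV E
  perf : 4 * Nat.card ↥(E ⊓ Q) ≤ Nat.card E →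
    L ≤ ⁅L, L⁆ ⊔ (LAE79.pointwiseV (fixV (V := X) Q) ⊓ L)
  spread : ∀ N : Subgroup P, L ≤ Subgroup.normalizer (N : Set P) → E ≤ N → ¬ N ⊓ L ≤ M0
  nat : ∃ q, q * Nat.card ↥(E ⊓ Q) = Nat.card E ∧ NatAct X L (fixV Q) (fixV L) q
  borel : ∀ g ∈ L, g ∈ M0 → ∀ u ∈ fixV (V := X) Q, u ∈ fixV E → g • u ∈ fixV E

/-- The action of a subgroup on an invariant subgroup of `X`. -/
def resHom (L : Subgroup P) (U : AddSubgroup X) (hU : ∀ g : ↥L, ∀ u ∈ U, (g : P) • u ∈ U) :
    ↥L →* AddMonoid.End ↥U where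
  toFun g := AddMonoidHom.mk' (fun u => ⟨(g : P) • (u : X), hU g u u.2⟩)
    fun u v => Subtype.ext (smul_add (g : P) (u : X) (v : X))
  map_one' := AddMonoidHom.ext fun u => Subtype.ext (one_smul P (u : X))
  map_mul' g h := AddMonoidHom.ext fun u => Subtype.ext (mul_smul (g : P) (h : P) (u : X))

theorem resHom_apply (L : Subgroup P) (U : AddSubgroup X) (hU : ∀ g : ↥L, ∀ u ∈ U, (g : P) • u ∈ U)
    (g : ↥L) (u : ↥U) : ((resHom L U hU g u : ↥U) : X) = (g : P) • (u : X) := rfl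

/-- The map from the quotient by the kernel. -/
noncomputable def kerHom {G U : Type*} [Group G] [AddCommGroup U] (φ : G →* AddMonoid.End U) :
    G ⧸ φ.ker →* AddMonoid.End U := QuotientGroup.lift φ.ker φ le_rfl
theorem kerHom_mk {G U : Type*} [Group G] [AddCommGroup U] (φ : G →* AddMonoid.End U) (g : G) :
    kerHom φ (g : G ⧸ φ.ker) = φ g := QuotientGroup.lift_mk _ _ _
/-- The faithful action of the quotient by the kernel. -/
@[instance_reducible] noncomputable def quotAct {G U : Type*} [Group G] [AddCommGroup U] (φ : G →* AddMonoid.End U) :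
    DistribMulAction (G ⧸ φ.ker) U where
  smul q u := kerHom φ q u
  one_smul u := by show kerHom φ 1 u = u; rw [map_one]; rfl
  mul_smul a b u := by show kerHom φ (a * b) u = kerHom φ a (kerHom φ b u); rw [map_mul]; rfl
  smul_zero q := map_zero (kerHom φ q)
  smul_add q u v := map_add (kerHom φ q) u v
theorem quotAct_apply {G U : Type*} [Group G] [AddCommGroup U] (φ : G →* AddMonoid.End U) (g : G) (u : U) :
    letI := quotAct φ
    (g : G ⧸ φ.ker) • u = φ g u := by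
  show kerHom φ (g : G ⧸ φ.ker) u = φ g u
  rw [kerHom_mk]

theorem core [Finite P] [hp : Fact p.Prime] [Finite X] (D : Hyp P X p) (T : Sylow p P)
    {E L : Subgroup P} (hE : IsPGroup p E) (hq : Quad (X := X) E)
    (hbest : ∀ B ≤ E, wt X B ≤ wt X E) (hEL : E ≤ L) (hL : ¬ L ≤ D.Mx T)
    (hgen : ∀ x ∈ L, x ∉ D.Mx T → ∀ H : Subgroup P, E ≤ H → (∀ a ∈ E, x * a * x⁻¹ ∈ H) → L ≤ H)
    (hsyl : ∀ R : Subgroup P, R ≤ L → IsPGroup p R → E ≤ R →
      ∃ T' : Sylow p P, R ≤ (T' : Subgroup P) ∧ D.Mx T' = D.Mx T) :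
    ∃ Q : Subgroup P, CoreData X p (D.Mx T) E L Q := by
  classical
  set E' : Subgroup ↥L := E.subgroupOf L with hE'
  have hE'map : E'.map L.subtype = E := Subgroup.map_subgroupOf_eq_of_le hEL
  have hE'p : IsPGroup p E' := hE.comap_subtype
  obtain ⟨TL, hTL⟩ := hE'p.exists_le_sylow
  set R : Subgroup P := (TL : Subgroup ↥L).map L.subtype with hRdef
  have hER : E ≤ R := by rw [← hE'map]; exact Subgroup.map_mono hTL
  obtain ⟨T', hRT', hMT'⟩ := hsyl R (Subgroup.map_subtype_le _) (TL.2.map _) hER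
  set M : Subgroup ↥L := (D.Mx T).subgroupOf L with hMdef
  have hTLM : (TL : Subgroup ↥L) ≤ M := fun t ht => by
    have h := D.le_mx T' (hRT' (⟨t, ht, rfl⟩ : L.subtype t ∈ R))
    rw [hMT'] at h
    exact h
  have hMne : M ≠ ⊤ := fun h => hL (Subgroup.subgroupOf_eq_top.1 h)
  have hgenL : ∀ x : ↥L, x ∉ M → ∀ H : Subgroup ↥L, E' ≤ H → (∀ a ∈ E', x * a * x⁻¹ ∈ H) → H = ⊤ := by
    intro x hx H hEH hxH
    have h := hgen x x.2 hx (H.map L.subtype) (by rw [← hE'map]; exact Subgroup.map_mono hEH)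
      fun a ha => ⟨x * ⟨a, hEL ha⟩ * x⁻¹, hxH ⟨a, hEL ha⟩ ha, rfl⟩
    refine eq_top_iff.2 fun g _ => ?_
    obtain ⟨g', hg', he⟩ := h g.2
    rwa [← Subtype.ext (he : (g' : P) = g)]
  have huniqE : ∀ H : Subgroup ↥L, H ≠ ⊤ → E' ≤ H → H ≤ M := by
    intro H hH hEH x hx
    by_contra hxM
    exact hH (hgenL x hxM H hEH fun a ha => mul_mem (mul_mem hx (hEH ha)) (inv_mem hx))
  have hQn : (Cfsg.pCore p ↥L).Normal := inferInstance
  set Q : Subgroup P := (Cfsg.pCore p ↥L).map L.subtype with hQdef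
  have hQR : Q ≤ R := Subgroup.map_mono (Cores.pCore_le_sylow TL)
  have hQmem : ∀ {q : ↥L}, (q : P) ∈ Q ↔ q ∈ Cfsg.pCore p ↥L := fun {q} =>
    Subgroup.mem_map_iff_mem L.subtype_injective
  have hinfN : ∀ N : Subgroup ↥L, N.Normal → N ≤ M → (TL : Subgroup ↥L) ⊓ N ≤ Cfsg.pCore p ↥L :=
    fun N hN hNM => inf_normal_le_pCore TL hMne (fun H hH hTH => huniqE H hH (hTL.trans hTH)) hNM
  have hQL : Q ≤ L := Subgroup.map_subtype_le _
  have hQnorm : L ≤ Subgroup.normalizer (Q : Set P) := fun g hg =>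
    Subgroup.mem_normalizer_iff.2 fun q => by
      constructor
      · rintro ⟨q', hq', rfl⟩
        exact ⟨⟨g, hg⟩ * q' * ⟨g, hg⟩⁻¹, hQn.conj_mem _ hq' _, rfl⟩
      · rintro ⟨q', hq', e⟩
        refine ⟨(⟨g, hg⟩ : ↥L)⁻¹ * q' * ⟨g, hg⟩, ?_, ?_⟩
        · simpa using hQn.conj_mem _ hq' (⟨g, hg⟩ : ↥L)⁻¹
        · show g⁻¹ * (q' : P) * g = q
          rw [show (q' : P) = g * q * g⁻¹ from e]; group
  set U := fixV (V := X) Q with hU
  have hUinv : ∀ (g : ↥L), ∀ u ∈ U, (g : P) • u ∈ U := by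
    intro g u hu q hqQ
    have h := hu _ ((Subgroup.mem_normalizer_iff''.1 (hQnorm g.2) q).1 hqQ)
    rw [mul_smul, mul_smul, inv_smul_eq_iff] at h
    exact h
  obtain ⟨z, hz, hzM⟩ := D.exists_moved T'
  rw [hMT'] at hzM
  have hzU : z ∈ U := fun q hq => hz q (hRT' (hQR hq))
  obtain ⟨φ, hφ⟩ : ∃ φ : ↥L →* AddMonoid.End ↥U, ∀ (g : ↥L) (u : ↥U),
      ((φ g u : ↥U) : X) = (g : P) • (u : X) := ⟨resHom L U hUinv, resHom_apply L U hUinv⟩
  set K := φ.ker with hK
  have hKmem : ∀ g : ↥L, g ∈ K ↔ ∀ u ∈ U, (g : P) • u = u := fun g => by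
    rw [hK, MonoidHom.mem_ker]
    constructor
    · intro h u hu
      have := hφ g ⟨u, hu⟩
      rw [h] at this
      exact this.symm
    · intro h
      exact AddMonoidHom.ext fun u => Subtype.ext ((hφ g u).trans (h u u.2))
  have hKM : K ≤ M := fun k hk => hzM (show (k : P) ∈ MulAction.stabilizer P z from (hKmem k).1 hk z hzU)
  have hQK : Cfsg.pCore p ↥L ≤ K := fun q hqc => (hKmem q).2 fun u hu => hu q (hQmem.2 hqc)
  have hEK : E' ⊓ K = E' ⊓ Cfsg.pCore p ↥L :=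
    le_antisymm (fun a ha => ⟨ha.1, hinfN K inferInstance hKM ⟨hTL ha.1, ha.2⟩⟩) (inf_le_inf_left _ hQK)
  letI act : DistribMulAction (↥L ⧸ K) ↥U := quotAct φ
  have hsm : ∀ (g : ↥L) (u : ↥U), (((g : ↥L ⧸ K) • u : ↥U) : X) = (g : P) • (u : X) := fun g u =>
    (congrArg Subtype.val (quotAct_apply φ g u)).trans (hφ g u)
  let mk := QuotientGroup.mk' K
  have hsm' : ∀ (g : ↥L) (u : ↥U), ((mk g • u : ↥U) : X) = (g : P) • (u : X) := hsm
  have hmk : Function.Surjective mk := QuotientGroup.mk'_surjective K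
  set A : Subgroup (↥L ⧸ K) := E'.map mk with hAdef
  set MQ : Subgroup (↥L ⧸ K) := M.map mk with hMQ
  have hcomap : MQ.comap mk = M := by
    rw [hMQ, Subgroup.comap_map_eq_self]
    rw [QuotientGroup.ker_mk']; exact hKM
  have hcard : Nat.card ↥A * Nat.card ↥(E ⊓ Q) = Nat.card E := by
    have h2 : (E' ⊓ K).map L.subtype = E ⊓ Q := by
      rw [hEK, Subgroup.map_inf _ _ _ L.subtype_injective, hE'map]
    have h3 := (K.subgroupOf E').card_mul_index
    rw [← Subgroup.inf_subgroupOf_left, Nat.card_congr (Subgroup.subgroupOfEquivOfLe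
      (inf_le_left : E' ⊓ K ≤ E')).toEquiv, Subgroup.inf_subgroupOf_left] at h3
    have h4 : (K.subgroupOf E').index = Nat.card ↥A := by
      have h5 := Subgroup.relIndex_ker mk (K := E')
      rwa [QuotientGroup.ker_mk'] at h5
    rw [h4] at h3
    rw [← h2, Subgroup.card_map_of_injective L.subtype_injective, mul_comm, h3,
      ← hE'map, Subgroup.card_map_of_injective L.subtype_injective]
  -- fixed points in the quotient action
  have hfixA : ∀ u : ↥U, u ∈ fixV A ↔ (u : X) ∈ fixV E := by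
    intro u
    constructor
    · intro h a ha
      have h' := h _ ⟨⟨a, hEL ha⟩, ha, rfl⟩
      exact (hsm ⟨a, hEL ha⟩ u).symm.trans (congrArg Subtype.val h')
    · rintro h _ ⟨a, ha, rfl⟩
      exact Subtype.ext ((hsm a u).trans (h a ha))
  have hfixL : ∀ u : ↥U, u ∈ fixV (⊤ : Subgroup (↥L ⧸ K)) ↔ (u : X) ∈ fixV L := by
    intro u
    constructor
    · intro h a ha
      exact (hsm ⟨a, ha⟩ u).symm.trans (congrArg Subtype.val (h (mk ⟨a, ha⟩) trivial))
    · intro h g _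
      obtain ⟨g, rfl⟩ := hmk g
      exact Subtype.ext ((hsm g u).trans (h g g.2))
  have hcardfix : ∀ {H : Subgroup (↥L ⧸ K)} {G : Subgroup P},
      (∀ u : ↥U, u ∈ fixV H ↔ (u : X) ∈ fixV G) →
      Nat.card (fixV (V := ↥U) H) = Nat.card (U ⊓ fixV G : AddSubgroup X) := fun {H G} h =>
    Nat.card_congr
      { toFun := fun v => ⟨((v : ↥U) : X), (v : ↥U).2, (h v).1 v.2⟩
        invFun := fun v => ⟨⟨v, v.2.1⟩, (h _).2 v.2.2⟩
        left_inv := fun _ => rfl
        right_inv := fun _ => rfl }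
  have hsupcard := LocEven.Chermak.card_add_mul_le U (fixV (V := X) E)
  have hsuple : U ⊔ fixV (V := X) E ≤ fixV (E ⊓ Q) :=
    sup_le (fixV_anti inf_le_right) (fixV_anti inf_le_left)
  have hoff : Nat.card ↥U * Nat.card ↥(E ⊓ Q) ≤ Nat.card E * Nat.card (U ⊓ fixV E : AddSubgroup X) := by
    refine Nat.le_of_mul_le_mul_right ?_ (Nat.card_pos (α := fixV (V := X) E))
    calc Nat.card ↥U * Nat.card ↥(E ⊓ Q) * Nat.card (fixV (V := X) E)
        = Nat.card ↥(E ⊓ Q) * (Nat.card ↥U * Nat.card (fixV (V := X) E)) := by ring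
      _ ≤ Nat.card ↥(E ⊓ Q) * (Nat.card (fixV (V := X) (E ⊓ Q)) *
            Nat.card (U ⊓ fixV E : AddSubgroup X)) :=
          Nat.mul_le_mul_left _ (hsupcard.trans (Nat.mul_le_mul_right _ (AddSubgroup.card_le_of_le hsuple)))
      _ = wt X (E ⊓ Q) * Nat.card (U ⊓ fixV E : AddSubgroup X) := by rw [wt]; ring
      _ ≤ wt X E * Nat.card (U ⊓ fixV E : AddSubgroup X) := Nat.mul_le_mul_right _ (hbest _ inf_le_left)
      _ = _ := by rw [wt]; ring
  set TQ : Sylow p (↥L ⧸ K) := TL.mapSurjective hmk with hTQ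
  have hTQle : ∀ g : ↥L ⧸ K, g ∈ (TQ : Subgroup _) ↔ ∃ t ∈ (TL : Subgroup ↥L), mk t = g := fun g => by
    rw [hTQ, Sylow.coe_mapSurjective]
    exact Subgroup.mem_map
  have hcore : Cfsg.pCore p (↥L ⧸ K) = ⊥ := by
    set N := (Cfsg.pCore p (↥L ⧸ K)).comap mk with hN
    haveI : N.Normal := Subgroup.Normal.comap inferInstance mk
    have hNT : N ≤ K ⊔ (TL : Subgroup ↥L) := fun g hg => by
      obtain ⟨t, ht, e⟩ := (hTQle _).1 (Cores.pCore_le_sylow TQ hg)
      have h1 : g * t⁻¹ ∈ K := by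
        rw [← QuotientGroup.ker_mk' K, MonoidHom.mem_ker, map_mul, map_inv, e]
        exact mul_inv_cancel _
      have := Subgroup.mul_mem_sup h1 ht
      rwa [inv_mul_cancel_right] at this
    have hNM : N ≤ M := hNT.trans (sup_le hKM hTLM)
    refine eq_bot_iff.2 fun g hg => Subgroup.mem_bot.2 ?_
    obtain ⟨t, ht, rfl⟩ := (hTQle g).1 (Cores.pCore_le_sylow TQ hg)
    exact (QuotientGroup.eq_one_iff t).2 (hQK (hinfN N inferInstance hNM ⟨ht, hg⟩))
  have S : FFTorus.Setting ↥U p A MQ TQ := by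
    refine
      { faith := fun g hg => ?_
        pgrp := fun u => ⟨1, Subtype.ext (by
          rw [pow_one, AddSubgroupClass.coe_nsmul]; exact D.exp u)⟩
        le := fun g hg => ?_
        coatom := ⟨fun h => hMne (by rw [← hcomap, h, Subgroup.comap_top]), fun H hH => ?_⟩
        TM := fun g hg => ?_
        uniq := fun H hH hTH => ?_
        gen := fun x hx H hAH hxH => ?_
        quad := fun a ha b hb u => ?_
        off := ?_
        core := by rw [hcore, inf_bot_eq]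
        moved := ⟨⟨z, hzU⟩, fun g hg => ?_, fun h => hL fun g hg => hzM ?_⟩ }
    · obtain ⟨g, rfl⟩ := hmk g
      refine (QuotientGroup.eq_one_iff g).2 ((hKmem g).2 fun u hu => ?_)
      exact (hsm g ⟨u, hu⟩).symm.trans (congrArg Subtype.val (hg ⟨u, hu⟩))
    · obtain ⟨a, ha, rfl⟩ := hg
      exact (hTQle _).2 ⟨a, hTL ha, rfl⟩
    · have h1 : M ≤ H.comap mk := hcomap ▸ Subgroup.comap_mono hH.le
      by_contra hne
      have hne' : H.comap mk ≠ ⊤ := fun h => hne (by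
        rw [← Subgroup.map_comap_eq_self_of_surjective hmk H, h, Subgroup.map_top_of_surjective mk hmk])
      exact hH.not_ge (by
        rw [hMQ, ← Subgroup.map_comap_eq_self_of_surjective hmk H]
        exact Subgroup.map_mono (huniqE _ hne' ((hTL.trans hTLM).trans h1)))
    · obtain ⟨t, ht, rfl⟩ := (hTQle g).1 hg
      exact ⟨t, hTLM ht, rfl⟩
    · have hne' : H.comap mk ≠ ⊤ := fun h => hH (by
        rw [← Subgroup.map_comap_eq_self_of_surjective hmk H, h, Subgroup.map_top_of_surjective mk hmk])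
      rw [← Subgroup.map_comap_eq_self_of_surjective hmk H]
      exact Subgroup.map_mono (huniqE _ hne' fun a ha =>
        hTH ((hTQle _).2 ⟨a, hTL ha, rfl⟩))
    · obtain ⟨x, rfl⟩ := hmk x
      have h := hgenL x (fun h => hx ⟨x, h, rfl⟩) (H.comap mk) (fun a ha => hAH ⟨a, ha, rfl⟩)
        (fun a ha => by
          show mk (x * a * x⁻¹) ∈ H
          rw [map_mul, map_mul, map_inv]
          exact hxH _ ⟨a, ha, rfl⟩)
      rw [← Subgroup.map_comap_eq_self_of_surjective hmk H, h, Subgroup.map_top_of_surjective mk hmk]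
    · obtain ⟨a, ha, rfl⟩ := ha
      obtain ⟨b, hb, rfl⟩ := hb
      refine Subtype.ext ?_
      rw [hsm', AddSubgroupClass.coe_sub, hsm']
      exact hq a ha b hb u
    · rw [hcardfix hfixA]
      refine Nat.le_of_mul_le_mul_right ?_ (Nat.card_pos (α := ↥(E ⊓ Q)))
      calc Nat.card ↥U * Nat.card ↥(E ⊓ Q) ≤ Nat.card E * Nat.card (U ⊓ fixV E : AddSubgroup X) := hoff
        _ = _ := by rw [← hcard]; ring
    · obtain ⟨t, ht, rfl⟩ := (hTQle g).1 hg
      exact Subtype.ext ((hsm' t _).trans (hz t (hRT' ⟨t, ht, rfl⟩)))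
    · exact (hsm ⟨g, hg⟩ ⟨z, hzU⟩).symm.trans (congrArg Subtype.val (h (mk ⟨g, hg⟩) trivial))
  obtain ⟨h1, h2⟩ := S.card_eqs
  rw [hcardfix hfixA, hcardfix hfixL] at h1
  rw [hcardfix hfixA] at h2
  have hcE : Nat.card ↥U * Nat.card ↥(E ⊓ Q) = Nat.card E * Nat.card (U ⊓ fixV E : AddSubgroup X) := by
    rw [h2, ← hcard]; ring
  have hle : wt X E ≤ Nat.card ↥(E ⊓ Q) * Nat.card (U ⊔ fixV E : AddSubgroup X) := by
    refine Nat.le_of_mul_le_mul_right ?_ (Nat.card_pos (α := (U ⊓ fixV E : AddSubgroup X)))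
    calc wt X E * Nat.card (U ⊓ fixV E : AddSubgroup X)
        = Nat.card ↥U * Nat.card ↥(E ⊓ Q) * Nat.card (fixV (V := X) E) := by rw [hcE, wt]; ring
      _ = Nat.card ↥(E ⊓ Q) * (Nat.card ↥U * Nat.card (fixV (V := X) E)) := by ring
      _ ≤ _ := by rw [mul_assoc]; exact Nat.mul_le_mul_left _ hsupcard
  have hw : wt X (E ⊓ Q) = wt X E := le_antisymm (hbest _ inf_le_left)
    (hle.trans (Nat.mul_le_mul_left _ (AddSubgroup.card_le_of_le hsuple)))
  refine ⟨Q, hQL, hQnorm, (Cores.pCore_isPGroup).map _, ?_, hw, ?_, hcE, by rw [h1, ← hcard]; ring,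
    fun a ha haQ u hu hd => ?_, fun h4 => ?_, fun N hN hEN hle' => ?_, ?_,
    fun g hg hgM u hu huE => ?_⟩
  · intro h
    obtain ⟨x, hx⟩ : ∃ x : ↥L, x ∉ M := by
      by_contra hc
      push Not at hc
      exact hMne (eq_top_iff.2 fun g _ => hc g)
    have hEc : E' ≤ Cfsg.pCore p ↥L := fun a ha => hQmem.1 (h ha)
    exact hx (hTLM (Cores.pCore_le_sylow TL
      ((hgenL x hx _ hEc fun a ha => hQn.conj_mem _ (hEc ha) x).ge (Subgroup.mem_top x))))
  · refine (AddSubgroup.eq_of_le_of_card_ge hsuple ?_).symm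
    exact Nat.le_of_mul_le_mul_left (hw.trans_le hle) Nat.card_pos
  · by_contra hne
    obtain ⟨y, hy⟩ := S.exists_notMem
    obtain ⟨c, hc, w, hwU, he⟩ := S.sup_eq_top hy ⟨u, hu⟩
    have hwZ : w ∉ fixV (⊤ : Subgroup (↥L ⧸ K)) := fun hw' => hne ((hfixA ⟨u, hu⟩).1 (by
      rw [he, hw' y trivial]; exact add_mem hc hwU))
    have h0 := S.kernel_trivial hy hwU hwZ (a := mk ⟨a, hEL ha⟩) ⟨_, ha, rfl⟩ (by
      have e1 : mk (⟨a, hEL ha⟩ : ↥L) • (y • w) - y • w =
          mk (⟨a, hEL ha⟩ : ↥L) • (⟨u, hu⟩ : ↥U) - ⟨u, hu⟩ := by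
        rw [he, smul_add, hc _ ⟨_, ha, rfl⟩, add_sub_add_left_eq_sub]
      rw [e1, hfixL, AddSubgroupClass.coe_sub, hsm']
      exact hd)
    have hK' : (⟨a, hEL ha⟩ : ↥L) ∈ E' ⊓ K := ⟨ha, (QuotientGroup.eq_one_iff _).1 h0⟩
    rw [hEK] at hK'
    exact haQ (hQmem.2 hK'.2)
  · -- perfect image
    obtain ⟨F, iF, iFt, hF, ⟨ρ, -⟩, -⟩ := S.recognition
    have h4' : 4 ≤ Fintype.card F := by
      rw [hF]
      refine Nat.le_of_mul_le_mul_right ?_ (Nat.card_pos (α := ↥(E ⊓ Q)))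
      rw [hcard]; exact h4
    obtain ⟨t, ht0, ht⟩ : ∃ t : F, t ≠ 0 ∧ t ^ 2 ≠ 1 := by
      by_contra hc
      push Not at hc
      have h3 : (Finset.univ : Finset F) ⊆ {0, 1, -1} := fun x _ => by
        by_cases hx : x = 0
        · simp [hx]
        · rcases sq_eq_one_iff.1 (hc x hx) with h | h <;> simp [h]
      have := (Finset.card_le_card h3).trans Finset.card_le_three
      rw [Finset.card_univ] at this
      omega
    have hperf : commutator (↥L ⧸ K) = ⊤ := by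
      have h := congrArg (Subgroup.map ρ.symm.toMonoidHom) (Matrix.SL2.commutator_eq_top ht0 ht)
      rwa [commutator_def, Subgroup.map_commutator, Subgroup.map_top_of_surjective _ ρ.symm.surjective,
        ← commutator_def] at h
    intro g hg
    have h1 : mk ⟨g, hg⟩ ∈ (commutator ↥L).map mk := by
      rw [commutator_def, Subgroup.map_commutator, Subgroup.map_top_of_surjective mk hmk,
        ← commutator_def, hperf]
      exact Subgroup.mem_top _
    obtain ⟨c, hc, he⟩ := h1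
    have hk : c⁻¹ * ⟨g, hg⟩ ∈ K := by
      rw [← QuotientGroup.ker_mk' K, MonoidHom.mem_ker, map_mul, map_inv, he]
      exact inv_mul_cancel _
    have h2 : (c : P) ∈ ⁅L, L⁆ := by
      have h3 : (c : P) ∈ (commutator ↥L).map L.subtype := ⟨c, hc, rfl⟩
      rwa [commutator_def, Subgroup.map_commutator, ← MonoidHom.range_eq_map, L.range_subtype] at h3
    have h5 := Subgroup.mul_mem_sup (S := ⁅L, L⁆) (T := LAE79.pointwiseV (fixV (V := X) Q) ⊓ L) h2
      (show ((c⁻¹ * ⟨g, hg⟩ : ↥L) : P) ∈ LAE79.pointwiseV (fixV (V := X) Q) ⊓ L from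
        ⟨(hKmem _).1 hk, SetLike.coe_mem _⟩)
    rwa [← Subgroup.coe_mul, mul_inv_cancel_left] at h5
  · haveI : (N.subgroupOf L).Normal := Subgroup.normal_subgroupOf_of_le_normalizer hN
    have h := hinfN (N.subgroupOf L) inferInstance fun n hn => hle' ⟨hn, n.2⟩
    obtain ⟨x, hx⟩ : ∃ x : ↥L, x ∉ M := by
      by_contra hc
      push Not at hc
      exact hMne (eq_top_iff.2 fun g _ => hc g)
    have hEc : E' ≤ Cfsg.pCore p ↥L := fun a ha => h ⟨hTL ha, hEN ha⟩
    exact hx (hTLM (Cores.pCore_le_sylow TL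
      ((hgenL x hx _ hEc fun a ha => hQn.conj_mem _ (hEc ha) x).ge (Subgroup.mem_top x))))
  · obtain ⟨F, iF, iFt, hF, ⟨ρ, ψ, hψs, hψ0, hψe⟩, -⟩ := S.recognition
    refine ⟨Fintype.card F, by rw [hF, hcard], F, iF, iFt, rfl, ρ.toMonoidHom.comp mk, ψ,
      ρ.surjective.comp hmk, hψs, fun u => (hψ0 u).trans (hfixL u), fun g hg1 u => ?_, fun g u v e => ?_⟩
    · have h1 : mk g = 1 := ρ.injective (hg1.trans (map_one ρ).symm)
      rw [← hsm' g u, h1, one_smul]
    rw [show v = mk g • u from Subtype.ext (e.trans (hsm' g u).symm)]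
    exact hψe (mk g) u
  · have h := S.M_le_stab (mk ⟨g, hg⟩) ⟨_, hgM, rfl⟩ ⟨u, hu⟩ ((hfixA _).2 huE)
    have h2 := (hfixA _).1 h
    rwa [hsm'] at h2

end Cfsg.Agent.MovesFix
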