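import Mathlib
import Cfsg.Agent.PGroup.Frattini
import Cfsg.Agent.MovesFix.Core

/-!
Conjugacy families of `p`-subgroups: the join inside a Sylow subgroup, pairs with a unique point,
and the core data of a minimal pair.
-/

set_option autoImplicit false
set_option linter.unusedSectionVars false
set_option linter.style.haveILetI false

namespace Cfsg.Agent.MovesFix

open LAE79 (fixV mem_fixV)
open Fusion (cj mem_cj cj_cj cj_one cj_mono coe_smul_sylow cj_eq_of_mem cj_eq_iff_mem_normalizer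
  isPGroup_cj cj_inv_cj cj_cj_inv card_cj)

variable {P : Type*} [Group P] {X : Type*} [AddCommGroup X] [DistribMulAction P X] {p : ℕ}

/-- The conjugates of `A0`. -/
def Cls (A0 A : Subgroup P) : Prop := ∃ g : P, cj g A0 = A

theorem Cls.cj {A0 A : Subgroup P} (h : Cls A0 A) (g : P) : Cls A0 (cj g A) := by
  obtain ⟨x, rfl⟩ := h; exact ⟨g * x, (cj_cj g x A0).symm⟩

theorem Cls.self (A0 : Subgroup P) : Cls A0 A0 := ⟨1, cj_one A0⟩

theorem Cls.isPGroup {A0 A : Subgroup P} (h : Cls A0 A) (hA : IsPGroup p A0) : IsPGroup p A := by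
  obtain ⟨x, rfl⟩ := h; exact isPGroup_cj hA x

theorem quad_cj {A : Subgroup P} (h : Quad (X := X) A) (g : P) : Quad (X := X) (cj g A) := by
  intro a ha b hb x
  have h1 := h _ (mem_cj.1 ha) _ (mem_cj.1 hb) (g⁻¹ • x)
  rw [mul_smul, mul_smul, mul_smul, mul_smul, smul_inv_smul] at h1
  have h2 := congrArg (g • ·) h1
  simp only [smul_sub, smul_inv_smul] at h2
  rw [smul_sub]
  exact h2

theorem best_cj {A : Subgroup P} (h : ∀ B ≤ A, wt X B ≤ wt X A) (g : P) :
    ∀ B ≤ cj g A, wt X B ≤ wt X (cj g A) := by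
  intro B hB
  rw [wt_map_conj, ← cj_cj_inv g B, wt_map_conj]
  exact h _ ((cj_mono g⁻¹ hB).trans_eq (cj_inv_cj g A))

/-- The members of the class inside a subgroup. -/
def memIn (A0 R : Subgroup P) : Set (Subgroup P) := {A | Cls A0 A ∧ A ≤ R}

/-- The join of the members inside a subgroup. -/
def join (A0 R : Subgroup P) : Subgroup P := sSup (memIn A0 R)

theorem join_le (A0 R : Subgroup P) : join A0 R ≤ R := sSup_le fun _ h => h.2

theorem le_join {A0 A R : Subgroup P} (h : Cls A0 A) (hR : A ≤ R) : A ≤ join A0 R := le_sSup ⟨h, hR⟩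

theorem memIn_join (A0 R : Subgroup P) : memIn A0 (join A0 R) = memIn A0 R :=
  Set.ext fun _ => ⟨fun h => ⟨h.1, h.2.trans (join_le A0 R)⟩, fun h => ⟨h.1, le_join h.1 h.2⟩⟩

theorem memIn_cj (A0 R : Subgroup P) (g : P) : memIn A0 (cj g R) = cj g '' memIn A0 R := by
  ext A
  constructor
  · rintro ⟨h, hle⟩
    exact ⟨cj g⁻¹ A, ⟨h.cj g⁻¹, (cj_mono g⁻¹ hle).trans_eq (cj_inv_cj g R)⟩, cj_cj_inv g A⟩
  · rintro ⟨B, ⟨h, hle⟩, rfl⟩
    exact ⟨h.cj g, cj_mono g hle⟩

theorem cj_join (A0 R : Subgroup P) (g : P) : cj g (join A0 R) = join A0 (cj g R) := by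
  rw [join, join, memIn_cj, sSup_image, sSup_eq_iSup]
  simp only [Fusion.cj, Subgroup.map_iSup]

theorem ncard_memIn [Finite P] (A0 R : Subgroup P) (g : P) :
    (memIn A0 (cj g R)).ncard = (memIn A0 R).ncard := by
  rw [memIn_cj]
  exact Set.ncard_image_of_injective _ fun A B h => by
    rw [← cj_inv_cj g A, h, cj_inv_cj]

variable (X) in
/-- A subgroup lying, together with `G`, only over the point `M`. -/
structure Solo (D : Hyp P X p) (E G M : Subgroup P) : Prop where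
  norm : E ≤ Subgroup.normalizer (G : Set P)
  ex : ∃ T : Sylow p P, G ≤ (T : Subgroup P) ∧ E ≤ (T : Subgroup P) ∧ D.Mx T = M
  all : ∀ T : Sylow p P, G ≤ (T : Subgroup P) → E ≤ (T : Subgroup P) → D.Mx T = M

variable [Finite P] [hp : Fact p.Prime] [Finite X] (D : Hyp P X p)
include D

theorem join_eq {A0 : Subgroup P} {T T' : Sylow p P} (h : join A0 (T : Subgroup P) ≤ T') :
    join A0 (T' : Subgroup P) = join A0 (T : Subgroup P) := by
  have hsub : memIn A0 (T : Subgroup P) ⊆ memIn A0 T' := fun A hA => ⟨hA.1, (le_join hA.1 hA.2).trans h⟩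
  obtain ⟨g, hg⟩ := Fusion.exists_cj_sylow T T'
  have heq := Set.eq_of_subset_of_ncard_le hsub (by rw [← hg, ncard_memIn]) (Set.toFinite _)
  rw [join, join, heq]

theorem join_ne_bot {A0 : Subgroup P} (hA0 : IsPGroup p A0) (hne : A0 ≠ ⊥) (T : Sylow p P) :
    join A0 (T : Subgroup P) ≠ ⊥ := by
  obtain ⟨T', hT'⟩ := hA0.exists_le_sylow
  obtain ⟨g, hg⟩ := Fusion.exists_cj_sylow T' T
  intro h
  have h1 := le_join ((Cls.self A0).cj g) (show cj g A0 ≤ (T : Subgroup P) from hg ▸ cj_mono g hT')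
  rw [h, le_bot_iff] at h1
  exact hne (by rw [← cj_inv_cj g A0, h1]; exact Subgroup.map_bot _)

theorem normalizer_join_le {A0 : Subgroup P} (hA0 : IsPGroup p A0) (hne : A0 ≠ ⊥) (T : Sylow p P) :
    Subgroup.normalizer (join A0 (T : Subgroup P) : Set P) ≤ D.Mx T := by
  refine D.uniq T (D.normalizer_ne_top (T.2.to_le (join_le _ _)) (join_ne_bot D hA0 hne T)) fun t ht => ?_
  rw [← cj_eq_iff_mem_normalizer, cj_join, Fusion.cj_eq_self_of_mem ht]

theorem mx_eq_of_join_le {A0 : Subgroup P} (hA0 : IsPGroup p A0) (hne : A0 ≠ ⊥) {T T' : Sylow p P}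
    (h : join A0 (T : Subgroup P) ≤ T') : D.Mx T' = D.Mx T := by
  obtain ⟨g, hg⟩ := MulAction.exists_smul_eq P T T'
  have hJ := join_eq D h
  rw [← hg, coe_smul_sylow, ← cj_join, cj_eq_iff_mem_normalizer] at hJ
  rw [← hg, D.mx_smul, Fusion.cj_eq_self_of_mem (normalizer_join_le D hA0 hne T hJ)]

theorem exists_other (T : Sylow p P) : ∃ T' : Sylow p P, D.Mx T' ≠ D.Mx T := by
  obtain ⟨g, hg⟩ : ∃ g : P, g ∉ D.Mx T := by
    by_contra h
    push Not at h
    exact (D.mx_coatom T).1 (eq_top_iff.2 fun g _ => h g)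
  exact ⟨g • T, fun h => hg (D.mem_mx_of_conj T ((D.mx_smul g T).symm.trans h))⟩

omit [Finite X] in
theorem Solo.conj {E G M : Subgroup P} [Finite X] (h : Solo X D E G M) {g : P}
    (hg : g ∈ Subgroup.normalizer (G : Set P)) : Solo X D (cj g E) G (cj g M) := by
  have hG : cj g G = G := cj_eq_of_mem hg
  refine ⟨?_, ?_, fun T hGT hET => ?_⟩
  · rw [← cj_eq_of_mem (Subgroup.le_normalizer hg : g ∈ Subgroup.normalizer
      (Subgroup.normalizer (G : Set P) : Set P))]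
    exact cj_mono g h.norm
  · obtain ⟨T, h1, h2, h3⟩ := h.ex
    exact ⟨g • T, hG ▸ cj_mono g h1, cj_mono g h2, by rw [D.mx_smul, h3]⟩
  · have h1 := h.all (g⁻¹ • T)
      (by rw [coe_smul_sylow, ← cj_inv_cj g G, hG]; exact cj_mono _ hGT)
      (by rw [coe_smul_sylow, ← cj_inv_cj g E]; exact cj_mono _ hET)
    rw [← h1, ← D.mx_smul, smul_inv_smul]

/-- Two conjugates over different points, each unique over a common normalized subgroup. -/
theorem exists_solo_pair {A0 : Subgroup P} (hA0 : IsPGroup p A0) (hne : A0 ≠ ⊥) :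
    ∃ G E E' M M' : Subgroup P, IsPGroup p G ∧ Cls A0 E ∧ Cls A0 E' ∧
      Solo X D E G M ∧ Solo X D E' G M' ∧ M' ≠ M := by
  classical
  obtain ⟨T0⟩ : Nonempty (Sylow p P) := inferInstance
  obtain ⟨T0', hT0⟩ := exists_other D T0
  obtain ⟨⟨T1, T2⟩, h12, hmax⟩ := Set.exists_max_image {q : Sylow p P × Sylow p P | D.Mx q.2 ≠ D.Mx q.1}
    (fun q => (memIn A0 (q.1 : Subgroup P) ∩ memIn A0 (q.2 : Subgroup P)).ncard) (Set.toFinite _)
    ⟨(T0, T0'), hT0⟩
  simp only [Set.mem_setOf_eq] at h12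
  simp only [Set.mem_setOf_eq, Prod.forall] at hmax
  set F := memIn A0 (T1 : Subgroup P) ∩ memIn A0 (T2 : Subgroup P) with hF
  set G := sSup F with hG
  have hGle : G ≤ (T1 : Subgroup P) ∧ G ≤ (T2 : Subgroup P) :=
    ⟨sSup_le fun A h => h.1.2, sSup_le fun A h => h.2.2⟩
  have hsolo : ∀ Ta Tb : Sylow p P, D.Mx Tb ≠ D.Mx Ta →
      memIn A0 (Ta : Subgroup P) ∩ memIn A0 (Tb : Subgroup P) = F →
      ∃ E, Cls A0 E ∧ Solo X D E G (D.Mx Ta) := by
    intro Ta Tb hab hFab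
    set K := join A0 (Ta : Subgroup P) with hK
    have hFK : ∀ A ∈ F, A ≤ K := fun A hA => by
      rw [← hFab] at hA
      exact le_join hA.1.1 hA.1.2
    have hGa : G ≤ (Ta : Subgroup P) := (sSup_le hFK).trans (join_le _ _)
    by_contra hcon
    push Not at hcon
    have hin : ∀ A, Cls A0 A → A ≤ (Ta : Subgroup P) → A ≤ Subgroup.normalizer (G : Set P) → A ∈ F := by
      intro A hA hATa hAG
      by_contra hAF
      refine hcon A hA ⟨hAG, ⟨Ta, hGa, hATa, rfl⟩, fun T' hGT hAT => ?_⟩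
      by_contra hne'
      have hsub : insert A F ⊆ memIn A0 (Ta : Subgroup P) ∩ memIn A0 (T' : Subgroup P) :=
        Set.insert_subset ⟨⟨hA, hATa⟩, hA, hAT⟩ fun B hB => ⟨(hFab.ge hB).1,
          (hFab.ge hB).1.1, (le_sSup hB).trans hGT⟩
      have h1 := (Set.ncard_le_ncard hsub (Set.toFinite _)).trans (hmax Ta T' hne')
      rw [Set.ncard_insert_of_notMem hAF (Set.toFinite _)] at h1
      omega
    have hGK : G < K := lt_of_le_of_ne (sSup_le hFK) fun e => hab (mx_eq_of_join_le D hA0 hne (by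
      rw [← hK, ← e]
      refine sSup_le fun A hA => ?_
      rw [← hFab] at hA
      exact hA.2.2))
    set G1 := K ⊓ Subgroup.normalizer (G : Set P) with hG1
    have hKp : IsPGroup p K := Ta.2.to_le (join_le _ _)
    by_cases hG1K : G1 = K
    · refine hGK.ne (le_antisymm hGK.le (sSup_le fun A hA => le_sSup (hin A hA.1 hA.2 ?_)))
      exact (le_join hA.1 hA.2).trans (hG1K.ge.trans inf_le_right)
    · have hlt := Fusion.lt_normalizer_inf hKp (lt_of_le_of_ne (inf_le_left : G1 ≤ K) hG1K)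
      refine hlt.not_ge fun g hg => ⟨hg.1, ?_⟩
      have hcg : cj g G1 = G1 := cj_eq_of_mem hg.2
      have hstep : ∀ B ∈ F, cj g B ∈ F := fun B hB => by
        have hB1 : B ≤ G1 := le_inf (hFK B hB) ((le_sSup hB).trans Subgroup.le_normalizer)
        have hB2 : cj g B ≤ G1 := (cj_mono g hB1).trans_eq hcg
        exact hin _ ((hFab.ge hB).1.1.cj g) ((hB2.trans inf_le_left).trans (join_le _ _))
          (hB2.trans inf_le_right)
      have heq : cj g '' F = F := Set.eq_of_subset_of_ncard_le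
        (fun A ⟨B, hB, e⟩ => e ▸ hstep B hB)
        (by rw [Set.ncard_image_of_injective _ fun A B h => by rw [← cj_inv_cj g A, h, cj_inv_cj]])
        (Set.toFinite _)
      show g ∈ Subgroup.normalizer (G : Set P)
      rw [← cj_eq_iff_mem_normalizer, hG]
      conv_rhs => rw [← heq]
      rw [sSup_image, sSup_eq_iSup]
      simp only [Fusion.cj, Subgroup.map_iSup]
  obtain ⟨E, hE, hS⟩ := hsolo T1 T2 h12 rfl
  obtain ⟨E', hE', hS'⟩ := hsolo T2 T1 (Ne.symm h12) (Set.inter_comm _ _)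
  exact ⟨G, E, E', _, _, T1.2.to_le hGle.1, hE, hE', hS, hS', h12⟩

/-- A minimal pair carries the core data. -/
theorem core_pair {A0 G E1 E1' N N' : Subgroup P} (hA0 : IsPGroup p A0) (hq : Quad (X := X) A0)
    (hbest : ∀ B ≤ A0, wt X B ≤ wt X A0) (hGp : IsPGroup p G) (h1 : Cls A0 E1) (h1' : Cls A0 E1')
    (hS : Solo X D E1 G N) (hS' : Solo X D E1' G N') (hne : N' ≠ N) :
    ∃ (T : Sylow p P) (E E' Q : Subgroup P), Cls A0 E ∧ Cls A0 E' ∧ G ≤ (T : Subgroup P) ∧
      E ≤ (T : Subgroup P) ∧ Solo X D E G (D.Mx T) ∧ ¬ E ⊔ E' ≤ D.Mx T ∧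
      E' ≤ Subgroup.normalizer (G : Set P) ∧ CoreData X p (D.Mx T) E (E ⊔ E') Q := by
  classical
  obtain ⟨⟨E, E'⟩, ⟨M, M', hE, hE', hM, hM', hMM⟩, hmin⟩ := Set.exists_min_image
    {q : Subgroup P × Subgroup P | ∃ M M', Cls A0 q.1 ∧ Cls A0 q.2 ∧ Solo X D q.1 G M ∧
      Solo X D q.2 G M' ∧ M' ≠ M} (fun q => Nat.card ↥(q.1 ⊔ q.2)) (Set.toFinite _)
    ⟨(E1, E1'), N, N', h1, h1', hS, hS', hne⟩
  dsimp only at hE hE' hM hM' hMM hmin
  obtain ⟨T, hGT, hET, rfl⟩ := hM.ex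
  have hLG : E ⊔ E' ≤ Subgroup.normalizer (G : Set P) := sup_le hM.norm hM'.norm
  have hL : ¬ E ⊔ E' ≤ D.Mx T := by
    intro h
    have hp' : IsPGroup p (E' ⊔ G : Subgroup P) :=
      (hE'.isPGroup hA0).to_sup_of_normal_right' hGp hM'.norm
    obtain ⟨T', hT', hMT⟩ := D.exists_sylow_of_le T hp'
      (sup_le (le_sup_right.trans h) (hGT.trans (D.le_mx T)))
    exact hMM ((hM'.all T' (le_sup_right.trans hT') (le_sup_left.trans hT')).symm.trans hMT)
  obtain ⟨g, hg⟩ := hE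
  obtain ⟨Q, hQ⟩ := core D T ((show Cls A0 E from ⟨g, hg⟩).isPGroup hA0)
    (hg ▸ quad_cj hq g) (hg ▸ best_cj hbest g) (le_sup_left : E ≤ E ⊔ E') hL
    (fun x hx hxM H hEH hxH => by
      have hxG := hLG hx
      have hcjH : cj x E ≤ H := fun y hy => by
        obtain ⟨a, ha, rfl⟩ := hy
        exact hxH a ha
      have h2 : E ⊔ cj x E ≤ E ⊔ E' := sup_le le_sup_left
        ((cj_mono x (le_sup_left : E ≤ E ⊔ E')).trans_eq (Fusion.cj_eq_self_of_mem hx))
      have h3 := hmin (E, cj x E) ⟨D.Mx T, cj x (D.Mx T), ⟨g, hg⟩, Cls.cj ⟨g, hg⟩ x,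
        hM, hM.conj D hxG, fun h => hxM (D.mem_mx_of_conj T h)⟩
      exact (Subgroup.eq_of_le_of_card_ge h2 h3).ge.trans (sup_le hEH hcjH))
    (fun R hR hRp hER => by
      obtain ⟨T', hT'⟩ := (hRp.to_sup_of_normal_right' hGp (hR.trans hLG)).exists_le_sylow
      exact ⟨T', le_sup_left.trans hT', hM.all T' (le_sup_right.trans hT')
        (hER.trans (le_sup_left.trans hT'))⟩)
  exact ⟨T, E, E', Q, ⟨g, hg⟩, hE', hGT, hET, hM, hL, hM'.norm, hQ⟩

end Cfsg.Agent.MovesFix
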