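import Mathlib
import Cfsg.Agent.PGroup.Frattini
import Cfsg.Agent.MovesFix.Family

/-!
No over-offenders, minimal offenders: fixed points, disjointness and commutation.
-/

set_option autoImplicit false
set_option linter.unusedSectionVars false
set_option linter.style.haveILetI false

namespace Cfsg.Agent.MovesFix

open LAE79 (fixV mem_fixV)
open Fusion (cj mem_cj cj_cj cj_one cj_mono cj_eq_of_mem cj_eq_iff_mem_normalizer
  isPGroup_cj cj_inv_cj cj_cj_inv card_cj)

variable {P : Type*} [Group P] {X : Type*} [AddCommGroup X] [DistribMulAction P X] {p : ℕ}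

/-- An elementary abelian `p`-subgroup. -/
structure EA (p : ℕ) (A : Subgroup P) : Prop where
  comm : ∀ a ∈ A, ∀ b ∈ A, a * b = b * a
  pow : ∀ a ∈ A, a ^ p = 1

theorem EA.mono {A B : Subgroup P} (h : EA p A) (hBA : B ≤ A) : EA p B :=
  ⟨fun a ha b hb => h.comm a (hBA ha) b (hBA hb), fun a ha => h.pow a (hBA ha)⟩

theorem EA.isPGroup {A : Subgroup P} (h : EA p A) : IsPGroup p A := fun a =>
  ⟨1, Subtype.ext (by simpa using h.pow a a.2)⟩

theorem EA.conj {A : Subgroup P} (h : EA p A) (g : P) : EA p (cj g A) := by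
  refine ⟨?_, ?_⟩
  · rintro _ ⟨a, ha, rfl⟩ _ ⟨b, hb, rfl⟩
    rw [← map_mul, h.comm a ha b hb, map_mul]
  · rintro _ ⟨a, ha, rfl⟩
    rw [← map_pow, h.pow a ha, map_one]

theorem ea_bot : EA p (⊥ : Subgroup P) :=
  ⟨fun a ha b hb => by rw [Subgroup.mem_bot.1 ha, Subgroup.mem_bot.1 hb],
    fun a ha => by rw [Subgroup.mem_bot.1 ha, one_pow]⟩

/-- Commuting elements of exponent `p` generate an elementary abelian group. -/
theorem ea_closure {s : Set P} (hc : ∀ a ∈ s, ∀ b ∈ s, a * b = b * a) (hp : ∀ a ∈ s, a ^ p = 1) :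
    EA p (Subgroup.closure s) := by
  have hcomm : ∀ a ∈ Subgroup.closure s, ∀ b ∈ Subgroup.closure s, a * b = b * a := fun a ha b hb => by
    have h1 : Subgroup.closure s ≤ Subgroup.centralizer s :=
      (Subgroup.closure_le _).2 fun x hx => Subgroup.mem_centralizer_iff.2 fun y hy => hc y hy x hx
    have h2 : Subgroup.closure s ≤ Subgroup.centralizer (Subgroup.closure s : Set P) :=
      (Subgroup.closure_le _).2 fun x hx => Subgroup.mem_centralizer_iff.2 fun y hy =>
        (Subgroup.mem_centralizer_iff.1 (h1 hy) x hx).symm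
    exact Subgroup.mem_centralizer_iff.1 (h2 hb) a ha
  refine ⟨hcomm, fun a ha => ?_⟩
  induction ha using Subgroup.closure_induction with
  | mem x hx => exact hp x hx
  | one => exact one_pow p
  | mul x y hx hy ihx ihy => rw [Commute.mul_pow (hcomm x hx y hy), ihx, ihy, one_mul]
  | inv x hx ih => rw [inv_pow, ih, inv_one]

theorem ea_sup {A B : Subgroup P} (hA : EA p A) (hB : EA p B) (h : ∀ a ∈ A, ∀ b ∈ B, a * b = b * a) :
    EA p (A ⊔ B) := by
  rw [Subgroup.sup_eq_closure]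
  refine ea_closure ?_ ?_
  · rintro a (ha | ha) b (hb | hb)
    · exact hA.comm a ha b hb
    · exact h a ha b hb
    · exact (h b hb a ha).symm
    · exact hB.comm a ha b hb
  · rintro a (ha | ha)
    · exact hA.pow a ha
    · exact hB.pow a ha

theorem card_mul_le_of_ea [Finite P] {S A B : Subgroup P} (hS : EA p S) (hA : A ≤ S) (hB : B ≤ S) :
    Nat.card A * Nat.card B ≤ Nat.card ↥(A ⊔ B) * Nat.card ↥(A ⊓ B) := by
  letI : CommGroup ↥S :=
    { (inferInstance : Group ↥S) with mul_comm := fun a b => Subtype.ext (hS.comm a a.2 b b.2) }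
  have h := LocEven.Chermak.card_mul_le (A.subgroupOf S) (B.subgroupOf S)
  rw [← Subgroup.card_map_of_injective S.subtype_injective (K := A.subgroupOf S ⊔ B.subgroupOf S),
    ← Subgroup.card_map_of_injective S.subtype_injective (K := A.subgroupOf S ⊓ B.subgroupOf S),
    ← Subgroup.card_map_of_injective S.subtype_injective (K := A.subgroupOf S),
    ← Subgroup.card_map_of_injective S.subtype_injective (K := B.subgroupOf S), Subgroup.map_sup,
    Subgroup.map_inf _ _ _ S.subtype_injective, Subgroup.map_subgroupOf_eq_of_le hA,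
    Subgroup.map_subgroupOf_eq_of_le hB] at h
  exact h

variable (X) in
/-- A minimal offender. -/
structure Mem (p : ℕ) (A : Subgroup P) : Prop where
  ea : EA p A
  ne : A ≠ ⊥
  weight : wt X A = Nat.card X
  minimal : ∀ B ≤ A, B ≠ ⊥ → wt X B = Nat.card X → B = A

theorem Mem.conj {A : Subgroup P} (h : Mem X p A) (g : P) : Mem X p (cj g A) := by
  refine ⟨h.ea.conj g, fun e => h.ne ?_, by rw [wt_map_conj]; exact h.weight, fun B hB hne hw => ?_⟩
  · rw [← cj_inv_cj g A, e]; exact Subgroup.map_bot _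
  · rw [← cj_cj_inv g B] at hw ⊢
    rw [wt_map_conj] at hw
    rw [h.minimal (Fusion.cj g⁻¹ B) ((cj_mono g⁻¹ hB).trans_eq (cj_inv_cj g A)) (fun e => hne ?_) hw]
    rw [← cj_cj_inv g B, e]; exact Subgroup.map_bot _

variable [Finite P] [hp : Fact p.Prime] [Finite X] (D : Hyp P X p)
include D

/-- No elementary abelian subgroup is an over-offender. -/
theorem wt_le {A : Subgroup P} (hA : EA p A) : wt X A ≤ Nat.card X := by
  classical
  by_contra hcon
  push Not at hcon
  obtain ⟨B0, hB0, hmax⟩ := Set.exists_max_image {B : Subgroup P | EA p B} (wt X) (Set.toFinite _) ⟨A, hA⟩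
  obtain ⟨B, ⟨hB, hBw⟩, hmin⟩ := Set.exists_min_image {B : Subgroup P | EA p B ∧ wt X B = wt X B0}
    (fun B => Nat.card B) (Set.toFinite _) ⟨B0, hB0, rfl⟩
  have hm : Nat.card X < wt X B := lt_of_lt_of_le hcon (hBw ▸ hmax A hA)
  have hne : B ≠ ⊥ := fun e => by rw [e, wt_bot] at hm; exact lt_irrefl _ hm
  have hbest : ∀ C ≤ B, wt X C ≤ wt X B := fun C hC => hBw ▸ hmax C (hB.mono hC)
  have hq : Quad (X := X) B := quad_of_minimal D.xp hB.isPGroup hB.comm hbest fun C hC _ hw =>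
    Subgroup.eq_of_le_of_card_ge hC (hmin C ⟨hB.mono hC, hw.trans hBw⟩)
  obtain ⟨G, E1, E2, N, N', hG, h1, h2, hS, hS', hne'⟩ := exists_solo_pair D hB.isPGroup hne
  obtain ⟨T, E, E', Q, ⟨g, rfl⟩, -, -, -, -, -, -, hQ⟩ :=
    core_pair D hB.isPGroup hq hbest hG h1 h2 hS hS' hne'
  have hw : wt X (cj g B ⊓ Q) = wt X B0 := by rw [hQ.weight, wt_map_conj, hBw]
  have hle := hmin _ ⟨(hB.conj g).mono inf_le_left, hw⟩
  exact hQ.notle (inf_eq_left.1 (Subgroup.eq_of_le_of_card_ge inf_le_left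
    (by rw [card_cj]; exact hle)))

theorem Mem.best {A : Subgroup P} (h : Mem X p A) : ∀ B ≤ A, wt X B ≤ wt X A := fun _ hB =>
  h.weight.symm ▸ wt_le D (h.ea.mono hB)

theorem Mem.quad {A : Subgroup P} (h : Mem X p A) : Quad (X := X) A :=
  quad_of_minimal D.xp h.ea.isPGroup h.ea.comm (Mem.best D h) fun B hB hne hw =>
    h.minimal B hB hne (hw.trans h.weight)

/-- Every nontrivial element of a minimal offender has the same fixed points. -/
theorem Mem.semireg {A : Subgroup P} (h : Mem X p A) {a : P} (ha : a ∈ A) (ha1 : a ≠ 1) {x : X}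
    (hx : a • x = x) : x ∈ fixV A := by
  obtain ⟨G, E1, E2, N, N', hG, h1, h2, hS, hS', hne'⟩ := exists_solo_pair D h.ea.isPGroup h.ne
  obtain ⟨T, E, E', Q, ⟨g, rfl⟩, -, -, -, -, -, -, hQ⟩ :=
    core_pair D h.ea.isPGroup (Mem.quad D h) (Mem.best D h) hG h1 h2 hS hS' hne'
  have hE := h.conj g
  have hEQ : cj g A ⊓ Q = ⊥ := by
    by_contra hne
    exact hQ.notle (inf_eq_left.1 (hE.minimal _ inf_le_left hne (hQ.weight.trans hE.weight)))
  have hdec := hQ.decomp
  rw [hEQ, fixV_bot] at hdec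
  set b := g * a * g⁻¹
  have hb : b ∈ cj g A := Fusion.conj_mem_cj.2 ha
  have hbQ : b ∉ Q := fun hbQ => ha1 (by
    have : b ∈ cj g A ⊓ Q := ⟨hb, hbQ⟩
    rw [hEQ, Subgroup.mem_bot, conj_eq_one_iff] at this
    exact this)
  have hgx : b • (g • x) = g • x := by
    show (g * a * g⁻¹) • (g • x) = g • x
    rw [mul_smul, mul_smul, inv_smul_smul, hx]
  obtain ⟨u, hu, c, hc, huc⟩ := AddSubgroup.mem_sup.1 (hdec.le (AddSubgroup.mem_top (g • x)))
  have hu' : b • u - u = 0 := by
    rw [← huc, smul_add, hc b hb, add_left_inj] at hgx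
    rw [hgx, sub_self]
  have hfix : g • x ∈ fixV (cj g A) := by
    rw [← huc]
    exact add_mem (hQ.disp b hb hbQ u hu (hu' ▸ zero_mem _)) hc
  have h3 := mem_fixV_map_conj.1 hfix
  rwa [inv_smul_smul] at h3

/-- Equal fixed points force equality for commuting minimal offenders. -/
theorem Mem.eq_of_mem_both {A B : Subgroup P} (hA : Mem X p A) (hB : Mem X p B)
    (hc : ∀ a ∈ A, ∀ b ∈ B, a * b = b * a) {a : P} (haA : a ∈ A) (haB : a ∈ B) (ha1 : a ≠ 1) :
    A = B := by
  have h1 : fixV (V := X) A = fixV B := le_antisymm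
    (fun x hx => Mem.semireg D hB haB ha1 (hx a haA)) (fun x hx => Mem.semireg D hA haA ha1 (hx a haB))
  have h2 : fixV (V := X) (A ⊔ B) = fixV A := by rw [fixV_sup, h1, inf_idem]
  have h3 := wt_le D (ea_sup hA.ea hB.ea hc)
  rw [← hA.weight, wt, wt, h2] at h3
  have h4 : A = A ⊔ B := Subgroup.eq_of_le_of_card_ge le_sup_left
    (Nat.le_of_mul_le_mul_right h3 Nat.card_pos)
  exact (hA.minimal B (h4 ▸ le_sup_right) hB.ne hB.weight).symm

theorem Mem.inf_eq_bot {A B : Subgroup P} (hA : Mem X p A) (hB : Mem X p B)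
    (hc : ∀ a ∈ A, ∀ b ∈ B, a * b = b * a) (hne : A ≠ B) : A ⊓ B = ⊥ := by
  refine eq_bot_iff.2 fun a ha => Subgroup.mem_bot.2 ?_
  by_contra h
  exact hne (Mem.eq_of_mem_both D hA hB hc ha.1 ha.2 h)

/-- Two offenders inside an elementary abelian group join to an offender. -/
theorem wt_sup_eq {A B : Subgroup P} (hS : EA p (A ⊔ B)) (hA : wt X A = Nat.card X)
    (hB : wt X B = Nat.card X) :
    wt X (A ⊔ B) = Nat.card X ∧ wt X (A ⊓ B) = Nat.card X ∧
      fixV (V := X) A ⊔ fixV B = fixV (A ⊓ B) := by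
  have h1 := card_mul_le_of_ea hS le_sup_left le_sup_right
  have h2 := LocEven.Chermak.card_add_mul_le (fixV (V := X) A) (fixV B)
  rw [← fixV_sup] at h2
  have hle : fixV (V := X) A ⊔ fixV B ≤ fixV (A ⊓ B) :=
    sup_le (fixV_anti inf_le_left) (fixV_anti inf_le_right)
  have hu := wt_le D hS
  have hi := wt_le D (hS.mono (inf_le_left.trans le_sup_left) : EA p (A ⊓ B))
  have h0 : 0 < Nat.card X := Nat.card_pos
  have h3 : Nat.card X * Nat.card X ≤ wt X (A ⊔ B) *
      (Nat.card ↥(A ⊓ B) * Nat.card (fixV (V := X) A ⊔ fixV B : AddSubgroup X)) := by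
    calc Nat.card X * Nat.card X = wt X A * wt X B := by rw [hA, hB]
      _ = (Nat.card A * Nat.card B) *
          (Nat.card (fixV (V := X) A) * Nat.card (fixV (V := X) B)) := by rw [wt, wt]; ring
      _ ≤ _ := Nat.mul_le_mul h1 h2
      _ = _ := by rw [wt]; ring
  have h4 : Nat.card ↥(A ⊓ B) * Nat.card (fixV (V := X) A ⊔ fixV B : AddSubgroup X) ≤ wt X (A ⊓ B) :=
    Nat.mul_le_mul_left _ (AddSubgroup.card_le_of_le hle)
  have h5 : Nat.card X ≤ wt X (A ⊔ B) := Nat.le_of_mul_le_mul_right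
    (h3.trans (Nat.mul_le_mul_left _ (h4.trans hi))) h0
  have h6 : Nat.card X ≤ Nat.card ↥(A ⊓ B) * Nat.card (fixV (V := X) A ⊔ fixV B : AddSubgroup X) :=
    Nat.le_of_mul_le_mul_left (h3.trans (Nat.mul_le_mul_right _ hu)) h0
  refine ⟨le_antisymm hu h5, le_antisymm hi (h6.trans h4), AddSubgroup.eq_of_le_of_card_ge hle ?_⟩
  exact Nat.le_of_mul_le_mul_left (hi.trans h6) Nat.card_pos

theorem Mem.sup_fix_eq_top {A B : Subgroup P} (hA : Mem X p A) (hB : Mem X p B)
    (hc : ∀ a ∈ A, ∀ b ∈ B, a * b = b * a) (hne : A ≠ B) : fixV (V := X) A ⊔ fixV B = ⊤ := by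
  rw [(wt_sup_eq D (ea_sup hA.ea hB.ea hc) hA.weight hB.weight).2.2, Mem.inf_eq_bot D hA hB hc hne,
    fixV_bot]

theorem Mem.card_fix {A : Subgroup P} (hA : Mem X p A) :
    Nat.card A * Nat.card (fixV (V := X) A) = Nat.card X := hA.weight

/-- Bound from moving a commuting conjugate. -/
theorem move_bound {A A' : Subgroup P} (hA : Mem X p A) (hA' : Mem X p A') {a : P} (ha : a ∈ A)
    (hne : cj a A' ≠ A') (hc : ∀ x ∈ A', ∀ y ∈ cj a A', x * y = y * x) :
    Nat.card A' ≤ Nat.card A ∧ (fixV (V := X) A ⊓ fixV A' ≤ fixV A' ⊓ fixV (cj a A')) ∧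
      (Nat.card A ≤ Nat.card A' → fixV (V := X) A ⊓ fixV A' = fixV A' ⊓ fixV (cj a A')) := by
  set A2 := cj a A' with hA2
  have hle : fixV (V := X) A ⊓ fixV A' ≤ fixV A' ⊓ fixV A2 := fun x hx => ⟨hx.2,
    mem_fixV_map_conj.2 (by rw [hx.1 _ (inv_mem ha)]; exact hx.2)⟩
  have hpos : 0 < Nat.card (fixV (V := X) A' ⊓ fixV A2 : AddSubgroup X) := Nat.card_pos
  have h12 : Nat.card A' * Nat.card A' * Nat.card (fixV (V := X) A' ⊓ fixV A2 : AddSubgroup X) ≤
      Nat.card X := by
    have hS := ea_sup hA'.ea (hA'.conj a).ea hc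
    have h1 := card_mul_le_of_ea hS le_sup_left le_sup_right
    rw [Mem.inf_eq_bot D hA' (hA'.conj a) hc (Ne.symm hne), Subgroup.card_bot, mul_one, card_cj] at h1
    calc _ ≤ wt X (A' ⊔ A2) := by rw [wt, fixV_sup]; exact Nat.mul_le_mul_right _ h1
      _ ≤ _ := wt_le D hS
  have h34 : Nat.card X ≤ Nat.card A * Nat.card A' * Nat.card (fixV (V := X) A ⊓ fixV A' : AddSubgroup X) := by
    refine Nat.le_of_mul_le_mul_right ?_ (Nat.card_pos (α := X))
    calc Nat.card X * Nat.card X = wt X A * wt X A' := by rw [hA.weight, hA'.weight]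
      _ = (Nat.card A * Nat.card A') *
          (Nat.card (fixV (V := X) A) * Nat.card (fixV (V := X) A')) := by rw [wt, wt]; ring
      _ ≤ (Nat.card A * Nat.card A') * (Nat.card X *
          Nat.card (fixV (V := X) A ⊓ fixV A' : AddSubgroup X)) :=
          Nat.mul_le_mul_left _ ((LocEven.Chermak.card_add_mul_le _ _).trans
            (Nat.mul_le_mul_right _ (AddSubgroup.card_le_card_addGroup _)))
      _ = _ := by ring
  have h5 := AddSubgroup.card_le_of_le hle
  have hA'0 : 0 < Nat.card A' := Nat.card_pos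
  refine ⟨?_, hle, fun hq => AddSubgroup.eq_of_le_of_card_ge hle ?_⟩
  · refine Nat.le_of_mul_le_mul_right ?_ (Nat.mul_pos hA'0 hpos)
    calc _ = Nat.card A' * Nat.card A' * Nat.card (fixV (V := X) A' ⊓ fixV A2 : AddSubgroup X) := by ring
      _ ≤ _ := h12.trans h34
      _ ≤ Nat.card A * Nat.card A' * Nat.card (fixV (V := X) A' ⊓ fixV A2 : AddSubgroup X) :=
          Nat.mul_le_mul_left _ h5
      _ = _ := by ring
  · refine Nat.le_of_mul_le_mul_left ?_ (Nat.mul_pos hA'0 hA'0)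
    calc _ ≤ _ := h12.trans h34
      _ ≤ Nat.card A' * Nat.card A' * Nat.card (fixV (V := X) A ⊓ fixV A' : AddSubgroup X) :=
          Nat.mul_le_mul_right _ (Nat.mul_le_mul_right _ hq)

/-- Case one: each moves the other. -/
theorem not_both_move {A A' : Subgroup P} (hA : Mem X p A) (hA' : Mem X p A') {a a' : P}
    (ha : a ∈ A) (ha' : a' ∈ A') (hm : cj a A' ≠ A') (hm' : cj a' A ≠ A)
    (hc : ∀ x ∈ A', ∀ y ∈ cj a A', x * y = y * x) (hc' : ∀ g ∈ A', ∀ x ∈ A, ∀ y ∈ cj g A, x * y = y * x) :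
    False := by
  obtain ⟨-, -, heq⟩ := move_bound D hA hA' ha hm hc
  obtain ⟨hq', -, -⟩ := move_bound D hA' hA ha' hm' (hc' a' ha')
  have hCC := heq hq'
  have hq2 := hA'.conj a
  have hm2 : cj a'⁻¹ A ≠ A := fun e => hm' (by
    conv_lhs => rw [← e]
    rw [cj_cj_inv])
  set c := a'⁻¹ * a * a' * a⁻¹ with hcdef
  have hca : c * a ∈ cj a'⁻¹ A := by
    rw [Fusion.mem_cj_inv, hcdef]
    simpa [mul_assoc] using ha
  have hS2 : EA p (A ⊔ cj a'⁻¹ A) := ea_sup hA.ea (hA.conj _).ea (hc' _ (inv_mem ha'))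
  have hcA : c ∈ A ⊔ cj a'⁻¹ A := by
    have h := mul_mem (Subgroup.mem_sup_right hca) (Subgroup.mem_sup_left (inv_mem ha) :
      a⁻¹ ∈ A ⊔ cj a'⁻¹ A)
    rwa [mul_inv_cancel_right] at h
  have hcnA : c ∉ A := fun h => by
    have h1 : c * a ∈ A := mul_mem h ha
    have h2 : c * a ≠ 1 := fun e => by
      have : a'⁻¹ * a * a' = 1 := by rw [← e, hcdef]; group
      have h3 : a = 1 := by
        calc a = a' * (a'⁻¹ * a * a') * a'⁻¹ := by group
          _ = 1 := by rw [this]; group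
      exact hm (by rw [h3, cj_one])
    exact hm2 (Mem.eq_of_mem_both D hA (hA.conj _) (hc' _ (inv_mem ha')) h1 hca h2).symm
  have hfix : ∀ x ∈ fixV (V := X) A, c • x = x := by
    intro x hx
    have hd1 := (Mem.quad D hA').diff_mem ha' x
    have htop := Mem.sup_fix_eq_top D hA' hq2 hc (Ne.symm hm)
    obtain ⟨u, hu, w, hw, rfl⟩ := AddSubgroup.mem_sup.1 (htop.ge (AddSubgroup.mem_top x))
    have hd2 : a' • (u + w) - (u + w) ∈ fixV (V := X) (cj a A') := by
      rw [smul_add, hu a' ha', add_sub_add_left_eq_sub]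
      refine sub_mem (fun b hb => ?_) hw
      rw [← mul_smul, ← hc a' ha' b hb, mul_smul, hw b hb]
    have hd : a' • (u + w) - (u + w) ∈ fixV A :=
      (hCC.ge (AddSubgroup.mem_inf.2 ⟨hd1, hd2⟩)).1
    have e1 : a • (a' • (u + w)) = a' • (u + w) := by
      have h4 := hd a ha
      rw [smul_sub, hx a ha] at h4
      exact sub_left_injective h4
    rw [hcdef, mul_smul, mul_smul, mul_smul, hx _ (inv_mem ha), e1, inv_smul_smul]
  have hE : EA p (A ⊔ Subgroup.zpowers c) :=
    hS2.mono (sup_le le_sup_left (Subgroup.zpowers_le.2 hcA))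
  have hC : fixV (V := X) A ≤ fixV (A ⊔ Subgroup.zpowers c) := fun x hx => by
    rw [fixV_sup]
    refine ⟨hx, fun g hg => ?_⟩
    exact ((Subgroup.zpowers_le.2 (show c ∈ MulAction.stabilizer P x from hfix x hx)) hg :)
  have h1 : Nat.card A < Nat.card ↥(A ⊔ Subgroup.zpowers c) := by
    refine lt_of_le_of_ne (Subgroup.card_le_of_le le_sup_left) fun e => hcnA ?_
    rw [Subgroup.eq_of_le_of_card_ge le_sup_left e.ge]
    exact Subgroup.mem_sup_right (Subgroup.mem_zpowers c)
  have h2 := wt_le D hE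
  rw [← hA.weight, wt, wt] at h2
  exact (Nat.mul_lt_mul_of_lt_of_le h1 (AddSubgroup.card_le_of_le hC) Nat.card_pos).not_ge h2

/-- Case two: one normalizes the other. -/
theorem not_one_moves {A A' : Subgroup P} (hA : Mem X p A) (hA' : Mem X p A') {a : P}
    (ha : a ∈ A) (hn : ∀ b ∈ A', cj b A = A) (hm : cj a A' ≠ A')
    (hc : ∀ x ∈ A', ∀ y ∈ cj a A', x * y = y * x) : False := by
  obtain ⟨hq, hle, heq⟩ := move_bound D hA hA' ha hm hc
  have hdis := Mem.inf_eq_bot D hA' (hA'.conj a) hc (Ne.symm hm)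
  set N2 := A' ⊔ cj a A' with hN2
  let c : P → P := fun b => a * b * a⁻¹ * b⁻¹
  have hcA : ∀ b ∈ A', c b ∈ A := fun b hb => by
    have h1 : b * a⁻¹ * b⁻¹ ∈ A := (hn b hb).le (Fusion.conj_mem_cj.2 (inv_mem ha))
    have := mul_mem ha h1
    show a * b * a⁻¹ * b⁻¹ ∈ A
    simpa [mul_assoc] using this
  have hcN : ∀ b ∈ A', c b ∈ N2 := fun b hb =>
    mul_mem (Subgroup.mem_sup_right (Fusion.conj_mem_cj.2 hb)) (Subgroup.mem_sup_left (inv_mem hb))
  obtain ⟨b0, hb0, hb01⟩ : ∃ b ∈ A', b ≠ 1 := by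
    by_contra h
    push Not at h
    exact hA'.ne ((Subgroup.eq_bot_iff_forall _).2 h)
  have hinj : ∀ b ∈ A', c b = 1 → b = 1 := fun b hb h => by
    have h1 : a * b * a⁻¹ = b := mul_inv_eq_one.1 h
    have h2 : b ∈ A' ⊓ cj a A' := ⟨hb, by have := (Fusion.conj_mem_cj (g := a)).2 hb; rwa [h1] at this⟩
    rw [hdis] at h2
    exact Subgroup.mem_bot.1 h2
  have hI : fixV (V := X) A' ⊓ fixV (cj a A') ≤ fixV A := fun x hx => by
    refine Mem.semireg D hA (hcA b0 hb0) (fun h => hb01 (hinj b0 hb0 h)) ?_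
    have h1 : x ∈ fixV N2 := by rw [hN2, fixV_sup]; exact hx
    exact h1 _ (hcN b0 hb0)
  -- the displacement by `a` embeds the fixed points of `A'` into those of `A` modulo the intersection
  set I := fixV (V := X) A' ⊓ fixV (cj a A') with hIdef
  let ψ : ↥(fixV (V := X) A') →+ X ⧸ I := (QuotientAddGroup.mk' I).comp
    (((DistribSMul.toAddMonoidHom X a) - AddMonoidHom.id X).comp (fixV (V := X) A').subtype)
  have hψ : ∀ v : ↥(fixV (V := X) A'), ψ v = QuotientAddGroup.mk' I (a • (v : X) - v) := fun _ => rfl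
  have hker : Nat.card ψ.ker ≤ Nat.card I := by
    refine Nat.card_le_card_of_injective (fun v => (⟨((v : ↥(fixV (V := X) A')) : X), ?_⟩ : I))
      fun v w hvw => Subtype.ext (Subtype.ext (congrArg Subtype.val hvw :))
    have h1 := AddMonoidHom.mem_ker.1 v.2
    rw [hψ, QuotientAddGroup.mk'_apply, QuotientAddGroup.eq_zero_iff] at h1
    have hv : ((v : ↥(fixV (V := X) A')) : X) ∈ fixV A' := (v : ↥(fixV (V := X) A')).2
    have h2 : a • ((v : ↥(fixV (V := X) A')) : X) ∈ fixV A' := by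
      have h := add_mem h1.1 hv
      rwa [sub_add_cancel] at h
    have h3 : a • ((v : ↥(fixV (V := X) A')) : X) ∈ fixV (V := X) (cj a A') :=
      mem_fixV_map_conj.2 (by rw [inv_smul_smul]; exact hv)
    have h4 : a • ((v : ↥(fixV (V := X) A')) : X) ∈ I := ⟨h2, h3⟩
    have h5 := hI h4 a⁻¹ (inv_mem ha)
    rw [inv_smul_smul] at h5
    rw [h5]; exact h4
  have hrange : Nat.card ψ.range * Nat.card I ≤ Nat.card (fixV (V := X) A) := by
    have h1 : ψ.range ≤ (fixV (V := X) A).map (QuotientAddGroup.mk' I) := by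
      rintro _ ⟨v, rfl⟩
      exact ⟨_, (Mem.quad D hA).diff_mem ha _, (hψ v).symm⟩
    have h2 := (I.addSubgroupOf (fixV (V := X) A)).card_mul_index
    rw [Nat.card_congr (AddSubgroup.addSubgroupOfEquivOfLe hI).toEquiv] at h2
    have h3 := AddSubgroup.relIndex_ker (QuotientAddGroup.mk' I) (K := fixV (V := X) A)
    rw [QuotientAddGroup.ker_mk'] at h3
    rw [← h2, mul_comm, show (I.addSubgroupOf (fixV (V := X) A)).index = _ from h3]
    exact Nat.mul_le_mul_left _ (AddSubgroup.card_le_of_le h1)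
  have hcard : Nat.card (fixV (V := X) A') ≤ Nat.card (fixV (V := X) A) := by
    have h := ψ.ker.card_mul_index
    rw [AddSubgroup.index_ker] at h
    rw [← h]
    exact (Nat.mul_le_mul_right _ hker).trans (by rw [mul_comm]; exact hrange)
  have hqq : Nat.card A ≤ Nat.card A' := by
    refine Nat.le_of_mul_le_mul_right ?_ (Nat.card_pos (α := fixV (V := X) A))
    calc Nat.card A * Nat.card (fixV (V := X) A) = Nat.card A' * Nat.card (fixV (V := X) A') :=
          hA.weight.trans hA'.weight.symm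
      _ ≤ _ := Nat.mul_le_mul_left _ hcard
  have hS : EA p N2 := ea_sup hA'.ea (hA'.conj a).ea hc
  have hA0 : Nat.card A ≤ Nat.card ↥(A ⊓ N2) := by
    refine hqq.trans (Nat.card_le_card_of_injective
      (fun b => (⟨c b, hcA b b.2, hcN b b.2⟩ : ↥(A ⊓ N2))) fun b d hbd => ?_)
    have h1 : a * (b : P) * a⁻¹ * (b : P)⁻¹ = a * (d : P) * a⁻¹ * (d : P)⁻¹ :=
      congrArg Subtype.val hbd
    refine Subtype.ext (inv_mul_eq_one.1 (hinj _ (mul_mem (inv_mem d.2) b.2) ?_)).symm
    have h2 : a * (d : P) * a⁻¹ ∈ N2 := Subgroup.mem_sup_right (Fusion.conj_mem_cj.2 d.2)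
    have h3 : a * (b : P) * a⁻¹ ∈ N2 := Subgroup.mem_sup_right (Fusion.conj_mem_cj.2 b.2)
    show a * ((d : P)⁻¹ * (b : P)) * a⁻¹ * ((d : P)⁻¹ * (b : P))⁻¹ = 1
    have h4 := hS.comm _ (inv_mem (Subgroup.mem_sup_left b.2 : (b : P) ∈ N2)) _
      (Subgroup.mem_sup_left d.2 : (d : P) ∈ N2)
    calc a * ((d : P)⁻¹ * (b : P)) * a⁻¹ * ((d : P)⁻¹ * (b : P))⁻¹
        = (a * (d : P) * a⁻¹)⁻¹ * ((a * (b : P) * a⁻¹) * (b : P)⁻¹) * (d : P) := by group
      _ = (a * (d : P) * a⁻¹)⁻¹ * ((a * (d : P) * a⁻¹) * (d : P)⁻¹) * (d : P) := by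
          rw [show (a * (b : P) * a⁻¹) * (b : P)⁻¹ = (a * (d : P) * a⁻¹) * (d : P)⁻¹ from h1]
      _ = 1 := by group
  have hAN : A ≤ N2 := inf_eq_left.1 (Subgroup.eq_of_le_of_card_ge inf_le_left hA0)
  refine hm (cj_eq_of_mem (Subgroup.mem_normalizer_iff.2 fun x => ⟨fun hx => ?_, fun hx => ?_⟩))
  · rw [hS.comm a (hAN ha) x (Subgroup.mem_sup_left hx), mul_inv_cancel_right]; exact hx
  · have h := hS.comm a (hAN ha) _ (Subgroup.mem_sup_left hx)
    have e : x = a * x * a⁻¹ := calc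
      x = a⁻¹ * ((a * x * a⁻¹) * a) := by group
      _ = a⁻¹ * (a * (a * x * a⁻¹)) := by rw [h]
      _ = a * x * a⁻¹ := by group
    rwa [e]

/-- Minimal offenders in a common `p`-group commute. -/
theorem Mem.commute {A A' : Subgroup P} (hA : Mem X p A) (hA' : Mem X p A')
    (hH : IsPGroup p (A ⊔ A' : Subgroup P)) : ∀ a ∈ A, ∀ b ∈ A', a * b = b * a := by
  suffices H : ∀ n, ∀ A A' : Subgroup P, Mem X p A → Mem X p A' → IsPGroup p (A ⊔ A' : Subgroup P) →
      Nat.card ↥(A ⊔ A') ≤ n → ∀ a ∈ A, ∀ b ∈ A', a * b = b * a from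
    H _ A A' hA hA' hH le_rfl
  intro n
  induction n with
  | zero =>
    intro A A' _ _ _ h
    have := Nat.card_pos (α := ↥(A ⊔ A'))
    omega
  | succ n ih =>
    intro A A' hA hA' hH hn
    by_cases h1 : A ≤ A'
    · intro a ha b hb; exact hA'.ea.comm a (h1 ha) b hb
    by_cases h2 : A' ≤ A
    · intro a ha b hb; exact hA.ea.comm a ha b (h2 hb)
    have key : ∀ B C : Subgroup P, Mem X p C → B ⊔ C = A ⊔ A' → ¬ B ≤ C →
        ∀ g ∈ B ⊔ C, ∀ x ∈ C, ∀ y ∈ cj g C, x * y = y * x := by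
      intro B C hC hBC hBle g hg
      set H := B ⊔ C with hHdef
      have hHp : IsPGroup p H := hBC ▸ hH
      have hne : C.subgroupOf H ≠ ⊤ := fun e =>
        hBle ((le_sup_left : B ≤ H).trans (Subgroup.subgroupOf_eq_top.1 e))
      obtain ⟨K, hK, hCK⟩ := (eq_top_or_exists_le_coatom _).resolve_left hne
      haveI : K.Normal := PGroup.normal_of_isCoatom hHp hK
      have hlt : Nat.card ↥(K.map H.subtype) < Nat.card H := by
        rw [Subgroup.card_map_of_injective H.subtype_injective]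
        refine lt_of_le_of_ne (Subgroup.card_le_card_group K) fun e => hK.1 (Subgroup.eq_top_of_card_eq K e)
      have hC1 : C ≤ K.map H.subtype := fun x hx =>
        ⟨⟨x, (le_sup_right : C ≤ H) hx⟩, hCK hx, rfl⟩
      have hC2 : cj g C ≤ K.map H.subtype := by
        rintro _ ⟨x, hx, rfl⟩
        exact ⟨⟨g, hg⟩ * ⟨x, (le_sup_right : C ≤ H) hx⟩ * ⟨g, hg⟩⁻¹,
          ‹K.Normal›.conj_mem _ (hCK hx) _, rfl⟩
      refine ih C (cj g C) hC (hC.conj g) (hHp.to_le ((sup_le hC1 hC2).trans (Subgroup.map_subtype_le _))) ?_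
      have := Subgroup.card_le_of_le (sup_le hC1 hC2)
      have e : Nat.card H = Nat.card ↥(A ⊔ A') := by rw [hBC]
      omega
    have hc := key A A' hA' rfl h1
    have hc' := key A' A hA (sup_comm _ _) h2
    by_cases hm : ∀ a ∈ A, cj a A' = A'
    · by_cases hm' : ∀ b ∈ A', cj b A = A
      · intro a ha b hb
        set c := a * b * a⁻¹ * b⁻¹ with hcdef
        have hc1 : c ∈ A := by
          have h3 : b * a⁻¹ * b⁻¹ ∈ A := (hm' b hb).le (Fusion.conj_mem_cj.2 (inv_mem ha))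
          have := mul_mem ha h3
          simpa [hcdef, mul_assoc] using this
        have hc2 : c ∈ A' := mul_mem ((hm a ha).le (Fusion.conj_mem_cj.2 hb)) (inv_mem hb)
        by_contra hne
        have hc0 : c ≠ 1 := fun e => hne (mul_inv_eq_iff_eq_mul.1 (mul_inv_eq_one.1 e))
        have heq : fixV (V := X) A = fixV A' := le_antisymm
          (fun x hx => Mem.semireg D hA' hc2 hc0 (hx c hc1))
          (fun x hx => Mem.semireg D hA hc1 hc0 (hx c hc2))
        refine hne (mul_inv_eq_one.1 (D.faithp _ ?_ fun x => ?_))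
        · obtain ⟨k, hk⟩ := hH ⟨(a * b) * (b * a)⁻¹,
            mul_mem (mul_mem (Subgroup.mem_sup_left ha) (Subgroup.mem_sup_right hb))
              (inv_mem (mul_mem (Subgroup.mem_sup_right hb) (Subgroup.mem_sup_left ha)))⟩
          exact ⟨k, by simpa using congrArg Subtype.val hk⟩
        · have q1 := fun y : X => (Mem.quad D hA).diff_mem ha y
          have q2 := fun y : X => (Mem.quad D hA').diff_mem hb y
          have e : ∀ y : X, (a * b) • y = (b * a) • y := fun y => by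
            have r1 : a • (b • y - y) = b • y - y := (heq ▸ q2 y : b • y - y ∈ fixV A) a ha
            have r2 : b • (a • y - y) = a • y - y := (heq ▸ q1 y : a • y - y ∈ fixV A') b hb
            rw [smul_sub] at r1 r2
            rw [mul_smul, mul_smul, sub_eq_iff_eq_add.1 r1, sub_eq_iff_eq_add.1 r2]
            abel
          rw [mul_smul, e, smul_inv_smul]
      · push Not at hm'
        obtain ⟨b, hb, hmb⟩ := hm'
        exact (not_one_moves D hA' hA hb hm hmb (hc' b (Subgroup.mem_sup_left hb))).elim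
    · push Not at hm
      obtain ⟨a, ha, hma⟩ := hm
      by_cases hm' : ∀ b ∈ A', cj b A = A
      · exact (not_one_moves D hA hA' ha hm' hma (hc a (Subgroup.mem_sup_left ha))).elim
      · push Not at hm'
        obtain ⟨b, hb, hmb⟩ := hm'
        exact (not_both_move D hA hA' ha hb hma hmb (hc a (Subgroup.mem_sup_left ha))
          fun g hg => hc' g (Subgroup.mem_sup_left hg)).elim

end Cfsg.Agent.MovesFix
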