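import Mathlib
import Cfsg.Agent.MovesFix.Members

/-!
A class of minimal offenders: some member of a Sylow subgroup generates, with a conjugate outside the
maximal subgroup, a group centralizing all the other members.
-/

set_option autoImplicit false
set_option linter.unusedSectionVars false
set_option linter.style.haveILetI false

namespace Cfsg.Agent.MovesFix

open scoped Pointwise commutatorElement
open LAE79 (fixV mem_fixV)
open Fusion (cj mem_cj cj_cj cj_one cj_mono cj_eq_of_mem cj_eq_iff_mem_normalizer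
  isPGroup_cj cj_inv_cj cj_cj_inv card_cj coe_smul_sylow)

variable {P : Type*} [Group P] {X : Type*} [AddCommGroup X] [DistribMulAction P X] {p : ℕ}

theorem fixV_sSup (S : Set (Subgroup P)) {v : X} (h : ∀ B ∈ S, v ∈ fixV B) : v ∈ fixV (sSup S) :=
  fun g hg => (sSup_le (fun B hB b hb => h B hB b hb) : sSup S ≤ MulAction.stabilizer P v) hg

theorem smul_comm_mem {Q L : Subgroup P} (hn : L ≤ Subgroup.normalizer (Q : Set P)) {g : P}
    (hg : g ∈ L) : ∀ y ∈ comm (X := X) Q, g • y ∈ comm Q := by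
  intro y hy
  have : comm (X := X) Q ≤ (comm Q).comap (DistribSMul.toAddMonoidHom X g) :=
    comm_le fun q hq x => by
      show g • (q • x - x) ∈ comm Q
      have h1 : g * q * g⁻¹ ∈ Q := (Subgroup.mem_normalizer_iff.1 (hn hg) q).1 hq
      have h2 := diff_mem_comm (X := X) h1 (g • x)
      rwa [mul_smul, mul_smul, inv_smul_smul, ← smul_sub] at h2
  exact this hy

theorem le_normalizer_trivMod {L : Subgroup P} {Y : AddSubgroup X}
    (hY : ∀ g ∈ L, ∀ y ∈ Y, g • y ∈ Y) : L ≤ Subgroup.normalizer (trivMod (P := P) Y : Set P) := by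
  have key : ∀ g ∈ L, ∀ n ∈ trivMod (P := P) Y, g * n * g⁻¹ ∈ trivMod (P := P) Y := by
    intro g hg n hn x
    have h := hY g hg _ (hn (g⁻¹ • x))
    rwa [smul_sub, smul_inv_smul, ← mul_smul, ← mul_smul] at h
  intro g hg
  refine Subgroup.mem_normalizer_iff.2 fun n => ⟨key g hg n, fun h => ?_⟩
  simpa [mul_assoc] using key g⁻¹ (inv_mem hg) _ h

variable [Finite P] [hp : Fact p.Prime] [Finite X] (D : Hyp P X p)
include D

theorem memIn_commute {A0 : Subgroup P} (h0 : Mem X p A0) {R : Subgroup P} (hR : IsPGroup p R) :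
    EA p (join A0 R) := by
  have hmem : ∀ B ∈ memIn A0 R, Mem X p B := fun B hB => by
    obtain ⟨g, rfl⟩ := hB.1; exact h0.conj g
  refine (ea_closure (s := {x | ∃ B ∈ memIn A0 R, x ∈ B}) ?_ ?_).mono
    (sSup_le fun B hB x hx => Subgroup.subset_closure ⟨B, hB, hx⟩)
  · rintro a ⟨B, hB, ha⟩ b ⟨C, hC, hb⟩
    exact Mem.commute D (hmem B hB) (hmem C hC) (hR.to_le (sup_le hB.2 hC.2)) a ha b hb
  · rintro a ⟨B, hB, ha⟩
    exact (hmem B hB).ea.pow a ha

theorem wt_join {A0 : Subgroup P} (h0 : Mem X p A0) {R : Subgroup P} (hR : IsPGroup p R) :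
    wt X (join A0 R) = Nat.card X := by
  have hJ := memIn_commute D h0 hR
  have : ∀ S : Set (Subgroup P), S ⊆ memIn A0 R → wt X (sSup S) = Nat.card X := by
    intro S hS
    induction S, Set.toFinite S using Set.Finite.induction_on with
    | empty => rw [sSup_empty, wt_bot]
    | @insert B S' _ _ ih =>
      have hB := hS (Set.mem_insert B S')
      have hS' : S' ⊆ memIn A0 R := fun C hC => hS (Set.mem_insert_of_mem B hC)
      rw [sSup_insert]
      refine (wt_sup_eq D (hJ.mono (sup_le (le_sSup hB) (sSup_le_sSup hS'))) ?_ (ih hS')).1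
      obtain ⟨g, rfl⟩ := hB.1
      rw [wt_map_conj]; exact h0.weight
  exact this _ subset_rfl

theorem quad_join {A0 : Subgroup P} (h0 : Mem X p A0) {R : Subgroup P} (hR : IsPGroup p R) :
    Quad (X := X) (join A0 R) := by
  have hmem : ∀ B ∈ memIn A0 R, Mem X p B := fun B hB => by
    obtain ⟨g, rfl⟩ := hB.1; exact h0.conj g
  have h : join A0 R ≤ trivMod (fixV (V := X) (join A0 R)) := sSup_le fun B hB a ha x =>
    fixV_sSup _ fun C hC => by
      have hcc := Mem.commute D (hmem B hB) (hmem C hC) (hR.to_le (sup_le hB.2 hC.2))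
      by_cases e : B = C
      · exact e ▸ (Mem.quad D (hmem B hB)).diff_mem ha x
      · obtain ⟨u, hu, w, hw, rfl⟩ := AddSubgroup.mem_sup.1
          ((Mem.sup_fix_eq_top D (hmem B hB) (hmem C hC) hcc e).ge (AddSubgroup.mem_top x))
        rw [smul_add, hu a ha, add_sub_add_left_eq_sub]
        refine sub_mem (fun c hc => ?_) hw
        rw [← mul_smul, ← hcc a ha c hc, mul_smul, hw c hc]
  exact fun a ha b hb x => (h ha x) b hb

omit [Finite X] in
theorem cls_mem {A0 B : Subgroup P} [Finite X] (h0 : Mem X p A0) (h : Cls A0 B) : Mem X p B := by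
  obtain ⟨g, rfl⟩ := h; exact h0.conj g

variable (X) in
/-- A special member `A` with its partner `A'` and the module piece `U`. -/
structure Special (A0 : Subgroup P) (T : Sylow p P) (A A' : Subgroup P) (U : AddSubgroup X) : Prop where
  cls : Cls A0 A
  cls' : Cls A0 A'
  leT : A ≤ (T : Subgroup P)
  notM : ¬ A' ≤ D.Mx T
  top : U ⊔ (fixV A ⊓ fixV A') = ⊤
  uinv : ∀ g ∈ A ⊔ A', ∀ u ∈ U, g • u ∈ U
  ufix : ∀ B, Cls A0 B → B ≤ (T : Subgroup P) → B ≠ A → U ≤ fixV B
  disp : ∀ a ∈ A, a ≠ 1 → ∀ u ∈ U, a • u - u ∈ fixV (V := X) A ⊓ fixV A' → u ∈ fixV A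
  conj : ∃ h ∈ A ⊔ A', Fusion.cj h A' = A
  comm : ∀ B, Cls A0 B → B ≤ (T : Subgroup P) → B ≠ A → ∀ b ∈ B, ∀ g ∈ A ⊔ A', g * b = b * g
  triv : ∀ B, Cls A0 B → B ≤ (T : Subgroup P) → B ≠ A → ∀ g ∈ A ⊔ A', ∀ x : X, g • x - x ∈ fixV B
  perf : 4 ≤ Nat.card A → A ≤ ⁅A ⊔ A', A ⊔ A'⁆ ⊔ (LAE79.pointwiseV U ⊓ (A ⊔ A'))
  only : ∀ C, Cls A0 C → IsPGroup p (A ⊔ C : Subgroup P) →
    (∀ B, Cls A0 B → B ≤ (T : Subgroup P) → B ≠ A → ∀ b ∈ B, ∀ c ∈ C, c * b = b * c) →
    C ≤ (T : Subgroup P)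
  nat : NatAct X (A ⊔ A') ⊤ (fixV A ⊓ fixV A') (Nat.card A)
  borel : ∀ g ∈ A ⊔ A', g ∈ D.Mx T → ∀ x ∈ fixV (V := X) A, g • x ∈ fixV A
  only' : ∀ C, Cls A0 C → IsPGroup p (A' ⊔ C : Subgroup P) →
    (∀ B, Cls A0 B → B ≤ (T : Subgroup P) → B ≠ A → ∀ b ∈ B, ∀ c ∈ C, c * b = b * c) →
    C = A' ∨ C ≤ (T : Subgroup P)

theorem exists_special {A0 : Subgroup P} (h0 : Mem X p A0) :
    ∃ (T : Sylow p P) (A A' : Subgroup P) (U : AddSubgroup X), Special X D A0 T A A' U := by
  classical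
  have hA0p := h0.ea.isPGroup
  obtain ⟨T0⟩ : Nonempty (Sylow p P) := inferInstance
  obtain ⟨T0', hT0'⟩ := exists_other D T0
  set J0 := join A0 (T0 : Subgroup P) with hJ0
  have hJ0p : IsPGroup p J0 := T0.2.to_le (join_le _ _)
  have hsolo : ∀ T : Sylow p P, Solo X D (join A0 (T : Subgroup P)) ⊥ (D.Mx T) := fun T =>
    ⟨le_trans le_top (Subgroup.normalizer_eq_top_iff.2 inferInstance).ge,
      ⟨T, bot_le, join_le _ _, rfl⟩, fun T' _ h => mx_eq_of_join_le D hA0p h0.ne h⟩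
  obtain ⟨g0, hg0⟩ := MulAction.exists_smul_eq P T0 T0'
  obtain ⟨T, E, E', Q, ⟨g, hg⟩, ⟨g', hg'⟩, -, hET, -, hL, -, hQ⟩ := core_pair D (A0 := J0) hJ0p
    (quad_join D h0 T0.2) (fun B hB => (wt_le D ((memIn_commute D h0 T0.2).mono hB)).trans
      (wt_join D h0 T0.2).ge)
    (IsPGroup.of_bot : IsPGroup p (⊥ : Subgroup P)) (Cls.self J0)
    (⟨g0, by rw [hJ0, cj_join, ← coe_smul_sylow, hg0]⟩ : Cls J0 (join A0 (T0' : Subgroup P)))
    (hsolo T0) (hsolo T0') hT0'
  -- identify the two joins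
  set T2 := g' • T0 with hT2
  have hE' : E' = join A0 (T2 : Subgroup P) := by rw [← hg', hJ0, cj_join, hT2, coe_smul_sylow]
  have hE : E = join A0 (T : Subgroup P) := by
    have h1 : E = join A0 ((g • T0 : Sylow p P) : Subgroup P) := by rw [← hg, hJ0, cj_join, coe_smul_sylow]
    rw [h1] at hET ⊢
    exact (join_eq D hET).symm
  set J := join A0 (T : Subgroup P) with hJdef
  subst hE
  have hJea : EA p J := memIn_commute D h0 T.2
  have hJwt : wt X J = Nat.card X := wt_join D h0 T.2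
  have hJL : J ≤ J ⊔ E' := le_sup_left
  set U := fixV (V := X) Q with hU
  have hQJp : IsPGroup p (J ⊔ Q : Subgroup P) :=
    hJea.isPGroup.to_sup_of_normal_right' hQ.qp (hJL.trans hQ.qnorm)
  obtain ⟨T3, hT3⟩ := hQJp.exists_le_sylow
  have hT3J : join A0 (T3 : Subgroup P) = J := join_eq D (le_sup_left.trans hT3)
  have hT3M : D.Mx T3 = D.Mx T := mx_eq_of_join_le D hA0p h0.ne (le_sup_left.trans hT3)
  -- members outside `Q`
  have hbot : ∀ B, Cls A0 B → B ≤ J → ¬ B ≤ Q → B ⊓ Q = ⊥ := by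
    intro B hB hBJ hBQ
    refine eq_bot_iff.2 fun b hb => Subgroup.mem_bot.2 ?_
    by_contra hb1
    have hC : fixV (V := X) (J ⊓ Q ⊔ B) = fixV (J ⊓ Q) := by
      rw [fixV_sup, inf_eq_left]
      exact fun x hx => Mem.semireg D (cls_mem D h0 hB) hb.1 hb1 (hx b ⟨hBJ hb.1, hb.2⟩)
    have h1 := wt_le D (hJea.mono (sup_le inf_le_left hBJ) : EA p (J ⊓ Q ⊔ B))
    rw [← hJwt, ← hQ.weight, wt, wt, hC] at h1
    have h2 : J ⊓ Q = J ⊓ Q ⊔ B := Subgroup.eq_of_le_of_card_ge le_sup_left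
      (Nat.le_of_mul_le_mul_right h1 Nat.card_pos)
    exact hBQ ((le_sup_right.trans h2.ge).trans inf_le_right)
  have hprod : ∀ B, Cls A0 B → B ≤ J → ¬ B ≤ Q →
      Nat.card J = Nat.card B * Nat.card ↥(J ⊓ Q) ∧ J = B ⊔ (J ⊓ Q) := by
    intro B hB hBJ hBQ
    have hBm := cls_mem D h0 hB
    have hUB : U ⊓ fixV (V := X) B = U ⊓ fixV J := by
      refine le_antisymm (fun u hu => ⟨hu.1, ?_⟩) (inf_le_inf_left _ (fixV_anti hBJ))
      obtain ⟨b, hb, hb1⟩ : ∃ b ∈ B, b ≠ 1 := by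
        by_contra h
        push Not at h
        exact hBm.ne ((Subgroup.eq_bot_iff_forall _).2 h)
      refine hQ.disp b (hBJ hb) (fun h => hb1 ?_) u hu.1 ?_
      · have : b ∈ B ⊓ Q := ⟨hb, h⟩
        rwa [hbot B hB hBJ hBQ, Subgroup.mem_bot] at this
      · rw [hu.2 b hb, sub_self]; exact zero_mem _
    have h1 : Nat.card U ≤ Nat.card B * Nat.card (U ⊓ fixV J : AddSubgroup X) := by
      refine Nat.le_of_mul_le_mul_right ?_ (Nat.card_pos (α := fixV (V := X) B))
      calc Nat.card U * Nat.card (fixV (V := X) B)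
          ≤ Nat.card X * Nat.card (U ⊓ fixV B : AddSubgroup X) :=
            (LocEven.Chermak.card_add_mul_le _ _).trans
              (Nat.mul_le_mul_right _ (AddSubgroup.card_le_card_addGroup _))
        _ = _ := by rw [hUB, ← hBm.weight, wt]; ring
    have h2 : Nat.card J ≤ Nat.card B * Nat.card ↥(J ⊓ Q) := by
      refine Nat.le_of_mul_le_mul_right ?_ (Nat.card_pos (α := (U ⊓ fixV J : AddSubgroup X)))
      rw [← hQ.cardE]
      calc Nat.card U * Nat.card ↥(J ⊓ Q)
          ≤ Nat.card B * Nat.card (U ⊓ fixV J : AddSubgroup X) * Nat.card ↥(J ⊓ Q) :=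
            Nat.mul_le_mul_right _ h1
        _ = _ := by ring
    have h3 := card_mul_le_of_ea hJea hBJ (inf_le_left : J ⊓ Q ≤ J)
    rw [show B ⊓ (J ⊓ Q) = ⊥ from eq_bot_iff.2 fun x hx => (hbot B hB hBJ hBQ).le ⟨hx.1, hx.2.2⟩,
      Subgroup.card_bot, mul_one] at h3
    have hle : B ⊔ (J ⊓ Q) ≤ J := sup_le hBJ inf_le_left
    exact ⟨le_antisymm h2 (h3.trans (Subgroup.card_le_of_le hle)),
      (Subgroup.eq_of_le_of_card_ge hle (h2.trans h3)).symm⟩
  -- at most one member outside `Q`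
  have hY : ∀ g ∈ J ⊔ E', ∀ y ∈ comm (X := X) Q, g • y ∈ comm Q := fun g hg =>
    smul_comm_mem hQ.qnorm hg
  have huniq : ∀ B1 B2, Cls A0 B1 → B1 ≤ J → ¬ B1 ≤ Q → Cls A0 B2 → B2 ≤ J → ¬ B2 ≤ Q →
      B1 = B2 := by
    intro B1 B2 h1 h1J h1Q h2 h2J h2Q
    by_contra hne
    have hm1 := cls_mem D h0 h1
    have hm2 := cls_mem D h0 h2
    have hcc : ∀ a ∈ B1, ∀ b ∈ B2, a * b = b * a := fun a ha b hb => hJea.comm a (h1J ha) b (h2J hb)
    have hJQ : J ⊓ Q ≤ trivMod (comm (X := X) Q) := fun q hq x => diff_mem_comm hq.2 x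
    have hB1 : B1 ≤ trivMod (comm (X := X) Q) := by
      intro b hb x
      obtain ⟨u, hu, w, hw, rfl⟩ := AddSubgroup.mem_sup.1
        ((Mem.sup_fix_eq_top D hm1 hm2 hcc hne).ge (AddSubgroup.mem_top x))
      rw [smul_add, hu b hb, add_sub_add_left_eq_sub]
      have hb' : b ∈ ((B2 : Set P) * ((J ⊓ Q : Subgroup P) : Set P)) := by
        rw [← Subgroup.coe_mul_of_left_le_normalizer_right _ _ (fun c hc => ?_)]
        · show b ∈ B2 ⊔ (J ⊓ Q)
          rw [← (hprod B2 h2 h2J h2Q).2]; exact h1J hb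
        · refine Subgroup.mem_normalizer_iff.2 fun n => ⟨fun hn => ?_, fun hn => ?_⟩
          · rw [hJea.comm c (h2J hc) n hn.1, mul_inv_cancel_right]; exact hn
          · have hnJ : n ∈ J := by
              have := mul_mem (mul_mem (inv_mem (h2J hc)) hn.1) (h2J hc)
              simpa [mul_assoc] using this
            rwa [hJea.comm c (h2J hc) n hnJ, mul_inv_cancel_right] at hn
      obtain ⟨c, hc, e, he, rfl⟩ := hb'
      show (c * e) • w - w ∈ comm Q
      rw [mul_smul, show c • e • w - w = c • (e • w - w) + (c • w - w) by rw [smul_sub]; abel,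
        hw c hc, sub_self, add_zero]
      exact hY c (Subgroup.mem_sup_left (h2J hc)) _ (diff_mem_comm he.2 w)
    have hJN : J ≤ trivMod (comm (X := X) Q) := (hprod B1 h1 h1J h1Q).2.le.trans (sup_le hB1 hJQ)
    refine hQ.spread _ (le_normalizer_trivMod hY) hJN fun n hn => ?_
    rw [← hT3M]
    exact D.trivMod_le T3 fun x => comm_mono (le_sup_right.trans hT3) (hn.1 x)
  obtain ⟨A, hA, hAJ, hAQ⟩ : ∃ A, Cls A0 A ∧ A ≤ J ∧ ¬ A ≤ Q := by
    by_contra h
    push Not at h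
    exact hQ.notle (sSup_le fun B hB => h B hB.1 (le_join hB.1 hB.2))
  have hother : ∀ B, Cls A0 B → B ≤ (T : Subgroup P) → B ≠ A → B ≤ Q := fun B hB hBT hne => by
    by_contra h
    exact hne (huniq B A hB (le_join hB hBT) h hA hAJ hAQ)
  -- the second join
  have hQE'p : IsPGroup p (E' ⊔ Q : Subgroup P) := by
    refine IsPGroup.to_sup_of_normal_right' ?_ hQ.qp ((le_sup_right : E' ≤ J ⊔ E').trans hQ.qnorm)
    rw [← hg']; exact isPGroup_cj hJ0p g'
  obtain ⟨T4, hT4⟩ := hQE'p.exists_le_sylow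
  have hT4J : join A0 (T4 : Subgroup P) = E' := by
    rw [hE'] at hT4 ⊢
    exact join_eq D (le_sup_left.trans hT4)
  have hotherE : ∀ B, Cls A0 B → B ≤ (T : Subgroup P) → B ≠ A → B ≤ E' := fun B hB hBT hne =>
    hT4J ▸ le_join hB ((hother B hB hBT hne).trans (le_sup_right.trans hT4))
  obtain ⟨A', hA', hA'E, hA'Q⟩ : ∃ A', Cls A0 A' ∧ A' ≤ E' ∧ ¬ A' ≤ Q := by
    by_contra h
    push Not at h
    refine hL (sup_le ((join_le _ _).trans (D.le_mx T)) ?_)
    rw [← hT3M, hE']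
    refine (sSup_le fun B hB => ?_).trans (D.le_mx T3)
    exact (h B hB.1 (by rw [hE']; exact le_join hB.1 hB.2)).trans (le_sup_right.trans hT3)
  have hmemT2 : ∀ B, Cls A0 B → B ≤ E' → B = A' ∨ (B ≤ (T : Subgroup P) ∧ B ≠ A) := by
    have hsub : insert A' (memIn A0 (T : Subgroup P) \ {A}) ⊆ memIn A0 (T2 : Subgroup P) := by
      refine Set.insert_subset ⟨hA', hA'E.trans (hE' ▸ join_le _ _)⟩ fun B hB => ⟨hB.1.1, ?_⟩
      exact (hotherE B hB.1.1 hB.1.2 hB.2).trans (hE' ▸ join_le _ _)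
    have hnot : A' ∉ memIn A0 (T : Subgroup P) \ {A} := fun h => hA'Q (hother A' h.1.1 h.1.2 h.2)
    have hAT : A ∈ memIn A0 (T : Subgroup P) := ⟨hA, hAJ.trans (join_le _ _)⟩
    have heq : insert A' (memIn A0 (T : Subgroup P) \ {A}) = memIn A0 (T2 : Subgroup P) := by
      refine Set.eq_of_subset_of_ncard_le hsub ?_ (Set.toFinite _)
      rw [Set.ncard_insert_of_notMem hnot (Set.toFinite _),
        Set.ncard_diff_singleton_add_one hAT (Set.toFinite _)]
      obtain ⟨x, hx⟩ := Fusion.exists_cj_sylow T T2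
      rw [← hx, ncard_memIn]
    intro B hB hBE
    have : B ∈ memIn A0 (T2 : Subgroup P) := ⟨hB, hBE.trans (hE' ▸ join_le _ _)⟩
    rw [← heq] at this
    rcases this with h | h
    · exact Or.inl h
    · exact Or.inr ⟨h.1.2, h.2⟩
  have hAm := cls_mem D h0 hA
  have hA'm := cls_mem D h0 hA'
  have hcard : Nat.card A' = Nat.card A := by
    obtain ⟨x, rfl⟩ := hA; obtain ⟨y, rfl⟩ := hA'; rw [card_cj, card_cj]
  have hL0 : A ⊔ A' ≤ J ⊔ E' := sup_le_sup hAJ hA'E
  have hcomm : ∀ B, Cls A0 B → B ≤ (T : Subgroup P) → B ≠ A → ∀ b ∈ B, ∀ g ∈ A ⊔ A', g * b = b * g := by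
    intro B hB hBT hne b hb g hg
    have hE'ea : EA p E' := by rw [hE']; exact memIn_commute D h0 T2.2
    have : A ⊔ A' ≤ Subgroup.centralizer ({b} : Set P) := sup_le
      (fun a ha => Subgroup.mem_centralizer_singleton_iff.2 (hJea.comm a (hAJ ha) b (le_join hB hBT hb)))
      (fun a ha => Subgroup.mem_centralizer_singleton_iff.2
        (hE'ea.comm a (hA'E ha) b (hotherE B hB hBT hne hb)))
    exact Subgroup.mem_centralizer_singleton_iff.1 (this hg)
  have hUW : U ⊓ (fixV (V := X) A ⊓ fixV A') ≤ fixV (J ⊔ E') := by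
    intro v hv
    rw [fixV_sup]
    have hB : ∀ B, Cls A0 B → B ≤ (T : Subgroup P) → v ∈ fixV B := fun B hB hBT => by
      by_cases e : B = A
      · exact e ▸ hv.2.1
      · exact fixV_anti (hother B hB hBT e) hv.1
    refine ⟨fixV_sSup _ fun B hBm => hB B hBm.1 hBm.2, ?_⟩
    rw [hE']
    refine fixV_sSup _ fun B hBm => ?_
    rcases hmemT2 B hBm.1 (hE' ▸ le_join hBm.1 hBm.2) with h | h
    · exact h ▸ hv.2.2
    · exact hB B hBm.1 h.1
  set F := sSup (memIn A0 (T : Subgroup P) \ {A}) with hF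
  have hFp : IsPGroup p F := T.2.to_le (sSup_le fun B hB => hB.1.2)
  have hFJ : ∀ {R : Subgroup P}, IsPGroup p R → A ≤ R → (∀ r ∈ R, ∀ f ∈ F, r * f = f * r) →
      ∃ T5 : Sylow p P, R ≤ (T5 : Subgroup P) ∧ join A0 (T5 : Subgroup P) = J := by
    intro R hR hAR hcR
    obtain ⟨T5, hT5⟩ := (hR.to_sup_of_normal_right' hFp fun r hr =>
      Subgroup.centralizer_le_normalizer _ (Subgroup.mem_centralizer_iff.2
        fun f hf => (hcR r hr f hf).symm)).exists_le_sylow
    refine ⟨T5, le_sup_left.trans hT5, join_eq D (sSup_le fun B hB => ?_)⟩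
    by_cases e : B = A
    · exact e ▸ hAR.trans (le_sup_left.trans hT5)
    · exact (le_sSup ⟨hB, e⟩ : B ≤ F).trans (le_sup_right.trans hT5)
  have hcommF : ∀ {R : Subgroup P}, (∀ B, Cls A0 B → B ≤ (T : Subgroup P) → B ≠ A →
      ∀ b ∈ B, ∀ r ∈ R, r * b = b * r) → ∀ r ∈ R, ∀ f ∈ F, r * f = f * r := by
    intro R h r hr f hf
    have : F ≤ Subgroup.centralizer ({r} : Set P) := sSup_le fun B hB b hb =>
      Subgroup.mem_centralizer_singleton_iff.2 (h B hB.1.1 hB.1.2 hB.2 b hb r hr).symm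
    exact (Subgroup.mem_centralizer_singleton_iff.1 (this hf)).symm
  have hcF : ∀ g ∈ A ⊔ A', ∀ f ∈ F, g * f = f * g := hcommF fun B hB hBT hne b hb g hg =>
    hcomm B hB hBT hne b hb g hg
  have hLle : J ⊔ E' ≤ (A ⊔ A') ⊔ F := by
    refine sup_le (sSup_le fun B hB => ?_) ?_
    · by_cases e : B = A
      · exact e ▸ le_sup_of_le_left le_sup_left
      · exact le_sup_of_le_right (le_sSup ⟨hB, e⟩)
    · rw [hE']
      refine sSup_le fun B hB => ?_
      rcases hmemT2 B hB.1 (hE' ▸ le_join hB.1 hB.2) with e | e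
      · exact e ▸ le_sup_of_le_left le_sup_right
      · exact le_sup_of_le_right (le_sSup ⟨⟨hB.1, e.1⟩, e.2⟩)
  have hFc : A ⊔ A' ≤ Subgroup.normalizer (F : Set P) := fun g hg =>
    Subgroup.centralizer_le_normalizer _
      (Subgroup.mem_centralizer_iff.2 fun f hf => (hcF g hg f hf).symm)
  have hsplit : ∀ g ∈ J ⊔ E', ∃ l ∈ A ⊔ A', ∃ f ∈ F, g = l * f := fun g hg => by
    have h := hLle hg
    rw [← SetLike.mem_coe, Subgroup.coe_mul_of_left_le_normalizer_right _ _ hFc] at h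
    obtain ⟨l, hl, f, hf, e⟩ := h
    exact ⟨l, hl, f, hf, e.symm⟩
  have htop : U ⊔ (fixV (V := X) A ⊓ fixV A') = ⊤ := by
    refine AddSubgroup.eq_top_of_le_card _ ?_
    have h1 := (hprod A hA hAJ hAQ).1
    have h2 := LocEven.Chermak.card_add_mul_le U (fixV (V := X) A ⊓ fixV A')
    have h3 : Nat.card (U ⊓ (fixV A ⊓ fixV A') : AddSubgroup X) ≤
        Nat.card (fixV Q ⊓ fixV (J ⊔ E') : AddSubgroup X) :=
      AddSubgroup.card_le_of_le (le_inf inf_le_left hUW)
    have h4 : Nat.card X ≤ Nat.card A * Nat.card A *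
        Nat.card (fixV (V := X) A ⊓ fixV A' : AddSubgroup X) := by
      refine Nat.le_of_mul_le_mul_right ?_ (Nat.card_pos (α := X))
      calc Nat.card X * Nat.card X = wt X A * wt X A' := by rw [hAm.weight, hA'm.weight]
        _ = (Nat.card A * Nat.card A) *
            (Nat.card (fixV (V := X) A) * Nat.card (fixV (V := X) A')) := by rw [wt, wt, hcard]; ring
        _ ≤ (Nat.card A * Nat.card A) * (Nat.card X *
            Nat.card (fixV (V := X) A ⊓ fixV A' : AddSubgroup X)) :=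
            Nat.mul_le_mul_left _ ((LocEven.Chermak.card_add_mul_le _ _).trans
              (Nat.mul_le_mul_right _ (AddSubgroup.card_le_card_addGroup _)))
        _ = _ := by ring
    have h5 : Nat.card U * Nat.card ↥(J ⊓ Q) * Nat.card ↥(J ⊓ Q) = Nat.card A * Nat.card A *
        Nat.card (fixV Q ⊓ fixV (J ⊔ E') : AddSubgroup X) *
          (Nat.card ↥(J ⊓ Q) * Nat.card ↥(J ⊓ Q)) := by
      rw [hQ.cardE, mul_assoc, hQ.cardL, h1]; ring
    have h6 : Nat.card U = Nat.card A * Nat.card A *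
        Nat.card (fixV Q ⊓ fixV (J ⊔ E') : AddSubgroup X) :=
      Nat.eq_of_mul_eq_mul_right (Nat.mul_pos Nat.card_pos Nat.card_pos) (by rw [← h5]; ring)
    refine Nat.le_of_mul_le_mul_right ?_
      (Nat.card_pos (α := (fixV Q ⊓ fixV (J ⊔ E') : AddSubgroup X)))
    calc Nat.card X * Nat.card (fixV Q ⊓ fixV (J ⊔ E') : AddSubgroup X)
        ≤ Nat.card A * Nat.card A * Nat.card (fixV (V := X) A ⊓ fixV A' : AddSubgroup X) *
          Nat.card (fixV Q ⊓ fixV (J ⊔ E') : AddSubgroup X) := Nat.mul_le_mul_right _ h4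
      _ = Nat.card U * Nat.card (fixV (V := X) A ⊓ fixV A' : AddSubgroup X) := by rw [h6]; ring
      _ ≤ _ := h2.trans (Nat.mul_le_mul_left _ h3)
  refine ⟨T, A, A', U, hA, hA', hAJ.trans (join_le _ _), fun h => hL ?_, ?_, fun x hx u hu q hq => ?_,
    fun B hB hBT hne => fixV_anti (hother B hB hBT hne), fun a ha ha1 u hu hd => ?_, ?_, hcomm, ?_,
    fun h4 => ?_, fun C hC hp' hcC => ?_, ?_, fun g hg hgM x hx => ?_, fun C hC hp' hcC => ?_⟩
  · refine sup_le ((join_le _ _).trans (D.le_mx T)) ?_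
    rw [hE']
    refine sSup_le fun B hB => ?_
    rcases hmemT2 B hB.1 (hE' ▸ le_join hB.1 hB.2) with e | e
    · exact e ▸ h
    · exact e.1.trans (D.le_mx T)
  · exact htop
  · have h := hu _ ((Subgroup.mem_normalizer_iff''.1 (hQ.qnorm (hL0 hx)) q).1 hq)
    rw [mul_smul, mul_smul, inv_smul_eq_iff] at h
    exact h
  · refine fixV_anti hAJ (hQ.disp a (hAJ ha) (fun h => ha1 ?_) u hu (hUW ⟨?_, hd⟩))
    · have : a ∈ A ⊓ Q := ⟨ha, h⟩
      rwa [hbot A hA hAJ hAQ, Subgroup.mem_bot] at this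
    · refine U.sub_mem ?_ hu
      intro q hq
      have h := hu _ ((Subgroup.mem_normalizer_iff''.1 (hQ.qnorm (hJL (hAJ ha))) q).1 hq)
      rw [mul_smul, mul_smul, inv_smul_eq_iff] at h
      exact h
  · -- conjugacy inside `A ⊔ A'`
    set L0 := A ⊔ A' with hL0def
    obtain ⟨R1, hR1⟩ := (hAm.ea.isPGroup.comap_subtype (K := L0)).exists_le_sylow
    obtain ⟨R2, hR2⟩ := (hA'm.ea.isPGroup.comap_subtype (K := L0)).exists_le_sylow
    obtain ⟨h, hh⟩ := MulAction.exists_smul_eq L0 R2 R1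
    refine ⟨(h : P), h.2, ?_⟩
    set R := (R1 : Subgroup L0).map L0.subtype with hR
    have hcF : ∀ g ∈ L0, ∀ f ∈ F, g * f = f * g := fun g hg f hf => by
      have : F ≤ Subgroup.centralizer ({g} : Set P) := sSup_le fun B hB b hb =>
        Subgroup.mem_centralizer_singleton_iff.2 (hcomm B hB.1.1 hB.1.2 hB.2 b hb g hg).symm
      exact (Subgroup.mem_centralizer_singleton_iff.1 (this hf)).symm
    have hRF : IsPGroup p (R ⊔ F : Subgroup P) := by
      refine (R1.2.map _).to_sup_of_normal_right' (T.2.to_le (sSup_le fun B hB => hB.1.2))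
        fun r hr => ?_
      obtain ⟨r', -, rfl⟩ := hr
      rw [Subgroup.subtype_apply]
      refine Subgroup.mem_normalizer_iff.2 fun f => ⟨fun hf => ?_, fun hf => ?_⟩
      · rw [hcF _ r'.2 f hf, mul_inv_cancel_right]; exact hf
      · have e := hcF _ r'.2 _ hf
        have : f = (r' : P) * f * (r' : P)⁻¹ := by
          calc f = (r' : P)⁻¹ * (((r' : P) * f * (r' : P)⁻¹) * (r' : P)) := by group
            _ = (r' : P)⁻¹ * ((r' : P) * ((r' : P) * f * (r' : P)⁻¹)) :=
                congrArg _ e.symm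
            _ = _ := by group
        rwa [this]
    obtain ⟨T5, hT5⟩ := hRF.exists_le_sylow
    have hJ5 : J ≤ (T5 : Subgroup P) := sSup_le fun B hB => by
      by_cases e : B = A
      · refine le_trans ?_ (le_sup_left.trans hT5)
        subst e
        exact fun b hb => ⟨⟨b, (le_sup_left : B ≤ L0) hb⟩, hR1 hb, rfl⟩
      · exact (le_sSup ⟨hB, e⟩ : B ≤ F).trans (le_sup_right.trans hT5)
    have hA'R : Fusion.cj (h : P) A' ≤ (T5 : Subgroup P) := by
      refine le_trans ?_ (le_sup_left.trans hT5)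
      rintro _ ⟨a, ha, rfl⟩
      refine ⟨h * ⟨a, (le_sup_right : A' ≤ L0) ha⟩ * h⁻¹, ?_, rfl⟩
      have h2 : (⟨a, (le_sup_right : A' ≤ L0) ha⟩ : L0) ∈ (R2 : Subgroup L0) := hR2 ha
      rw [← hh, coe_smul_sylow]
      exact Fusion.conj_mem_cj.2 h2
    have hmem : Fusion.cj (h : P) A' ≤ J := (le_join (hA'.cj h) hA'R).trans (join_eq D hJ5).le
    by_contra hne
    have hB := hA'.cj (h : P)
    have hBT := hmem.trans (join_le _ _)
    refine hA'Q ?_
    have e : A' = Fusion.cj (h : P) A' := by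
      conv_lhs => rw [← cj_inv_cj (h : P) A']
      refine cj_eq_of_mem ((Subgroup.mem_normalizer_iff).2 fun x => ⟨fun hx => ?_, fun hx => ?_⟩)
      · rw [hcomm _ hB hBT hne x hx _ (inv_mem h.2), mul_inv_cancel_right]; exact hx
      · have e' := hcomm _ hB hBT hne _ hx _ (inv_mem h.2)
        have : x = (h : P)⁻¹ * x * ((h : P)⁻¹)⁻¹ := by
          calc x = (h : P) * (((h : P)⁻¹ * x * ((h : P)⁻¹)⁻¹) * (h : P)⁻¹) := by group
            _ = (h : P) * ((h : P)⁻¹ * ((h : P)⁻¹ * x * ((h : P)⁻¹)⁻¹)) := congrArg _ e'.symm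
            _ = _ := by group
        rwa [this]
    exact e.le.trans (hother _ hB hBT hne)
  · intro B hB hBT hne x hx v
    have : A ⊔ A' ≤ trivMod (fixV (V := X) B) := sup_le
      (fun a ha w => fixV_anti (le_join hB hBT) ((quad_join D h0 T.2).diff_mem (hAJ ha) w))
      (fun a ha w => fixV_anti (hotherE B hB hBT hne) (by
        have := (quad_join D h0 T2.2).diff_mem (show a ∈ join A0 (T2 : Subgroup P) from hE' ▸ hA'E ha) w
        rwa [← hE'] at this))
    exact this hx v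
  · -- perfectness
    have hFea : EA p F := hJea.mono (sSup_le fun B hB => le_join hB.1.1 hB.1.2)
    have hcom : ⁅J ⊔ E', J ⊔ E'⁆ ≤ ⁅A ⊔ A', A ⊔ A'⁆ := by
      rw [Subgroup.commutator_le]
      intro g hg h hh
      obtain ⟨l, hl, f, hf, rfl⟩ := hsplit g hg
      obtain ⟨m, hm, k, hk, rfl⟩ := hsplit h hh
      have e : ⁅l * f, m * k⁆ = ⁅l, m⁆ := by
        simp only [commutatorElement_def]
        calc l * f * (m * k) * (l * f)⁻¹ * (m * k)⁻¹
            = l * (f * m) * (k * f⁻¹) * l⁻¹ * k⁻¹ * m⁻¹ := by group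
          _ = l * (m * f) * (f⁻¹ * k) * l⁻¹ * k⁻¹ * m⁻¹ := by
              rw [← hcF m hm f hf, hFea.comm k hk f⁻¹ (inv_mem hf)]
          _ = l * m * (k * l⁻¹) * k⁻¹ * m⁻¹ := by group
          _ = l * m * (l⁻¹ * k) * k⁻¹ * m⁻¹ := by rw [hcF l⁻¹ (inv_mem hl) k hk]
          _ = l * m * l⁻¹ * m⁻¹ := by group
      rw [e]
      exact Subgroup.commutator_mem_commutator hl hm
    have hp1 := (hprod A hA hAJ hAQ).1
    have hbig : 4 * Nat.card ↥(J ⊓ Q) ≤ Nat.card J := by rw [hp1]; exact Nat.mul_le_mul_right _ h4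
    have hn : J ⊔ E' ≤ Subgroup.normalizer ((LAE79.pointwiseV U ⊓ (J ⊔ E') : Subgroup P) : Set P) := by
      intro g hg
      have key : ∀ g' ∈ J ⊔ E', ∀ n ∈ LAE79.pointwiseV U ⊓ (J ⊔ E'),
          g' * n * g'⁻¹ ∈ LAE79.pointwiseV U ⊓ (J ⊔ E') := fun g' hg' n hn' =>
        ⟨fun u hu => by
          have hu' : g'⁻¹ • u ∈ U := fun q hq => by
            have h := hu _ ((Subgroup.mem_normalizer_iff.1 (hQ.qnorm hg') q).1 hq)
            rw [mul_smul, mul_smul] at h
            exact eq_inv_smul_iff.2 h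
          show (g' * n * g'⁻¹) • u = u
          rw [mul_smul, mul_smul, hn'.1 _ hu', smul_inv_smul],
          (J ⊔ E').mul_mem ((J ⊔ E').mul_mem hg' hn'.2) ((J ⊔ E').inv_mem hg')⟩
      refine Subgroup.mem_normalizer_iff.2 fun n => ⟨key g hg n, fun hh => ?_⟩
      simpa [mul_assoc] using key g⁻¹ (inv_mem hg) _ hh
    intro a ha
    have h1 := hQ.perf hbig (hJL (hAJ ha))
    have hcL : ⁅J ⊔ E', J ⊔ E'⁆ ≤ J ⊔ E' := Subgroup.commutator_le.2 fun x hx y hy => by
      rw [commutatorElement_def]; exact mul_mem (mul_mem (mul_mem hx hy) (inv_mem hx)) (inv_mem hy)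
    rw [← SetLike.mem_coe, Subgroup.coe_mul_of_left_le_normalizer_right _ _ (hcL.trans hn)] at h1
    obtain ⟨c, hc, k, hk, e⟩ := h1
    have hc' : c ∈ ⁅A ⊔ A', A ⊔ A'⁆ := hcom hc
    have hcL0 : c ∈ A ⊔ A' := (Subgroup.commutator_le.2 fun x hx y hy => by
      rw [commutatorElement_def]; exact mul_mem (mul_mem (mul_mem hx hy) (inv_mem hx)) (inv_mem hy) :
        ⁅A ⊔ A', A ⊔ A'⁆ ≤ A ⊔ A') hc'
    have hk' : k ∈ A ⊔ A' := by
      have e' : k = c⁻¹ * a := by rw [← e]; exact (inv_mul_cancel_left c k).symm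
      rw [e']
      exact mul_mem (inv_mem hcL0) (Subgroup.mem_sup_left ha)
    rw [← e]
    exact Subgroup.mul_mem_sup hc' ⟨hk.1, hk'⟩
  · -- uniqueness over `A`
    have h := hcommF (R := A ⊔ C) fun B hB hBT hne b hb r hr => by
      have : A ⊔ C ≤ Subgroup.centralizer ({b} : Set P) := sup_le
        (fun a ha => Subgroup.mem_centralizer_singleton_iff.2 (hcomm B hB hBT hne b hb a (Subgroup.mem_sup_left ha)))
        (fun c hc => Subgroup.mem_centralizer_singleton_iff.2 (hcC B hB hBT hne b hb c hc))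
      exact Subgroup.mem_centralizer_singleton_iff.1 (this hr)
    obtain ⟨T5, hle, hj⟩ := hFJ hp' le_sup_left h
    exact (le_join hC (le_sup_right.trans hle)).trans (hj.le.trans (join_le _ _))
  · -- the natural action
    obtain ⟨q, hqc, F', iF, iFt, hF', ρ, ψ, hρ, hψ, hψ0, hψk, hψe⟩ := hQ.nat
    have hq : q = Nat.card A := Nat.eq_of_mul_eq_mul_right Nat.card_pos
      (hqc.trans (hprod A hA hAJ hAQ).1)
    have hdec : ∀ x : X, ∃ u : ↥U, x - (u : X) ∈ fixV (V := X) A ⊓ fixV A' := fun x => by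
      obtain ⟨u, hu, c, hc, rfl⟩ := AddSubgroup.mem_sup.1 (htop.ge (AddSubgroup.mem_top x))
      exact ⟨⟨u, hu⟩, by simpa using hc⟩
    choose dec hdec using hdec
    have hψ' : ∀ (x : X) (u : ↥U), x - (u : X) ∈ fixV (V := X) A ⊓ fixV A' → ψ (dec x) = ψ u := by
      intro x u hu
      refine sub_eq_zero.1 ?_
      rw [← map_sub, hψ0]
      refine hUW ⟨(dec x - u).2, ?_⟩
      have := sub_mem hu (hdec x)
      rwa [sub_sub_sub_cancel_left] at this
    let ψX : ↥(⊤ : AddSubgroup X) →+ (Fin 2 → F') := AddMonoidHom.mk' (fun x => ψ (dec x)) fun x y => by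
      rw [← map_add]
      refine hψ' _ _ ?_
      have := add_mem (hdec x) (hdec y)
      rwa [AddSubgroup.coe_add, AddSubgroup.coe_add, add_sub_add_comm]
    refine ⟨F', iF, iFt, hF'.trans hq, ρ.comp (Subgroup.inclusion hL0), ψX, fun m => ?_, fun r => ?_,
      fun x => ⟨fun h => ?_, fun h => ?_⟩, fun g hg x => ?_, fun g x y e => ?_⟩
    · obtain ⟨g, rfl⟩ := hρ m
      obtain ⟨l, hl, f, hf, e⟩ := hsplit g g.2
      refine ⟨⟨l, hl⟩, ?_⟩
      have hfL : f ∈ J ⊔ E' := by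
        have : f = l⁻¹ * g := by rw [e, inv_mul_cancel_left]
        rw [this]
        exact mul_mem (inv_mem (hL0 hl)) g.2
      have h1 : ρ ⟨f, hfL⟩ = 1 := by
        refine Subtype.ext (Matrix.ext_of_mulVec_single fun i => ?_)
        obtain ⟨u, hu⟩ := hψ (Pi.single i 1)
        rw [← hu, ← hψe ⟨f, hfL⟩ u u, Matrix.SpecialLinearGroup.coe_one, Matrix.one_mulVec]
        exact ((sSup_le (fun B hB b hb => (show b ∈ LAE79.pointwiseV U from
          fun w hw => fixV_anti (hother B hB.1.1 hB.1.2 hB.2) hw b hb)) :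
            F ≤ LAE79.pointwiseV U) hf u u.2).symm
      have e' : g = Subgroup.inclusion hL0 ⟨l, hl⟩ * ⟨f, hfL⟩ := Subtype.ext e
      rw [e', map_mul, h1, mul_one]
      rfl
    · obtain ⟨u, hu⟩ := hψ r
      exact ⟨⟨u, AddSubgroup.mem_top _⟩, (hψ' u u (by rw [sub_self]; exact zero_mem _)).trans hu⟩
    · have h1 : ψ (dec x) = 0 := h
      rw [hψ0] at h1
      rw [← fixV_sup] at hdec ⊢
      have := add_mem (hdec x) (fixV_anti hL0 h1)
      rwa [sub_add_cancel] at this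
    · show ψ (dec x) = 0
      rw [hψ' x 0 (by rwa [AddSubgroup.coe_zero, sub_zero]), map_zero]
    · have hc := hdec x
      rw [← fixV_sup] at hc
      have h1 := hc g g.2
      rw [smul_sub, show (g : P) • (dec x : X) = dec x from
        hψk (Subgroup.inclusion hL0 g) hg (dec x)] at h1
      exact sub_left_inj.1 h1
    · have hgu : (g : P) • (dec x : X) ∈ U := fun q' hq' => by
        have h := (dec x).2 _ ((Subgroup.mem_normalizer_iff''.1 (hQ.qnorm (hL0 g.2)) q').1 hq')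
        rw [mul_smul, mul_smul, inv_smul_eq_iff] at h
        exact h
      show ψ (dec y) = _
      rw [hψ' y ⟨_, hgu⟩ ?_]
      · exact hψe (Subgroup.inclusion hL0 g) (dec x) ⟨_, hgu⟩ rfl
      · show (y : X) - (g : P) • (dec x : X) ∈ _
        have hc := hdec x
        rw [← fixV_sup] at hc ⊢
        rwa [e, ← smul_sub, hc g g.2]
  · -- the Borel subgroup fixes the line
    obtain ⟨u, hu, c, hc, rfl⟩ := AddSubgroup.mem_sup.1 (htop.ge (AddSubgroup.mem_top x))
    have huA : u ∈ fixV (V := X) A := by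
      have := sub_mem hx hc.1
      rwa [add_sub_cancel_right] at this
    have huJ : u ∈ fixV (V := X) J := by
      refine fixV_sSup _ fun B hB => ?_
      by_cases e : B = A
      · exact e ▸ huA
      · exact fixV_anti (hother B hB.1 hB.2 e) hu
    have h1 := fixV_anti hAJ (hQ.borel g (hL0 hg) hgM u hu huJ)
    rw [← fixV_sup] at hc
    rw [smul_add, hc g hg]
    exact add_mem h1 (fixV_anti le_sup_left hc)
  · -- uniqueness over `A'`
    have h := hcommF (R := A' ⊔ C) fun B hB hBT hne b hb r hr => by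
      have : A' ⊔ C ≤ Subgroup.centralizer ({b} : Set P) := sup_le
        (fun a ha => Subgroup.mem_centralizer_singleton_iff.2 (hcomm B hB hBT hne b hb a (Subgroup.mem_sup_right ha)))
        (fun c hc => Subgroup.mem_centralizer_singleton_iff.2 (hcC B hB hBT hne b hb c hc))
      exact Subgroup.mem_centralizer_singleton_iff.1 (this hr)
    obtain ⟨T5, hT5⟩ := (hp'.to_sup_of_normal_right' hFp fun r hr =>
      Subgroup.centralizer_le_normalizer _ (Subgroup.mem_centralizer_iff.2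
        fun f hf => (h r hr f hf).symm)).exists_le_sylow
    have hj : join A0 (T5 : Subgroup P) = E' := by
      rw [hE']
      refine join_eq D (sSup_le fun B hB => ?_)
      rcases hmemT2 B hB.1 (hE' ▸ le_join hB.1 hB.2) with e | e
      · exact e ▸ le_sup_left.trans (le_sup_left.trans hT5)
      · exact (le_sSup ⟨⟨hB.1, e.1⟩, e.2⟩ : B ≤ F).trans (le_sup_right.trans hT5)
    rcases hmemT2 C hC ((le_join hC (le_sup_right.trans (le_sup_left.trans hT5))).trans hj.le) with e | e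
    · exact Or.inl e
    · exact Or.inr e.1

end Cfsg.Agent.MovesFix
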