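import Mathlib
import Cfsg.Agent.MovesFix.Special

/-!
Two offenders, one of whose commutator spaces is fixed by the other, act as a `p`-group.
-/

set_option autoImplicit false
set_option linter.unusedSectionVars false
set_option linter.style.haveILetI false

namespace Cfsg.Agent.MovesFix

open scoped Pointwise
open LAE79 (fixV mem_fixV)
open Fusion (cj mem_cj cj_cj cj_one cj_mono cj_eq_of_mem isPGroup_cj cj_inv_cj cj_cj_inv coe_smul_sylow)

variable {P : Type*} [Group P] {X : Type*} [AddCommGroup X] [DistribMulAction P X] {p : ℕ}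

/-- The elements trivial on `X / Y` and on `Y / I`. -/
def chainStab (Y I : AddSubgroup X) : Subgroup P where
  carrier := {g | (∀ x : X, g • x - x ∈ Y) ∧ (∀ y ∈ Y, g • y - y ∈ I) ∧ ∀ i ∈ I, g • i = i}
  one_mem' := ⟨fun x => by rw [one_smul, sub_self]; exact zero_mem _,
    fun y _ => by rw [one_smul, sub_self]; exact zero_mem _, fun i _ => one_smul P i⟩
  mul_mem' {a b} ha hb := by
    have hY : ∀ y ∈ Y, b • y ∈ Y := fun y hy => by
      have := add_mem (hb.1 y) hy; rwa [sub_add_cancel] at this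
    refine ⟨fun x => ?_, fun y hy => ?_, fun i hi => by rw [mul_smul, hb.2.2 i hi, ha.2.2 i hi]⟩
    · rw [mul_smul, show a • b • x - x = (a • b • x - b • x) + (b • x - x) by abel]
      exact add_mem (ha.1 _) (hb.1 x)
    · rw [mul_smul, show a • b • y - y = (a • b • y - b • y) + (b • y - y) by abel]
      exact add_mem (ha.2.1 _ (hY y hy)) (hb.2.1 y hy)
  inv_mem' {a} ha := by
    have hY : ∀ y ∈ Y, a⁻¹ • y ∈ Y := fun y hy => by
      have h := ha.1 (a⁻¹ • y)
      rw [smul_inv_smul] at h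
      have := sub_mem hy h; rwa [sub_sub_cancel] at this
    refine ⟨fun x => ?_, fun y hy => ?_, fun i hi => inv_smul_eq_iff.2 (ha.2.2 i hi).symm⟩
    · have h := ha.1 (a⁻¹ • x)
      rw [smul_inv_smul] at h
      rw [show a⁻¹ • x - x = -(x - a⁻¹ • x) by abel]
      exact neg_mem h
    · have h := ha.2.1 _ (hY y hy)
      rw [smul_inv_smul] at h
      rw [show a⁻¹ • y - y = -(y - a⁻¹ • y) by abel]
      exact neg_mem h

variable [Finite P] [hp : Fact p.Prime] [Finite X]

/-- If `[X, C1] ≤ C_X(C2)` then a conjugate by a trivially acting element makes `C1`, `C2` a `p`-group. -/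
theorem crit (hexp : ∀ x : X, p • x = 0) {C1 C2 : Subgroup P} (h1 : IsPGroup p C1) (h2 : IsPGroup p C2)
    (q1 : Quad (X := X) C1) (q2 : Quad (X := X) C2) (h : comm (X := X) C1 ≤ fixV C2) :
    ∃ k ∈ C1 ⊔ C2, (∀ x : X, k • x = x) ∧ IsPGroup p (C1 ⊔ cj k C2 : Subgroup P) ∧
      IsPGroup p (cj k⁻¹ C1 ⊔ C2 : Subgroup P) := by
  classical
  set Y := fixV (V := X) C2 with hYdef
  set I := fixV (V := X) C1 ⊓ Y with hIdef
  set G := C1 ⊔ C2 with hG
  have hGS : G ≤ chainStab Y I := by
    refine sup_le (fun c hc => ?_) (fun c hc => ?_)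
    · exact ⟨fun x => h (diff_mem_comm hc x), fun y _ => ⟨q1.diff_mem hc y, h (diff_mem_comm hc y)⟩,
        fun i hi => hi.1 c hc⟩
    · exact ⟨fun x => q2.diff_mem hc x, fun y hy => by rw [hy c hc, sub_self]; exact zero_mem _,
        fun i hi => hi.2 c hc⟩
  let K : Subgroup ↥G :=
    { carrier := {g | ∀ x : X, (g : P) • x = x}
      one_mem' := fun x => by rw [Subgroup.coe_one, one_smul]
      mul_mem' := fun {a b} ha hb x => by rw [Subgroup.coe_mul, mul_smul, hb x, ha x]
      inv_mem' := fun {a} ha x => by rw [Subgroup.coe_inv]; exact inv_smul_eq_iff.2 (ha x).symm }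
  haveI hKn : K.Normal := ⟨fun n hn g x => by
    show ((g : P) * (n : P) * (g : P)⁻¹) • x = x
    rw [mul_smul, mul_smul, hn, smul_inv_smul]⟩
  have hquot : IsPGroup p (↥G ⧸ K) := by
    intro q
    obtain ⟨g, rfl⟩ := QuotientGroup.mk_surjective q
    obtain ⟨g1, g2, g3⟩ := hGS g.2
    refine ⟨2, ?_⟩
    rw [← QuotientGroup.mk_pow, QuotientGroup.eq_one_iff]
    intro x
    rw [SubgroupClass.coe_pow]
    have hstep : ∀ (y : X) (n : ℕ), (g : P) ^ n • y - y - n • ((g : P) • y - y) ∈ I := by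
      intro y n
      induction n with
      | zero => rw [pow_zero, one_smul, sub_self, zero_smul, sub_zero]; exact zero_mem _
      | succ n ih =>
        rw [pow_succ', mul_smul, succ_nsmul]
        have e : (g : P) • ((g : P) ^ n • y) - y - (n • ((g : P) • y - y) + ((g : P) • y - y)) =
            (g : P) • ((g : P) ^ n • y - y - n • ((g : P) • y - y)) +
              n • ((g : P) • ((g : P) • y - y) - ((g : P) • y - y)) := by
          simp only [smul_sub, smul_comm (g : P) n, nsmul_add, nsmul_sub]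
          abel
        rw [e, g3 _ ih]
        exact add_mem ih (nsmul_mem (g2 _ (g1 y)) n)
    have hp1 : ∀ y : X, (g : P) ^ p • y - y ∈ I := fun y => by
      have := hstep y p; rwa [hexp, sub_zero] at this
    have hI : ∀ i ∈ I, (g : P) ^ p • i = i := fun i hi =>
      (Subgroup.pow_mem (MulAction.stabilizer P i) (g3 i hi) p : _)
    have hpow : ∀ n : ℕ, ((g : P) ^ p) ^ n • x = x + n • ((g : P) ^ p • x - x) := by
      intro n
      induction n with
      | zero => simp
      | succ n ih =>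
        rw [pow_succ', mul_smul, ih, smul_add, smul_comm ((g : P) ^ p) n, hI _ (hp1 x), succ_nsmul]
        abel
    rw [sq, pow_mul, hpow, hexp, add_zero]
  have h1' : IsPGroup p (C1.subgroupOf G) := h1.comap_subtype
  have h2' : IsPGroup p (C2.subgroupOf G) := h2.comap_subtype
  obtain ⟨S, hS⟩ := h1'.exists_le_sylow
  obtain ⟨S2, hS2⟩ := h2'.exists_le_sylow
  obtain ⟨g, hg⟩ := MulAction.exists_smul_eq ↥G S S2
  have htop : K ⊔ (S : Subgroup ↥G) = ⊤ := by
    obtain ⟨k, hk⟩ := IsPGroup.iff_card.1 hquot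
    refine Subgroup.index_eq_one.1 ?_
    refine Nat.eq_one_of_dvd_coprimes (Nat.Coprime.pow_left k
      ((hp.out.coprime_iff_not_dvd).2 S.not_dvd_index)) ?_ (Subgroup.index_dvd_of_le le_sup_right)
    rw [← hk]
    exact Subgroup.index_dvd_of_le le_sup_left
  have hgm : g ∈ ((K : Set ↥G) * ((S : Subgroup ↥G) : Set ↥G)) := by
    rw [← Subgroup.normal_mul, htop]
    exact Subgroup.mem_top g
  obtain ⟨k, hk, s, hs, rfl⟩ := hgm
  have hS2' : (S2 : Subgroup ↥G) = cj k (S : Subgroup ↥G) := by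
    rw [← hg, coe_smul_sylow, ← cj_cj, Fusion.cj_eq_self_of_mem hs]
  have hA : IsPGroup p (C1 ⊔ cj (k : P)⁻¹ C2 : Subgroup P) := by
    refine (S.2.map G.subtype).to_le (sup_le (fun c hc => ⟨⟨c, Subgroup.mem_sup_left hc⟩, hS hc, rfl⟩) ?_)
    rintro _ ⟨c, hc, rfl⟩
    refine ⟨k⁻¹ * ⟨c, Subgroup.mem_sup_right hc⟩ * k⁻¹⁻¹, ?_, rfl⟩
    have h3 : (⟨c, Subgroup.mem_sup_right hc⟩ : ↥G) ∈ (S2 : Subgroup ↥G) := hS2 hc
    rw [hS2', mem_cj] at h3
    rw [SetLike.mem_coe]
    simpa using h3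
  refine ⟨(k : P)⁻¹, inv_mem k.2, fun x => inv_smul_eq_iff.2 (hk x).symm, hA, ?_⟩
  have h4 := isPGroup_cj hA (k : P)
  rwa [Fusion.cj, Subgroup.map_sup, show (C2.map (MulAut.conj (k : P)⁻¹).toMonoidHom).map
    (MulAut.conj (k : P)).toMonoidHom = C2 from cj_cj_inv _ _, ← inv_inv (k : P)] at h4

end Cfsg.Agent.MovesFix
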