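import Mathlib
import Cfsg.Agent.MovesFix.Crit

/-!
Lifting from an irreducible quotient: a minimal offender of the quotient which is quadratic on the
module and trivial on the kernel yields a fixed vector of a Sylow subgroup moved by the group.
-/

set_option autoImplicit false
set_option linter.unusedSectionVars false
set_option linter.style.haveILetI false

namespace Cfsg.Agent.MovesFix

open scoped Pointwise commutatorElement
open LAE79 (fixV mem_fixV)
open Fusion (cj mem_cj cj_cj cj_one cj_mono cj_eq_of_mem cj_eq_iff_mem_normalizer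
  isPGroup_cj cj_inv_cj cj_cj_inv card_cj coe_smul_sylow conj_mem_cj)

variable {P : Type*} [Group P] {X : Type*} [AddCommGroup X] [DistribMulAction P X] {p : ℕ}
  {V : Type*} [AddCommGroup V] [DistribMulAction P V]

theorem comm_sup_le (A B : Subgroup P) : comm (X := X) (A ⊔ B) ≤ comm A ⊔ comm B :=
  comm_le fun _ hg => (sup_le (fun _ ha x => AddSubgroup.mem_sup_left (diff_mem_comm ha x))
    (fun _ hb x => AddSubgroup.mem_sup_right (diff_mem_comm hb x)) :
      A ⊔ B ≤ trivMod (comm A ⊔ comm B)) hg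

/-- An element of order prime to `p` fixing the displacement fixes the vector. -/
theorem smul_eq_of_coprime (hexp : ∀ v : V, p • v = 0) {g : P} (hg : (orderOf g).Coprime p) {v : V}
    (h : g • (g • v - v) = g • v - v) : g • v = v := by
  have hn : ∀ n : ℕ, g ^ n • v = v + n • (g • v - v) := by
    intro n
    induction n with
    | zero => rw [pow_zero, one_smul, zero_smul, add_zero]
    | succ n ih => rw [pow_succ', mul_smul, ih, smul_add, smul_comm g n, h, succ_nsmul]; abel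
  have h1 := hn (orderOf g)
  rw [pow_orderOf_eq_one, one_smul, left_eq_add] at h1
  have h2 : addOrderOf (g • v - v) ∣ 1 := by
    rw [← hg]
    exact Nat.dvd_gcd (addOrderOf_dvd_of_nsmul_eq_zero h1) (addOrderOf_dvd_of_nsmul_eq_zero (hexp _))
  exact sub_eq_zero.1 (AddMonoid.addOrderOf_eq_one_iff.1 (Nat.dvd_one.1 h2))

variable (p) in
/-- The module over the quotient, with the distinguished class. -/
structure Up (π : V →+ X) (A0 : Subgroup P) : Prop where
  map : ∀ (g : P) (v : V), π (g • v) = g • π v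
  surj : Function.Surjective π
  exp : ∀ v : V, p • v = 0
  quad : Quad (X := V) A0
  fixker : ∀ a ∈ A0, ∀ z : V, π z = 0 → a • z = z

variable {π : V →+ X} {A0 : Subgroup P}

theorem Up.fix_ker (H : Up p π A0) {B : Subgroup P} (hB : Cls A0 B) {b : P} (hb : b ∈ B) {z : V}
    (hz : π z = 0) : b • z = z := by
  obtain ⟨g, rfl⟩ := hB
  obtain ⟨a, ha, rfl⟩ := hb
  rw [MulEquiv.coe_toMonoidHom, MulAut.conj_apply, mul_smul, mul_smul,
    H.fixker a ha _ (by rw [H.map, hz, smul_zero]), smul_inv_smul]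

theorem Up.quad_cls (H : Up p π A0) {B : Subgroup P} (hB : Cls A0 B) : Quad (X := V) B := by
  obtain ⟨g, rfl⟩ := hB; exact quad_cj H.quad g

theorem Up.fix_ker_sup (H : Up p π A0) {A A' : Subgroup P} (hA : Cls A0 A) (hA' : Cls A0 A') {g : P}
    (hg : g ∈ A ⊔ A') {z : V} (hz : π z = 0) : g • z = z :=
  (sup_le (fun _ ha => H.fix_ker hA ha hz) (fun _ ha => H.fix_ker hA' ha hz) :
    A ⊔ A' ≤ MulAction.stabilizer P z) hg

variable [Finite P] [hp : Fact p.Prime] [Finite X] (D : Hyp P X p)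
include D

theorem Hyp.coprime_of_trivial {g : P} (h : ∀ x : X, g • x = x) : (orderOf g).Coprime p := by
  refine ((hp.out.coprime_iff_not_dvd).2 fun hd => ?_).symm
  have h0 : orderOf g ≠ 0 := (orderOf_pos g).ne'
  have ho := orderOf_pow_orderOf_div h0 hd
  have h1 : g ^ (orderOf g / p) = 1 := D.faithp _
    ⟨1, by
      have h2 := pow_orderOf_eq_one (g ^ (orderOf g / p))
      rw [ho] at h2
      rwa [pow_one]⟩
    fun x => (Subgroup.pow_mem (MulAction.stabilizer P x) (h x) _ : _)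
  rw [h1, orderOf_one] at ho
  exact hp.out.one_lt.ne ho

variable {T : Sylow p P} {A A' : Subgroup P} {U : AddSubgroup X}

/-- The other members fix every displacement by the special pair. -/
theorem Up.other (H : Up p π A0) (hS : Special X D A0 T A A' U) {B : Subgroup P} (hB : Cls A0 B)
    (hBT : B ≤ (T : Subgroup P)) (hne : B ≠ A) {g : P} (hg : g ∈ A ⊔ A') {b : P} (hb : b ∈ B) (v : V) :
    b • (g • v - v) = g • v - v := by
  obtain ⟨u, hu, c, hc, e⟩ := AddSubgroup.mem_sup.1 (hS.top.ge (AddSubgroup.mem_top (π v)))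
  rw [← fixV_sup] at hc
  obtain ⟨u', rfl⟩ := H.surj u
  obtain ⟨c', rfl⟩ := H.surj c
  have hz : π (v - u' - c') = 0 := by rw [map_sub, map_sub, ← e]; abel
  have hgz := H.fix_ker_sup hS.cls hS.cls' hg hz
  have hw : π (g • c' - c') = 0 := by rw [map_sub, H.map, hc g hg, sub_self]
  have hz1 : π (b • u' - u') = 0 := by rw [map_sub, H.map, hS.ufix B hB hBT hne hu b hb, sub_self]
  have hbu : b • (g • u' - u') = g • u' - u' := by
    have h1 := H.fix_ker_sup hS.cls hS.cls' hg hz1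
    rw [smul_sub] at h1
    rw [smul_sub, ← mul_smul, ← hS.comm B hB hBT hne b hb g hg, mul_smul]
    calc g • b • u' - b • u' = (g • b • u' - g • u') - (b • u' - u') + (g • u' - u') := by abel
      _ = g • u' - u' := by rw [h1, sub_self, zero_add]
  have hgv : g • v - v = (g • u' - u') + (g • c' - c') := by
    rw [smul_sub, smul_sub] at hgz
    calc g • v - v = (g • v - g • u' - g • c') - (v - u' - c') + ((g • u' - u') + (g • c' - c')) := by abel
      _ = _ := by rw [hgz, sub_self, zero_add]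
  rw [hgv, smul_add, hbu, H.fix_ker hB hb hw]

/-- The fixed points of `A` are the displacements up to the common fixed points. -/
theorem split_fix (h0 : Mem X p A0) (hS : Special X D A0 T A A' U) {x : X} (hx : x ∈ fixV A) :
    ∃ y ∈ comm (X := X) A, x - y ∈ fixV A ⊓ fixV A' := by
  classical
  have hAm := cls_mem D h0 hS.cls
  have hA'm := cls_mem D h0 hS.cls'
  obtain ⟨u0, hu0, hu0A⟩ : ∃ u ∈ U, u ∉ fixV (V := X) A := by
    by_contra hc
    push Not at hc
    refine hAm.ne ((Subgroup.eq_bot_iff_forall _).2 fun a ha => D.faithp a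
      ⟨1, by rw [pow_one]; exact hAm.ea.pow a ha⟩ fun x => ?_)
    exact (sup_le hc inf_le_left : U ⊔ (fixV A ⊓ fixV A') ≤ fixV A) (hS.top.ge (AddSubgroup.mem_top x)) a ha
  have hq := Mem.quad D hAm
  set W := fixV (V := X) A ⊓ fixV A' with hW
  let f : ↥A × ↥W → ↥(fixV (V := X) A) := fun q =>
    ⟨(q.1 : P) • u0 - u0 + q.2, add_mem (hq.diff_mem q.1.2 u0) q.2.2.1⟩
  have hf : Function.Injective f := by
    rintro ⟨⟨a, ha⟩, ⟨w, hw⟩⟩ ⟨⟨b, hb⟩, ⟨w', hw'⟩⟩ e
    have e1 : a • u0 - u0 + w = b • u0 - u0 + w' := congrArg Subtype.val e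
    have hab : b⁻¹ * a ∈ A := mul_mem (inv_mem hb) ha
    have h2 : b⁻¹ * a = 1 := by
      by_contra hne
      refine hu0A (hS.disp _ hab hne u0 hu0 ?_)
      have h3 : (b⁻¹ * a) • u0 - u0 = a • u0 - b • u0 := by
        have := hq.diff_mem hab u0 b hb
        rwa [smul_sub, ← mul_smul, mul_inv_cancel_left, eq_comm] at this
      rw [h3, show a • u0 - b • u0 = w' - w by
        calc a • u0 - b • u0 = (a • u0 - u0 + w) - (b • u0 - u0 + w') + (w' - w) := by abel
          _ = _ := by rw [e1, sub_self, zero_add]]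
      exact sub_mem hw' hw
    obtain rfl : b = a := inv_mul_eq_one.1 h2
    rw [add_right_inj] at e1
    subst e1
    rfl
  have hcard : Nat.card ↥(fixV (V := X) A) ≤ Nat.card (↥A × ↥W) := by
    rw [Nat.card_prod]
    refine Nat.le_of_mul_le_mul_right ?_ (Nat.card_pos (α := fixV (V := X) A'))
    have hq' : Nat.card A' = Nat.card A := by
      obtain ⟨g, e⟩ := hS.cls; obtain ⟨g', e'⟩ := hS.cls'
      rw [← e, ← e', card_cj, card_cj]
    calc _ ≤ Nat.card X * Nat.card W := (LocEven.Chermak.card_add_mul_le _ _).trans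
          (Nat.mul_le_mul_right _ (AddSubgroup.card_le_card_addGroup _))
      _ = _ := by rw [← Mem.card_fix D hA'm, hq']; ring
  obtain ⟨⟨⟨a, ha⟩, ⟨w, hw⟩⟩, e⟩ := (hf.bijective_of_nat_card_le hcard).2 ⟨x, hx⟩
  refine ⟨a • u0 - u0, diff_mem_comm ha u0, ?_⟩
  have e1 : a • u0 - u0 + w = x := congrArg Subtype.val e
  rw [← e1, add_sub_cancel_left]
  exact hw

/-- Vectors over the common fixed points are fixed, for large members. -/
theorem Up.fix_of_large (H : Up p π A0) (hS : Special X D A0 T A A' U) (h4 : 4 ≤ Nat.card A) {v : V}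
    (hv : π v ∈ fixV (V := X) A ⊓ fixV A') : v ∈ fixV A := by
  rw [← fixV_sup] at hv
  have hd : ∀ g ∈ A ⊔ A', ∀ h ∈ A ⊔ A', h • (g • v - v) = g • v - v := fun g hg h hh =>
    H.fix_ker_sup hS.cls hS.cls' hh (by rw [map_sub, H.map, hv g hg, sub_self])
  have hc : ⁅A ⊔ A', A ⊔ A'⁆ ≤ MulAction.stabilizer P v := by
    rw [Subgroup.commutator_le]
    intro g hg h hh
    show ⁅g, h⁆ • v = v
    have h1 : ∀ a ∈ A ⊔ A', ∀ b ∈ A ⊔ A', (a * b) • v - v = (a • v - v) + (b • v - v) := by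
      intro a ha b hb
      have := hd b hb a ha
      rw [smul_sub] at this
      rw [mul_smul]
      calc a • b • v - v = (a • b • v - a • v) + (a • v - v) := by abel
        _ = _ := by rw [this]; abel
    have hgh := h1 g hg h hh
    have hhg := h1 h hh g hg
    have : (g * h) • v = (h * g) • v := sub_left_inj.1 (by rw [hgh, hhg, add_comm])
    rw [commutatorElement_def, show g * h * g⁻¹ * h⁻¹ = (g * h) * (h * g)⁻¹ by group, mul_smul]
    have h2 := hd _ (inv_mem (mul_mem hh hg)) (g * h) (mul_mem hg hh)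
    have h3 := hd _ (inv_mem (mul_mem hh hg)) (h * g) (mul_mem hh hg)
    rw [smul_sub, sub_eq_iff_eq_add] at h2 h3
    rw [h2, this, ← h3, smul_inv_smul]
  have hK : LAE79.pointwiseV U ⊓ (A ⊔ A') ≤ MulAction.stabilizer P v := by
    intro g hg
    have ht : ∀ x : X, g • x = x := fun x => by
      obtain ⟨u, hu, c, hc', rfl⟩ := AddSubgroup.mem_sup.1 (hS.top.ge (AddSubgroup.mem_top x))
      rw [← fixV_sup] at hc'
      rw [smul_add, hc' g hg.2]
      exact congrArg (· + c) (hg.1 u hu)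
    exact smul_eq_of_coprime H.exp (D.coprime_of_trivial ht) (hd g hg.2 g hg.2)
  exact fun a ha => ((hS.perf h4).trans (sup_le hc hK)) ha

/-- The displacements of the conjugates of the partner, for members of order `p`. -/
theorem small_comm (h0 : Mem X p A0) (hS : Special X D A0 T A A' U) (hp' : Nat.card A = p) {t : P}
    (ht : t ∈ (T : Subgroup P)) (htA : cj t A = A) :
    comm (X := X) (cj t A') ≤ comm A ⊔ comm A' := by
  classical
  have hAm := cls_mem D h0 hS.cls
  have hA'm := cls_mem D h0 hS.cls'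
  have hA''c : Cls A0 (cj t A') := hS.cls'.cj t
  set A'' := cj t A' with hA''
  have hA''m := cls_mem D h0 hA''c
  have hcA' : Nat.card A' = p := by
    obtain ⟨g, e⟩ := hS.cls; obtain ⟨g', e'⟩ := hS.cls'
    rw [← e', card_cj, ← card_cj g A0, e, hp']
  have hcA'' : Nat.card A'' = p := by rw [hA'', card_cj, hcA']
  -- a member of order `p` moves everything by multiples of one displacement
  have hline : ∀ {C : Subgroup P}, Mem X p C → Nat.card C = p → ∀ {c : P}, c ∈ C → c ≠ 1 →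
      (∀ g ∈ C, ∃ i : ℕ, c ^ i = g) ∧
      (∀ {d : X}, d ∉ fixV C → fixV C ⊔ AddSubgroup.zmultiples d = ⊤) := by
    intro C hC hCc c hc hc1
    constructor
    · intro g hg
      have hord : orderOf c = p := orderOf_eq_prime (hC.ea.pow c hc) hc1
      have he : Subgroup.zpowers c = C := Subgroup.eq_of_le_of_card_ge (by simpa using hc)
        (by rw [Nat.card_zpowers, hord, hCc])
      rw [← he] at hg
      obtain ⟨i, hi⟩ := mem_powers_iff_mem_zpowers.2 hg
      exact ⟨i, hi⟩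
    · intro d hd
      have hlt : fixV C < fixV C ⊔ AddSubgroup.zmultiples d := lt_of_le_of_ne le_sup_left fun e =>
        hd (e.ge (AddSubgroup.mem_sup_right (AddSubgroup.mem_zmultiples d)))
      refine AddSubgroup.eq_top_of_le_card _ ?_
      rw [← Mem.card_fix D hC, hCc]
      have hd' := AddSubgroup.card_dvd_of_le hlt.le
      have hX := AddSubgroup.card_addSubgroup_dvd_card (fixV (V := X) C ⊔ AddSubgroup.zmultiples d)
      obtain ⟨k, hk⟩ := hd'
      rw [← Mem.card_fix D hC, hCc, hk, mul_comm p, Nat.mul_dvd_mul_iff_left Nat.card_pos,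
        Nat.dvd_prime hp.out] at hX
      rw [hk, mul_comm p]
      rcases hX with h | h
      · rw [h, mul_one] at hk
        exact absurd (AddSubgroup.eq_of_le_of_card_ge hlt.le hk.le) hlt.ne
      · rw [h]
  obtain ⟨a0, ha0, ha01⟩ : ∃ a ∈ A, a ≠ 1 := by
    by_contra h
    push Not at h
    exact hAm.ne ((Subgroup.eq_bot_iff_forall _).2 h)
  obtain ⟨a', ha', ha'1⟩ : ∃ a ∈ A', a ≠ 1 := by
    by_contra h
    push Not at h
    exact hA'm.ne ((Subgroup.eq_bot_iff_forall _).2 h)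
  obtain ⟨v0, hv0⟩ : ∃ v : X, v ∉ fixV A' := by
    by_contra h
    push Not at h
    exact ha'1 (D.faithp a' ⟨1, by rw [pow_one]; exact hA'm.ea.pow a' ha'⟩ fun x => h x a' ha')
  -- the displacements of a cyclic quadratic member
  have hgen : ∀ {C : Subgroup P}, Mem X p C → Nat.card C = p → ∀ {c : P}, c ∈ C → c ≠ 1 → ∀ {w : X},
      w ∉ fixV C → comm (X := X) C ≤ AddSubgroup.zmultiples (c • w - w) := by
    intro C hC hCc c hc hc1 w hw
    refine comm_le fun g hg x => ?_
    obtain ⟨i, rfl⟩ := (hline hC hCc hc hc1).1 g hg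
    obtain ⟨f, hf, y, hy, rfl⟩ := AddSubgroup.mem_sup.1
      (((hline hC hCc hc hc1).2 hw).ge (AddSubgroup.mem_top x))
    obtain ⟨j, rfl⟩ := AddSubgroup.mem_zmultiples_iff.1 hy
    rw [smul_add, hf _ hg, add_sub_add_left_eq_sub]
    have hn : ∀ n : ℕ, c ^ n • w = w + n • (c • w - w) := by
      intro n
      induction n with
      | zero => rw [pow_zero, one_smul, zero_smul, add_zero]
      | succ n ih =>
        rw [pow_succ', mul_smul, ih, smul_add, smul_comm c n, Mem.quad D hC c hc c hc w, succ_nsmul]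
        abel
    rw [smul_comm, hn, smul_add, add_sub_cancel_left]
    exact zsmul_mem (nsmul_mem (AddSubgroup.mem_zmultiples _) i) j
  set c' := a' • v0 - v0 with hc'
  set d := a0 • c' - c' with hd
  obtain ⟨z, -, hz⟩ := D.exists_moved T
  have hker : ∀ k : P, (∀ x : X, k • x = x) → k ∈ D.Mx T := fun k hk => hz (hk z)
  have hother : ∀ B, Cls A0 B → B ≤ (T : Subgroup P) → B ≠ A → ∀ b ∈ B, ∀ x ∈ A'', x * b = b * x := by
    intro B hB hBT hne b hb x hx
    have hB' : cj t⁻¹ B ≤ (T : Subgroup P) :=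
      (cj_mono _ hBT).trans_eq (Fusion.cj_eq_self_of_mem (inv_mem ht))
    have h1 := hS.comm _ (hB.cj t⁻¹) hB' (fun e => hne (by rw [← cj_cj_inv t B, e, htA]))
      _ ((Fusion.mem_cj_inv).2 (by simpa [mul_assoc] using hb) : t⁻¹ * b * t ∈ cj t⁻¹ B)
      _ (Subgroup.mem_sup_right (mem_cj.1 hx))
    calc x * b = t * ((t⁻¹ * x * t) * (t⁻¹ * b * t)) * t⁻¹ := by group
      _ = _ := by rw [h1]; group
  have hcentral : ∀ {H : Subgroup P}, (∀ B, Cls A0 B → B ≤ (T : Subgroup P) → B ≠ A →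
      ∀ b ∈ B, ∀ x ∈ H, x * b = b * x) → ∀ {C : Subgroup P}, C ≤ H →
      ∀ B, Cls A0 B → B ≤ (T : Subgroup P) → B ≠ A → ∀ b ∈ B, ∀ x ∈ C, x * b = b * x :=
    fun h C hC B hB hBT hne b hb x hx => h B hB hBT hne b hb x (hC hx)
  have hsup : ∀ {H K : Subgroup P}, (∀ B, Cls A0 B → B ≤ (T : Subgroup P) → B ≠ A →
      ∀ b ∈ B, ∀ x ∈ H, x * b = b * x) → (∀ B, Cls A0 B → B ≤ (T : Subgroup P) → B ≠ A →
      ∀ b ∈ B, ∀ x ∈ K, x * b = b * x) → ∀ B, Cls A0 B → B ≤ (T : Subgroup P) → B ≠ A →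
      ∀ b ∈ B, ∀ x ∈ H ⊔ K, x * b = b * x := fun h h' B hB hBT hne b hb x hx =>
    Subgroup.mem_centralizer_singleton_iff.1 ((sup_le
      (fun y hy => Subgroup.mem_centralizer_singleton_iff.2 (h B hB hBT hne b hb y hy))
      (fun y hy => Subgroup.mem_centralizer_singleton_iff.2 (h' B hB hBT hne b hb y hy)) :
        _ ≤ Subgroup.centralizer ({b} : Set P)) hx)
  have hG : ∀ B, Cls A0 B → B ≤ (T : Subgroup P) → B ≠ A → ∀ b ∈ B, ∀ x ∈ A ⊔ A', x * b = b * x :=
    hS.comm
  have hqA := Mem.quad D hAm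
  have hqA' := Mem.quad D hA'm
  have htM : t ∈ D.Mx T := D.le_mx T ht
  have hA''M : ¬ A'' ≤ D.Mx T := fun h => hS.notM fun x hx => by
    have h1 : t * x * t⁻¹ ∈ D.Mx T := h (conj_mem_cj.2 hx)
    have h2 := mul_mem (mul_mem (inv_mem htM) h1) htM
    simpa [mul_assoc] using h2
  have hc'A : c' ∉ fixV A := by
    intro hc
    obtain ⟨k, hk, hkt, -, hk2⟩ := crit D.exp hA'm.ea.isPGroup hAm.ea.isPGroup hqA' hqA
      ((hgen hA'm hcA' ha' ha'1 hv0).trans (AddSubgroup.zmultiples_le_of_mem hc))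
    have hkG : k ∈ A ⊔ A' := by rwa [sup_comm]
    have hle : cj k⁻¹ A' ≤ (T : Subgroup P) := hS.only _ (hS.cls'.cj _) (by rwa [sup_comm])
      (hcentral hG ((cj_mono _ le_sup_right).trans_eq (Fusion.cj_eq_self_of_mem (inv_mem hkG))))
    refine hS.notM ((cj_cj_inv k A').ge.trans ((cj_mono k (hle.trans (D.le_mx T))).trans_eq ?_))
    exact Fusion.cj_eq_self_of_mem (hker k hkt)
  have hdA : d ∈ fixV A := hqA.diff_mem ha0 c'
  have hd0 : d ∉ fixV A'' := by
    intro hc
    have hd0' : d ≠ 0 := fun e => hc'A fun a ha => by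
      obtain ⟨i, rfl⟩ := (hline hAm hp' ha0 ha01).1 a ha
      exact (Subgroup.pow_mem (MulAction.stabilizer P c') (sub_eq_zero.1 e) i : _)
    obtain ⟨k, hk, hkt, hk1, -⟩ := crit D.exp hAm.ea.isPGroup hA''m.ea.isPGroup hqA
      (Mem.quad D hA''m) ((hgen hAm hp' ha0 ha01 hc'A).trans (AddSubgroup.zmultiples_le_of_mem hc))
    have hle : cj k A'' ≤ (T : Subgroup P) := hS.only _ (hA''c.cj k) hk1
      (hcentral (hsup (hcentral hG le_sup_left) hother)
        ((cj_mono k le_sup_right).trans_eq (Fusion.cj_eq_self_of_mem hk)))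
    refine hA''M ((cj_inv_cj k A'').ge.trans ((cj_mono k⁻¹ (hle.trans (D.le_mx T))).trans_eq ?_))
    exact Fusion.cj_eq_self_of_mem (inv_mem (hker k hkt))
  obtain ⟨b, hb, hb1⟩ : ∃ a ∈ A'', a ≠ 1 := by
    by_contra h
    push Not at h
    exact hA''m.ne ((Subgroup.eq_bot_iff_forall _).2 h)
  obtain ⟨i, hi⟩ : ∃ i : ℕ, c' + i • d ∈ fixV A'' := by
    obtain ⟨f, hf, y, hy, e⟩ := AddSubgroup.mem_sup.1
      (((hline hA''m hcA'' hb hb1).2 hd0).ge (AddSubgroup.mem_top c'))
    obtain ⟨j, rfl⟩ := AddSubgroup.mem_zmultiples_iff.1 hy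
    obtain ⟨n, hn⟩ := mem_multiples_iff_mem_zmultiples.2
      (neg_mem (AddSubgroup.zsmul_mem _ (AddSubgroup.mem_zmultiples d) j))
    refine ⟨n, ?_⟩
    have hn' : n • d = -(j • d) := hn
    rwa [hn', ← e, add_neg_cancel_right]
  set s := a0 ^ i with hs
  have hsA : s ∈ A := pow_mem ha0 i
  have hsG : s ∈ A ⊔ A' := Subgroup.mem_sup_left hsA
  have hsc : s • c' = c' + i • d := by
    rw [hs]
    clear hs hsA hsG hi
    induction i with
    | zero => rw [pow_zero, one_smul, zero_smul, add_zero]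
    | succ n ih =>
      rw [pow_succ', mul_smul, ih, smul_add, smul_comm a0 n, hdA a0 ha0, succ_nsmul, hd]
      abel
  set A3 := cj s⁻¹ A'' with hA3
  have hA3c : Cls A0 A3 := hA''c.cj _
  have hA3m := cls_mem D h0 hA3c
  have hc3 : c' ∈ fixV A3 := by
    rw [hA3]
    refine mem_fixV_map_conj.2 ?_
    rw [inv_inv, hsc]
    exact hi
  obtain ⟨k, hk, hkt, hk1, -⟩ := crit D.exp hA'm.ea.isPGroup hA3m.ea.isPGroup hqA'
    (Mem.quad D hA3m) ((hgen hA'm hcA' ha' ha'1 hv0).trans (AddSubgroup.zmultiples_le_of_mem hc3))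
  have hGA'' := hsup hG hother
  have hA3le : A3 ≤ (A ⊔ A') ⊔ A'' := (cj_mono s⁻¹ le_sup_right).trans_eq
    (Fusion.cj_eq_self_of_mem (inv_mem (Subgroup.mem_sup_left hsG)))
  rcases hS.only' _ (hA3c.cj k) hk1 (hcentral (hsup (hcentral hG le_sup_right) (hcentral hGA'' hA3le))
      ((cj_mono k le_sup_right).trans_eq (Fusion.cj_eq_self_of_mem hk))) with e | hle
  · -- `A''` is a conjugate of `A'` by an element moving little
    refine comm_le fun g hg x => ?_
    have hg3 : k * (s⁻¹ * g * s) * k⁻¹ ∈ A' := by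
      rw [← e]
      exact conj_mem_cj.2 (Fusion.mem_cj_inv.2 (by simpa [mul_assoc] using hg))
    set a := k * (s⁻¹ * g * s) * k⁻¹ with ha
    set y := k • s⁻¹ • x with hy
    have hkey : g • x - x = s • (a • y - y) := by
      have e1 : g = s * k⁻¹ * a * (k * s⁻¹) := by rw [ha]; group
      conv_lhs => rw [e1]
      have hkt' : ∀ w : X, k⁻¹ • w = w := fun w => inv_smul_eq_iff.2 (hkt w).symm
      simp only [mul_smul, smul_sub, hy, hkt, hkt', smul_inv_smul]
    rw [hkey, show s • (a • y - y) = (s • (a • y - y) - (a • y - y)) + (a • y - y) by abel]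
    exact add_mem (AddSubgroup.mem_sup_left (diff_mem_comm hsA _))
      (AddSubgroup.mem_sup_right (diff_mem_comm hg3 _))
  · exfalso
    have h1 : A3 ≤ D.Mx T := (cj_inv_cj k A3).ge.trans
      ((cj_mono k⁻¹ (hle.trans (D.le_mx T))).trans_eq (Fusion.cj_eq_self_of_mem (inv_mem (hker k hkt))))
    exact hA''M ((cj_cj_inv s A'').ge.trans ((cj_mono s h1).trans_eq
      (Fusion.cj_eq_self_of_mem (D.le_mx T (hS.leT hsA)))))

/-- Every vector over the fixed points of `A` is fixed by `A`. -/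
theorem Up.full (H : Up p π A0) (h0 : Mem X p A0) (hS : Special X D A0 T A A' U) {v : V}
    (hv : π v ∈ fixV (V := X) A) : v ∈ fixV A := by
  classical
  have hAm := cls_mem D h0 hS.cls
  have hA'm := cls_mem D h0 hS.cls'
  set S := (fixV (V := V) A).map π with hSdef
  have hcS : comm (X := X) A ≤ S := comm_le fun a ha x => by
    obtain ⟨x', rfl⟩ := H.surj x
    exact ⟨a • x' - x', (H.quad_cls hS.cls).diff_mem ha x', by rw [map_sub, H.map]⟩
  have hSA : S ≤ fixV (V := X) A := by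
    rintro _ ⟨w, hw, rfl⟩ a ha
    rw [← H.map, hw a ha]
  suffices hCS : fixV (V := X) A ≤ S by
    obtain ⟨w, hw, e⟩ := hCS hv
    intro a ha
    have h1 := H.fix_ker hS.cls ha (z := v - w) (by rw [map_sub, e, sub_self])
    rw [smul_sub, hw a ha, sub_left_inj] at h1
    exact h1
  by_cases h4 : 4 ≤ Nat.card A
  · intro x hx
    obtain ⟨y, hy, hw⟩ := split_fix D h0 hS hx
    obtain ⟨w, hw'⟩ := H.surj (x - y)
    have : x = y + (x - y) := by abel
    rw [this]
    exact add_mem (hcS hy) ⟨w, H.fix_of_large D hS h4 (hw' ▸ hw), hw'⟩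
  have hp' : Nat.card A = p := by
    obtain ⟨k, hk⟩ := IsPGroup.iff_card.1 hAm.ea.isPGroup
    haveI := (Subgroup.nontrivial_iff_ne_bot A).2 hAm.ne
    have h1 : 1 < Nat.card A := Finite.one_lt_card
    rcases k with _ | _ | k
    · simp [hk] at h1
    · rw [hk, zero_add, pow_one]
    · have : p ^ 2 ≤ p ^ (k + 1 + 1) := Nat.pow_le_pow_right hp.out.pos (by omega)
      have := Nat.pow_le_pow_left hp.out.two_le 2
      omega
  set Y := comm (X := X) A ⊔ comm A' ⊔ S with hY
  set Sg := AddSubgroup.closure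
    {w : X | ∃ t ∈ (T : Subgroup P), ∃ g ∈ A ⊔ A', ∃ x : X, w = t • (g • x - x)} with hSg
  have hgen : ∀ t ∈ (T : Subgroup P), ∀ g ∈ A ⊔ A', ∀ x : X, t • (g • x - x) ∈ Sg :=
    fun t ht g hg x => AddSubgroup.subset_closure ⟨t, ht, g, hg, x, rfl⟩
  have hSgY : Sg ≤ Y := by
    rw [hSg, AddSubgroup.closure_le]
    rintro _ ⟨t, ht, g, hg, x, rfl⟩
    by_cases htA : cj t⁻¹ A = A
    · have htA' : cj t A = A := by conv_lhs => rw [← htA, cj_cj_inv]
      have : A ⊔ A' ≤ trivMod ((comm (X := X) A ⊔ comm A').comap (DistribSMul.toAddMonoidHom X t)) := by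
        refine sup_le (fun a ha x => ?_) (fun a ha x => ?_)
        · show t • (a • x - x) ∈ comm (X := X) A ⊔ comm A'
          rw [show t • (a • x - x) = (t * a * t⁻¹) • (t • x) - t • x by
            rw [mul_smul, mul_smul, inv_smul_smul, smul_sub]]
          refine AddSubgroup.mem_sup_left (diff_mem_comm ?_ _)
          have h1 : t * a * t⁻¹ ∈ cj t A := conj_mem_cj.2 ha
          rwa [htA'] at h1
        · show t • (a • x - x) ∈ comm (X := X) A ⊔ comm A'
          rw [show t • (a • x - x) = (t * a * t⁻¹) • (t • x) - t • x by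
            rw [mul_smul, mul_smul, inv_smul_smul, smul_sub]]
          exact small_comm D h0 hS hp' ht htA' (diff_mem_comm (conj_mem_cj.2 ha) _)
      exact AddSubgroup.mem_sup_left (this hg x)
    · obtain ⟨x', rfl⟩ := H.surj x
      refine AddSubgroup.mem_sup_right ⟨t • (g • x' - x'), fun a ha => ?_, by
        rw [H.map, map_sub, H.map]⟩
      have hB' : cj t⁻¹ A ≤ (T : Subgroup P) :=
        (cj_mono _ hS.leT).trans_eq (Fusion.cj_eq_self_of_mem (inv_mem ht))
      have h1 := H.other D hS (hS.cls.cj _) hB' htA hg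
        (Fusion.mem_cj_inv.2 (by simpa [mul_assoc] using ha) : t⁻¹ * a * t ∈ cj t⁻¹ A) x'
      rw [mul_smul, mul_smul, inv_smul_eq_iff] at h1
      exact h1
  let Hs : Subgroup P :=
    { carrier := {g | (∀ y ∈ Sg, g • y ∈ Sg) ∧ ∀ y ∈ Sg, g⁻¹ • y ∈ Sg}
      one_mem' := ⟨fun y hy => by rwa [one_smul], fun y hy => by rwa [inv_one, one_smul]⟩
      mul_mem' := fun {a b} ha hb => ⟨fun y hy => by rw [mul_smul]; exact ha.1 _ (hb.1 y hy),
        fun y hy => by rw [mul_inv_rev, mul_smul]; exact hb.2 _ (ha.2 y hy)⟩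
      inv_mem' := fun {a} ha => ⟨ha.2, by rw [inv_inv]; exact ha.1⟩ }
  have hGH : ∀ g ∈ A ⊔ A', ∀ y ∈ Sg, g • y ∈ Sg := fun g hg y hy => by
    have h1 := add_mem (hgen 1 (one_mem _) g hg y) hy
    rwa [one_smul, sub_add_cancel] at h1
  have hTH : ∀ t ∈ (T : Subgroup P), ∀ y ∈ Sg, t • y ∈ Sg := fun t ht y hy => by
    have : Sg ≤ Sg.comap (DistribSMul.toAddMonoidHom X t) := by
      conv_lhs => rw [hSg]
      rw [AddSubgroup.closure_le]
      rintro _ ⟨t', ht', g, hg, x, rfl⟩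
      show t • t' • (g • x - x) ∈ Sg
      rw [← mul_smul]
      exact hgen _ (mul_mem ht ht') g hg x
    exact this hy
  have hHs : Hs = ⊤ := by
    by_contra hne
    have h1 : A' ≤ Hs := fun g hg => (show (∀ y ∈ Sg, g • y ∈ Sg) ∧ ∀ y ∈ Sg, g⁻¹ • y ∈ Sg from
      ⟨hGH g (Subgroup.mem_sup_right hg), hGH _ (inv_mem (Subgroup.mem_sup_right hg))⟩)
    have h2 : (T : Subgroup P) ≤ Hs := fun t ht => (show (∀ y ∈ Sg, t • y ∈ Sg) ∧ ∀ y ∈ Sg, t⁻¹ • y ∈ Sg from
      ⟨hTH t ht, hTH _ (inv_mem ht)⟩)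
    exact hS.notM (h1.trans (D.uniq T hne h2))
  rcases D.irr Sg (fun g => (hHs.ge (Subgroup.mem_top g)).1) with h | h
  · refine absurd ((Subgroup.eq_bot_iff_forall _).2 fun a ha => D.faithp a
      ⟨1, by rw [pow_one]; exact hA'm.ea.pow a ha⟩ fun x => ?_) hA'm.ne
    have h1 := hgen 1 (one_mem _) a (Subgroup.mem_sup_right ha) x
    rw [h, AddSubgroup.mem_bot, one_smul] at h1
    exact sub_eq_zero.1 h1
  intro x hx
  obtain ⟨u, hu, s, hs, e⟩ := AddSubgroup.mem_sup.1 (hSgY (h.ge (AddSubgroup.mem_top x)))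
  obtain ⟨y, hy, α, hα, e'⟩ := AddSubgroup.mem_sup.1 hu
  rw [← e, ← e'] at hx ⊢
  refine add_mem (add_mem (hcS hy) ?_) hs
  have hαW : α ∈ fixV (V := X) A ⊓ fixV A' := by
    refine ⟨?_, (Mem.quad D hA'm).comm_le_fix hα⟩
    have h1 := sub_mem (sub_mem hx (hSA hs)) (hSA (hcS hy))
    rwa [add_sub_cancel_right, add_sub_cancel_left] at h1
  obtain ⟨w, hw, hwα⟩ : ∃ w ∈ fixV (V := V) A', π w = α := by
    have : comm (X := X) A' ≤ (fixV (V := V) A').map π := comm_le fun a ha x => by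
      obtain ⟨x', rfl⟩ := H.surj x
      exact ⟨a • x' - x', (H.quad_cls hS.cls').diff_mem ha x', by rw [map_sub, H.map]⟩
    exact this hα
  refine ⟨w, fun a ha => ?_, hwα⟩
  obtain ⟨k, hk, hkA⟩ := hS.conj
  rw [← fixV_sup] at hαW
  rw [← hkA] at ha
  obtain ⟨a', ha', rfl⟩ := ha
  have hz : π (k⁻¹ • w - w) = 0 := by rw [map_sub, H.map, hwα, hαW _ (inv_mem hk), sub_self]
  have h1 := H.fix_ker hS.cls' ha' hz
  rw [smul_sub, hw a' ha', sub_left_inj] at h1
  rw [MulEquiv.coe_toMonoidHom, MulAut.conj_apply, mul_smul, mul_smul, h1, smul_inv_smul]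

/-- A fixed vector of the Sylow subgroup moved by the group. -/
theorem Up.moved [Finite V] (H : Up p π A0) (h0 : Mem X p A0) (hS : Special X D A0 T A A' U) :
    ∃ v ∈ fixV (V := V) (T : Subgroup P), v ∉ fixV (⊤ : Subgroup P) := by
  classical
  have hAm := cls_mem D h0 hS.cls
  set R := (T : Subgroup P) ⊓ Subgroup.normalizer (A : Set P) with hR
  have hRp : IsPGroup p R := T.2.to_le inf_le_left
  letI : MulAction ↥R ↥A :=
    { smul := fun r a => ⟨(r : P) * a * (r : P)⁻¹, (Subgroup.mem_normalizer_iff.1 r.2.2 _).1 a.2⟩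
      one_smul := fun a => Subtype.ext (by
        show ((1 : ↥R) : P) * a * ((1 : ↥R) : P)⁻¹ = a
        simp)
      mul_smul := fun r s a => Subtype.ext (by
        show ((r * s : ↥R) : P) * a * ((r * s : ↥R) : P)⁻¹ =
          (r : P) * ((s : P) * a * (s : P)⁻¹) * (r : P)⁻¹
        rw [Subgroup.coe_mul]; group) }
  have hdvd : p ∣ Nat.card ↥A := by
    haveI := (Subgroup.nontrivial_iff_ne_bot A).2 hAm.ne
    obtain ⟨k, hk⟩ := IsPGroup.iff_card.1 hAm.ea.isPGroup
    have h1 : 1 < Nat.card A := Finite.one_lt_card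
    rw [hk] at h1 ⊢
    exact dvd_pow_self p (by rintro rfl; simp at h1)
  have h1fix : (1 : ↥A) ∈ MulAction.fixedPoints ↥R ↥A := fun r => Subtype.ext (by
    show (r : P) * ((1 : ↥A) : P) * (r : P)⁻¹ = ((1 : ↥A) : P)
    simp)
  obtain ⟨a1, ha1, hne1⟩ := hRp.exists_fixed_point_of_prime_dvd_card_of_fixed_point ↥A hdvd h1fix
  have hcomm1 : ∀ r ∈ R, r * (a1 : P) = a1 * r := fun r hr => by
    have := congrArg Subtype.val (ha1 ⟨r, hr⟩)
    exact mul_inv_eq_iff_eq_mul.1 this
  have hne1' : (a1 : P) ≠ 1 := fun e => hne1 (Subtype.ext e.symm)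
  have hnotop : ¬ (⊤ : AddSubgroup V) ≤ fixV A := fun h => hne1' (D.faithp _
    ⟨1, by rw [pow_one]; exact hAm.ea.pow _ a1.2⟩ fun x => by
      obtain ⟨x', rfl⟩ := H.surj x
      rw [← H.map, h (AddSubgroup.mem_top x') _ a1.2])
  have hRfix : ∀ r ∈ R, ∀ y ∈ fixV (V := V) A, r • y ∈ fixV A := by
    intro r hr y hy a ha
    have h1 := hy _ ((Subgroup.mem_normalizer_iff''.1 hr.2 a).1 ha)
    rw [mul_smul, mul_smul, inv_smul_eq_iff] at h1
    exact h1
  obtain ⟨v1, -, hv1, hv1R⟩ := exists_fixed_mod (isPGroup_of_exp H.exp) hRp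
    (Y := (⊤ : AddSubgroup V)) (fun _ _ _ _ => trivial) hRfix hnotop
  set w1 := (a1 : P) • v1 - v1 with hw1
  have hw1R : ∀ r ∈ R, r • w1 = w1 := fun r hr => by
    have h1 := hv1R r hr (a1 : P) a1.2
    rw [smul_sub] at h1
    rw [hw1, smul_sub, ← mul_smul, hcomm1 r hr, mul_smul]
    calc (a1 : P) • r • v1 - r • v1
        = ((a1 : P) • r • v1 - (a1 : P) • v1) - (r • v1 - v1) + ((a1 : P) • v1 - v1) := by abel
      _ = _ := by rw [h1, sub_self, zero_add]
  have hv1' : π v1 ∉ fixV (V := X) A := fun h => hv1 (H.full D h0 hS h)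
  have hw1' : π w1 ∉ fixV (V := X) A ⊓ fixV A' := by
    intro hw
    obtain ⟨u, hu, c, hc, e⟩ := AddSubgroup.mem_sup.1 (hS.top.ge (AddSubgroup.mem_top (π v1)))
    refine hv1' ?_
    rw [← e]
    refine add_mem (hS.disp _ a1.2 hne1' u hu ?_) hc.1
    rwa [hw1, map_sub, H.map, ← e, smul_add, hc.1 _ a1.2, add_sub_add_right_eq_sub] at hw
  obtain ⟨g, hg, hgw⟩ : ∃ g ∈ A ⊔ A', g • π w1 ≠ π w1 := by
    by_contra h
    push Not at h
    rw [← fixV_sup] at hw1'
    exact hw1' h
  have hothers : ∀ x ∈ MulAction.orbit ↥(T : Subgroup P) w1, x ≠ w1 → g • x = x := by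
    rintro _ ⟨⟨t, ht⟩, rfl⟩ hne
    have htN : t ∉ Subgroup.normalizer (A : Set P) := fun h => hne (hw1R t ⟨ht, h⟩)
    have hB : cj t A ≤ (T : Subgroup P) := (cj_mono t hS.leT).trans_eq (Fusion.cj_eq_self_of_mem ht)
    have hBne : cj t A ≠ A := fun e => htN (cj_eq_iff_mem_normalizer.1 e)
    have hb : t * a1 * t⁻¹ ∈ cj t A := conj_mem_cj.2 a1.2
    show g • t • w1 = t • w1
    have e1 : t • w1 = (t * a1 * t⁻¹) • (t • v1) - t • v1 := by
      rw [hw1, smul_sub, mul_smul, mul_smul, inv_smul_smul]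
    rw [e1]
    have h1 := H.other D hS (hS.cls.cj t) hB hBne hg hb (t • v1)
    rw [smul_sub] at h1
    rw [smul_sub, ← mul_smul g, hS.comm _ (hS.cls.cj t) hB hBne _ hb g hg, mul_smul]
    calc (t * a1 * t⁻¹) • g • t • v1 - g • t • v1
        = ((t * a1 * t⁻¹) • g • t • v1 - (t * a1 * t⁻¹) • t • v1) - (g • t • v1 - t • v1) +
          ((t * a1 * t⁻¹) • t • v1 - t • v1) := by abel
      _ = _ := by rw [h1, sub_self, zero_add]
  set O := (Set.toFinite (MulAction.orbit ↥(T : Subgroup P) w1)).toFinset with hO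
  refine ⟨∑ x ∈ O, x, fun t ht => ?_, fun h => hgw ?_⟩
  · rw [Finset.smul_sum]
    refine Finset.sum_equiv (MulAction.toPerm t) (fun x => ?_) fun x _ => rfl
    rw [hO, Set.Finite.mem_toFinset, Set.Finite.mem_toFinset, MulAction.toPerm_apply]
    exact ⟨fun hx => MulAction.mem_orbit_of_mem_orbit (⟨t, ht⟩ : ↥(T : Subgroup P)) hx, fun hx => by
      have := MulAction.mem_orbit_of_mem_orbit (⟨t, ht⟩⁻¹ : ↥(T : Subgroup P)) hx
      rwa [Subgroup.smul_def, Subgroup.coe_inv, inv_smul_smul] at this⟩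
  · have hmem : w1 ∈ O := (Set.Finite.mem_toFinset _).2 (MulAction.mem_orbit_self w1)
    have h1 : g • (∑ x ∈ O, x) = ∑ x ∈ O, x := h g (Subgroup.mem_top g)
    rw [Finset.smul_sum, ← Finset.add_sum_erase _ _ hmem, ← Finset.add_sum_erase O (fun x => x) hmem,
      Finset.sum_congr rfl (fun x hx => hothers x ((Set.Finite.mem_toFinset _).1 (Finset.mem_erase.1 hx).2)
        (Finset.mem_erase.1 hx).1), add_left_inj] at h1
    rw [← H.map, h1]

end Cfsg.Agent.MovesFix
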