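import Mathlib
import Cfsg.Agent.Cores.Residual
import Cfsg.Agent.LocalP.PClosed
import Cfsg.Agent.MovesFix.Lift

/-!
A `p`-minimal group with trivial core and an offender on a faithful module of exponent `p` moves
some fixed vector of each Sylow subgroup.
-/

set_option autoImplicit false
set_option linter.unusedSectionVars false
set_option linter.style.haveILetI false

namespace Cfsg.Agent.MovesFix

open scoped Pointwise
open LAE79 (fixV mem_fixV)
open Fusion (cj mem_cj coe_smul_sylow)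

variable {P : Type*} [Group P] {p : ℕ} {V : Type*} [AddCommGroup V] [DistribMulAction P V]

theorem normal_pResidual (P : Type*) [Group P] (p : ℕ) : (Cfsg.pResidual p P).Normal := by
  refine ⟨fun k hk g => ?_⟩
  have h := Cores.map_pResidual_le (p := p) (MulAut.conj g).toMonoidHom ⟨k, hk, rfl⟩
  simpa using h

/-- The action on the quotient by an invariant subgroup. -/
@[reducible]
def modAct (Z : AddSubgroup V) (hZ : ∀ g : P, ∀ z ∈ Z, g • z ∈ Z) : DistribMulAction P (V ⧸ Z) where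
  smul g := QuotientAddGroup.map Z Z (DistribMulAction.toAddMonoidHom V g) fun z hz => hZ g z hz
  one_smul x := by
    obtain ⟨v, rfl⟩ := QuotientAddGroup.mk_surjective x
    exact congrArg QuotientAddGroup.mk (one_smul P v)
  mul_smul g h x := by
    obtain ⟨v, rfl⟩ := QuotientAddGroup.mk_surjective x
    exact congrArg QuotientAddGroup.mk (mul_smul g h v)
  smul_zero g := map_zero (QuotientAddGroup.map Z Z (DistribMulAction.toAddMonoidHom V g) _)
  smul_add g := map_add (QuotientAddGroup.map Z Z (DistribMulAction.toAddMonoidHom V g) _)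

/-- The action on an invariant subgroup. -/
@[reducible]
def subAct (W : AddSubgroup V) (hW : ∀ g : P, ∀ w ∈ W, g • w ∈ W) : DistribMulAction P ↥W where
  smul g w := ⟨g • (w : V), hW g w w.2⟩
  one_smul w := Subtype.ext (one_smul P (w : V))
  mul_smul g h w := Subtype.ext (mul_smul g h (w : V))
  smul_zero g := Subtype.ext (smul_zero g)
  smul_add g u w := Subtype.ext (smul_add g (u : V) (w : V))

theorem card_eq_ker_mul_map {X : Type*} [AddCommGroup X] (π : V →+ X) (C : AddSubgroup V) :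
    Nat.card C = Nat.card (C ⊓ π.ker : AddSubgroup V) * Nat.card (C.map π) := by
  rw [AddSubgroup.card_eq_card_quotient_mul_card_addSubgroup (π.comp C.subtype).ker, mul_comm,
    Nat.card_congr (QuotientAddGroup.quotientKerEquivRange (π.comp C.subtype)).toEquiv,
    show (π.comp C.subtype).range = C.map π by rw [AddMonoidHom.range_comp, AddSubgroup.range_subtype],
    Nat.card_congr
      { toFun := fun x : (π.comp C.subtype).ker => (⟨((x : ↥C) : V), (x : ↥C).2, x.2⟩ :
          (C ⊓ π.ker : AddSubgroup V))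
        invFun := fun x => ⟨⟨(x : V), x.2.1⟩, x.2.2⟩
        left_inv := fun _ => rfl
        right_inv := fun _ => rfl }]

variable [Finite P] [hp : Fact p.Prime]

/-- A normal subgroup not containing the residual has no nontrivial `p`-element. -/
theorem eq_one_of_mem_normal (hmin : Cfsg.IsPMinimal p P) (hcore : Cfsg.pCore p P = ⊥) {N : Subgroup P}
    [N.Normal] (hN : ¬ Cfsg.pResidual p P ≤ N) {g : P} (hgN : g ∈ N) (hg : ∃ k : ℕ, g ^ p ^ k = 1) :
    g = 1 := by
  have hgp : IsPGroup p (Subgroup.zpowers g) := by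
    rintro ⟨x, hx⟩
    obtain ⟨i, rfl⟩ := Subgroup.mem_zpowers_iff.1 hx
    obtain ⟨k, hk⟩ := hg
    refine ⟨k, Subtype.ext ?_⟩
    show (g ^ i) ^ p ^ k = 1
    rw [← zpow_natCast, ← zpow_mul, mul_comm, zpow_mul, zpow_natCast, hk, one_zpow]
  obtain ⟨T, hT⟩ := hgp.exists_le_sylow
  by_cases hNT : N ⊔ (T : Subgroup P) = ⊤
  · refine absurd (Cores.pResidual_le_of_isPGroup_quotient fun q => ?_) hN
    obtain ⟨x, rfl⟩ := QuotientGroup.mk_surjective q
    have hx : x ∈ ((N : Set P) * ((T : Subgroup P) : Set P)) := by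
      rw [← Subgroup.normal_mul, hNT]; exact Subgroup.mem_top x
    obtain ⟨n, hn, t, ht, rfl⟩ := hx
    obtain ⟨k, hk⟩ := T.2 ⟨t, ht⟩
    refine ⟨k, ?_⟩
    rw [QuotientGroup.mk_mul, (QuotientGroup.eq_one_iff n).2 hn, one_mul, ← QuotientGroup.mk_pow,
      show t ^ p ^ k = 1 from congrArg Subtype.val hk, QuotientGroup.mk_one]
  · obtain ⟨M, hM, hNM⟩ := (eq_top_or_exists_le_coatom _).resolve_left hNT
    obtain ⟨M0, -, huq⟩ := (hmin T).2
    have huniq : ∀ H : Subgroup P, H ≠ ⊤ → (T : Subgroup P) ≤ H → H ≤ M := fun H hH hTH => by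
      obtain ⟨M', hM', hHM'⟩ := (eq_top_or_exists_le_coatom H).resolve_left hH
      rw [huq M ⟨hM, le_sup_right.trans hNM⟩, ← huq M' ⟨hM', hTH.trans hHM'⟩]
      exact hHM'
    have h1 : g ∈ Cfsg.pCore p P :=
      inf_normal_le_pCore T hM.1 huniq (le_sup_left.trans hNM) ⟨hT (Subgroup.mem_zpowers g), hgN⟩
    rwa [hcore, Subgroup.mem_bot] at h1

variable [Finite V]

/-- The case of a module all of whose proper invariant subgroups are fixed by the residual. -/
theorem exists_moved_fix_aux (hmin : Cfsg.IsPMinimal p P) (hcore : Cfsg.pCore p P = ⊥)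
    (hexp : ∀ v : V, p • v = 0)
    (hfaith : ∀ g : P, (∃ k : ℕ, g ^ p ^ k = 1) → (∀ v : V, g • v = v) → g = 1)
    (hZtop : fixV (V := V) (Cfsg.pResidual p P) ≠ ⊤)
    (hmax : ∀ Y : AddSubgroup V, (∀ g : P, ∀ y ∈ Y, g • y ∈ Y) → Y ≠ ⊤ →
      Y ≤ fixV (Cfsg.pResidual p P))
    {A : Subgroup P} (hA : EA p A) (hne : A ≠ ⊥) (hw : Nat.card V ≤ wt V A) (T : Sylow p P) :
    ∃ v ∈ fixV (V := V) (T : Subgroup P), v ∉ fixV (⊤ : Subgroup P) := by
  classical
  set K := Cfsg.pResidual p P with hK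
  set Z := fixV (V := V) K with hZdef
  haveI hKn : K.Normal := normal_pResidual P p
  have hZ : ∀ g : P, ∀ z ∈ Z, g • z ∈ Z := by
    intro g z hz k hk
    have h1 := hz _ (hKn.conj_mem k hk g⁻¹)
    rw [mul_smul, mul_smul, inv_inv, inv_smul_eq_iff] at h1
    exact h1
  letI := modAct Z hZ
  haveI : Finite (V ⧸ Z) := Finite.of_surjective _ QuotientAddGroup.mk_surjective
  let π : V →+ V ⧸ Z := QuotientAddGroup.mk' Z
  have hker : π.ker = Z := QuotientAddGroup.ker_mk' Z
  have hπ0 : ∀ {v : V}, π v = 0 ↔ v ∈ Z := fun {v} => QuotientAddGroup.eq_zero_iff v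
  have hπ : ∀ (g : P) (v : V), π (g • v) = g • π v := fun _ _ => rfl
  have hsurj : Function.Surjective π := QuotientAddGroup.mk'_surjective Z
  have hnofix : ¬ ∀ (k : P) (x : V ⧸ Z), k ∈ K → k • x = x := by
    intro h
    refine hZtop (eq_top_iff.2 fun v _ k hk => ?_)
    have hgen : K ≤ MulAction.stabilizer P v := by
      refine (Subgroup.closure_le _).2 fun k (hk : (orderOf k).Coprime p) => ?_
      have hkK : k ∈ K := Cores.mem_pResidual_of_coprime hk
      refine smul_eq_of_coprime hexp hk ((?_ : k • v - v ∈ Z) k hkK)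
      rw [← hπ0, map_sub, hπ, h k _ hkK, sub_self]
    exact hgen hk
  have hkerN : (trivMod (P := P) Z).Normal :=
    Subgroup.normalizer_eq_top_iff.1 (top_le_iff.1 (le_normalizer_trivMod fun g _ => hZ g))
  have D : Hyp P (V ⧸ Z) p :=
    { pmin := hmin
      core := hcore
      faithp := fun g hg hgt => by
        refine eq_one_of_mem_normal hmin hcore (N := trivMod Z) (fun hle => hnofix fun k x hk => ?_) ?_ hg
        · obtain ⟨v, rfl⟩ := hsurj x
          rw [← hπ, ← sub_eq_zero, ← map_sub, hπ0]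
          exact hle hk v
        · intro v
          rw [← hπ0, map_sub, hπ, hgt, sub_self]
      exp := fun x => by
        obtain ⟨v, rfl⟩ := hsurj x
        rw [← map_nsmul, hexp, map_zero]
      nontriv := by
        by_contra h
        rw [not_nontrivial_iff_subsingleton] at h
        exact hnofix fun k x _ => Subsingleton.elim _ _
      irr := fun Y hY => by
        by_cases h : Y.comap π = ⊤
        · refine Or.inr (eq_top_iff.2 fun x _ => ?_)
          obtain ⟨v, rfl⟩ := hsurj x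
          exact (h.ge (AddSubgroup.mem_top v) : v ∈ Y.comap π)
        · refine Or.inl (eq_bot_iff.2 fun x hx => ?_)
          obtain ⟨v, rfl⟩ := hsurj x
          exact AddSubgroup.mem_bot.2 (hπ0.2 (hmax _ (fun g y hy => by
            show π (g • y) ∈ Y
            rw [hπ]; exact hY g _ hy) h hx))
      nofix := by
        by_contra hne'
        obtain ⟨x, hx, hx0⟩ : ∃ x ∈ fixV (V := V ⧸ Z) (⊤ : Subgroup P), x ≠ 0 := by
          by_contra h
          push Not at h
          exact hne' (eq_bot_iff.2 fun x hx => AddSubgroup.mem_bot.2 (h x hx))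
        obtain ⟨v, rfl⟩ := hsurj x
        have htop : (fixV (V := V ⧸ Z) (⊤ : Subgroup P)).comap π = ⊤ := by
          by_contra h
          refine hx0 (hπ0.2 (hmax _ (fun g y hy => ?_) h hx))
          show π (g • y) ∈ fixV ⊤
          rw [hπ, (hy : π y ∈ fixV ⊤) g trivial]
          exact hy
        refine hnofix fun k x _ => ?_
        obtain ⟨v, rfl⟩ := hsurj x
        exact (htop.ge (AddSubgroup.mem_top v) : π v ∈ fixV ⊤) k trivial }
  have hcard : Nat.card V = Nat.card Z * Nat.card (V ⧸ Z) := by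
    rw [AddSubgroup.card_eq_card_quotient_mul_card_addSubgroup Z, mul_comm]
  have hmap : ∀ B : Subgroup P, (fixV (V := V) B).map π ≤ fixV B := by
    rintro B _ ⟨v, hv, rfl⟩ b hb
    rw [← hπ, hv b hb]
  have hbound : ∀ B : Subgroup P, EA p B → wt V B ≤ Nat.card V ∧
      (Nat.card V ≤ wt V B → Z ≤ fixV B ∧ wt (V ⧸ Z) B = Nat.card (V ⧸ Z)) := by
    intro B hB
    have h1 := card_eq_ker_mul_map π (fixV (V := V) B)
    rw [hker] at h1
    have h2 : Nat.card (fixV (V := V) B ⊓ Z : AddSubgroup V) ≤ Nat.card Z :=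
      AddSubgroup.card_le_of_le inf_le_right
    have h3 : Nat.card B * Nat.card ((fixV (V := V) B).map π) ≤ wt (V ⧸ Z) B :=
      Nat.mul_le_mul_left _ (AddSubgroup.card_le_of_le (hmap B))
    have h4 := wt_le D hB
    have h5 : wt V B = Nat.card (fixV (V := V) B ⊓ Z : AddSubgroup V) *
        (Nat.card B * Nat.card ((fixV (V := V) B).map π)) := by rw [wt, h1]; ring
    refine ⟨?_, fun hle => ⟨?_, le_antisymm h4 ?_⟩⟩
    · rw [h5, hcard]; exact Nat.mul_le_mul h2 (h3.trans h4)
    · refine (inf_eq_right.1 (AddSubgroup.eq_of_le_of_card_ge inf_le_right ?_))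
      rw [h5, hcard] at hle
      exact Nat.le_of_mul_le_mul_right (hle.trans (Nat.mul_le_mul_left _ (h3.trans h4))) Nat.card_pos
    · rw [h5, hcard] at hle
      exact (Nat.le_of_mul_le_mul_left (hle.trans (Nat.mul_le_mul_right _ h2)) Nat.card_pos).trans h3
  obtain ⟨E, ⟨hE, hEne, hEw⟩, hEmin⟩ := Set.exists_min_image
    {B : Subgroup P | EA p B ∧ B ≠ ⊥ ∧ Nat.card V ≤ wt V B} (fun B => Nat.card B) (Set.toFinite _)
    ⟨A, hA, hne, hw⟩
  obtain ⟨hEZ, hEX⟩ := (hbound E hE).2 hEw
  have hEq : Quad (X := V) E := quad_of_minimal (isPGroup_of_exp hexp) hE.isPGroup hE.comm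
    (fun B hB => (hbound B (hE.mono hB)).1.trans hEw) fun B hB hBne hBw =>
      Subgroup.eq_of_le_of_card_ge hB (hEmin B ⟨hE.mono hB, hBne, hBw ▸ hEw⟩)
  obtain ⟨A0, ⟨hA0E, hA0ne, hA0w⟩, hA0min⟩ := Set.exists_min_image
    {B : Subgroup P | B ≤ E ∧ B ≠ ⊥ ∧ wt (V ⧸ Z) B = Nat.card (V ⧸ Z)} (fun B => Nat.card B)
    (Set.toFinite _) ⟨E, le_rfl, hEne, hEX⟩
  have h0 : Mem (V ⧸ Z) p A0 := ⟨hE.mono hA0E, hA0ne, hA0w, fun B hB hBne hBw =>
    Subgroup.eq_of_le_of_card_ge hB (hA0min B ⟨hB.trans hA0E, hBne, hBw⟩)⟩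
  have H : Up p π A0 := ⟨hπ, hsurj, hexp, hEq.mono hA0E, fun a ha z hz => hEZ (hπ0.1 hz) a (hA0E ha)⟩
  obtain ⟨T1, A1, A1', U, hS⟩ := exists_special D h0
  obtain ⟨v, hv, hvf⟩ := H.moved D h0 hS
  obtain ⟨g, hg⟩ := MulAction.exists_smul_eq P T1 T
  refine ⟨g • v, fun t ht => ?_, fun h => hvf fun k _ => ?_⟩
  · rw [← hg, coe_smul_sylow, mem_cj] at ht
    have h1 := hv _ ht
    simp only [mul_smul, inv_inv, inv_smul_eq_iff] at h1
    exact h1
  · have h1 := h (g * k * g⁻¹) trivial
    rwa [mul_smul, mul_smul, inv_smul_smul, smul_left_cancel_iff] at h1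

/-- A fixed vector of a Sylow subgroup is moved. -/
theorem exists_moved_fix (hmin : Cfsg.IsPMinimal p P) (hcore : Cfsg.pCore p P = ⊥)
    (hexp : ∀ v : V, p • v = 0) (hfaith : ∀ g : P, (∀ v : V, g • v = v) → g = 1)
    {A : Subgroup P} (hA : EA p A) (hne : A ≠ ⊥) (hw : Nat.card V ≤ wt V A) (T : Sylow p P) :
    ∃ v ∈ fixV (V := V) (T : Subgroup P), v ∉ fixV (⊤ : Subgroup P) := by
  classical
  set K := Cfsg.pResidual p P with hK
  have hnot : ¬ (⊤ : AddSubgroup V) ≤ fixV K := by
    intro h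
    have hK0 : K = ⊥ := (Subgroup.eq_bot_iff_forall _).2 fun k hk =>
      hfaith k fun v => h (AddSubgroup.mem_top v) k hk
    have h1 := LocalP.pResidual_sup_eq_top T
    rw [← hK, hK0, bot_sup_eq] at h1
    exact (hmin T).1 (by rw [h1]; infer_instance)
  obtain ⟨W, ⟨hW, hWK⟩, hWmin⟩ := (Set.toFinite
    {W : AddSubgroup V | (∀ g : P, ∀ w ∈ W, g • w ∈ W) ∧ ¬ W ≤ fixV K}).exists_minimal
    ⟨⊤, fun _ _ _ => trivial, hnot⟩
  letI := subAct W hW
  have hfix : ∀ (B : Subgroup P), fixV (V := ↥W) B = (fixV (V := V) B).comap W.subtype := fun B => by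
    ext w
    exact ⟨fun h b hb => congrArg Subtype.val (h b hb), fun h b hb => Subtype.ext (h b hb)⟩
  have hfp : ∀ g : P, (∃ k : ℕ, g ^ p ^ k = 1) → (∀ w : ↥W, g • w = w) → g = 1 := by
    intro g hg hgt
    haveI : (LAE79.pointwiseV (P := P) W).Normal := ⟨fun n hn a w hw => by
      rw [mul_smul, mul_smul, hn _ (hW _ w hw), smul_inv_smul]⟩
    refine eq_one_of_mem_normal hmin hcore (N := LAE79.pointwiseV W)
      (fun hle => hWK fun w hw k hk => hle hk w hw)
      (fun w hw => congrArg Subtype.val (hgt ⟨w, hw⟩)) hg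
  have hwW : Nat.card ↥W ≤ wt (↥W) A := by
    have hc : Nat.card (fixV (V := ↥W) A) = Nat.card (W ⊓ fixV (V := V) A : AddSubgroup V) := by
      rw [hfix]
      exact Nat.card_congr
        { toFun := fun w => ⟨((w : ↥W) : V), (w : ↥W).2, w.2⟩
          invFun := fun v => ⟨⟨(v : V), v.2.1⟩, v.2.2⟩
          left_inv := fun _ => rfl
          right_inv := fun _ => rfl }
    refine Nat.le_of_mul_le_mul_right ?_ (Nat.card_pos (α := fixV (V := V) A))
    calc Nat.card ↥W * Nat.card (fixV (V := V) A)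
        ≤ Nat.card V * Nat.card (W ⊓ fixV (V := V) A : AddSubgroup V) :=
          (LocEven.Chermak.card_add_mul_le _ _).trans
            (Nat.mul_le_mul_right _ (AddSubgroup.card_le_card_addGroup _))
      _ ≤ wt V A * Nat.card (W ⊓ fixV (V := V) A : AddSubgroup V) := Nat.mul_le_mul_right _ hw
      _ = _ := by rw [wt, wt, hc]; ring
  obtain ⟨v, hv, hvf⟩ := exists_moved_fix_aux (V := ↥W) hmin hcore (fun w => Subtype.ext (hexp w)) hfp
    (fun h => hWK fun w hw k hk =>
      congrArg Subtype.val (h.ge (AddSubgroup.mem_top (⟨w, hw⟩ : ↥W)) k hk))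
    (fun Y hY hYtop => by
      rw [hfix]
      intro y hy
      by_contra hyK
      refine hYtop (eq_top_iff.2 fun w _ => ?_)
      have h1 : W ≤ Y.map W.subtype := hWmin
        ⟨fun g x hx => by
          obtain ⟨y', hy', rfl⟩ := hx
          exact ⟨g • y', hY g y' hy', rfl⟩,
        fun hle => hyK (hle ⟨y, hy, rfl⟩)⟩
        (AddSubgroup.map_subtype_le Y)
      obtain ⟨y', hy', e⟩ := h1 w.2
      exact (Subtype.ext e : y' = w) ▸ hy')
    hA hne hwW T
  refine ⟨(v : V), fun t ht => congrArg Subtype.val (hv t ht), fun h => hvf fun g hg => ?_⟩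
  exact Subtype.ext (h g hg)

end Cfsg.Agent.MovesFix
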