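import Mathlib
import Cfsg.Agent.MovesFix.Module

/-!
A member with a partner acting as `SL₂` on a plane, in coordinates.
-/

set_option autoImplicit false
set_option linter.unusedSectionVars false
set_option linter.style.haveILetI false

namespace Cfsg.Agent.MovesFix

open scoped Pointwise MatrixGroups
open LAE79 (fixV mem_fixV)
open Fusion (cj mem_cj cj_cj cj_one cj_mono cj_eq_of_mem cj_eq_iff_mem_normalizer
  isPGroup_cj cj_inv_cj cj_cj_inv card_cj coe_smul_sylow conj_mem_cj)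

theorem exists_sl2_col {F : Type*} [Field F] {e : Fin 2 → F} (he : e ≠ 0) :
    ∃ M : Matrix.SpecialLinearGroup (Fin 2) F, (M : Matrix (Fin 2) (Fin 2) F).mulVec ![1, 0] = e := by
  by_cases h0 : e 0 = 0
  · have h1 : e 1 ≠ 0 := fun h1 => he (funext fun i => by fin_cases i <;> assumption)
    refine ⟨⟨!![0, -(e 1)⁻¹; e 1, 0], by simp [Matrix.det_fin_two, h1]⟩, ?_⟩
    funext i; fin_cases i <;> simp [h0]
  · refine ⟨⟨!![e 0, 0; e 1, (e 0)⁻¹], by simp [Matrix.det_fin_two, h0]⟩, ?_⟩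
    funext i; fin_cases i <;> simp

variable {P : Type*} [Group P] {X : Type*} [AddCommGroup X] [DistribMulAction P X] {p : ℕ}

variable (X) in
/-- Coordinates for `L` on `X / C_X(L)` in which `A` fixes the first axis. -/
structure Coord (A L : Subgroup P) (F : Type) [Field F] where
  /-- The representation. -/
  ρ : ↥L →* Matrix.SpecialLinearGroup (Fin 2) F
  /-- The coordinates. -/
  ψ : X →+ (Fin 2 → F)
  ρsurj : Function.Surjective ρ
  ρinj : Function.Injective ρ
  ψsurj : Function.Surjective ψ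
  ker : ∀ x : X, ψ x = 0 ↔ x ∈ fixV L
  equiv : ∀ (g : ↥L) (x : X), ψ ((g : P) • x) = (ρ g : Matrix (Fin 2) (Fin 2) F).mulVec (ψ x)
  line : ∀ x : X, x ∈ fixV A ↔ ψ x 1 = 0

theorem mem_cj_iff_smul {t g : P} {A : Subgroup P} : g ∈ cj t A ↔ t⁻¹ * g * t ∈ A := by
  rw [mem_cj]

theorem comm_cj_le {t : P} {A : Subgroup P} {Y : AddSubgroup X} (h : ∀ y ∈ comm (X := X) A, t • y ∈ Y) :
    comm (X := X) (cj t A) ≤ Y := by
  refine comm_le fun a ha x => ?_
  have h1 := h _ (diff_mem_comm (mem_cj_iff_smul.1 ha) (t⁻¹ • x))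
  simpa [smul_sub, mul_smul] using h1

theorem smul_mem_fixV_cj {t : P} {A : Subgroup P} {x : X} (h : x ∈ fixV A) : t • x ∈ fixV (cj t A) :=
  mem_fixV_map_conj.2 (by rwa [inv_smul_smul])

theorem smul_mem_comm_cj (t : P) (A : Subgroup P) {x : X} (h : x ∈ comm (X := X) A) :
    t • x ∈ comm (X := X) (cj t A) := by
  have : comm (X := X) A ≤ (comm (cj t A)).comap (DistribSMul.toAddMonoidHom X t) :=
    comm_le fun a ha y => by
      show t • (a • y - y) ∈ comm (cj t A)
      rw [show t • (a • y - y) = (t * a * t⁻¹) • (t • y) - t • y by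
        rw [mul_smul, mul_smul, inv_smul_smul, smul_sub]]
      exact diff_mem_comm (conj_mem_cj.2 ha) _
  exact this h

variable [Finite P] [hp : Fact p.Prime] [Finite X] (D : Hyp P X p)

variable (X) in
include D in
/-- A member `A` with the group `L` it generates with a partner. -/
structure Plane (A0 : Subgroup P) (T : Sylow p P) (A L : Subgroup P) : Prop where
  cls : Cls A0 A
  leT : A ≤ (T : Subgroup P)
  notM : ¬ L ≤ D.Mx T
  gen : ∃ h ∈ L, L = A ⊔ Fusion.cj h A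
  comm : ∀ B, Cls A0 B → B ≤ (T : Subgroup P) → B ≠ A → ∀ b ∈ B, ∀ g ∈ L, g * b = b * g
  commFix : ∀ B, Cls A0 B → B ≤ (T : Subgroup P) → B ≠ A → MovesFix.comm (X := X) B ≤ fixV L
  fixOther : ∀ B, Cls A0 B → B ≤ (T : Subgroup P) → B ≠ A → MovesFix.comm (X := X) L ≤ fixV B
  others : ∀ x : X, ∃ u : X, (∀ B, Cls A0 B → B ≤ (T : Subgroup P) → B ≠ A → u ∈ fixV B) ∧
    x - u ∈ fixV L
  split : fixV (V := X) A ≤ MovesFix.comm A ⊔ fixV L
  nat : ∃ (F : Type) (_ : Field F) (_ : Fintype F), Fintype.card F = Nat.card A ∧ Nonempty (Coord X A L F)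
  borel : ∀ g ∈ L, g ∈ D.Mx T → ∀ x ∈ fixV (V := X) A, g • x ∈ fixV A

include D

theorem Plane.le {A0 A L : Subgroup P} {T : Sylow p P} (h : Plane X D A0 T A L) : A ≤ L := by
  obtain ⟨g, -, e⟩ := h.gen; rw [e]; exact le_sup_left

/-- A special pair gives a plane, for a faithful action. -/
theorem Special.plane {A0 : Subgroup P} {T : Sylow p P} {A A' : Subgroup P} {U : AddSubgroup X}
    (hf : ∀ g : P, (∀ x : X, g • x = x) → g = 1) (h0 : Mem X p A0) (hS : Special X D A0 T A A' U) :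
    Plane X D A0 T A (A ⊔ A') := by
  classical
  obtain ⟨k, hk, hkA⟩ := hS.conj
  have hAm := cls_mem D h0 hS.cls
  refine ⟨hS.cls, hS.leT, fun h => hS.notM (le_sup_right.trans h), ⟨k⁻¹, inv_mem hk, ?_⟩, hS.comm,
    fun B hB hBT hne => comm_le fun b hb x g hg => ?_, fun B hB hBT hne => comm_le fun g hg x =>
      hS.triv B hB hBT hne g hg x, fun x => ?_, fun x hx => ?_, ?_, hS.borel⟩
  · rw [← hkA, cj_inv_cj, hkA]
  · have h1 := hS.triv B hB hBT hne g hg x b hb
    rw [smul_sub, ← mul_smul, hS.comm B hB hBT hne b hb g hg, mul_smul]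
    rw [smul_sub] at h1
    calc b • g • x - g • x = (b • g • x - b • x) - (g • x - x) + (b • x - x) := by abel
      _ = _ := by rw [h1, sub_self, zero_add]
  · obtain ⟨u, hu, c, hc, rfl⟩ := AddSubgroup.mem_sup.1 (hS.top.ge (AddSubgroup.mem_top x))
    refine ⟨u, fun B hB hBT hne => hS.ufix B hB hBT hne hu, ?_⟩
    rwa [add_sub_cancel_left, fixV_sup]
  · obtain ⟨y, hy, hw⟩ := split_fix D h0 hS hx
    rw [← fixV_sup] at hw
    have := AddSubgroup.add_mem_sup hy hw
    rwa [add_sub_cancel] at this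
  · obtain ⟨F, iF, iFt, hF, ρ, ψ0, hρ, hψ, hψ0, hρk, hψe⟩ := hS.nat
    let ψ : X →+ (Fin 2 → F) := ψ0.comp (AddMonoidHom.mk' (fun x => (⟨x, AddSubgroup.mem_top x⟩ :
      (⊤ : AddSubgroup X))) fun _ _ => rfl)
    have hker : ∀ x : X, ψ x = 0 ↔ x ∈ fixV (A ⊔ A') := fun x => by rw [fixV_sup]; exact hψ0 _
    have hsurj : Function.Surjective ψ := fun r => by
      obtain ⟨u, hu⟩ := hψ r; exact ⟨(u : X), hu⟩
    have hequiv : ∀ (g : ↥(A ⊔ A')) (x : X),
        ψ ((g : P) • x) = (ρ g : Matrix (Fin 2) (Fin 2) F).mulVec (ψ x) := fun g x =>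
      hψe g ⟨x, AddSubgroup.mem_top _⟩ ⟨(g : P) • x, AddSubgroup.mem_top _⟩ rfl
    have hinj : Function.Injective ρ := (injective_iff_map_eq_one ρ).2 fun g hg =>
      Subtype.ext (hf _ fun x => hρk g hg ⟨x, AddSubgroup.mem_top x⟩)
    -- the fixed line
    let V1 : Submodule F (Fin 2 → F) :=
      { carrier := {r | ∀ a : ↥(A ⊔ A'), (a : P) ∈ A → (ρ a : Matrix (Fin 2) (Fin 2) F).mulVec r = r}
        zero_mem' := fun a _ => Matrix.mulVec_zero _
        add_mem' := fun {r s} hr hs a ha => by rw [Matrix.mulVec_add, hr a ha, hs a ha]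
        smul_mem' := fun c r hr a ha => by rw [Matrix.mulVec_smul, hr a ha] }
    have hV1 : ∀ x ∈ fixV (V := X) A, ψ x ∈ V1 := fun x hx a ha => by rw [← hequiv, hx a ha]
    obtain ⟨a0, ha0, ha01⟩ : ∃ a ∈ A, a ≠ 1 := by
      by_contra h
      push Not at h
      exact hAm.ne ((Subgroup.eq_bot_iff_forall _).2 h)
    have hV1ne : V1 ≠ ⊤ := fun h => ha01 (by
      have h1 : ρ ⟨a0, Subgroup.mem_sup_left ha0⟩ = 1 := Subtype.ext (Matrix.ext_of_mulVec_single fun i => by
        rw [(h.ge Submodule.mem_top : Pi.single i 1 ∈ V1) _ ha0, Matrix.SpecialLinearGroup.coe_one,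
          Matrix.one_mulVec])
      exact congrArg Subtype.val (hinj (h1.trans (map_one ρ).symm)))
    have hcardX : Nat.card X = Nat.card (fixV (V := X) (A ⊔ A')) * (Nat.card A * Nat.card A) := by
      rw [AddSubgroup.card_eq_card_quotient_mul_card_addSubgroup ψ.ker, mul_comm,
        Nat.card_congr (QuotientAddGroup.quotientKerEquivOfSurjective ψ hsurj).toEquiv, Nat.card_fun,
        Nat.card_fin, Nat.card_eq_fintype_card (α := F), hF, pow_two]
      exact congrArg (· * _) (Nat.card_congr (Equiv.subtypeEquivRight fun x =>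
        (AddMonoidHom.mem_ker).trans (hker x)))
    have himg : Nat.card A ≤ Nat.card ((fixV (V := X) A).map ψ) := by
      have h1 := card_eq_ker_mul_map ψ (fixV (V := X) A)
      have h2 : Nat.card (fixV (V := X) A ⊓ ψ.ker : AddSubgroup X) ≤
          Nat.card (fixV (V := X) (A ⊔ A')) :=
        AddSubgroup.card_le_of_le fun x hx => (hker x).1 hx.2
      refine Nat.le_of_mul_le_mul_left (c := Nat.card (fixV (V := X) (A ⊔ A'))) ?_
        (Nat.card_pos (α := ↥(fixV (V := X) (A ⊔ A'))))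
      refine Nat.le_of_mul_le_mul_left (c := Nat.card A) ?_ (Nat.card_pos (α := A))
      calc Nat.card A * (Nat.card (fixV (V := X) (A ⊔ A')) * Nat.card A) = Nat.card X := by
            rw [hcardX]; ring
        _ = Nat.card A * Nat.card (fixV (V := X) A) := (Mem.card_fix D hAm).symm
        _ ≤ _ := Nat.mul_le_mul_left _ (h1.trans_le (Nat.mul_le_mul_right _ h2))
    have hq1 : 1 < Nat.card A := by
      haveI := (Subgroup.nontrivial_iff_ne_bot A).2 hAm.ne
      exact Finite.one_lt_card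
    obtain ⟨e, ⟨x0, hx0, hx0e⟩, he0⟩ : ∃ r ∈ (fixV (V := X) A).map ψ, r ≠ 0 := by
      by_contra h
      push Not at h
      have : (fixV (V := X) A).map ψ = ⊥ := eq_bot_iff.2 fun r hr => AddSubgroup.mem_bot.2 (h r hr)
      rw [this, AddSubgroup.card_bot] at himg
      omega
    have hspan : Submodule.span F {e} = V1 := by
      refine Submodule.eq_of_le_of_finrank_le ?_ ?_
      · rw [Submodule.span_le, Set.singleton_subset_iff, ← hx0e]; exact hV1 x0 hx0
      · rw [finrank_span_singleton he0]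
        have := Submodule.finrank_lt hV1ne
        rw [Module.finrank_fin_fun] at this
        omega
    have hline : ∀ x, x ∈ fixV A ↔ ψ x ∈ Submodule.span F {e} := by
      intro x
      refine ⟨fun h => hspan.symm ▸ hV1 x h, fun h => ?_⟩
      have heq : ((fixV (V := X) A).map ψ : Set (Fin 2 → F)) = (Submodule.span F {e} : Set (Fin 2 → F)) := by
        refine Set.eq_of_subset_of_ncard_le ?_ ?_ (Set.toFinite _)
        · rintro _ ⟨y, hy, rfl⟩
          exact hspan.symm ▸ hV1 y hy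
        · rw [← Nat.card_coe_set_eq, ← Nat.card_coe_set_eq]
          refine le_trans (le_of_eq ?_) himg
          show Nat.card ↥(Submodule.span F {e}) = _
          rw [Nat.card_congr (LinearEquiv.toSpanNonzeroSingleton F _ e he0).toEquiv.symm,
            Nat.card_eq_fintype_card, hF]
      have hx : ψ x ∈ ((fixV (V := X) A).map ψ : Set (Fin 2 → F)) := heq ▸ h
      obtain ⟨y, hy, hye⟩ := hx
      have h1 : x - y ∈ fixV (A ⊔ A') := (hker _).1 (by rw [map_sub, hye, sub_self])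
      have := add_mem (fixV_anti le_sup_left h1) hy
      rwa [sub_add_cancel] at this
    obtain ⟨M1, hM1⟩ := exists_sl2_col he0
    refine ⟨F, iF, iFt, hF, ⟨⟨(MulAut.conj M1⁻¹).toMonoidHom.comp ρ,
      (Matrix.mulVecLin ((M1⁻¹ : Matrix.SpecialLinearGroup (Fin 2) F) :
        Matrix (Fin 2) (Fin 2) F)).toAddMonoidHom.comp ψ,
      (MulAut.conj M1⁻¹).surjective.comp hρ, (MulAut.conj M1⁻¹).injective.comp hinj, fun r => ?_,
      fun x => ?_, fun g x => ?_, fun x => ?_⟩⟩⟩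
    · obtain ⟨x, hx⟩ := hsurj ((M1 : Matrix (Fin 2) (Fin 2) F).mulVec r)
      refine ⟨x, ?_⟩
      show ((M1⁻¹ : Matrix.SpecialLinearGroup (Fin 2) F) : Matrix (Fin 2) (Fin 2) F).mulVec (ψ x) = r
      rw [hx, Matrix.mulVec_mulVec, ← Matrix.SpecialLinearGroup.coe_mul, inv_mul_cancel,
        Matrix.SpecialLinearGroup.coe_one, Matrix.one_mulVec]
    · show ((M1⁻¹ : Matrix.SpecialLinearGroup (Fin 2) F) : Matrix (Fin 2) (Fin 2) F).mulVec (ψ x) = 0 ↔ _
      rw [← hker]
      refine ⟨fun h => ?_, fun h => by rw [h, Matrix.mulVec_zero]⟩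
      have := congrArg ((M1 : Matrix (Fin 2) (Fin 2) F).mulVec) h
      rwa [Matrix.mulVec_mulVec, ← Matrix.SpecialLinearGroup.coe_mul, mul_inv_cancel,
        Matrix.SpecialLinearGroup.coe_one, Matrix.one_mulVec, Matrix.mulVec_zero] at this
    · show ((M1⁻¹ : Matrix.SpecialLinearGroup (Fin 2) F) : Matrix (Fin 2) (Fin 2) F).mulVec
          (ψ ((g : P) • x)) =
        ((M1⁻¹ * ρ g * (M1⁻¹)⁻¹ : Matrix.SpecialLinearGroup (Fin 2) F) : Matrix (Fin 2) (Fin 2) F).mulVec
          (((M1⁻¹ : Matrix.SpecialLinearGroup (Fin 2) F) : Matrix (Fin 2) (Fin 2) F).mulVec (ψ x))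
      rw [hequiv, Matrix.mulVec_mulVec, Matrix.mulVec_mulVec, ← Matrix.SpecialLinearGroup.coe_mul,
        ← Matrix.SpecialLinearGroup.coe_mul, inv_mul_cancel_right]
    · show x ∈ fixV A ↔
        ((M1⁻¹ : Matrix.SpecialLinearGroup (Fin 2) F) : Matrix (Fin 2) (Fin 2) F).mulVec (ψ x) 1 = 0
      rw [hline, Submodule.mem_span_singleton]
      constructor
      · rintro ⟨c, hc⟩
        rw [← hc, ← hM1, Matrix.mulVec_smul, Matrix.mulVec_mulVec, ← Matrix.SpecialLinearGroup.coe_mul,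
          inv_mul_cancel, Matrix.SpecialLinearGroup.coe_one, Matrix.one_mulVec]
        simp
      · intro h
        set r := ((M1⁻¹ : Matrix.SpecialLinearGroup (Fin 2) F) : Matrix (Fin 2) (Fin 2) F).mulVec (ψ x)
          with hr
        refine ⟨r 0, ?_⟩
        have h2 : r = r 0 • ![(1 : F), 0] := by funext i; fin_cases i <;> simp [h]
        have h3 : (M1 : Matrix (Fin 2) (Fin 2) F).mulVec r = ψ x := by
          rw [hr, Matrix.mulVec_mulVec, ← Matrix.SpecialLinearGroup.coe_mul, mul_inv_cancel,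
            Matrix.SpecialLinearGroup.coe_one, Matrix.one_mulVec]
        rw [← h3]
        conv_rhs => rw [h2]
        rw [Matrix.mulVec_smul, hM1]

/-- Transport of a plane by the Sylow subgroup. -/
theorem Plane.conj {A0 A L : Subgroup P} {T : Sylow p P} (h : Plane X D A0 T A L) {t : P}
    (ht : t ∈ (T : Subgroup P)) : Plane X D A0 T (Fusion.cj t A) (Fusion.cj t L) := by
  have hT : ∀ {s : P}, s ∈ (T : Subgroup P) → ∀ {B : Subgroup P}, B ≤ (T : Subgroup P) →
      Fusion.cj s B ≤ (T : Subgroup P) := fun hs _ hB =>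
    (cj_mono _ hB).trans_eq (Fusion.cj_eq_self_of_mem hs)
  have hback : ∀ {B}, Cls A0 B → B ≤ (T : Subgroup P) → B ≠ Fusion.cj t A →
      Cls A0 (Fusion.cj t⁻¹ B) ∧ Fusion.cj t⁻¹ B ≤ (T : Subgroup P) ∧ Fusion.cj t⁻¹ B ≠ A :=
    fun {B} hB hBT hne => ⟨hB.cj _, hT (inv_mem ht) hBT, fun e => hne (by rw [← e, cj_cj_inv])⟩
  refine ⟨h.cls.cj t, hT ht h.leT, fun hc => h.notM ?_, ?_, fun B hB hBT hne b hb g hg => ?_,
    fun B hB hBT hne => ?_, fun B hB hBT hne => ?_, fun x => ?_, fun x hx => ?_, ?_, fun g hg hgM x hx => ?_⟩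
  · exact (cj_inv_cj t L).ge.trans ((cj_mono t⁻¹ hc).trans_eq
      (Fusion.cj_eq_self_of_mem (inv_mem (D.le_mx T ht))))
  · obtain ⟨k, hk, e⟩ := h.gen
    refine ⟨t * k * t⁻¹, conj_mem_cj.2 hk, ?_⟩
    rw [e, cj_cj, show t * k * t⁻¹ * t = t * k by group, ← cj_cj]
    exact Subgroup.map_sup _ _ _
  · obtain ⟨hB', hB'T, hne'⟩ := hback hB hBT hne
    have h1 := h.comm _ hB' hB'T hne' (t⁻¹ * b * t) (Fusion.mem_cj_inv.2 (by simpa [mul_assoc] using hb))
      _ (mem_cj_iff_smul.1 hg)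
    calc g * b = t * ((t⁻¹ * g * t) * (t⁻¹ * b * t)) * t⁻¹ := by group
      _ = _ := by rw [h1]; group
  · obtain ⟨hB', hB'T, hne'⟩ := hback hB hBT hne
    rw [← cj_cj_inv t B]
    exact comm_cj_le fun y hy => smul_mem_fixV_cj (h.commFix _ hB' hB'T hne' hy)
  · obtain ⟨hB', hB'T, hne'⟩ := hback hB hBT hne
    rw [← cj_cj_inv t B]
    exact comm_cj_le fun y hy => smul_mem_fixV_cj (h.fixOther _ hB' hB'T hne' hy)
  · obtain ⟨u, hu, hw⟩ := h.others (t⁻¹ • x)
    refine ⟨t • u, fun B hB hBT hne => ?_, ?_⟩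
    · obtain ⟨hB', hB'T, hne'⟩ := hback hB hBT hne
      rw [← cj_cj_inv t B]
      exact smul_mem_fixV_cj (hu _ hB' hB'T hne')
    · have := smul_mem_fixV_cj (t := t) hw
      rwa [smul_sub, smul_inv_smul] at this
  · obtain ⟨y, hy, w, hw, e⟩ := AddSubgroup.mem_sup.1 (h.split (mem_fixV_map_conj.1 hx))
    refine AddSubgroup.mem_sup.2 ⟨t • y, smul_mem_comm_cj t A hy, t • w, smul_mem_fixV_cj hw, ?_⟩
    rw [← smul_add, e, smul_inv_smul]
  · obtain ⟨F, iF, iFt, hF, ⟨C⟩⟩ := h.nat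
    let c : ↥(Fusion.cj t L) →* ↥L :=
      { toFun := fun g => ⟨t⁻¹ * (g : P) * t, mem_cj_iff_smul.1 g.2⟩
        map_one' := Subtype.ext (by simp)
        map_mul' := fun a b => Subtype.ext (by
          show t⁻¹ * ((a : P) * b) * t = t⁻¹ * a * t * (t⁻¹ * b * t)
          group) }
    refine ⟨F, iF, iFt, by rw [hF, card_cj], ⟨⟨C.ρ.comp c,
      C.ψ.comp (DistribSMul.toAddMonoidHom X t⁻¹), fun m => ?_, fun a b e => ?_, fun r => ?_,
      fun x => ?_, fun g x => ?_, fun x => ?_⟩⟩⟩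
    · obtain ⟨g, hg⟩ := C.ρsurj m
      refine ⟨⟨t * g * t⁻¹, conj_mem_cj.2 g.2⟩, ?_⟩
      rw [← hg]
      show C.ρ (c _) = C.ρ g
      exact congrArg C.ρ (Subtype.ext (by show t⁻¹ * (t * (g : P) * t⁻¹) * t = g; group))
    · have h1 : t⁻¹ * (a : P) * t = t⁻¹ * b * t := congrArg Subtype.val (C.ρinj e)
      exact Subtype.ext (mul_left_cancel (mul_right_cancel h1))
    · obtain ⟨x, hx⟩ := C.ψsurj r
      exact ⟨t • x, (congrArg C.ψ (inv_smul_smul t x)).trans hx⟩
    · exact (C.ker _).trans mem_fixV_map_conj.symm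
    · show C.ψ (t⁻¹ • (g : P) • x) = _
      rw [show t⁻¹ • (g : P) • x = ((c g : ↥L) : P) • (t⁻¹ • x) by
        show t⁻¹ • (g : P) • x = (t⁻¹ * (g : P) * t) • (t⁻¹ • x)
        rw [mul_smul, mul_smul, smul_inv_smul]]
      exact C.equiv (c g) _
    · exact mem_fixV_map_conj.trans (C.line _)
  · have h1 := h.borel _ (mem_cj_iff_smul.1 hg)
      (mul_mem (mul_mem (inv_mem (D.le_mx T ht)) hgM) (D.le_mx T ht)) _ (mem_fixV_map_conj.1 hx)
    rw [mul_smul, mul_smul, smul_inv_smul] at h1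
    exact mem_fixV_map_conj.2 h1

end Cfsg.Agent.MovesFix
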