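import Mathlib
import Cfsg.Agent.MovesFix.Plane

/-!
For a plane the displacements of the member meet the fixed points of the plane trivially.
-/

set_option autoImplicit false
set_option linter.unusedSectionVars false
set_option linter.style.haveILetI false

namespace Cfsg.Agent.MovesFix

open scoped Pointwise MatrixGroups
open LAE79 (fixV mem_fixV)
open Fusion (cj mem_cj cj_cj cj_one cj_mono cj_eq_of_mem cj_eq_iff_mem_normalizer
  isPGroup_cj cj_inv_cj cj_cj_inv card_cj coe_smul_sylow conj_mem_cj)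

variable {P : Type*} [Group P] {X : Type*} [AddCommGroup X] [DistribMulAction P X] {p : ℕ}
  [Finite P] [hp : Fact p.Prime] [Finite X] (D : Hyp P X p) {A0 A L : Subgroup P} {T : Sylow p P}

include D

omit [Finite X] in
theorem mem_of_cls [Finite X] (h0 : Mem X p A0) {C : Subgroup P} (hC : Cls A0 C) : EA p C :=
  (cls_mem D h0 hC).ea

/-- A member commuting with the members of `T` lies in `T`. -/
theorem mem_of_commute (h0 : Mem X p A0) {C : Subgroup P} (hC : Cls A0 C)
    (h : ∀ B, Cls A0 B → B ≤ (T : Subgroup P) → ∀ b ∈ B, ∀ c ∈ C, c * b = b * c) :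
    C ≤ (T : Subgroup P) := by
  have hJ := memIn_commute D h0 T.2
  have hJc : ∀ a ∈ join A0 (T : Subgroup P), ∀ c ∈ C, a * c = c * a := fun a ha c hc =>
    (Subgroup.mem_centralizer_singleton_iff.1 ((sSup_le (fun B hB b hb =>
      Subgroup.mem_centralizer_singleton_iff.2 (h B hB.1 hB.2 b hb c hc).symm) :
        join A0 (T : Subgroup P) ≤ Subgroup.centralizer ({c} : Set P)) ha))
  obtain ⟨T5, hT5⟩ := (ea_sup hJ (mem_of_cls D h0 hC) hJc).isPGroup.exists_le_sylow
  exact (le_join hC (le_sup_right.trans hT5)).trans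
    ((join_eq D (le_sup_left.trans hT5)).le.trans (join_le _ _))

/-- Members one of which fixes the displacements of the other commute. -/
theorem commute_of_comm_le (hf : ∀ g : P, (∀ x : X, g • x = x) → g = 1) (h0 : Mem X p A0)
    {C1 C2 : Subgroup P} (h1 : Cls A0 C1) (h2 : Cls A0 C2) (h : comm (X := X) C1 ≤ fixV C2) :
    ∀ a ∈ C1, ∀ b ∈ C2, a * b = b * a := by
  have m1 := cls_mem D h0 h1
  have m2 := cls_mem D h0 h2
  obtain ⟨k, -, hkt, hk, -⟩ := crit D.exp m1.ea.isPGroup m2.ea.isPGroup (Mem.quad D m1) (Mem.quad D m2) h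
  rw [hf k hkt, cj_one] at hk
  exact Mem.commute D m1 m2 hk

theorem Plane.inter_bot (hP : Plane X D A0 T A L) {x : X}
    (hx : ∀ t ∈ (T : Subgroup P), x ∈ fixV (Fusion.cj t L)) : x = 0 := by
  classical
  set Y : AddSubgroup X := ⨅ t : ↥(T : Subgroup P), fixV (Fusion.cj (t : P) L) with hY
  have hmem : ∀ {y : X}, y ∈ Y ↔ ∀ t ∈ (T : Subgroup P), y ∈ fixV (Fusion.cj t L) := fun {y} => by
    rw [hY, AddSubgroup.mem_iInf, Subtype.forall]
  have hT : (T : Subgroup P) ≤ LAE79.stabV Y := fun s hs => LAE79.mem_stabV_of_forall fun y hy =>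
    hmem.2 fun t ht => by
      have := smul_mem_fixV_cj (t := s) (hmem.1 hy _ (mul_mem (inv_mem hs) ht))
      rwa [cj_cj, mul_inv_cancel_left] at this
  have hL : L ≤ LAE79.stabV Y := fun g hg => LAE79.mem_stabV_of_forall fun y hy => by
    have := hmem.1 hy 1 (one_mem _)
    rw [cj_one] at this
    rwa [this g hg]
  have htop : LAE79.stabV (P := P) Y = ⊤ := by
    by_contra hne
    exact hP.notM (hL.trans (D.uniq T hne hT))
  have hinv : ∀ g : P, ∀ y ∈ Y, g • y ∈ Y := fun g y hy =>
    ((htop.ge (Subgroup.mem_top g) : g ∈ LAE79.stabV Y) y).2 hy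
  rcases D.irr Y hinv with h | h
  · exact AddSubgroup.mem_bot.1 (h ▸ hmem.2 hx)
  · exfalso
    refine hP.notM (le_trans (fun g hg => ?_) (D.le_mx T))
    obtain ⟨F, _, _, -, ⟨C⟩⟩ := hP.nat
    have h1 : C.ρ ⟨g, hg⟩ = 1 := by
      refine Subtype.ext (Matrix.ext_of_mulVec_single fun i => ?_)
      obtain ⟨y, hy⟩ := C.ψsurj (Pi.single i 1)
      have hy' := hmem.1 (h.ge (AddSubgroup.mem_top y)) 1 (one_mem _)
      rw [cj_one] at hy'
      rw [← hy, ← C.equiv, hy' g hg, Matrix.SpecialLinearGroup.coe_one, Matrix.one_mulVec]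
    have h2 := congrArg Subtype.val (C.ρinj (h1.trans (map_one _).symm))
    rw [show g = 1 from h2]
    exact one_mem _

/-- The first axis is not fixed by the plane. -/
theorem Plane.comm_not_fix (hP : Plane X D A0 T A L) : ¬ MovesFix.comm (X := X) A ≤ fixV L := by
  intro h
  obtain ⟨F, _, _, -, ⟨C⟩⟩ := hP.nat
  obtain ⟨x, hx⟩ := C.ψsurj ![1, 0]
  have h1 : x ∈ fixV L := (hP.split.trans (sup_le h le_rfl)) ((C.line x).2 (by rw [hx]; simp))
  rw [← C.ker, hx] at h1
  simpa using congrFun h1 0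

/-- The only member of `T` inside the plane is its axis member. -/
theorem Plane.eq_of_le (h0 : Mem X p A0) (hP : Plane X D A0 T A L) {C : Subgroup P} (hC : Cls A0 C)
    (hCL : C ≤ L) (hCT : C ≤ (T : Subgroup P)) : C = A := by
  by_contra hne
  obtain ⟨b, hb, hb1⟩ : ∃ b ∈ C, b ≠ 1 := by
    by_contra h
    push Not at h
    exact (cls_mem D h0 hC).ne ((Subgroup.eq_bot_iff_forall _).2 h)
  obtain ⟨F, _, _, -, ⟨Co⟩⟩ := hP.nat
  refine hb1 ?_
  have h1 : Co.ρ ⟨b, hCL hb⟩ = 1 := by
    refine Subtype.ext (Matrix.ext_of_mulVec_single fun i => ?_)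
    obtain ⟨x, hx⟩ := Co.ψsurj (Pi.single i 1)
    have h2 := (Co.ker _).2 (hP.commFix C hC hCT hne (diff_mem_comm hb x))
    rw [map_sub, sub_eq_zero] at h2
    rw [← hx, ← Co.equiv, Matrix.SpecialLinearGroup.coe_one, Matrix.one_mulVec]
    exact h2
  exact congrArg Subtype.val (Co.ρinj (h1.trans (map_one _).symm))

/-- An element of the plane preserving the axis normalizes the member and lies in the point. -/
theorem Plane.norm_of_pres (hf : ∀ g : P, (∀ x : X, g • x = x) → g = 1) (h0 : Mem X p A0)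
    (hP : Plane X D A0 T A L) {g : P} (hg : g ∈ L) (h : ∀ x ∈ fixV (V := X) A, g • x ∈ fixV A) :
    Fusion.cj g A = A ∧ g ∈ D.Mx T := by
  have hA2 : fixV (V := X) (cj g A) = fixV A := by
    have himg : ((fun x : X => g • x) '' (fixV (V := X) A : Set X)) = (fixV (V := X) A : Set X) := by
      refine Set.eq_of_subset_of_ncard_le ?_ ?_ (Set.toFinite _)
      · rintro _ ⟨x, hx, rfl⟩; exact h x hx
      · rw [Set.ncard_image_of_injective _ (MulAction.injective g)]
    ext x
    rw [mem_fixV_map_conj]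
    refine ⟨fun hx => ?_, fun hx => ?_⟩
    · have := h _ hx
      rwa [smul_inv_smul] at this
    · obtain ⟨y, hy, hye⟩ := himg.ge hx
      rw [← hye]
      show g⁻¹ • g • y ∈ fixV A
      rwa [inv_smul_smul]
  have hAL := hP.le
  have hA2L : cj g A ≤ L := (cj_mono g hAL).trans_eq (Fusion.cj_eq_self_of_mem hg)
  have hc := commute_of_comm_le D hf h0 (hP.cls.cj g) hP.cls
    ((Mem.quad D (cls_mem D h0 (hP.cls.cj g))).comm_le_fix.trans hA2.le)
  have hT : cj g A ≤ (T : Subgroup P) := mem_of_commute D h0 (hP.cls.cj g) fun B hB hBT b hb c hc' => by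
    by_cases e : B = A
    · subst e; exact hc c hc' b hb
    · exact hP.comm B hB hBT e b hb c (hA2L hc')
  have heq := hP.eq_of_le D h0 (hP.cls.cj g) hA2L hT
  refine ⟨heq, normalizer_join_le D (h0.ea.isPGroup) h0.ne T ?_⟩
  have hsub : cj g '' memIn A0 (T : Subgroup P) ⊆ memIn A0 (T : Subgroup P) := by
    rintro _ ⟨B, hB, rfl⟩
    refine ⟨hB.1.cj g, ?_⟩
    by_cases e : B = A
    · subst e; rw [heq]; exact hB.2
    · have : cj g B = B := cj_eq_of_mem (Subgroup.centralizer_le_normalizer _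
        (Subgroup.mem_centralizer_iff.2 fun b hb => (hP.comm B hB.1 hB.2 e b hb g hg).symm))
      rw [this]; exact hB.2
  rw [← cj_eq_iff_mem_normalizer]
  show cj g (join A0 (T : Subgroup P)) = join A0 (T : Subgroup P)
  rw [cj_join, join, join, memIn_cj, Set.eq_of_subset_of_ncard_le hsub
    (by rw [Set.ncard_image_of_injective _ fun A B h => by rw [← cj_inv_cj g A, h, cj_inv_cj]])
    (Set.toFinite _)]

/-- The translated plane. -/
theorem Plane.conj_self (hP : Plane X D A0 T A L) {t : P} (ht : t ∈ (T : Subgroup P))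
    (htA : Fusion.cj t A = A) : Plane X D A0 T A (Fusion.cj t L) := by
  have := hP.conj D ht
  rwa [htA] at this

end Cfsg.Agent.MovesFix
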