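import Mathlib
import Cfsg.Agent.MovesFix.Line

/-!
The torus of a plane, its projection onto the fixed points and the displacements of the member.
-/

set_option autoImplicit false
set_option linter.unusedSectionVars false
set_option linter.style.haveILetI false

namespace Cfsg.Agent.MovesFix

open scoped Pointwise MatrixGroups
open LAE79 (fixV mem_fixV)
open Fusion (cj mem_cj cj_cj cj_one cj_mono cj_eq_of_mem cj_eq_iff_mem_normalizer
  isPGroup_cj cj_inv_cj cj_cj_inv card_cj coe_smul_sylow conj_mem_cj)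

/-- The diagonal torus of `SL₂`. -/
def diagSL {F : Type} [Field F] : Fˣ →* Matrix.SpecialLinearGroup (Fin 2) F where
  toFun l := ⟨!![(l : F), 0; 0, ((l⁻¹ : Fˣ) : F)], by simp [Matrix.det_fin_two]⟩
  map_one' := Subtype.ext (by ext i j; fin_cases i <;> fin_cases j <;> simp)
  map_mul' a b := Subtype.ext (by
    show _ = _ * _
    ext i j; fin_cases i <;> fin_cases j <;> simp [mul_comm])

theorem diagSL_coe {F : Type} [Field F] (l : Fˣ) :
    (diagSL l : Matrix (Fin 2) (Fin 2) F) = !![(l : F), 0; 0, ((l⁻¹ : Fˣ) : F)] := rfl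

variable {P : Type*} [Group P] {X : Type*} [AddCommGroup X] [DistribMulAction P X] {p : ℕ}
  {A L : Subgroup P} {F : Type} [Field F]

namespace Coord

variable (C : Coord X A L F)

/-- The torus. -/
noncomputable def tor : Fˣ →* ↥L :=
  (MulEquiv.ofBijective C.ρ ⟨C.ρinj, C.ρsurj⟩).symm.toMonoidHom.comp diagSL

theorem rho_tor (l : Fˣ) : C.ρ (C.tor l) = diagSL l :=
  (MulEquiv.ofBijective C.ρ ⟨C.ρinj, C.ρsurj⟩).apply_symm_apply (diagSL l)

theorem psi_tor (l : Fˣ) (x : X) :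
    C.ψ ((C.tor l : P) • x) = ![(l : F) * C.ψ x 0, ((l⁻¹ : Fˣ) : F) * C.ψ x 1] := by
  rw [C.equiv, C.rho_tor]
  funext i
  fin_cases i <;> simp [diagSL_coe, Matrix.mulVec, dotProduct, Fin.sum_univ_two]

theorem tor_pres (l : Fˣ) : ∀ x ∈ fixV (V := X) A, (C.tor l : P) • x ∈ fixV A := fun x hx => by
  rw [C.line] at hx ⊢
  rw [C.psi_tor]
  simp [hx]

/-- The projection onto the points fixed by the torus. -/
noncomputable def proj [Finite F] : X →+ X :=
  -(∑ l ∈ (Set.toFinite (Set.univ : Set Fˣ)).toFinset, DistribSMul.toAddMonoidHom X ((C.tor l : ↥L) : P))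

theorem proj_apply [Finite F] (x : X) :
    C.proj x = -∑ l ∈ (Set.toFinite (Set.univ : Set Fˣ)).toFinset, (C.tor l : P) • x := by
  simp [proj]

theorem tor_proj [Finite F] (m : Fˣ) (x : X) : (C.tor m : P) • C.proj x = C.proj x := by
  rw [proj_apply, smul_neg, Finset.smul_sum]
  refine congrArg Neg.neg (Finset.sum_equiv (Equiv.mulLeft m) (fun l => by simp) fun l _ => ?_)
  rw [← mul_smul, ← Subgroup.coe_mul, ← map_mul]
  rfl

theorem proj_tor [Finite F] (m : Fˣ) (x : X) : C.proj ((C.tor m : P) • x) = C.proj x := by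
  rw [proj_apply, proj_apply]
  refine congrArg Neg.neg (Finset.sum_equiv (Equiv.mulRight m) (fun l => by simp) fun l _ => ?_)
  rw [← mul_smul, ← Subgroup.coe_mul, ← map_mul]
  rfl

theorem exists_unit_ne_one [Finite F] (h3 : 3 ≤ Nat.card F) : ∃ l : Fˣ, l ≠ 1 := by
  haveI := Fintype.ofFinite F
  by_contra h
  push Not at h
  haveI : Subsingleton Fˣ := ⟨fun a b => by rw [h a, h b]⟩
  have h1 : Nat.card Fˣ ≤ 1 := Finite.card_le_one_iff_subsingleton.2 inferInstance
  rw [Nat.card_units] at h1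
  omega

theorem proj_mem_fix [Finite F] (h3 : 3 ≤ Nat.card F) (x : X) : C.proj x ∈ fixV L := by
  obtain ⟨l, hl⟩ := exists_unit_ne_one (F := F) h3
  rw [← C.ker]
  have h1 := C.psi_tor l (C.proj x)
  rw [C.tor_proj] at h1
  have hl' : (l : F) ≠ 1 := fun e => hl (Units.ext e)
  funext i
  fin_cases i
  · have h2 := congrFun h1 0
    simp only [Matrix.cons_val_zero] at h2
    show C.ψ (C.proj x) 0 = 0
    by_contra hne
    exact hl' ((right_eq_mul₀ hne).1 h2)
  · have h2 := congrFun h1 1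
    simp only [Matrix.cons_val_one, Matrix.cons_val_fin_one] at h2
    show C.ψ (C.proj x) 1 = 0
    by_contra hne
    have h3' := (right_eq_mul₀ hne).1 h2
    exact hl' (by simpa [Units.val_inv_eq_inv_val] using h3')

theorem proj_of_fix [Finite F] {x : X} (hq : Nat.card F • x = 0) (hx : x ∈ fixV L) : C.proj x = x := by
  haveI := Fintype.ofFinite Fˣ
  rw [proj_apply, Finset.sum_congr rfl (fun l _ => hx _ (C.tor l).2), Finset.sum_const,
    neg_eq_iff_add_eq_zero, ← succ_nsmul]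
  rw [show (Set.toFinite (Set.univ : Set Fˣ)).toFinset.card + 1 = Nat.card F by
    rw [← Set.ncard_eq_toFinset_card _ (Set.toFinite _), Set.ncard_univ, Nat.card_units]
    have : 0 < Nat.card F := Nat.card_pos
    omega]
  exact hq

/-- The parameter of an element of the member. -/
noncomputable def tau (hAL : A ≤ L) (a : ↥A) : F :=
  (C.ρ ⟨a, hAL a.2⟩ : Matrix (Fin 2) (Fin 2) F) 0 1

theorem rho_mem (hAL : A ≤ L) (a : ↥A) :
    (C.ρ ⟨a, hAL a.2⟩ : Matrix (Fin 2) (Fin 2) F) = !![1, C.tau hAL a; 0, 1] := by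
  obtain ⟨y, hy⟩ := C.ψsurj ![1, 0]
  have hyA : y ∈ fixV A := (C.line y).2 (by rw [hy]; simp)
  have h := C.equiv ⟨a, hAL a.2⟩ y
  rw [show ((⟨a, hAL a.2⟩ : ↥L) : P) • y = y from hyA a a.2, hy] at h
  have h0 := congrFun h 0
  have h1 := congrFun h 1
  simp [Matrix.mulVec, dotProduct, Fin.sum_univ_two] at h0 h1
  have hd := (C.ρ ⟨a, hAL a.2⟩).2
  rw [Matrix.det_fin_two, ← h1, ← h0] at hd
  ext i j
  fin_cases i <;> fin_cases j
  · simpa using h0.symm
  · simp [tau]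
  · simpa using h1.symm
  · simpa using hd

theorem psi_mem (hAL : A ≤ L) (a : ↥A) (x : X) :
    C.ψ ((a : P) • x - x) = ![C.tau hAL a * C.ψ x 1, 0] := by
  rw [map_sub, show C.ψ ((a : P) • x) = _ from C.equiv ⟨a, hAL a.2⟩ x, C.rho_mem hAL a]
  funext i
  fin_cases i <;> simp [Matrix.mulVec, dotProduct, Fin.sum_univ_two]

theorem tau_mul (hAL : A ≤ L) (a b : ↥A) : C.tau hAL (a * b) = C.tau hAL a + C.tau hAL b := by
  have h : C.ρ ⟨(a * b : ↥A), hAL (a * b).2⟩ = C.ρ ⟨a, hAL a.2⟩ * C.ρ ⟨b, hAL b.2⟩ := by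
    rw [← map_mul]; rfl
  show (C.ρ ⟨(a * b : ↥A), hAL (a * b).2⟩ : Matrix (Fin 2) (Fin 2) F) 0 1 = _
  rw [h, Matrix.SpecialLinearGroup.coe_mul, C.rho_mem hAL a, C.rho_mem hAL b]
  simp [Matrix.mul_apply, Fin.sum_univ_two, add_comm]

theorem tau_injective (hAL : A ≤ L) : Function.Injective (C.tau hAL) := by
  intro a b h
  have h1 : C.ρ ⟨a, hAL a.2⟩ = C.ρ ⟨b, hAL b.2⟩ := Subtype.ext (by rw [C.rho_mem, C.rho_mem, h])
  exact Subtype.ext (congrArg (fun g : ↥L => (g : P)) (C.ρinj h1))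

theorem tau_conj (hAL : A ≤ L) (l : Fˣ) (a b : ↥A)
    (h : (b : P) = (C.tor l : P) * a * (C.tor l : P)⁻¹) :
    C.tau hAL b = (l : F) * (l : F) * C.tau hAL a := by
  have h1 : C.ρ ⟨b, hAL b.2⟩ = diagSL l * C.ρ ⟨a, hAL a.2⟩ * diagSL l⁻¹ := by
    rw [← C.rho_tor, ← C.rho_tor, ← map_mul, ← map_mul]
    refine congrArg C.ρ (Subtype.ext ?_)
    rw [map_inv]
    exact h
  show (C.ρ ⟨b, hAL b.2⟩ : Matrix (Fin 2) (Fin 2) F) 0 1 = _
  rw [h1, Matrix.SpecialLinearGroup.coe_mul, Matrix.SpecialLinearGroup.coe_mul, C.rho_mem hAL a]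
  simp [diagSL_coe, Matrix.mul_apply, Fin.sum_univ_two]
  ring

end Coord

end Cfsg.Agent.MovesFix
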