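import Mathlib
import Cfsg.Agent.MovesFix.Torus

/-!
The displacement subgroup of the member of a plane against the fixed points of other planes on it.
-/

set_option autoImplicit false
set_option linter.unusedSectionVars false
set_option linter.style.haveILetI false

namespace Cfsg.Agent.MovesFix

open scoped Pointwise MatrixGroups
open LAE79 (fixV mem_fixV)
open Fusion (cj mem_cj cj_cj cj_one cj_mono cj_eq_of_mem cj_eq_iff_mem_normalizer
  isPGroup_cj cj_inv_cj cj_cj_inv card_cj coe_smul_sylow conj_mem_cj)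

variable {P : Type*} [Group P] {X : Type*} [AddCommGroup X] [DistribMulAction P X] {p : ℕ}
  [Finite P] [hp : Fact p.Prime] [Finite X] (D : Hyp P X p) {A0 A L L2 : Subgroup P} {T : Sylow p P}
  {F F2 : Type} [Field F] [Fintype F] [Field F2] [Fintype F2]

include D

theorem card_smul_eq_zero (h0 : Mem X p A0) (hA : Cls A0 A) (hF : Fintype.card F = Nat.card A) (x : X) :
    Nat.card F • x = 0 := by
  obtain ⟨n, hn⟩ := IsPGroup.iff_card.1 (cls_mem D h0 hA).ea.isPGroup
  haveI := (Subgroup.nontrivial_iff_ne_bot A).2 (cls_mem D h0 hA).ne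
  have h1 : 1 < Nat.card A := Finite.one_lt_card
  rw [Nat.card_eq_fintype_card (α := F), hF, hn]
  rcases n with _ | n
  · simp [hn] at h1
  · rw [pow_succ, mul_smul, D.exp, smul_zero]

/-- Over a field of at least three elements the displacements split along the torus. -/
theorem Plane.displ (hf : ∀ g : P, (∀ x : X, g • x = x) → g = 1) (h0 : Mem X p A0)
    (hP : Plane X D A0 T A L) (C : Coord X A L F) (hF : Fintype.card F = Nat.card A)
    (h3 : 3 ≤ Nat.card F) :
    (∀ y ∈ MovesFix.comm (X := X) A, C.proj y ∈ MovesFix.comm (X := X) A ⊓ fixV L) ∧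
    ∃ G : F →+ X, (∀ y ∈ MovesFix.comm (X := X) A, ∃ w, G w = C.proj y) ∧
      (∀ w, G w ∈ MovesFix.comm (X := X) A ⊓ fixV L) ∧
      ∀ y ∈ MovesFix.comm (X := X) A, C.ψ y 0 ≠ 0 → ∀ w : F, w ≠ 0 → G w = C.proj y →
        ∃ a : ↥A, (a : P) ≠ 1 ∧ ∃ x : X, x ∉ fixV A ∧ (a : P) • x - x = y := by
  classical
  have hAL := hP.le
  have hAm := cls_mem D h0 hP.cls
  have hq := Mem.quad D hAm
  have hexp : ∀ x : X, Nat.card F • x = 0 := card_smul_eq_zero D h0 hP.cls hF
  have hstab : ∀ (l : Fˣ), ∀ y ∈ MovesFix.comm (X := X) A, (C.tor l : P) • y ∈ MovesFix.comm (X := X) A := by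
    intro l y hy
    have h := smul_mem_comm_cj (C.tor l : P) A hy
    rwa [(hP.norm_of_pres D hf h0 (C.tor l).2 (C.tor_pres l)).1] at h
  have hpc : ∀ y ∈ MovesFix.comm (X := X) A, C.proj y ∈ MovesFix.comm (X := X) A ⊓ fixV L := by
    intro y hy
    refine ⟨?_, C.proj_mem_fix h3 y⟩
    show C.proj y ∈ MovesFix.comm (X := X) A
    rw [C.proj_apply]
    exact neg_mem (sum_mem fun l _ => hstab l y hy)
  have hbij : Function.Bijective (C.tau hAL) := (C.tau_injective hAL).bijective_of_nat_card_le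
    (by rw [Nat.card_eq_fintype_card (α := F), hF])
  let e := Equiv.ofBijective _ hbij
  have he : ∀ w, C.tau hAL (e.symm w) = w := fun w => e.apply_symm_apply w
  obtain ⟨x1, hx1⟩ := C.ψsurj ![0, 1]
  let G : F →+ X := AddMonoidHom.mk' (fun w => C.proj ((e.symm w : P) • x1 - x1)) fun v w => by
    have h : e.symm (v + w) = e.symm v * e.symm w := C.tau_injective hAL (by
      rw [C.tau_mul, he, he, he])
    show C.proj (((e.symm (v + w) : ↥A) : P) • x1 - x1) = _
    rw [h, Subgroup.coe_mul, mul_smul, ← map_add]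
    congr 1
    have h1 := hq _ (e.symm w).2 _ (e.symm v).2 x1
    rw [smul_sub] at h1
    calc (e.symm v : P) • (e.symm w : P) • x1 - x1
        = ((e.symm v : P) • (e.symm w : P) • x1 - (e.symm v : P) • x1) +
          ((e.symm v : P) • x1 - x1) := by abel
      _ = _ := by rw [h1, add_comm]
  have hid : ∀ (a : ↥A) (x : X), C.proj ((a : P) • x - x) = G (C.tau hAL a * (C.ψ x 1 * C.ψ x 1)) := by
    intro a x
    by_cases hs : C.ψ x 1 = 0
    · rw [(C.line x).2 hs a a.2, sub_self, map_zero, hs, mul_zero, mul_zero, map_zero]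
    · set l : Fˣ := Units.mk0 _ hs
      set a2 : ↥A := ⟨(C.tor l : P) * a * (C.tor l : P)⁻¹, by
        have h := (hP.norm_of_pres D hf h0 (C.tor l).2 (C.tor_pres l)).1
        exact h.le (conj_mem_cj.2 a.2)⟩ with ha2
      have ht := C.tau_conj hAL l a a2 rfl
      have e1 : (a2 : P) • ((C.tor l : P) • x) - (C.tor l : P) • x = (C.tor l : P) • ((a : P) • x - x) := by
        rw [smul_sub, ha2]
        show ((C.tor l : P) * a * (C.tor l : P)⁻¹) • _ - _ = _
        rw [mul_smul, mul_smul, inv_smul_smul]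
      have hd : (C.tor l : P) • x - x1 ∈ fixV A := by
        rw [C.line, map_sub, C.psi_tor, hx1]
        simp [l, hs]
      have e2 : (a2 : P) • ((C.tor l : P) • x) - (C.tor l : P) • x = (a2 : P) • x1 - x1 := by
        have := hd a2 a2.2
        rw [smul_sub] at this
        rw [sub_eq_sub_iff_sub_eq_sub]
        exact this
      show _ = C.proj ((e.symm _ : P) • x1 - x1)
      rw [show C.tau hAL a * (C.ψ x 1 * C.ψ x 1) = C.tau hAL a2 by rw [ht]; simp [l]; ring,
        show e.symm (C.tau hAL a2) = a2 from e.symm_apply_apply a2, ← e2, e1, C.proj_tor]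
  refine ⟨hpc, G, fun y hy => ?_, fun w => hpc _ (diff_mem_comm (e.symm w).2 x1),
    fun y hy hu w hw hGw => ?_⟩
  · have : MovesFix.comm (X := X) A ≤ G.range.comap C.proj :=
      comm_le fun a ha x => ⟨_, (hid ⟨a, ha⟩ x).symm⟩
    exact this hy
  · set u := C.ψ y 0
    obtain ⟨x, hx⟩ := C.ψsurj ![0, w / u]
    set a := e.symm (u * u / w)
    have hs : C.ψ x 1 = w / u := by rw [hx]; simp
    refine ⟨a, fun h => ?_, x, fun h => ?_, ?_⟩
    · have h1 : C.tau hAL a = 0 := by
        have e1 : a = 1 := Subtype.ext h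
        have h2 := C.tau_mul hAL 1 1
        rw [one_mul] at h2
        rw [e1]
        exact left_eq_add.1 h2
      rw [he] at h1
      exact (div_ne_zero (mul_ne_zero hu hu) hw) h1
    · rw [C.line, hs] at h
      exact (div_ne_zero hw hu) h
    · set dd := (a : P) • x - x - y with hdd
      have hdc : dd ∈ MovesFix.comm (X := X) A := sub_mem (diff_mem_comm a.2 x) hy
      have hyl : C.ψ y 1 = 0 := (C.line y).1 (hq.comm_le_fix hy)
      have hψ : C.ψ dd = 0 := by
        rw [hdd, map_sub, C.psi_mem hAL, he, hs]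
        funext i
        fin_cases i
        · show u * u / w * (w / u) - C.ψ y 0 = 0
          field_simp
          ring
        · simpa using hyl
      have hπ : C.proj dd = 0 := by
        rw [hdd, map_sub, hid, he, hs, ← hGw, sub_eq_zero]
        congr 1
        field_simp
      rw [C.proj_of_fix (hexp _) ((C.ker _).1 hψ)] at hπ
      exact sub_eq_zero.1 hπ

/-- A second plane on the same member fixes only torus-split displacements. -/
theorem Plane.cross (hf : ∀ g : P, (∀ x : X, g • x = x) → g = 1) (h0 : Mem X p A0)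
    (hP : Plane X D A0 T A L) (hP2 : Plane X D A0 T A L2) (C : Coord X A L F)
    (hF : Fintype.card F = Nat.card A) (h3 : 3 ≤ Nat.card F)
    (hne : MovesFix.comm (X := X) A ⊓ fixV L2 ≠ MovesFix.comm A ⊓ fixV L)
    (hcard : Nat.card (MovesFix.comm (X := X) A ⊓ fixV L2 : AddSubgroup X) =
      Nat.card (MovesFix.comm (X := X) A ⊓ fixV L : AddSubgroup X)) :
    MovesFix.comm (X := X) A ⊓ fixV L2 = MovesFix.comm A ⊓ C.proj.ker := by
  classical
  obtain ⟨hpc, G, hGs, hGm, hS⟩ := hP.displ D hf h0 C hF h3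
  obtain ⟨F', iF', iFt', -, ⟨C2⟩⟩ := hP2.nat
  have hAL2 := hP2.le
  set K := MovesFix.comm (X := X) A ⊓ fixV L
  set K2 := MovesFix.comm (X := X) A ⊓ fixV L2
  have hline : ∀ y ∈ MovesFix.comm (X := X) A, C.ψ y 1 = 0 := fun y hy =>
    (C.line y).1 ((Mem.quad D (cls_mem D h0 hP.cls)).comm_le_fix hy)
  have hnoS : ∀ y ∈ K2, C.ψ y 0 ≠ 0 → ∀ w : F, w ≠ 0 → G w ≠ C.proj y := by
    intro y hy hu w hw hGw
    obtain ⟨a, ha, x, hx, rfl⟩ := hS y hy.1 hu w hw hGw
    have h1 := congrFun ((C2.ker _).2 hy.2) 0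
    rw [C2.psi_mem hAL2] at h1
    rcases (show C2.tau hAL2 a = 0 ∨ C2.ψ x 1 = 0 by simpa using h1) with h2 | h2
    · refine ha ?_
      have h4 := C2.tau_mul hAL2 1 1
      rw [one_mul] at h4
      have h5 := C2.tau_injective hAL2 (h2.trans (left_eq_add.1 h4).symm)
      exact congrArg Subtype.val h5
    · exact hx ((C2.line x).2 h2)
  have hinK : ∀ y ∈ MovesFix.comm (X := X) A, C.ψ y 0 = 0 → y ∈ K := fun y hy h =>
    ⟨hy, (C.ker y).1 (funext fun i => by fin_cases i; exacts [h, hline y hy])⟩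
  have hinj : ∀ w, G w = 0 → w = 0 := by
    intro w hw
    by_contra hw0
    refine hne (AddSubgroup.eq_of_le_of_card_ge (fun y hy => ?_) hcard.ge)
    by_contra hyK
    have hu : C.ψ y 0 ≠ 0 := fun h => hyK (hinK y hy.1 h)
    obtain ⟨v, hv⟩ := hGs y hy.1
    by_cases hv0 : v = 0
    · exact hnoS y hy hu w hw0 (by rw [hw, ← hv, hv0, map_zero])
    · exact hnoS y hy hu v hv0 hv
  have hsub : ∀ y ∈ K2, y ∈ K ∨ C.proj y = 0 := by
    intro y hy
    by_contra hc
    push Not at hc
    have hu : C.ψ y 0 ≠ 0 := fun h => hc.1 (hinK y hy.1 h)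
    obtain ⟨v, hv⟩ := hGs y hy.1
    exact hnoS y hy hu v (fun h => hc.2 (by rw [← hv, h, map_zero])) hv
  have hnle : ¬ K2 ≤ K := fun h => hne (AddSubgroup.eq_of_le_of_card_ge h hcard.ge)
  have hle : K2 ≤ MovesFix.comm A ⊓ C.proj.ker := by
    obtain ⟨y, hy, hyK⟩ := SetLike.not_le_iff_exists.1 hnle
    intro z hz
    refine ⟨hz.1, ?_⟩
    rcases hsub z hz with hzK | hz0
    · have hy0 := (hsub y hy).resolve_left hyK
      rcases hsub _ (add_mem hy hz) with h | h
      · exact absurd (by simpa using sub_mem h hzK) hyK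
      · show C.proj z = 0
        rwa [map_add, hy0, zero_add] at h
    · exact hz0
  refine AddSubgroup.eq_of_le_of_card_ge hle ?_
  rw [hcard]
  calc Nat.card (MovesFix.comm (X := X) A ⊓ C.proj.ker : AddSubgroup X)
      ≤ Nat.card F := by
        refine Nat.card_le_card_of_injective (fun y => C.ψ (y : X) 0) fun y z h => Subtype.ext ?_
        have h1 : C.ψ ((y : X) - z) = 0 := by
          funext i
          fin_cases i
          · simpa [sub_eq_zero] using h
          · simpa using (by rw [hline _ y.2.1, hline _ z.2.1] : C.ψ (y : X) 1 = C.ψ (z : X) 1) ▸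
              (by simp : C.ψ (y : X) 1 - C.ψ (y : X) 1 = (0 : F))
        have h2 := C.proj_of_fix (card_smul_eq_zero D h0 hP.cls hF _) ((C.ker _).1 h1)
        rw [map_sub, y.2.2, z.2.2, sub_self] at h2
        exact sub_eq_zero.1 h2.symm
    _ ≤ _ := Nat.card_le_card_of_injective (fun w => (⟨G w, hGm w⟩ : K)) fun v w h => by
        have := hinj (v - w) (by rw [map_sub, sub_eq_zero]; exact congrArg Subtype.val h)
        exact sub_eq_zero.1 this

end Cfsg.Agent.MovesFix
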