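import Mathlib
import Cfsg.Agent.MovesFix.Displ

/-!
The displacements of the member of a plane meet the fixed points of the plane trivially.
-/

set_option autoImplicit false
set_option linter.unusedSectionVars false
set_option linter.style.haveILetI false

namespace Cfsg.Agent.MovesFix

open scoped Pointwise MatrixGroups
open LAE79 (fixV mem_fixV)
open Fusion (cj mem_cj cj_cj cj_one cj_mono cj_eq_of_mem cj_eq_iff_mem_normalizer
  isPGroup_cj cj_inv_cj cj_cj_inv card_cj coe_smul_sylow conj_mem_cj)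

variable {P : Type*} [Group P] {X : Type*} [AddCommGroup X] [DistribMulAction P X] {p : ℕ}
  [Finite P] [hp : Fact p.Prime] [Finite X] (D : Hyp P X p) {A0 A L : Subgroup P} {T : Sylow p P}

include D

/-- A displacement fixed by every translate of the plane on the member is zero. -/
theorem Plane.comm_inter (hP : Plane X D A0 T A L) {x : X} (hx : x ∈ MovesFix.comm (X := X) A)
    (h : ∀ t ∈ (T : Subgroup P), Fusion.cj t A = A → x ∈ fixV (Fusion.cj t L)) : x = 0 := by
  refine hP.inter_bot D fun t ht => ?_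
  by_cases e : Fusion.cj t A = A
  · exact h t ht e
  · exact (hP.conj D ht).commFix A hP.cls hP.leT (fun e' => e e'.symm) hx

theorem Plane.comm_inf_fix (hf : ∀ g : P, (∀ x : X, g • x = x) → g = 1) (h0 : Mem X p A0)
    (hP : Plane X D A0 T A L) : MovesFix.comm (X := X) A ⊓ fixV L = ⊥ := by
  classical
  obtain ⟨F, iF, iFt, hF, ⟨C⟩⟩ := hP.nat
  have hAL := hP.le
  have hAm := cls_mem D h0 hP.cls
  have hq := Mem.quad D hAm
  refine eq_bot_iff.2 fun r hr => AddSubgroup.mem_bot.2 ?_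
  by_contra hr0
  by_cases h3 : 3 ≤ Nat.card F
  swap
  · -- the field with two elements
    have hA2 : Nat.card A = 2 := by
      haveI := (Subgroup.nontrivial_iff_ne_bot A).2 hAm.ne
      have h1 : 1 < Nat.card A := Finite.one_lt_card
      rw [Nat.card_eq_fintype_card (α := F), hF] at h3
      omega
    haveI : Fintype ↥A := Fintype.ofFinite _
    obtain ⟨a, ha1, huni⟩ : ∃ a : ↥A, a ≠ 1 ∧ ∀ b : ↥A, b ≠ 1 → b = a := by
      obtain ⟨a, ha, huq⟩ := (Nat.card_eq_two_iff' (1 : ↥A)).1 hA2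
      exact ⟨a, ha, huq⟩
    have hF2 : ∀ w : F, w ≠ 0 → w = 1 := by
      intro w hw
      have h2 : Nat.card F = 2 := by rw [Nat.card_eq_fintype_card (α := F), hF, hA2]
      obtain ⟨u, -, huq⟩ := (Nat.card_eq_two_iff' (0 : F)).1 h2
      rw [huq w hw, huq 1 one_ne_zero]
    obtain ⟨x1, hx1⟩ := C.ψsurj ![0, 1]
    set v := (a : P) • x1 - x1 with hv
    have hle : MovesFix.comm (X := X) A ≤ AddSubgroup.zmultiples v := comm_le fun b hb x => by
      by_cases hb1 : (⟨b, hb⟩ : ↥A) = 1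
      · rw [show b = 1 from congrArg Subtype.val hb1, one_smul, sub_self]; exact zero_mem _
      · obtain rfl : b = (a : P) := congrArg Subtype.val (huni _ hb1)
        by_cases hs : C.ψ x 1 = 0
        · rw [(C.line x).2 hs _ a.2, sub_self]; exact zero_mem _
        · have hd : x - x1 ∈ fixV A := by
            rw [C.line, map_sub, hx1]
            simp [hF2 _ hs]
          have h1 := hd _ a.2
          rw [smul_sub] at h1
          rw [sub_eq_sub_iff_sub_eq_sub.2 h1]
          exact AddSubgroup.mem_zmultiples v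
    have h2v : v + v = 0 := by
      have h1 := hq _ a.2 _ a.2 x1
      have ha2 : (a : P) * (a : P) = 1 := by
        have h2 := hAm.ea.pow _ a.2
        have hp2 : p = 2 := by
          obtain ⟨n, hn⟩ := IsPGroup.iff_card.1 hAm.ea.isPGroup
          rw [hA2] at hn
          exact ((Nat.prime_dvd_prime_iff_eq hp.out Nat.prime_two).1 (hn ▸ dvd_pow_self p (by
            rintro rfl; simp at hn)))
        rw [hp2, pow_two] at h2
        exact h2
      rw [smul_sub, ← mul_smul, ha2, one_smul] at h1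
      rw [hv]
      nth_rewrite 1 [← h1]
      abel
    refine hP.comm_not_fix D (hle.trans (AddSubgroup.zmultiples_le_of_mem ?_))
    obtain ⟨j, hj⟩ := AddSubgroup.mem_zmultiples_iff.1 (hle hr.1)
    rcases Int.even_or_odd j with ⟨k, rfl⟩ | ⟨k, rfl⟩
    · exact absurd (by rw [← hj, add_zsmul, ← zsmul_add, h2v, zsmul_zero]) hr0
    · have : r = v := by
        rw [← hj, add_zsmul, one_zsmul, two_mul, add_zsmul, ← zsmul_add, h2v, zsmul_zero, zero_add]
      exact this ▸ hr.2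
  -- fields with at least three elements
  set K := MovesFix.comm (X := X) A ⊓ fixV L with hK
  obtain ⟨t, ht, htA, hne⟩ : ∃ t ∈ (T : Subgroup P), Fusion.cj t A = A ∧
      MovesFix.comm (X := X) A ⊓ fixV (Fusion.cj t L) ≠ K := by
    by_contra h
    push Not at h
    exact hr0 (hP.comm_inter D hr.1 fun t ht htA => ((h t ht htA).ge hr).2)
  have hP2 := hP.conj_self D ht htA
  have hcard : Nat.card (MovesFix.comm (X := X) A ⊓ fixV (Fusion.cj t L) : AddSubgroup X) =
      Nat.card K := by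
    have hc : ∀ {s : P}, Fusion.cj s A = A → ∀ {y : X}, y ∈ MovesFix.comm (X := X) A →
        s • y ∈ MovesFix.comm (X := X) A := fun {s} hs {y} hy => by
      have h := smul_mem_comm_cj s A hy
      rwa [hs] at h
    have htA' : Fusion.cj t⁻¹ A = A := by
      conv_lhs => rw [← htA]
      exact cj_inv_cj t A
    refine Nat.card_congr
      { toFun := fun y => ⟨t⁻¹ • (y : X), hc htA' y.2.1, mem_fixV_map_conj.1 y.2.2⟩
        invFun := fun y => ⟨t • (y : X), hc htA y.2.1, smul_mem_fixV_cj y.2.2⟩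
        left_inv := fun y => Subtype.ext (smul_inv_smul t (y : X))
        right_inv := fun y => Subtype.ext (inv_smul_smul t (y : X)) }
  obtain ⟨F2, iF2, iFt2, hF2, ⟨C2⟩⟩ := hP2.nat
  have h32 : 3 ≤ Nat.card F2 := by
    rw [Nat.card_eq_fintype_card, hF2, ← hF, ← Nat.card_eq_fintype_card]; exact h3
  have hK2 := hP.cross D hf h0 hP2 C hF h3 hne hcard
  have hK1 := hP2.cross D hf h0 hP C2 hF2 h32 hne.symm hcard.symm
  set R := (T : Subgroup P) ⊓ Subgroup.normalizer (A : Set P) with hR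
  have hcommR : ∀ s ∈ R, ∀ y ∈ MovesFix.comm (X := X) A, s • y ∈ MovesFix.comm (X := X) A :=
    fun s hs y hy => by
      have h := smul_mem_comm_cj s A hy
      rwa [cj_eq_of_mem hs.2] at h
  obtain ⟨e0, he0, he00, he0R⟩ := exists_fixed D.xp (T.2.to_le inf_le_left : IsPGroup p R)
    hcommR (fun h => hP.comm_not_fix D (h.le.trans bot_le))
  have he0K : e0 ∉ fixV L := fun h => he00 (hP.comm_inter D he0 fun s hs hsA => by
    rw [← he0R s ⟨hs, cj_eq_iff_mem_normalizer.1 hsA⟩]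
    exact smul_mem_fixV_cj h)
  set O := (Set.toFinite (MulAction.orbit ↥(T : Subgroup P) e0)).toFinset with hO
  have hmemO : e0 ∈ O := (Set.Finite.mem_toFinset _).2 (MulAction.mem_orbit_self e0)
  set d := ∑ x ∈ O.erase e0, x with hd
  have hothers : ∀ x ∈ O.erase e0, ∃ B, Cls A0 B ∧ B ≤ (T : Subgroup P) ∧ B ≠ A ∧
      x ∈ MovesFix.comm (X := X) B := by
    intro x hx
    obtain ⟨hxne, hxO⟩ := Finset.mem_erase.1 hx
    obtain ⟨⟨s, hs⟩, rfl⟩ := (Set.Finite.mem_toFinset _).1 hxO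
    refine ⟨_, hP.cls.cj s, (cj_mono _ hP.leT).trans_eq (Fusion.cj_eq_self_of_mem hs), fun e => hxne ?_,
      smul_mem_comm_cj s A he0⟩
    exact he0R s ⟨hs, cj_eq_iff_mem_normalizer.1 e⟩
  have hdL : ∀ {L' : Subgroup P}, Plane X D A0 T A L' → d ∈ fixV L' := fun {L'} hP' =>
    sum_mem fun x hx => by
      obtain ⟨B, hB, hBT, hne', hxB⟩ := hothers x hx
      exact hP'.commFix B hB hBT hne' hxB
  have hJfix : MovesFix.comm (X := X) (join A0 (T : Subgroup P)) ≤ fixV (join A0 (T : Subgroup P)) :=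
    (quad_join D h0 T.2).comm_le_fix
  have hdJ : d ∈ fixV (join A0 (T : Subgroup P)) := sum_mem fun x hx => by
    obtain ⟨B, hB, hBT, -, hxB⟩ := hothers x hx
    exact hJfix (comm_mono (le_join hB hBT) hxB)
  have hzT : ∀ s ∈ (T : Subgroup P), s • (e0 + d) = e0 + d := by
    intro s hs
    rw [hd, show e0 + ∑ x ∈ O.erase e0, x = ∑ x ∈ O, x from Finset.add_sum_erase O (fun x => x) hmemO,
      Finset.smul_sum]
    refine Finset.sum_equiv (MulAction.toPerm s) (fun x => ?_) fun x _ => rfl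
    rw [hO, Set.Finite.mem_toFinset, Set.Finite.mem_toFinset, MulAction.toPerm_apply]
    exact ⟨fun hx => MulAction.mem_orbit_of_mem_orbit (⟨s, hs⟩ : ↥(T : Subgroup P)) hx, fun hx => by
      have := MulAction.mem_orbit_of_mem_orbit (⟨s, hs⟩⁻¹ : ↥(T : Subgroup P)) hx
      rwa [Subgroup.smul_def, Subgroup.coe_inv, inv_smul_smul] at this⟩
  set M := D.Mx T
  set Good : X → Prop := fun y => MulAction.stabilizer P (y + d) ≤ M with hGood
  have hg0 : Good e0 := by
    refine D.uniq T (fun h => he0K fun g hg => ?_) hzT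
    have h1 : g • (e0 + d) = e0 + d := (h.ge (Subgroup.mem_top g) : g ∈ MulAction.stabilizer P (e0 + d))
    rw [smul_add, hdL hP g hg, add_left_inj] at h1
    exact h1
  have hmove : ∀ {L' : Subgroup P}, Plane X D A0 T A L' → ∀ {m : P}, m ∈ L' →
      (∀ x ∈ fixV (V := X) A, m • x ∈ fixV A) → ∀ {y : X}, Good y → Good (m • y) := by
    intro L' hP' m hm hpres y hy g hg
    obtain ⟨-, hmM⟩ := hP'.norm_of_pres D hf h0 hm hpres
    have h1 : m⁻¹ * g * m ∈ MulAction.stabilizer P (y + d) := by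
      show (m⁻¹ * g * m) • (y + d) = y + d
      rw [mul_smul, mul_smul, smul_add, hdL hP' m hm, hg, inv_smul_eq_iff, smul_add, hdL hP' m hm]
    have h2 := mul_mem (mul_mem hmM (hy h1)) (inv_mem hmM)
    simpa [mul_assoc] using h2
  have htrans : ∀ {L' : Subgroup P} {F' : Type} [Field F'] [Fintype F'] (C' : Coord X A L' F'),
      Fintype.card F' = Nat.card A → ∀ {c c' : X}, c ∈ MovesFix.comm (X := X) A →
      c' ∈ MovesFix.comm (X := X) A → C'.proj c = 0 → C'.proj c' = 0 → c ≠ 0 → c' ≠ 0 →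
      ∃ l : F'ˣ, (C'.tor l : P) • c = c' := by
    intro L' F' _ _ C' hF' c c' hc hc' hpc hpc' hc0 hc0'
    have hzero : ∀ {y : X}, y ∈ MovesFix.comm (X := X) A → C'.proj y = 0 → C'.ψ y 0 = 0 → y = 0 := by
      intro y hy hpy h
      have h1 : C'.ψ y = 0 := funext fun i => by
        fin_cases i
        exacts [h, (C'.line y).1 (hq.comm_le_fix hy)]
      rw [C'.proj_of_fix (card_smul_eq_zero D h0 hP.cls hF' _) ((C'.ker _).1 h1)] at hpy
      exact hpy
    have hu : C'.ψ c 0 ≠ 0 := fun h => hc0 (hzero hc hpc h)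
    have hu' : C'.ψ c' 0 ≠ 0 := fun h => hc0' (hzero hc' hpc' h)
    refine ⟨Units.mk0 _ (div_ne_zero hu' hu), ?_⟩
    set m := (C'.tor (Units.mk0 _ (div_ne_zero hu' hu)) : P)
    have hψ : C'.ψ (m • c - c') = 0 := by
      rw [map_sub, C'.psi_tor, (C'.line c).1 (hq.comm_le_fix hc)]
      funext i
      fin_cases i
      · show C'.ψ c' 0 / C'.ψ c 0 * C'.ψ c 0 - C'.ψ c' 0 = 0
        rw [div_mul_cancel₀ _ hu, sub_self]
      · simpa using (C'.line c').1 (hq.comm_le_fix hc')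
    have h2 := C'.proj_of_fix (card_smul_eq_zero D h0 hP.cls hF' _) ((C'.ker _).1 hψ)
    rw [map_sub, C'.proj_tor, hpc, hpc', sub_zero] at h2
    exact sub_eq_zero.1 h2.symm
  set Cc := MovesFix.comm (X := X) A ⊓ C.proj.ker with hCc
  obtain ⟨hpc, -⟩ := hP.displ D hf h0 C hF h3
  set k0 := C.proj e0
  set c0 := e0 - k0 with hc0
  have hk0 : k0 ∈ K := hpc e0 he0
  have hsub0 : e0 - k0 ∈ MovesFix.comm (X := X) A := sub_mem he0 hk0.1
  have hc0m : c0 ∈ Cc := ⟨hsub0, by
    show C.proj (e0 - k0) = 0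
    rw [map_sub, C.proj_of_fix (card_smul_eq_zero D h0 hP.cls hF _) hk0.2, sub_self]⟩
  have hc00 : c0 ≠ 0 := fun h => he0K (by rw [sub_eq_zero.1 h]; exact hk0.2)
  have hk00 : k0 ≠ 0 := fun h => by
    have h1 : e0 ∈ MovesFix.comm (X := X) A ⊓ fixV (Fusion.cj t L) := by
      rw [hK2]; exact ⟨he0, h⟩
    have h2 := mem_fixV_map_conj.1 h1.2
    rw [he0R t⁻¹ (R.inv_mem ⟨ht, cj_eq_iff_mem_normalizer.1 htA⟩)] at h2
    exact he0K h2
  have hgood : ∀ c ∈ Cc, c ≠ 0 → ∀ k ∈ K, k ≠ 0 → Good (c + k) := by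
    intro c hc hcne k hk hkne
    obtain ⟨l, hl⟩ := htrans C hF hc0m.1 hc.1 hc0m.2 hc.2 hc00 hcne
    have h1 := hmove hP (C.tor l).2 (C.tor_pres l) hg0
    rw [show e0 = c0 + k0 by rw [hc0, sub_add_cancel], smul_add, hl, hk0.2 _ (C.tor l).2] at h1
    have hk0' := hK1.le hk0
    have hk' := hK1.le hk
    obtain ⟨l2, hl2⟩ := htrans C2 hF2 hk0.1 hk.1 hk0'.2 hk'.2 hk00 hkne
    have h2 := hmove hP2 (C2.tor l2).2 (C2.tor_pres l2) h1
    rw [smul_add, hl2, (hK2.ge hc).2 _ (C2.tor l2).2] at h2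
    exact h2
  obtain ⟨h, hh, hgen⟩ := hP2.gen
  have hhA : Fusion.cj h A ≠ A := fun e => hP2.notM (by
    rw [hgen, e, sup_idem]; exact hP.leT.trans (D.le_mx T))
  -- the member `cj h A` against the members of the first plane
  have hpoint : ∀ y ∈ MovesFix.comm (X := X) A, Good y → ∃ g ∈ L, g⁻¹ • (h • y) ∈ fixV A ∧
      Fusion.cj g M = Fusion.cj h M := by
    intro y hy hgy
    obtain ⟨g, hg⟩ : ∃ g : ↥L, (g : P)⁻¹ • (h • y) ∈ fixV A := by
      by_cases hz : C.ψ (h • y) = 0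
      · refine ⟨1, ?_⟩
        rw [OneMemClass.coe_one, inv_one, one_smul]
        exact fixV_anti hAL ((C.ker _).1 hz)
      · obtain ⟨Mc, hMc⟩ := exists_sl2_col hz
        obtain ⟨g, hg⟩ := C.ρsurj Mc
        refine ⟨g, (C.line _).2 ?_⟩
        have h1 := C.equiv g⁻¹ (h • y)
        rw [map_inv, hg, ← hMc, Matrix.mulVec_mulVec, ← Matrix.SpecialLinearGroup.coe_mul, inv_mul_cancel,
          Matrix.SpecialLinearGroup.coe_one, Matrix.one_mulVec] at h1
        rw [Subgroup.coe_inv] at h1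
        rw [h1]
        simp
    refine ⟨g, g.2, hg, ?_⟩
    set S := MulAction.stabilizer P (h • y + d)
    have hSM : S ≤ Fusion.cj h M := fun s hs => by
      rw [mem_cj]
      refine hgy ?_
      show (h⁻¹ * s * h) • (y + d) = y + d
      rw [mul_smul, mul_smul, smul_add h y d, hdL hP2 h hh, show s • (h • y + d) = h • y + d from hs,
        inv_smul_eq_iff, smul_add, hdL hP2 h hh]
    have hJS : Fusion.cj (g : P) (join A0 (T : Subgroup P)) ≤ S := by
      rw [cj_join]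
      refine sSup_le fun B' hB' => ?_
      rw [memIn_cj] at hB'
      obtain ⟨B, hB, rfl⟩ := hB'
      by_cases e : B = A
      · subst e
        intro s hs
        show s • (h • y + d) = h • y + d
        rw [smul_add]
        refine congrArg₂ (· + ·) ?_ ?_
        · exact mem_fixV_map_conj.2 hg s hs
        · exact hdL hP s ((cj_mono _ hAL).trans_eq (Fusion.cj_eq_self_of_mem g.2) hs)
      · have hBg : Fusion.cj (g : P) B = B := cj_eq_of_mem (Subgroup.centralizer_le_normalizer _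
          (Subgroup.mem_centralizer_iff.2 fun b hb => (hP.comm B hB.1 hB.2 e b hb g g.2).symm))
        rw [hBg]
        intro b hb
        show b • (h • y + d) = h • y + d
        rw [smul_add, hdJ b (le_join hB.1 hB.2 hb), ← mul_smul, ← hP2.comm B hB.1 hB.2 e b hb h hh,
          mul_smul, hJfix (comm_mono (le_join hP.cls hP.leT) hy) b (le_join hB.1 hB.2 hb)]
    have hJp : IsPGroup p (Fusion.cj (g : P) (join A0 (T : Subgroup P))) :=
      isPGroup_cj (T.2.to_le (join_le _ _)) _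
    have hle' : Fusion.cj (g : P) (join A0 (T : Subgroup P)) ≤ D.Mx (h • T) := by
      rw [D.mx_smul]; exact hJS.trans hSM
    obtain ⟨T'', hT'', hMT⟩ := D.exists_sylow_of_le (h • T) hJp hle'
    have h2 : D.Mx T'' = D.Mx ((g : P) • T) := mx_eq_of_join_le D h0.ea.isPGroup h0.ne
      (by rw [coe_smul_sylow, ← cj_join]; exact hT'')
    rw [h2, D.mx_smul, D.mx_smul] at hMT
    exact hMT
  obtain ⟨g1, hg1L, -, hg1M⟩ := hpoint _ (add_mem hc0m.1 hk0.1) (hgood c0 hc0m hc00 k0 hk0 hk00)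
  set S := MovesFix.comm (X := X) A ⊓
    ((fixV (V := X) A).comap (DistribSMul.toAddMonoidHom X (g1⁻¹ * h))) with hS
  have hin : ∀ c ∈ Cc, c ≠ 0 → ∀ k ∈ K, k ≠ 0 → c + k ∈ S := by
    intro c hc hcne k hk hkne
    obtain ⟨g, hgL, hgA, hgM⟩ := hpoint _ (add_mem hc.1 hk.1) (hgood c hc hcne k hk hkne)
    refine ⟨add_mem hc.1 hk.1, ?_⟩
    show (g1⁻¹ * h) • (c + k) ∈ fixV A
    have hm : g1⁻¹ * g ∈ M := by
      refine D.mem_mx_of_conj T ?_
      rw [← cj_cj, hgM, ← hg1M, cj_inv_cj]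
    rw [mul_smul, show g1⁻¹ • h • (c + k) = (g1⁻¹ * g) • (g⁻¹ • h • (c + k)) by
      rw [mul_smul, smul_inv_smul]]
    exact hP.borel _ (mul_mem (inv_mem hg1L) hgL) hm _ hgA
  have htwo : ∀ {L' : Subgroup P} {F' : Type} [Field F'] [Fintype F'] (C' : Coord X A L' F'),
      3 ≤ Nat.card F' → ∀ {c x : X}, c ∈ MovesFix.comm (X := X) A ⊓ C'.proj.ker →
      C'.ψ c 0 ≠ 0 → (∀ y ∈ MovesFix.comm (X := X) A, ∀ l : F'ˣ,
        (C'.tor l : P) • y ∈ MovesFix.comm (X := X) A) →
      ∃ c1 ∈ MovesFix.comm (X := X) A ⊓ C'.proj.ker, c1 ≠ 0 ∧ x + c1 ≠ 0 := by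
    intro L' F' _ _ C' h3' c x hc hu hst
    obtain ⟨l, hl⟩ := Coord.exists_unit_ne_one (F := F') h3'
    have hc0' : c ≠ 0 := fun e => hu (by rw [e, map_zero]; rfl)
    by_cases e : x + c = 0
    · refine ⟨(C'.tor l : P) • c, ⟨hst c hc.1 l, ?_⟩, smul_ne_zero_iff_ne _ |>.2 hc0', fun e' => hl ?_⟩
      · show C'.proj _ = 0
        rw [C'.proj_tor]; exact hc.2
      · have h1 : (C'.tor l : P) • c = c := add_left_cancel (e'.trans e.symm)
        have h2 := congrFun (congrArg C'.ψ h1) 0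
        rw [C'.psi_tor] at h2
        simp only [Matrix.cons_val_zero] at h2
        exact Units.ext ((mul_eq_right₀ hu).1 h2)
    · exact ⟨c, hc, hc0', e⟩
  have hstab : ∀ {L' : Subgroup P}, Plane X D A0 T A L' → ∀ {F' : Type} [Field F'] [Fintype F']
      (C' : Coord X A L' F'), ∀ y ∈ MovesFix.comm (X := X) A, ∀ l : F'ˣ,
      (C'.tor l : P) • y ∈ MovesFix.comm (X := X) A := by
    intro L' hP' F' _ _ C' y hy l
    have h1 := smul_mem_comm_cj (C'.tor l : P) A hy
    rwa [(hP'.norm_of_pres D hf h0 (C'.tor l).2 (C'.tor_pres l)).1] at h1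
  have hψc : ∀ {L' : Subgroup P} {F' : Type} [Field F'] [Fintype F'] (C' : Coord X A L' F'),
      Fintype.card F' = Nat.card A → ∀ {c : X}, c ∈ MovesFix.comm (X := X) A ⊓ C'.proj.ker → c ≠ 0 →
      C'.ψ c 0 ≠ 0 := by
    intro L' F' _ _ C' hF' c hc hc0' h'
    have h1 : C'.ψ c = 0 := funext fun i => by
      fin_cases i
      exacts [h', (C'.line c).1 (hq.comm_le_fix hc.1)]
    have h2 := C'.proj_of_fix (card_smul_eq_zero D h0 hP.cls hF' _) ((C'.ker _).1 h1)
    exact hc0' (h2.symm.trans hc.2)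
  have hCS : Cc ≤ S := by
    intro c hc
    by_cases e : c = 0
    · rw [e]; exact zero_mem _
    obtain ⟨c1, hc1, hc1n, hs⟩ := htwo C h3 (x := c) hc0m (hψc C hF hc0m hc00) (hstab hP C)
    have := sub_mem (hin (c + c1) (add_mem hc hc1) hs k0 hk0 hk00) (hin c1 hc1 hc1n k0 hk0 hk00)
    rwa [show c + c1 + k0 - (c1 + k0) = c by abel] at this
  have hKS : K ≤ S := by
    intro k hk
    by_cases e : k = 0
    · rw [e]; exact zero_mem _
    obtain ⟨k1, hk1, hk1n, hs⟩ := htwo C2 h32 (x := k) (hK1.le hk0)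
      (hψc C2 hF2 (hK1.le hk0) hk00) (hstab hP2 C2)
    have hk1K : k1 ∈ K := hK1.ge hk1
    have := sub_mem (hin c0 hc0m hc00 (k + k1) (add_mem hk hk1K) hs) (hin c0 hc0m hc00 k1 hk1K hk1n)
    rwa [show c0 + (k + k1) - (c0 + k1) = k by abel] at this
  -- the first member preserves the axis, so the two members commute
  have hc0L2 : h • c0 = c0 := (hK2.ge hc0m).2 h hh
  have hu0 := hψc C hF hc0m hc00
  have hg1c : g1⁻¹ • c0 ∈ fixV A := by
    have h1 := (hCS hc0m).2
    change (g1⁻¹ * h) • c0 ∈ fixV A at h1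
    rwa [mul_smul, hc0L2] at h1
  have hpres : ∀ x ∈ fixV (V := X) A, g1⁻¹ • x ∈ fixV A := by
    intro x hx
    have hc1 := (C.line c0).1 (hq.comm_le_fix hc0m.1)
    have hx1 := (C.line x).1 hx
    have e1 : C.ψ x = (C.ψ x 0 / C.ψ c0 0) • C.ψ c0 := by
      funext i; fin_cases i
      · simp [div_mul_cancel₀ _ hu0]
      · simp [hc1, hx1]
    rw [C.line, show C.ψ (g1⁻¹ • x) = (C.ρ ⟨g1⁻¹, inv_mem hg1L⟩ :
      Matrix (Fin 2) (Fin 2) F).mulVec (C.ψ x) from C.equiv ⟨g1⁻¹, inv_mem hg1L⟩ x, e1, Matrix.mulVec_smul,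
      ← C.equiv ⟨g1⁻¹, inv_mem hg1L⟩ c0]
    simp [(C.line _).1 hg1c]
  have hg1pres : ∀ x ∈ fixV (V := X) A, g1 • x ∈ fixV A := by
    intro x hx
    obtain ⟨hn, -⟩ := hP.norm_of_pres D hf h0 (inv_mem hg1L) hpres
    have : x ∈ fixV (Fusion.cj g1⁻¹ A) := by rw [hn]; exact hx
    have h1 := mem_fixV_map_conj.1 this
    rwa [inv_inv] at h1
  have hcomm' : MovesFix.comm (X := X) (Fusion.cj h A) ≤ fixV A := comm_cj_le fun y hy => by
    have hyS : y ∈ S := by
      have hy' : y = (y - C.proj y) + C.proj y := by abel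
      rw [hy']
      have hsub1 : y - C.proj y ∈ MovesFix.comm (X := X) A := sub_mem hy (hpc y hy).1
      refine add_mem (hCS ⟨hsub1, ?_⟩) (hKS (hpc y hy))
      show C.proj (y - C.proj y) = 0
      rw [map_sub, C.proj_of_fix (card_smul_eq_zero D h0 hP.cls hF _) (hpc y hy).2, sub_self]
    have h1 := hg1pres _ hyS.2
    change g1 • (g1⁻¹ * h) • y ∈ fixV A at h1
    rwa [← mul_smul, mul_inv_cancel_left] at h1
  have hhL : Fusion.cj h A ≤ Fusion.cj t L :=
    (cj_mono h hP2.le).trans_eq (Fusion.cj_eq_self_of_mem hh)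
  refine hhA (hP2.eq_of_le D h0 (hP.cls.cj h) hhL (mem_of_commute D h0 (hP.cls.cj h) fun B hB hBT b hb c hc => ?_))
  by_cases e : B = A
  · subst e; exact commute_of_comm_le D hf h0 (hP.cls.cj h) hP.cls hcomm' c hc b hb
  · exact hP2.comm B hB hBT e b hb c (hhL hc)

end Cfsg.Agent.MovesFix
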