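import Mathlib
import Cfsg.Agent.MovesFix.Radical

/-!
The natural module of a plane is a complement to its fixed points.
-/

set_option autoImplicit false
set_option linter.unusedSectionVars false
set_option linter.style.haveILetI false

namespace Cfsg.Agent.MovesFix

open scoped Pointwise MatrixGroups
open LAE79 (fixV mem_fixV)
open Fusion (cj mem_cj cj_cj cj_one cj_mono cj_eq_of_mem cj_eq_iff_mem_normalizer
  isPGroup_cj cj_inv_cj cj_cj_inv card_cj coe_smul_sylow conj_mem_cj)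

variable {P : Type*} [Group P] {X : Type*} [AddCommGroup X] [DistribMulAction P X] {p : ℕ}
  [Finite P] [hp : Fact p.Prime] [Finite X] (D : Hyp P X p) {A0 A L : Subgroup P} {T : Sylow p P}

theorem smul_mem_comm_self {L : Subgroup P} {g : P} (hg : g ∈ L) {x : X}
    (hx : x ∈ comm (X := X) L) : g • x ∈ comm (X := X) L := by
  have h := smul_mem_comm_cj g L hx
  rwa [Fusion.cj_eq_self_of_mem hg] at h

include D

theorem Plane.eq_zero_of_mem (hf : ∀ g : P, (∀ x : X, g • x = x) → g = 1) (h0 : Mem X p A0)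
    (hP : Plane X D A0 T A L) {x : X} (h1 : x ∈ MovesFix.comm (X := X) A) (h2 : x ∈ fixV L) : x = 0 :=
  AddSubgroup.mem_bot.1 ((hP.comm_inf_fix D hf h0).le ⟨h1, h2⟩)

theorem Plane.not_norm (hP : Plane X D A0 T A L) {h : P} (hgen : L = A ⊔ cj h A) : cj h A ≠ A :=
  fun e => hP.notM (by rw [hgen, e, sup_idem]; exact hP.leT.trans (D.le_mx T))

/-- An element moving the member moves every displacement off the axis. -/
theorem Plane.move (hf : ∀ g : P, (∀ x : X, g • x = x) → g = 1) (h0 : Mem X p A0)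
    (hP : Plane X D A0 T A L) {h : P} (hh : h ∈ L) (hne : cj h A ≠ A) {c : X}
    (hc : c ∈ MovesFix.comm (X := X) A) (hc0 : c ≠ 0) : h • c ∉ fixV A := by
  intro hfix
  refine hne (hP.norm_of_pres D hf h0 hh fun x hx => ?_).1
  obtain ⟨F, _, _, -, ⟨C⟩⟩ := hP.nat
  have hc1 := (C.line c).1 ((Mem.quad D (cls_mem D h0 hP.cls)).comm_le_fix hc)
  have hu : C.ψ c 0 ≠ 0 := fun e => hc0 (hP.eq_zero_of_mem D hf h0 hc ((C.ker c).1
    (funext fun i => by fin_cases i; exacts [e, hc1])))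
  have e1 : C.ψ x = (C.ψ x 0 / C.ψ c 0) • C.ψ c := by
    funext i; fin_cases i
    · simp [div_mul_cancel₀ _ hu]
    · simp [hc1, (C.line x).1 hx]
  rw [C.line, show C.ψ (h • x) = (C.ρ ⟨h, hh⟩ : Matrix (Fin 2) (Fin 2) F).mulVec (C.ψ x) from
    C.equiv ⟨h, hh⟩ x, e1, Matrix.mulVec_smul, ← C.equiv ⟨h, hh⟩ c]
  simp [(C.line _).1 hfix]

theorem Plane.card_comm (hf : ∀ g : P, (∀ x : X, g • x = x) → g = 1) (h0 : Mem X p A0)
    (hP : Plane X D A0 T A L) : Nat.card (MovesFix.comm (X := X) A) = Nat.card A := by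
  obtain ⟨F, _, iF, hF, ⟨C⟩⟩ := hP.nat
  have hAm := cls_mem D h0 hP.cls
  refine le_antisymm ?_ ?_
  · rw [← hF, ← Nat.card_eq_fintype_card (α := F)]
    refine Nat.card_le_card_of_injective (fun c => C.ψ (c : X) 0) fun c d e => Subtype.ext ?_
    refine sub_eq_zero.1 (hP.eq_zero_of_mem D hf h0 (sub_mem c.2 d.2) ((C.ker _).1 ?_))
    funext i
    fin_cases i
    · simpa [sub_eq_zero] using e
    · simp [(C.line (c : X)).1 ((Mem.quad D hAm).comm_le_fix c.2),
        (C.line (d : X)).1 ((Mem.quad D hAm).comm_le_fix d.2)]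
  · obtain ⟨x1, hx1⟩ := C.ψsurj ![0, 1]
    refine Nat.card_le_card_of_injective
      (fun a : ↥A => (⟨(a : P) • x1 - x1, diff_mem_comm a.2 x1⟩ : MovesFix.comm (X := X) A))
      fun a b e => C.tau_injective hP.le ?_
    have h1 := congrFun (congrArg C.ψ (congrArg Subtype.val e)) 0
    simp only [C.psi_mem hP.le, hx1] at h1
    simpa using h1

/-- Every vector is congruent to a displacement of the partner modulo the axis. -/
theorem Plane.exists_partner_disp (hf : ∀ g : P, (∀ x : X, g • x = x) → g = 1) (h0 : Mem X p A0)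
    (hP : Plane X D A0 T A L) {h : P} (hh : h ∈ L) (hne : cj h A ≠ A) (x : X) :
    ∃ c ∈ MovesFix.comm (X := X) A, x - h • c ∈ fixV A := by
  classical
  obtain ⟨F, _, iF, hF, ⟨C⟩⟩ := hP.nat
  let f : MovesFix.comm (X := X) A → F := fun c => C.ψ (h • (c : X)) 1
  have hinj : Function.Injective f := fun c d e => Subtype.ext (by
    by_contra hcd
    refine hP.move D hf h0 hh hne (sub_mem c.2 d.2) (sub_ne_zero.2 hcd) ((C.line _).2 ?_)
    rw [smul_sub, map_sub, Pi.sub_apply, sub_eq_zero]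
    exact e)
  obtain ⟨c, hc⟩ := (hinj.bijective_of_nat_card_le
    (by rw [hP.card_comm D hf h0, Nat.card_eq_fintype_card (α := F), hF])).2 (C.ψ x 1)
  refine ⟨c, c.2, (C.line _).2 ?_⟩
  rw [map_sub, Pi.sub_apply, show C.ψ (h • (c : X)) 1 = C.ψ x 1 from hc, sub_self]

theorem Plane.mem_comm_of_gen (hP : Plane X D A0 T A L) {h : P} (hgen : L = A ⊔ cj h A) {x : X}
    (hx : x ∈ MovesFix.comm (X := X) L) :
    ∃ c ∈ MovesFix.comm (X := X) A, ∃ d ∈ MovesFix.comm (X := X) A, x = c + h • d := by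
  have h1 : MovesFix.comm (X := X) L ≤ MovesFix.comm A ⊔ MovesFix.comm (cj h A) :=
    (comm_mono hgen.le).trans (comm_sup_le A (cj h A))
  obtain ⟨c, hc, d, hd, rfl⟩ := AddSubgroup.mem_sup.1 (h1 hx)
  refine ⟨c, hc, h⁻¹ • d, ?_, by rw [smul_inv_smul]⟩
  have h2 := smul_mem_comm_cj h⁻¹ (cj h A) hd
  rwa [cj_inv_cj] at h2

theorem Plane.comm_inf_fix_self (hf : ∀ g : P, (∀ x : X, g • x = x) → g = 1) (h0 : Mem X p A0)
    (hP : Plane X D A0 T A L) : MovesFix.comm (X := X) L ⊓ fixV L = ⊥ := by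
  refine eq_bot_iff.2 fun x hx => AddSubgroup.mem_bot.2 ?_
  obtain ⟨h, hh, hgen⟩ := hP.gen
  obtain ⟨c, hc, d, hd, rfl⟩ := hP.mem_comm_of_gen D hgen hx.1
  have hcA := (Mem.quad D (cls_mem D h0 hP.cls)).comm_le_fix hc
  have hd0 : d = 0 := by
    by_contra hd0
    refine hP.move D hf h0 hh (hP.not_norm D hgen) hd hd0 ?_
    have h1 := sub_mem (fixV_anti hP.le hx.2) hcA
    rwa [add_sub_cancel_left] at h1
  rw [hd0, smul_zero, add_zero] at hx ⊢
  exact hP.eq_zero_of_mem D hf h0 hc hx.2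

theorem Plane.fix_inter (hf : ∀ g : P, (∀ x : X, g • x = x) → g = 1) (h0 : Mem X p A0)
    (hP : Plane X D A0 T A L) {x : X} (hx : x ∈ MovesFix.comm (X := X) L) (hxA : x ∈ fixV A) :
    x ∈ MovesFix.comm (X := X) A := by
  obtain ⟨c, hc, w, hw, rfl⟩ := AddSubgroup.mem_sup.1 (hP.split hxA)
  have h1 : w ∈ MovesFix.comm (X := X) L ⊓ fixV L :=
    ⟨by have h2 := sub_mem hx (comm_mono hP.le hc); rwa [add_sub_cancel_left] at h2, hw⟩
  rw [hP.comm_inf_fix_self D hf h0, AddSubgroup.mem_bot] at h1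
  rwa [h1, add_zero]

theorem Plane.comm_sup_fix (hf : ∀ g : P, (∀ x : X, g • x = x) → g = 1) (h0 : Mem X p A0)
    (hP : Plane X D A0 T A L) : MovesFix.comm (X := X) L ⊔ fixV L = ⊤ := by
  obtain ⟨h, hh, hgen⟩ := hP.gen
  refine eq_top_iff.2 fun x _ => ?_
  obtain ⟨d, hd, hx⟩ := hP.exists_partner_disp D hf h0 hh (hP.not_norm D hgen) x
  obtain ⟨c, hc, w, hw, e⟩ := AddSubgroup.mem_sup.1 (hP.split hx)
  refine AddSubgroup.mem_sup.2 ⟨c + h • d, add_mem (comm_mono hP.le hc)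
    (smul_mem_comm_self hh (comm_mono hP.le hd)), w, hw, ?_⟩
  rw [add_right_comm, e, sub_add_cancel]

theorem Plane.trans (hf : ∀ g : P, (∀ x : X, g • x = x) → g = 1) (h0 : Mem X p A0)
    (hP : Plane X D A0 T A L) {e n : X} (he : e ∈ MovesFix.comm (X := X) A) (he0 : e ≠ 0)
    (hn : n ∈ MovesFix.comm (X := X) L) (hn0 : n ≠ 0) : ∃ g ∈ L, g • e = n := by
  obtain ⟨F, _, _, -, ⟨C⟩⟩ := hP.nat
  have hzero : ∀ {x : X}, x ∈ MovesFix.comm (X := X) L → C.ψ x = 0 → x = 0 := fun {x} hx h =>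
    AddSubgroup.mem_bot.1 ((hP.comm_inf_fix_self D hf h0).le ⟨hx, (C.ker x).1 h⟩)
  obtain ⟨M1, hM1⟩ := exists_sl2_col (fun h => he0 (hzero (comm_mono hP.le he) h))
  obtain ⟨M2, hM2⟩ := exists_sl2_col (fun h => hn0 (hzero hn h))
  obtain ⟨g, hg⟩ := C.ρsurj (M2 * M1⁻¹)
  refine ⟨g, g.2, sub_eq_zero.1 (hzero (sub_mem (smul_mem_comm_self g.2 (comm_mono hP.le he)) hn) ?_)⟩
  have h1 : ((M1⁻¹ : Matrix.SpecialLinearGroup (Fin 2) F) : Matrix (Fin 2) (Fin 2) F).mulVec (C.ψ e) =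
      ![1, 0] := by
    rw [← hM1, Matrix.mulVec_mulVec, ← Matrix.SpecialLinearGroup.coe_mul, inv_mul_cancel,
      Matrix.SpecialLinearGroup.coe_one, Matrix.one_mulVec]
  rw [map_sub, C.equiv, hg, Matrix.SpecialLinearGroup.coe_mul, ← Matrix.mulVec_mulVec, h1, hM2, sub_self]

theorem Plane.card_comm_le (hf : ∀ g : P, (∀ x : X, g • x = x) → g = 1) (h0 : Mem X p A0)
    (hP : Plane X D A0 T A L) :
    Nat.card A * Nat.card A ≤ Nat.card (MovesFix.comm (X := X) L) := by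
  obtain ⟨h, hh, hgen⟩ := hP.gen
  rw [← hP.card_comm D hf h0, ← Nat.card_prod]
  refine Nat.card_le_card_of_injective (fun cd : MovesFix.comm (X := X) A × MovesFix.comm (X := X) A =>
    (⟨(cd.1 : X) + h • (cd.2 : X), add_mem (comm_mono hP.le cd.1.2)
      (smul_mem_comm_self hh (comm_mono hP.le cd.2.2))⟩ : MovesFix.comm (X := X) L)) ?_
  rintro ⟨c1, d1⟩ ⟨c2, d2⟩ e
  have e' : (c1 : X) + h • (d1 : X) = c2 + h • (d2 : X) := congrArg Subtype.val e
  have hd : (d1 : X) = d2 := by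
    by_contra hne
    refine hP.move D hf h0 hh (hP.not_norm D hgen) (sub_mem d1.2 d2.2) (sub_ne_zero.2 hne) ?_
    rw [smul_sub, show h • (d1 : X) - h • (d2 : X) = c2 - c1 by
      rw [sub_eq_sub_iff_add_eq_add, add_comm, e', add_comm]]
    exact (Mem.quad D (cls_mem D h0 hP.cls)).comm_le_fix (sub_mem c2.2 c1.2)
  rw [hd] at e'
  exact Prod.ext (Subtype.ext (add_right_cancel e')) (Subtype.ext hd)

end Cfsg.Agent.MovesFix
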