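import Mathlib
import Cfsg.Agent.MovesFix.Natural

/-!
A plane contains every member commuting with the other members of the Sylow subgroup.
-/

set_option autoImplicit false
set_option linter.unusedSectionVars false
set_option linter.style.haveILetI false

namespace Cfsg.Agent.MovesFix

open scoped Pointwise MatrixGroups
open LAE79 (fixV mem_fixV)
open Fusion (cj mem_cj cj_cj cj_one cj_mono cj_eq_of_mem cj_eq_iff_mem_normalizer
  isPGroup_cj cj_inv_cj cj_cj_inv card_cj coe_smul_sylow conj_mem_cj)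

variable {P : Type*} [Group P] {X : Type*} [AddCommGroup X] [DistribMulAction P X] {p : ℕ}
  [Finite P] [hp : Fact p.Prime] [Finite X] (D : Hyp P X p) {A0 A L : Subgroup P} {T : Sylow p P}

include D

/-- The displacements of a member are fixed by a distinct commuting member. -/
theorem comm_le_fix_of_commute {B C : Subgroup P} (hB : Mem X p B) (hC : Mem X p C)
    (hc : ∀ b ∈ B, ∀ c ∈ C, b * c = c * b) (hne : B ≠ C) : comm (X := X) B ≤ fixV C := by
  refine comm_le fun b hb x c hc' => ?_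
  obtain ⟨y, hy, w, hw, rfl⟩ :=
    AddSubgroup.mem_sup.1 ((Mem.sup_fix_eq_top D hB hC hc hne).ge (AddSubgroup.mem_top x))
  rw [smul_add b y w, hy b hb, add_sub_add_left_eq_sub, smul_sub, hw c hc', ← mul_smul,
    ← hc b hb c hc', mul_smul, hw c hc']

theorem cls_card_fix (h0 : Mem X p A0) {C : Subgroup P} (hC : Cls A0 C) :
    Nat.card A0 * Nat.card (fixV (V := X) C) = Nat.card X := by
  have h := Mem.card_fix D (cls_mem D h0 hC)
  obtain ⟨g, rfl⟩ := hC
  rwa [card_cj] at h

omit [Finite X] in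
theorem Cls.card_eq [Finite X] {C : Subgroup P} (hC : Cls A0 C) : Nat.card C = Nat.card A0 := by
  obtain ⟨g, rfl⟩ := hC; rw [card_cj]

theorem Plane.cj_other (hP : Plane X D A0 T A L) {g : P} (hg : g ∈ L) {B : Subgroup P} (hB : Cls A0 B)
    (hBT : B ≤ (T : Subgroup P)) (hne : B ≠ A) : cj g B = B :=
  cj_eq_of_mem (Subgroup.centralizer_le_normalizer _
    (Subgroup.mem_centralizer_iff.2 fun b hb => (hP.comm B hB hBT hne b hb g hg).symm))

/-- A `T`-fixed vector built on the axis. -/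
theorem Plane.exists_good (hf : ∀ g : P, (∀ x : X, g • x = x) → g = 1) (h0 : Mem X p A0)
    (hP : Plane X D A0 T A L) :
    ∃ e d : X, e ∈ MovesFix.comm (X := X) A ∧ e ≠ 0 ∧ d ∈ fixV L ∧
      (∀ B, Cls A0 B → B ≤ (T : Subgroup P) → d ∈ fixV B) ∧
      (∀ C : Subgroup P, Cls A0 C → (∀ B, Cls A0 B → B ≤ (T : Subgroup P) → B ≠ A →
        (∀ b ∈ B, ∀ c ∈ C, b * c = c * b) ∧ B ≠ C) → d ∈ fixV C) ∧
      MulAction.stabilizer P (e + d) ≤ D.Mx T := by
  classical
  set R := (T : Subgroup P) ⊓ Subgroup.normalizer (A : Set P) with hR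
  have hcommR : ∀ s ∈ R, ∀ y ∈ MovesFix.comm (X := X) A, s • y ∈ MovesFix.comm (X := X) A :=
    fun s hs y hy => by
      have h := smul_mem_comm_cj s A hy
      rwa [cj_eq_of_mem hs.2] at h
  obtain ⟨e0, he0, he00, he0R⟩ := exists_fixed D.xp (T.2.to_le inf_le_left : IsPGroup p R)
    hcommR (fun h => hP.comm_not_fix D (h.le.trans bot_le))
  set O := (Set.toFinite (MulAction.orbit ↥(T : Subgroup P) e0)).toFinset with hO
  have hmemO : e0 ∈ O := (Set.Finite.mem_toFinset _).2 (MulAction.mem_orbit_self e0)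
  have hothers : ∀ x ∈ O.erase e0, ∃ B, Cls A0 B ∧ B ≤ (T : Subgroup P) ∧ B ≠ A ∧
      x ∈ MovesFix.comm (X := X) B := by
    intro x hx
    obtain ⟨hxne, hxO⟩ := Finset.mem_erase.1 hx
    obtain ⟨⟨s, hs⟩, rfl⟩ := (Set.Finite.mem_toFinset _).1 hxO
    refine ⟨_, hP.cls.cj s, (cj_mono _ hP.leT).trans_eq (Fusion.cj_eq_self_of_mem hs), fun e => hxne ?_,
      smul_mem_comm_cj s A he0⟩
    exact he0R s ⟨hs, cj_eq_iff_mem_normalizer.1 e⟩
  have hdL : ∑ x ∈ O.erase e0, x ∈ fixV L := sum_mem fun x hx => by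
    obtain ⟨B, hB, hBT, hne', hxB⟩ := hothers x hx
    exact hP.commFix B hB hBT hne' hxB
  refine ⟨e0, ∑ x ∈ O.erase e0, x, he0, he00, hdL, fun C hC hCT => sum_mem fun x hx => ?_,
    fun C hC hc => sum_mem fun x hx => ?_, D.uniq T (fun h => he00 ?_) ?_⟩
  · obtain ⟨B, hB, hBT, -, hxB⟩ := hothers x hx
    exact fixV_anti (le_join hC hCT)
      ((quad_join D h0 T.2).comm_le_fix (comm_mono (le_join hB hBT) hxB))
  · obtain ⟨B, hB, hBT, hne', hxB⟩ := hothers x hx
    obtain ⟨h1, h2⟩ := hc B hB hBT hne'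
    exact comm_le_fix_of_commute D (cls_mem D h0 hB) (cls_mem D h0 hC) h1 h2 hxB
  · refine hP.eq_zero_of_mem D hf h0 he0 fun g hg => ?_
    have h1 := (h.ge (Subgroup.mem_top g) : g ∈ MulAction.stabilizer P (e0 + ∑ x ∈ O.erase e0, x))
    rw [MulAction.mem_stabilizer_iff, smul_add, hdL g hg, add_left_inj] at h1
    exact h1
  · intro s hs
    show s • _ = _
    rw [show e0 + ∑ x ∈ O.erase e0, x = ∑ x ∈ O, x from Finset.add_sum_erase O (fun x => x) hmemO,
      Finset.smul_sum]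
    refine Finset.sum_equiv (MulAction.toPerm s) (fun x => ?_) fun x _ => rfl
    rw [hO, Set.Finite.mem_toFinset, Set.Finite.mem_toFinset, MulAction.toPerm_apply]
    exact ⟨fun hx => MulAction.mem_orbit_of_mem_orbit (⟨s, hs⟩ : ↥(T : Subgroup P)) hx, fun hx => by
      have := MulAction.mem_orbit_of_mem_orbit (⟨s, hs⟩⁻¹ : ↥(T : Subgroup P)) hx
      rwa [Subgroup.smul_def, Subgroup.coe_inv, inv_smul_smul] at this⟩

/-- A plane contains every further member commuting with the other members of `T`. -/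
theorem Plane.mem_plane (hf : ∀ g : P, (∀ x : X, g • x = x) → g = 1) (h0 : Mem X p A0)
    (hP : Plane X D A0 T A L) {C : Subgroup P} (hC : Cls A0 C)
    (hcm : ∀ B, Cls A0 B → B ≤ (T : Subgroup P) → B ≠ A →
      (∀ b ∈ B, ∀ c ∈ C, b * c = c * b) ∧ B ≠ C) : C ≤ L := by
  classical
  obtain ⟨e, d, he, he0, hdL, hdT, hdC, hstab⟩ := hP.exists_good D hf h0
  have hdC' := hdC C hC hcm
  have hCm := cls_mem D h0 hC
  have hAm := cls_mem D h0 hP.cls
  set N := MovesFix.comm (X := X) L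
  set U0 := fixV (V := X) C ⊓ N with hU0
  have hq : Nat.card A = Nat.card C := by rw [Cls.card_eq D hP.cls, Cls.card_eq D hC]
  have hU0card : Nat.card A ≤ Nat.card U0 := by
    have h1 := LocEven.Chermak.card_add_mul_le (fixV (V := X) C) N
    have h2 := hP.card_comm_le D hf h0
    have h3 : Nat.card (fixV (V := X) C ⊔ N : AddSubgroup X) ≤ Nat.card A * Nat.card (fixV (V := X) C) := by
      rw [hq, Mem.card_fix D hCm]; exact AddSubgroup.card_le_card_addGroup _
    refine Nat.le_of_mul_le_mul_left (c := Nat.card A * Nat.card (fixV (V := X) C)) ?_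
      (Nat.mul_pos Nat.card_pos Nat.card_pos)
    calc Nat.card A * Nat.card (fixV (V := X) C) * Nat.card A
        = Nat.card (fixV (V := X) C) * (Nat.card A * Nat.card A) := by ring
      _ ≤ Nat.card (fixV (V := X) C) * Nat.card N := Nat.mul_le_mul_left _ h2
      _ ≤ _ := h1
      _ ≤ _ := Nat.mul_le_mul_right _ h3
  set M := D.Mx T
  set others := {B : Subgroup P | Cls A0 B ∧ B ≤ (T : Subgroup P) ∧ B ≠ A} with hoth
  set F := sSup others with hF
  have hFC : ∀ f ∈ F, ∀ c ∈ C, f * c = c * f := fun f hf' c hc =>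
    Subgroup.mem_centralizer_singleton_iff.1 ((sSup_le (fun B hB b hb =>
      Subgroup.mem_centralizer_singleton_iff.2 ((hcm B hB.1 hB.2.1 hB.2.2).1 b hb c hc)) :
        F ≤ Subgroup.centralizer ({c} : Set P)) hf')
  have hFT : F ≤ join A0 (T : Subgroup P) := sSup_le fun B hB => le_join hB.1 hB.2.1
  have hRp : IsPGroup p (F ⊔ C : Subgroup P) :=
    (ea_sup ((memIn_commute D h0 T.2).mono hFT) (mem_of_cls D h0 hC) hFC).isPGroup
  have hmem : memIn A0 (T : Subgroup P) = insert A others := by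
    ext B
    refine ⟨fun hB => ?_, fun hB => ?_⟩
    · by_cases h : B = A
      · exact Or.inl h
      · exact Or.inr ⟨hB.1, hB.2, h⟩
    · rcases hB with rfl | hB
      · exact ⟨hP.cls, hP.leT⟩
      · exact ⟨hB.1, hB.2.1⟩
  have hjoin : ∀ T'' : Sylow p P, F ⊔ C ≤ (T'' : Subgroup P) →
      join A0 (T'' : Subgroup P) = F ⊔ C := by
    intro T'' hT''
    have hsub : insert C others ⊆ memIn A0 (T'' : Subgroup P) := by
      rintro B (rfl | hB)
      · exact ⟨hC, le_sup_right.trans hT''⟩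
      · exact ⟨hB.1, (le_sSup hB).trans (le_sup_left.trans hT'')⟩
    have hncard : (memIn A0 (T'' : Subgroup P)).ncard = (memIn A0 (T : Subgroup P)).ncard := by
      obtain ⟨g, hg⟩ := Fusion.exists_cj_sylow T T''
      rw [← hg, ncard_memIn]
    have heq := Set.eq_of_subset_of_ncard_le hsub (by
      rw [hncard, hmem, Set.ncard_insert_of_notMem (fun h => h.2.2 rfl) (Set.toFinite _),
        Set.ncard_insert_of_notMem (fun h => (hcm C h.1 h.2.1 h.2.2).2 rfl) (Set.toFinite _)])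
      (Set.toFinite _)
    rw [join, ← heq, sSup_insert, sup_comm]
  have hnB : ∀ n ∈ N, ∀ B ∈ others, n ∈ fixV B := fun n hn B hB => hP.fixOther B hB.1 hB.2.1 hB.2.2 hn
  have hpt : ∀ n ∈ U0, n ≠ 0 → ∃ g ∈ L, g • e = n ∧
      ∃ T'' : Sylow p P, F ⊔ C ≤ (T'' : Subgroup P) ∧ D.Mx T'' = cj g M := by
    intro n hn hn0
    obtain ⟨g, hg, hge⟩ := hP.trans D hf h0 he he0 hn.2 hn0
    refine ⟨g, hg, hge, ?_⟩
    have hgd : g • d = d := hdL g hg
    have hstab' : F ⊔ C ≤ cj g M := by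
      have hS : F ⊔ C ≤ MulAction.stabilizer P (g • (e + d)) := by
        rw [smul_add, hge, hgd]
        refine sup_le (sSup_le fun B hB b hb => ?_) fun c hc => ?_
        · show b • (n + d) = n + d
          rw [smul_add, hnB n hn.2 B hB b hb, hdT B hB.1 hB.2.1 b hb]
        · show c • (n + d) = n + d
          rw [smul_add, hn.1 c hc, hdC' c hc]
      refine hS.trans fun s hs => ?_
      rw [mem_cj]
      refine hstab ?_
      show (g⁻¹ * s * g) • (e + d) = e + d
      rw [mul_smul, mul_smul, inv_smul_eq_iff]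
      exact hs
    obtain ⟨T'', hT'', hMT⟩ := D.exists_sylow_of_le (g • T) hRp (by rw [D.mx_smul]; exact hstab')
    exact ⟨T'', hT'', by rw [hMT, D.mx_smul]⟩
  haveI : Nontrivial U0 := Finite.one_lt_card_iff_nontrivial.1 (lt_of_lt_of_le (by
    haveI := (Subgroup.nontrivial_iff_ne_bot A).2 hAm.ne
    exact Finite.one_lt_card) hU0card)
  obtain ⟨⟨n, hn⟩, hn0⟩ := exists_ne (0 : U0)
  obtain ⟨g, hg, -, T1, hT1, hM1⟩ := hpt n hn (fun h => hn0 (Subtype.ext h))
  -- all of them lie on one line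
  have hline : ∀ m ∈ U0, g⁻¹ • m ∈ MovesFix.comm (X := X) A := by
    intro m hm
    by_cases hm0 : m = 0
    · rw [hm0, smul_zero]; exact zero_mem _
    obtain ⟨g', hg', hge', T2, hT2, hM2⟩ := hpt m hm hm0
    have h1 : D.Mx T2 = D.Mx T1 := mx_eq_of_join_le D h0.ea.isPGroup h0.ne
      (by rw [hjoin T1 hT1]; exact hT2)
    have h2 : g⁻¹ * g' ∈ M := D.mem_mx_of_conj T (by rw [← cj_cj, ← hM2, h1, hM1, cj_inv_cj])
    rw [← hge', ← mul_smul]
    exact hP.fix_inter D hf h0
      (smul_mem_comm_self (mul_mem (inv_mem hg) hg') (comm_mono hP.le he))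
      (hP.borel _ (mul_mem (inv_mem hg) hg') h2 _ ((Mem.quad D hAm).comm_le_fix he))
  have hfix : MovesFix.comm (X := X) A ≤ fixV (cj g⁻¹ C) := by
    let f : U0 → MovesFix.comm (X := X) A := fun m => ⟨g⁻¹ • (m : X), hline m m.2⟩
    have hfi : Function.Injective f := fun m m' h => Subtype.ext
      (MulAction.injective g⁻¹ (congrArg Subtype.val h))
    intro c hc
    obtain ⟨m, hm⟩ := (hfi.bijective_of_nat_card_le (by rw [hP.card_comm D hf h0]; exact hU0card)).2 ⟨c, hc⟩
    rw [← show g⁻¹ • (m : X) = c from congrArg Subtype.val hm]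
    exact smul_mem_fixV_cj m.2.1
  have hD' : cj g⁻¹ C ≤ (T : Subgroup P) := mem_of_commute D h0 (hC.cj _) fun B hB hBT b hb c hc => by
    by_cases h : B = A
    · subst h
      exact (commute_of_comm_le D hf h0 hP.cls (hC.cj _) hfix b hb c hc).symm
    · obtain ⟨c', hc', rfl⟩ := hc
      rw [MulEquiv.coe_toMonoidHom, MulAut.conj_apply]
      have h1 := hP.comm B hB hBT h b hb g⁻¹ (inv_mem hg)
      have h2 := hP.comm B hB hBT h b hb g hg
      have h3 := (hcm B hB hBT h).1 b hb c' hc'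
      rw [inv_inv]
      calc g⁻¹ * c' * g * b = g⁻¹ * (c' * b) * g := by rw [mul_assoc, h2]; group
        _ = (g⁻¹ * b) * c' * g := by rw [← h3]; group
        _ = _ := by rw [h1]; group
  by_cases h : cj g⁻¹ C = A
  · rw [← cj_cj_inv g C, h]
    exact (cj_mono g hP.le).trans_eq (Fusion.cj_eq_self_of_mem hg)
  · have h1 := hP.cj_other D hg (hC.cj _) hD' h
    rw [cj_cj_inv] at h1
    have hCT : C ≤ (T : Subgroup P) := h1.le.trans hD'
    exact absurd rfl (hcm C hC hCT (fun e' => h (h1.symm.trans e'))).2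

/-- The plane on a member is unique. -/
theorem Plane.plane_eq (hf : ∀ g : P, (∀ x : X, g • x = x) → g = 1) (h0 : Mem X p A0)
    {L2 : Subgroup P} (hP : Plane X D A0 T A L) (hP2 : Plane X D A0 T A L2) : L2 = L := by
  have key : ∀ {L L2 : Subgroup P}, Plane X D A0 T A L → Plane X D A0 T A L2 → L2 ≤ L := by
    intro L L2 hP hP2
    obtain ⟨h, hh, hgen⟩ := hP2.gen
    rw [hgen]
    refine sup_le hP.le (hP.mem_plane D hf h0 (hP.cls.cj h) fun B hB hBT hne => ⟨fun b hb c hc => ?_, ?_⟩)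
    · exact (hP2.comm B hB hBT hne b hb c ((cj_mono h hP2.le).trans_eq (Fusion.cj_eq_self_of_mem hh) hc)).symm
    · intro e
      have h1 := hP2.cj_other D (inv_mem hh) hB hBT hne
      rw [e, cj_inv_cj] at h1
      exact hne (e.trans h1.symm)
  exact le_antisymm (key hP hP2) (key hP2 hP)

end Cfsg.Agent.MovesFix
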