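import Mathlib
import Cfsg.Agent.MovesFix.Partner

/-!
The planes on all the members of a Sylow subgroup.
-/

set_option autoImplicit false
set_option linter.unusedSectionVars false
set_option linter.style.haveILetI false

namespace Cfsg.Agent.MovesFix

open scoped Pointwise MatrixGroups
open LAE79 (fixV mem_fixV)
open Fusion (cj mem_cj cj_cj cj_one cj_mono cj_eq_of_mem cj_eq_iff_mem_normalizer
  isPGroup_cj cj_inv_cj cj_cj_inv card_cj coe_smul_sylow conj_mem_cj)

variable {P : Type*} [Group P] {X : Type*} [AddCommGroup X] [DistribMulAction P X] {p : ℕ}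

theorem comm_iSup_le {ι : Sort*} (L : ι → Subgroup P) :
    comm (X := X) (⨆ i, L i) ≤ ⨆ i, comm (X := X) (L i) :=
  comm_le fun g hg x => (iSup_le fun i _ hk y =>
    (le_iSup (fun i => comm (X := X) (L i)) i) (diff_mem_comm hk y) :
      (⨆ i, L i) ≤ trivMod (⨆ i, comm (X := X) (L i))) hg x

theorem fixV_iSup {ι : Type*} (L : ι → Subgroup P) {x : X} (h : ∀ i, x ∈ fixV (L i)) :
    x ∈ fixV (⨆ i, L i) := fun g hg =>
  (iSup_le fun i => fun k hk => h i k hk : (⨆ i, L i) ≤ MulAction.stabilizer P x) hg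

variable [Finite P] [hp : Fact p.Prime] [Finite X] (D : Hyp P X p)

variable (X) in
/-- The members of `T` with their planes. -/
structure Frame (A0 : Subgroup P) (T : Sylow p P) {ι : Type} (Am L : ι → Subgroup P) : Prop where
  fin : Finite ι
  ne : Nonempty ι
  plane : ∀ i, Plane X D A0 T (Am i) (L i)
  inj : Function.Injective Am
  surj : ∀ B, Cls A0 B → B ≤ (T : Subgroup P) → ∃ i, Am i = B
  act : ∀ t ∈ (T : Subgroup P), ∀ i, ∃ j, Fusion.cj t (Am i) = Am j ∧ Fusion.cj t (L i) = L j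
  trans : ∀ i j, ∃ t ∈ (T : Subgroup P), Fusion.cj t (Am i) = Am j ∧ Fusion.cj t (L i) = L j

include D

theorem exists_frame (hf : ∀ g : P, (∀ x : X, g • x = x) → g = 1) {A0 A L : Subgroup P} {T : Sylow p P}
    (h0 : Mem X p A0) (hP : Plane X D A0 T A L) :
    ∃ (ι : Type) (Am Lm : ι → Subgroup P), Frame X D A0 T Am Lm := by
  classical
  set S := memIn A0 (T : Subgroup P) with hS
  have horb : ∀ B ∈ S, ∃ t ∈ (T : Subgroup P), cj t A = B := by
    intro B hB
    by_contra hno
    push Not at hno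
    refine (cls_mem D h0 hB.1).ne ((Subgroup.eq_bot_iff_forall _).2 fun b hb => hf b fun x => ?_)
    exact sub_eq_zero.1 (hP.inter_bot D fun t ht =>
      (hP.conj D ht).commFix B hB.1 hB.2 (fun e => hno t ht e.symm) (diff_mem_comm hb x))
  choose τ hτ hτA using horb
  obtain ⟨n, ⟨e⟩⟩ := Finite.exists_equiv_fin ↥S
  let Am : Fin n → Subgroup P := fun i => (e.symm i : Subgroup P)
  let Lm : Fin n → Subgroup P := fun i => cj (τ _ (e.symm i).2) L
  have hpl : ∀ i, Plane X D A0 T (Am i) (Lm i) := fun i => by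
    have h := hP.conj D (hτ _ (e.symm i).2)
    rwa [hτA] at h
  have hLeq : ∀ t ∈ (T : Subgroup P), ∀ i j, cj t (Am i) = Am j → cj t (Lm i) = Lm j := by
    intro t ht i j h
    have h1 := (hpl i).conj D ht
    rw [h] at h1
    exact (hpl j).plane_eq D hf h0 h1
  refine ⟨Fin n, Am, Lm, inferInstance, ⟨e ⟨A, hP.cls, hP.leT⟩⟩, hpl, fun i j h =>
    e.symm.injective (Subtype.ext h), fun B hB hBT => ⟨e ⟨B, hB, hBT⟩, by simp [Am]⟩, fun t ht i => ?_,
    fun i j => ?_⟩
  · have hmem : cj t (Am i) ∈ S := ⟨(hpl i).cls.cj t,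
      (cj_mono t (hpl i).leT).trans_eq (Fusion.cj_eq_self_of_mem ht)⟩
    have heq : cj t (Am i) = Am (e ⟨_, hmem⟩) := by simp [Am]
    exact ⟨e ⟨_, hmem⟩, heq, hLeq t ht i _ heq⟩
  · refine ⟨τ _ (e.symm j).2 * (τ _ (e.symm i).2)⁻¹, mul_mem (hτ _ (e.symm j).2) (inv_mem (hτ _ (e.symm i).2)),
      ?_⟩
    have heq : cj (τ _ (e.symm j).2 * (τ _ (e.symm i).2)⁻¹) (Am i) = Am j := by
      show cj _ (e.symm i : Subgroup P) = (e.symm j : Subgroup P)
      conv_lhs => arg 2; rw [← hτA _ (e.symm i).2]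
      rw [cj_cj, inv_mul_cancel_right, hτA]
    exact ⟨heq, hLeq _ (mul_mem (hτ _ (e.symm j).2) (inv_mem (hτ _ (e.symm i).2))) i j heq⟩

variable {A0 : Subgroup P} {T : Sylow p P} {ι : Type} {Am L : ι → Subgroup P}

theorem Frame.le (hF : Frame X D A0 T Am L) (i : ι) : Am i ≤ L i := (hF.plane i).le

theorem Frame.fixA (hF : Frame X D A0 T Am L) {i j : ι} (h : i ≠ j) :
    MovesFix.comm (X := X) (L j) ≤ fixV (Am i) :=
  (hF.plane j).fixOther _ (hF.plane i).cls (hF.plane i).leT fun e => h (hF.inj e)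

theorem Frame.commA (hF : Frame X D A0 T Am L) {i j : ι} (h : i ≠ j) :
    MovesFix.comm (X := X) (Am i) ≤ fixV (L j) :=
  (hF.plane j).commFix _ (hF.plane i).cls (hF.plane i).leT fun e => h (hF.inj e)

theorem Frame.eq_zero (hF : Frame X D A0 T Am L) {x : X} (h : ∀ i, x ∈ fixV (L i)) : x = 0 := by
  obtain ⟨i⟩ := hF.ne
  refine (hF.plane i).inter_bot D fun t ht => ?_
  obtain ⟨j, -, hj⟩ := hF.act t ht i
  rw [hj]; exact h j

theorem Frame.cj_iSup (hF : Frame X D A0 T Am L) {t : P} (ht : t ∈ (T : Subgroup P)) :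
    cj t (⨆ i, L i) = ⨆ i, L i := by
  refine le_antisymm ?_ (iSup_le fun i => ?_)
  · show Subgroup.map _ _ ≤ _
    rw [Subgroup.map_iSup]
    refine iSup_le fun i => ?_
    obtain ⟨j, -, hj⟩ := hF.act t ht i
    exact hj.le.trans (le_iSup L j)
  · obtain ⟨j, -, hj⟩ := hF.act t⁻¹ (inv_mem ht) i
    rw [← cj_cj_inv t (L i), hj]
    exact cj_mono t (le_iSup L j)

theorem Frame.sup_top (hF : Frame X D A0 T Am L) : (⨆ i, L i) ⊔ (T : Subgroup P) = ⊤ := by
  by_contra h
  obtain ⟨i⟩ := hF.ne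
  exact (hF.plane i).notM ((le_iSup L i).trans (le_sup_left.trans (D.uniq T h le_sup_right)))

theorem Frame.comm_top (hF : Frame X D A0 T Am L) : ⨆ i, MovesFix.comm (X := X) (L i) = ⊤ := by
  set N := ⨆ i, MovesFix.comm (X := X) (L i) with hN
  have hinv : ∀ g : P, ∀ y ∈ N, g • y ∈ N := by
    intro g y hy
    have hg : g ∈ LAE79.stabV N := by
      refine (sup_le (iSup_le fun i => fun k hk => LAE79.mem_stabV_of_forall fun z hz => ?_)
        fun t ht => LAE79.mem_stabV_of_forall fun z hz => ?_ :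
          (⨆ i, L i) ⊔ (T : Subgroup P) ≤ LAE79.stabV N) (hF.sup_top.ge (Subgroup.mem_top g))
      · have h1 : k • z - z ∈ N := le_iSup (fun i => MovesFix.comm (X := X) (L i)) i (diff_mem_comm hk z)
        have := add_mem h1 hz
        rwa [sub_add_cancel] at this
      · have h1 : N ≤ N.comap (DistribSMul.toAddMonoidHom X t) := iSup_le fun i z hz => by
          obtain ⟨j, -, hj⟩ := hF.act t ht i
          have h2 := smul_mem_comm_cj t (L i) hz
          rw [hj] at h2
          exact le_iSup (fun i => MovesFix.comm (X := X) (L i)) j h2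
        exact h1 hz
    exact (hg y).2 hy
  rcases D.irr N hinv with h | h
  · obtain ⟨i⟩ := hF.ne
    exfalso
    exact (hF.plane i).comm_not_fix D (((comm_mono (hF.le D i)).trans
      (le_iSup (fun i => MovesFix.comm (X := X) (L i)) i)).trans (h.le.trans bot_le))
  · exact h

/-- Every family of classes modulo the fixed points of the planes is met. -/
theorem Frame.exists_coords (hF : Frame X D A0 T Am L) (hf : ∀ g : P, (∀ x : X, g • x = x) → g = 1)
    (h0 : Mem X p A0) (x : ι → X) : ∃ y : X, ∀ i, y - x i ∈ fixV (L i) := by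
  classical
  haveI := hF.fin
  haveI := Fintype.ofFinite ι
  have hgen : ∀ i, ∃ h ∈ L i, L i = Am i ⊔ cj h (Am i) := fun i => (hF.plane i).gen
  choose h hh hgen using hgen
  choose c hc hcx using fun i =>
    (hF.plane i).exists_partner_disp D hf h0 (hh i) ((hF.plane i).not_norm D (hgen i)) (x i)
  set y1 := ∑ i, h i • c i with hy1
  have h1 : ∀ i, x i - y1 ∈ fixV (Am i) := by
    intro i
    rw [hy1, ← Finset.add_sum_erase _ _ (Finset.mem_univ i), sub_add_eq_sub_sub]
    refine sub_mem (hcx i) (sum_mem fun j hj => hF.fixA D (Finset.mem_erase.1 hj).1.symm ?_)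
    exact smul_mem_comm_self (hh j) (comm_mono (hF.le D j) (hc j))
  choose d hd w hw e using fun i => AddSubgroup.mem_sup.1 ((hF.plane i).split (h1 i))
  refine ⟨y1 + ∑ i, d i, fun i => ?_⟩
  rw [← Finset.add_sum_erase _ _ (Finset.mem_univ i),
    show y1 + (d i + ∑ j ∈ Finset.univ.erase i, d j) - x i =
      (∑ j ∈ Finset.univ.erase i, d j) - (x i - y1 - d i) by abel, ← e i, add_sub_cancel_left]
  exact sub_mem (sum_mem fun j hj => hF.commA D (Finset.mem_erase.1 hj).1 (hd j)) (hw i)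

/-- The fixed points of the members of `T` are their displacements. -/
theorem Frame.fix_join (hF : Frame X D A0 T Am L) {x : X} (hx : ∀ i, x ∈ fixV (Am i)) :
    x ∈ ⨆ i, MovesFix.comm (X := X) (Am i) := by
  classical
  haveI := hF.fin
  haveI := Fintype.ofFinite ι
  choose d hd w hw e using fun i => AddSubgroup.mem_sup.1 ((hF.plane i).split (hx i))
  have h1 : x - ∑ i, d i = 0 := hF.eq_zero D fun i => by
    rw [← Finset.add_sum_erase _ _ (Finset.mem_univ i), sub_add_eq_sub_sub,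
      show x - d i = w i by rw [← e i, add_sub_cancel_left]]
    exact sub_mem (hw i) (sum_mem fun j hj => hF.commA D (Finset.mem_erase.1 hj).1 (hd j))
  rw [sub_eq_zero.1 h1]
  exact sum_mem fun i _ => le_iSup (fun i => MovesFix.comm (X := X) (Am i)) i (hd i)

end Cfsg.Agent.MovesFix
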