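import Mathlib
import Cfsg.Agent.MovesFix.Frame

/-!
Over a field with at least three elements distinct planes fix each other's modules.
-/

set_option autoImplicit false
set_option linter.unusedSectionVars false
set_option linter.style.haveILetI false

namespace Cfsg.Agent.MovesFix

open scoped Pointwise MatrixGroups
open LAE79 (fixV mem_fixV)
open Fusion (cj mem_cj cj_cj cj_one cj_mono cj_eq_of_mem cj_eq_iff_mem_normalizer
  isPGroup_cj cj_inv_cj cj_cj_inv card_cj coe_smul_sylow conj_mem_cj)

variable {P : Type*} [Group P] {X : Type*} [AddCommGroup X] [DistribMulAction P X] {p : ℕ}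
  [Finite P] [hp : Fact p.Prime] [Finite X] (D : Hyp P X p)
  {A0 : Subgroup P} {T : Sylow p P} {ι : Type} {Am L : ι → Subgroup P}

include D

theorem Frame.cross (hF : Frame X D A0 T Am L) (hf : ∀ g : P, (∀ x : X, g • x = x) → g = 1)
    (h0 : Mem X p A0) {i j : ι} (h3 : 3 ≤ Nat.card (Am i)) (hij : i ≠ j) :
    MovesFix.comm (X := X) (L j) ≤ fixV (L i) := by
  classical
  obtain ⟨F, _, _, hFc, ⟨C⟩⟩ := (hF.plane i).nat
  have hF3 : 3 ≤ Nat.card F := by rw [Nat.card_eq_fintype_card, hFc]; exact h3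
  obtain ⟨l, hl⟩ := Coord.exists_unit_ne_one (F := F) hF3
  set h : P := (C.tor l : P) with hh
  have hhL : h ∈ L i := (C.tor l).2
  have hPj := hF.plane j
  have hPi := hF.plane i
  have hAij : Am j ≠ Am i := fun e => hij (hF.inj e).symm
  have hhi : cj h (Am i) = Am i := (hPi.norm_of_pres D hf h0 hhL (C.tor_pres l)).1
  have hhc : ∀ a ∈ Am j, h * a = a * h := fun a ha => hPi.comm _ hPj.cls hPj.leT hAij a ha h hhL
  have hhj : cj h (Am j) = Am j := hPi.cj_other D hhL hPj.cls hPj.leT hAij
  obtain ⟨k, hk, hgen⟩ := hPj.gen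
  have hLj : cj h (L j) ≤ L j := by
    conv_lhs => rw [hgen]
    show Subgroup.map _ _ ≤ _
    rw [Subgroup.map_sup]
    refine sup_le (hhj.le.trans hPj.le) (hPj.mem_plane D hf h0 ((hPj.cls.cj k).cj h)
      fun B hB hBT hne => ⟨fun b hb c hc => ?_, fun e => ?_⟩)
    · obtain ⟨c', hc', rfl⟩ := hc
      have hc'L : c' ∈ L j := (cj_mono k hPj.le).trans_eq (Fusion.cj_eq_self_of_mem hk) hc'
      have hb' : h⁻¹ * b * h ∈ B := by
        by_cases e : B = Am i
        · rw [e, ← mem_cj, hhi, ← e]; exact hb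
        · rw [← mem_cj, hPi.cj_other D hhL hB hBT e]; exact hb
      have h1 := hPj.comm B hB hBT hne _ hb' c' hc'L
      rw [MulEquiv.coe_toMonoidHom, MulAut.conj_apply]
      calc b * (h * c' * h⁻¹) = h * ((h⁻¹ * b * h) * c') * h⁻¹ := by group
        _ = _ := by rw [← h1]; group
    · have h1 : cj h⁻¹ B = B := by
        by_cases e' : B = Am i
        · subst e'
          conv_lhs => rw [← hhi]
          exact cj_inv_cj h (Am i)
        · exact hPi.cj_other D (inv_mem hhL) hB hBT e'
      have h2 := hPj.cj_other D (inv_mem hk) hB hBT hne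
      rw [e, cj_inv_cj] at h1
      rw [e, ← h1, cj_inv_cj] at h2
      exact hne (e.trans (h1.symm.trans h2.symm))
  have hN : ∀ y ∈ MovesFix.comm (X := X) (L j), h • y ∈ MovesFix.comm (X := X) (L j) := fun y hy =>
    comm_mono hLj (smul_mem_comm_cj h (L j) hy)
  have hAfix : ∀ c ∈ MovesFix.comm (X := X) (Am j), h • c = c := fun c hc =>
    hF.commA D hij.symm hc h hhL
  intro y hy
  set δ := h • y - y with hδ
  have hδN : δ ∈ MovesFix.comm (X := X) (L j) := sub_mem (hN y hy) hy
  have hδA : δ ∈ fixV (Am j) := fun a ha => by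
    have h1 := hAfix _ (diff_mem_comm ha y)
    rw [smul_sub, ← mul_smul, hhc a ha, mul_smul, sub_eq_sub_iff_sub_eq_sub] at h1
    rw [hδ, smul_sub]
    exact h1
  have hδh : h • δ = δ := hAfix _ (hPj.fix_inter D hf h0 hδN hδA)
  have hpow : ∀ n : ℕ, h ^ n • y = y + n • δ := by
    intro n
    induction n with
    | zero => rw [pow_zero, one_smul, zero_smul, add_zero]
    | succ n ih =>
      rw [pow_succ', mul_smul, ih, smul_add, show h • (n • δ) = n • (h • δ) from
        map_nsmul (DistribSMul.toAddMonoidHom X h) n δ, hδh,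
        show h • y = y + δ by rw [hδ]; abel, succ_nsmul]
      abel
  have hδ0 : δ = 0 := by
    have h1 : h ^ (Nat.card F - 1) = 1 := by
      rw [hh, ← SubmonoidClass.coe_pow, ← map_pow, ← Nat.card_units, pow_card_eq_one', map_one,
        OneMemClass.coe_one]
    have h2 := hpow (Nat.card F - 1)
    rw [h1, one_smul] at h2
    have h3' : Nat.card F • δ = (Nat.card F - 1) • δ + δ := by
      rw [← succ_nsmul, Nat.sub_add_cancel (by omega : 1 ≤ Nat.card F)]
    rw [card_smul_eq_zero D h0 hPi.cls hFc, left_eq_add.1 h2, zero_add] at h3'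
    exact h3'.symm
  have hfix : h • y = y := by rwa [hδ, sub_eq_zero] at hδ0
  refine (C.ker y).1 ?_
  have h1 := C.psi_tor l y
  rw [← hh, hfix] at h1
  have hl' : (l : F) ≠ 1 := fun e => hl (Units.ext e)
  funext m
  fin_cases m
  · show C.ψ y 0 = 0
    have h2 := congrFun h1 0
    simp only [Matrix.cons_val_zero] at h2
    by_contra hne
    exact hl' ((right_eq_mul₀ hne).1 h2)
  · show C.ψ y 1 = 0
    have h2 := congrFun h1 1
    simp only [Matrix.cons_val_one, Matrix.cons_val_fin_one] at h2
    by_contra hne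
    exact hl' (by simpa [Units.val_inv_eq_inv_val] using (right_eq_mul₀ hne).1 h2)

end Cfsg.Agent.MovesFix
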