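import Mathlib
import Cfsg.Agent.MovesFix.Cross

/-!
The planes over the field with two elements: pairs of transvections and their adjacency.
-/

set_option autoImplicit false
set_option linter.unusedSectionVars false
set_option linter.style.haveILetI false

namespace Cfsg.Agent.MovesFix

open scoped Pointwise MatrixGroups
open LAE79 (fixV mem_fixV)
open Fusion (cj mem_cj cj_cj cj_one cj_mono cj_eq_of_mem cj_eq_iff_mem_normalizer
  isPGroup_cj cj_inv_cj cj_cj_inv card_cj coe_smul_sylow conj_mem_cj)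

theorem zmod_two_ne {a : ZMod 2} (h : a ≠ 0) : a = 1 := by
  revert h a; decide

theorem zmod_two_self (a : ZMod 2) : a + a = 0 := by
  revert a; decide

variable {P : Type*} [Group P] {X : Type*} [AddCommGroup X] [DistribMulAction P X] {p : ℕ}
  [Finite P] [hp : Fact p.Prime] [Finite X] (D : Hyp P X p)

variable (X) in
/-- Two transvections generating a plane over the field with two elements. -/
structure Pair (Am L : Subgroup P) where
  /-- The transvection of the member. -/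
  a : P
  /-- The transvection of the partner. -/
  c : P
  /-- The centre of `a`. -/
  e : X
  /-- The centre of `c`. -/
  v : X
  /-- The axis of `a`. -/
  α : X →+ ZMod 2
  /-- The axis of `c`. -/
  γ : X →+ ZMod 2
  a_mem : a ∈ Am
  c_mem : c ∈ L
  le_close : L ≤ Subgroup.closure {a, c}
  e_mem : e ∈ comm (X := X) Am
  v_mem : v ∈ comm (X := X) L
  comm_gen : comm (X := X) Am ≤ AddSubgroup.zmultiples e
  smul_a : ∀ x : X, a • x = x + (α x).val • e
  smul_c : ∀ x : X, c • x = x + (γ x).val • v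
  αe : α e = 0
  αv : α v = 1
  γe : γ e = 1
  γv : γ v = 0
  fixA : ∀ x : X, x ∈ fixV Am ↔ α x = 0
  fix_iff : ∀ x : X, x ∈ fixV L ↔ α x = 0 ∧ γ x = 0
  /-- The element carrying the member to the partner. -/
  tw : P
  v_eq : v = tw • e
  γ_eq : ∀ x : X, γ x = α (tw⁻¹ • x)
  c_eq : c = tw * a * tw⁻¹

theorem mem_zmultiples_two {e x : X} (h2 : ∀ y : X, y + y = 0) (h : x ∈ AddSubgroup.zmultiples e) :
    x = 0 ∨ x = e := by
  obtain ⟨k, rfl⟩ := AddSubgroup.mem_zmultiples_iff.1 h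
  rcases Int.even_or_odd k with ⟨m, rfl⟩ | ⟨m, rfl⟩
  · exact Or.inl (by rw [add_zsmul, h2])
  · exact Or.inr (by rw [add_zsmul, one_zsmul, two_mul, add_zsmul, h2, zero_add])

include D

theorem Hyp.add_self_eq (hp2 : p = 2) (x : X) : x + x = 0 := by
  subst hp2; rw [← two_nsmul, D.exp]

theorem Plane.exists_pair (hf : ∀ g : P, (∀ x : X, g • x = x) → g = 1) {A0 A L : Subgroup P}
    {T : Sylow p P} (h0 : Mem X p A0) (hP : Plane X D A0 T A L) (h2 : Nat.card A = 2) :
    Nonempty (Pair X A L) := by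
  classical
  obtain ⟨F, _, _, hFc, ⟨C⟩⟩ := hP.nat
  have hAm := cls_mem D h0 hP.cls
  have hq := Mem.quad D hAm
  let ε : F →+ ZMod 2 := (ZMod.ringEquivOfPrime F Nat.prime_two
    (by rw [hFc, h2])).symm.toRingHom.toAddMonoidHom
  have hε : ∀ w : F, ε w = 0 ↔ w = 0 := fun w =>
    map_eq_zero_iff _ (ZMod.ringEquivOfPrime F Nat.prime_two (by rw [hFc, h2])).symm.injective
  let α : X →+ ZMod 2 := ε.comp ((Pi.evalAddMonoidHom (fun _ => F) 1).comp C.ψ)
  have hαA : ∀ x : X, x ∈ fixV A ↔ α x = 0 := fun x => (C.line x).trans (hε _).symm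
  obtain ⟨a, ha1, huq⟩ := (Nat.card_eq_two_iff' (1 : ↥A)).1 h2
  obtain ⟨x1, hx1⟩ := C.ψsurj ![0, 1]
  set e := (a : P) • x1 - x1 with he
  have hsmul : ∀ x : X, (a : P) • x = x + (α x).val • e := by
    intro x
    by_cases hx : α x = 0
    · rw [hx, (hαA x).2 hx a a.2]; simp
    · have hx11 : α x1 = 1 := zmod_two_ne fun h => by
        have h1 := (C.line x1).1 ((hαA x1).2 h)
        rw [hx1] at h1
        simp at h1
      have hd : x - x1 ∈ fixV A := (hαA _).2 (by rw [map_sub, zmod_two_ne hx, hx11, sub_self])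
      have h1 := hd a a.2
      rw [smul_sub, sub_eq_sub_iff_sub_eq_sub] at h1
      rw [zmod_two_ne hx, ZMod.val_one, one_smul, he, ← h1]
      abel
  have hA : ∀ b ∈ A, b = 1 ∨ b = (a : P) := fun b hb => by
    by_cases h : (⟨b, hb⟩ : ↥A) = 1
    · exact Or.inl (congrArg Subtype.val h)
    · exact Or.inr (congrArg Subtype.val (huq _ h))
  have hgenA : MovesFix.comm (X := X) A ≤ AddSubgroup.zmultiples e := comm_le fun b hb x => by
    rcases hA b hb with rfl | rfl
    · rw [one_smul, sub_self]; exact zero_mem _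
    · rw [hsmul, add_sub_cancel_left]
      exact AddSubgroup.nsmul_mem _ (AddSubgroup.mem_zmultiples e) _
  have he0 : e ≠ 0 := fun h => hP.comm_not_fix D
    (hgenA.trans (by rw [h, AddSubgroup.zmultiples_zero_eq_bot]; exact bot_le))
  have heA : e ∈ MovesFix.comm (X := X) A := diff_mem_comm a.2 x1
  obtain ⟨h, hh, hgen⟩ := hP.gen
  have hne := hP.not_norm D hgen
  have hne' : cj h⁻¹ A ≠ A := fun e' => hne (by conv_lhs => rw [← e', cj_cj_inv])
  have hce : α (h • e) = 1 := zmod_two_ne fun h' =>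
    hP.move D hf h0 hh hne heA he0 ((hαA _).2 h')
  have hie : α (h⁻¹ • e) = 1 := zmod_two_ne fun h' =>
    hP.move D hf h0 (inv_mem hh) hne' heA he0 ((hαA _).2 h')
  refine ⟨{
    a := a, c := h * a * h⁻¹, e := e, v := h • e, α := α
    γ := α.comp (DistribSMul.toAddMonoidHom X h⁻¹)
    a_mem := a.2
    c_mem := mul_mem (mul_mem hh ((Plane.le D hP) a.2)) (inv_mem hh)
    le_close := ?_
    e_mem := heA
    v_mem := smul_mem_comm_self hh (comm_mono hP.le heA)
    comm_gen := hgenA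
    smul_a := hsmul
    smul_c := fun x => ?_
    αe := (hαA e).1 (hq.comm_le_fix heA)
    αv := hce
    γe := hie
    γv := by
      show α (h⁻¹ • h • e) = 0
      rw [inv_smul_smul]
      exact (hαA e).1 (hq.comm_le_fix heA)
    fixA := hαA
    tw := h
    v_eq := rfl
    γ_eq := fun _ => rfl
    c_eq := rfl
    fix_iff := fun x => ?_ }⟩
  · rw [hgen]
    refine sup_le (fun b hb => ?_) ?_
    · rcases hA b hb with rfl | rfl
      · exact one_mem _
      · exact Subgroup.subset_closure (by simp)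
    · rintro _ ⟨b, hb, rfl⟩
      rcases hA b hb with rfl | rfl
      · rw [map_one]; exact one_mem _
      · exact Subgroup.subset_closure (by simp)
  · show (h * a * h⁻¹) • x = x + (α (h⁻¹ • x)).val • h • e
    rw [mul_smul, mul_smul, hsmul, smul_add, smul_inv_smul]
    congr 1
    exact map_nsmul (DistribSMul.toAddMonoidHom X h) _ e
  · rw [hgen, fixV_sup, AddSubgroup.mem_inf, hαA, mem_fixV_map_conj, hαA]
    rfl

variable {A0 : Subgroup P} {T : Sylow p P} {ι : Type} {Am L : ι → Subgroup P}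

theorem Frame.pair_e (hF : Frame X D A0 T Am L) (Q : ∀ i, Pair X (Am i) (L i)) {i j : ι} (h : i ≠ j) :
    (Q i).α (Q j).e = 0 ∧ (Q i).γ (Q j).e = 0 ∧ (Q i).α (Q j).v = 0 := by
  have h1 := ((Q i).fix_iff _).1 (hF.commA D h.symm (Q j).e_mem)
  exact ⟨h1.1, h1.2, ((Q i).fixA _).1 (hF.fixA D h (Q j).v_mem)⟩

theorem Frame.pair_symm (hF : Frame X D A0 T Am L) (Q : ∀ i, Pair X (Am i) (L i)) (hp2 : p = 2)
    (hf : ∀ g : P, (∀ x : X, g • x = x) → g = 1) (h0 : Mem X p A0) {i j : ι} (hij : i ≠ j)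
    (h : (Q i).γ (Q j).v = 0) : (Q j).γ (Q i).v = 0 := by
  have hexp := D.add_self_eq hp2
  by_contra hne
  have hne1 := zmod_two_ne hne
  obtain ⟨-, hije, -⟩ := hF.pair_e D Q hij
  obtain ⟨-, hjie, -⟩ := hF.pair_e D Q hij.symm
  have hcj : ∀ k : ι, Cls A0 (cj (Q k).tw (Am k)) ∧ (Q k).c ∈ cj (Q k).tw (Am k) := fun k =>
    ⟨(hF.plane k).cls.cj _, (Q k).c_eq ▸ conj_mem_cj.2 (Q k).a_mem⟩
  have hle : MovesFix.comm (X := X) (cj (Q j).tw (Am j)) ≤ fixV (cj (Q i).tw (Am i)) := by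
    refine comm_cj_le fun y hy => ?_
    rw [mem_fixV_map_conj, (Q i).fixA, ← (Q i).γ_eq]
    obtain ⟨n, rfl⟩ := AddSubgroup.mem_zmultiples_iff.1 ((Q j).comm_gen hy)
    rw [show (Q j).tw • n • (Q j).e = n • ((Q j).tw • (Q j).e) from
      map_zsmul (DistribSMul.toAddMonoidHom X (Q j).tw) n (Q j).e, ← (Q j).v_eq, map_zsmul, h, smul_zero]
  have hcc : (Q i).c * (Q j).c = (Q j).c * (Q i).c :=
    (commute_of_comm_le D hf h0 (hcj j).1 (hcj i).1 hle _ (hcj j).2 _ (hcj i).2).symm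
  have h1 := congrArg (· • (Q i).e) hcc
  simp only [mul_smul] at h1
  rw [(Q j).smul_c (Q i).e, hjie, (Q i).smul_c (Q i).e, (Q i).γe] at h1
  simp only [ZMod.val_zero, zero_smul, add_zero, ZMod.val_one, one_smul] at h1
  rw [(Q i).smul_c (Q i).e, (Q i).γe, (Q j).smul_c, map_add, hjie, hne1] at h1
  simp only [zero_add, ZMod.val_one, one_smul] at h1
  have hvj : (Q j).v = 0 := left_eq_add.1 h1
  simpa [hvj] using (Q j).αv

/-- Adjacency is transitive. -/
theorem Frame.pair_trans (hF : Frame X D A0 T Am L) (Q : ∀ i, Pair X (Am i) (L i)) (hp2 : p = 2)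
    (hf : ∀ g : P, (∀ x : X, g • x = x) → g = 1) (h0 : Mem X p A0) {i j k : ι} (hij : i ≠ j)
    (hjk : j ≠ k) (hik : i ≠ k) (h1 : (Q i).γ (Q j).v = 1) (h2 : (Q j).γ (Q k).v = 1) :
    (Q i).γ (Q k).v = 1 := by
  by_contra h13
  have z13 : (Q i).γ (Q k).v = 0 := by
    by_contra h; exact h13 (zmod_two_ne h)
  have hexp := D.add_self_eq hp2
  have one_of : ∀ {a b : ι}, a ≠ b → (Q a).γ (Q b).v = 1 → (Q b).γ (Q a).v = 1 := fun {a b} hab h =>
    zmod_two_ne fun h' => one_ne_zero (h.symm.trans (hF.pair_symm D Q hp2 hf h0 hab.symm h'))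
  have z31 := hF.pair_symm D Q hp2 hf h0 hik z13
  have h21 := one_of hij h1
  have h32 := one_of hjk h2
  obtain ⟨a12, g12, b12⟩ := hF.pair_e D Q hij
  obtain ⟨a21, g21, b21⟩ := hF.pair_e D Q hij.symm
  obtain ⟨a13, g13, b13⟩ := hF.pair_e D Q hik
  obtain ⟨a31, g31, b31⟩ := hF.pair_e D Q hik.symm
  obtain ⟨a23, g23, b23⟩ := hF.pair_e D Q hjk
  obtain ⟨a32, g32, b32⟩ := hF.pair_e D Q hjk.symm
  set u := (Q i).e + (Q j).e + (Q k).e with hu
  have t2 : (1 : ZMod 2) + 1 = 0 := zmod_two_self 1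
  have hw : ((Q k).c * ((Q i).c * ((Q j).c * ((Q j).a * ((Q k).a * ((Q i).a * ((Q k).c *
      ((Q i).c * ((Q j).a * (Q j).c))))))))) • (Q j).e = u := by
    simp [mul_smul, Pair.smul_a, Pair.smul_c, Pair.αe, Pair.αv, Pair.γe, Pair.γv, a12, g12, b12, a21,
      g21, b21, a13, g13, b13, a31, g31, b31, a23, g23, b23, a32, g32, b32, h1, h2, h21, h32, z13, z31,
      t2, ZMod.val_one, hexp, hu]
    abel_nf
    have hn : ∀ (n : ℤ) (x : X), n • x = (n % 2) • x := fun n x => by
      conv_lhs => rw [← Int.emod_add_mul_ediv n 2, add_smul, mul_smul, two_zsmul, hexp, add_zero]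
    rw [hn 3, hn 6, hn 8 (Q k).v, hn 8 (Q i).v]
    simp
  set w := ((Q k).c * ((Q i).c * ((Q j).c * ((Q j).a * ((Q k).a * ((Q i).a * ((Q k).c *
      ((Q i).c * ((Q j).a * (Q j).c))))))))) with hwdef
  have hcls : Cls A0 (cj w (Am j)) := (hF.plane j).cls.cj w
  have hgen : MovesFix.comm (X := X) (cj w (Am j)) ≤ AddSubgroup.zmultiples u := comm_cj_le fun y hy => by
    obtain ⟨n, rfl⟩ := AddSubgroup.mem_zmultiples_iff.1 ((Q j).comm_gen hy)
    rw [show w • n • (Q j).e = n • (w • (Q j).e) from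
      map_zsmul (DistribSMul.toAddMonoidHom X w) n (Q j).e, hw]
    exact AddSubgroup.zsmul_mem _ (AddSubgroup.mem_zmultiples u) _
  have hufix : ∀ l, u ∈ fixV (Am l) := fun l => by
    have h3 : ∀ m, (Q m).e ∈ fixV (Am l) := fun m => by
      by_cases h : m = l
      · subst h; exact ((Q m).fixA _).2 (Q m).αe
      · exact fixV_anti (hF.le D l) (hF.commA D h (Q m).e_mem)
    exact add_mem (add_mem (h3 i) (h3 j)) (h3 k)
  have hT : cj w (Am j) ≤ (T : Subgroup P) := mem_of_commute D h0 hcls fun B hB hBT b hb c hc => by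
    obtain ⟨l, rfl⟩ := hF.surj B hB hBT
    exact commute_of_comm_le D hf h0 hcls (hF.plane l).cls
      (hgen.trans (AddSubgroup.zmultiples_le_of_mem (hufix l))) c hc b hb
  obtain ⟨l, hl⟩ := hF.surj _ hcls hT
  have hul : u ∈ MovesFix.comm (X := X) (Am l) := by
    rw [hl, ← hw]
    exact smul_mem_comm_cj w (Am j) (Q j).e_mem
  have hγ : ∀ m, (Q m).γ u = 1 → l = m := fun m hm => by
    by_contra h
    exact one_ne_zero (hm.symm.trans (((Q m).fix_iff _).1 (hF.commA D h hul)).2)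
  have e1 := hγ i (by simp [hu, Pair.γe, g12, g13])
  have e2 := hγ j (by simp [hu, Pair.γe, g21, g23])
  exact hij (e1.symm.trans e2)

end Cfsg.Agent.MovesFix
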