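import Mathlib
import Cfsg.Agent.MovesFix.Pairs

/-!
A class of pairwise adjacent planes acts as a symmetric group on its even-weight module.
-/

set_option autoImplicit false
set_option linter.unusedSectionVars false
set_option linter.style.haveILetI false

namespace Cfsg.Agent.MovesFix

open scoped Pointwise MatrixGroups
open LAE79 (fixV mem_fixV)
open Fusion (cj mem_cj cj_cj cj_one cj_mono cj_eq_of_mem cj_eq_iff_mem_normalizer
  isPGroup_cj cj_inv_cj cj_cj_inv card_cj coe_smul_sylow conj_mem_cj)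

theorem perm_eq_of_even {Ω : Type} [Fintype Ω] [DecidableEq Ω] (h3 : 3 ≤ Fintype.card Ω) {σ τ : Equiv.Perm Ω}
    (h : ∀ w : Ω → ZMod 2, ∑ o, w o = 0 → ∀ o, w (σ o) = w (τ o)) : σ = τ := by
  ext o
  by_contra hne
  obtain ⟨c, hc⟩ : ∃ c, c ∉ ({σ o, τ o} : Finset Ω) := by
    by_contra hh
    push Not at hh
    have := Finset.card_le_card (fun c _ => hh c : (Finset.univ : Finset Ω) ⊆ {σ o, τ o})
    rw [Finset.card_univ] at this
    have := Finset.card_le_two (a := σ o) (b := τ o)
    omega
  simp only [Finset.mem_insert, Finset.mem_singleton, not_or] at hc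
  have h1 := h (fun x => (if x = σ o then 1 else 0) + if x = c then 1 else 0)
    (by rw [Finset.sum_add_distrib]; simp [zmod_two_self]) o
  simp [hc.1, hc.2, Ne.symm hne, Ne.symm hc.1, Ne.symm hc.2] at h1

variable {P : Type*} [Group P] {X : Type*} [AddCommGroup X] [DistribMulAction P X] {p : ℕ}
  [Finite P] [hp : Fact p.Prime] [Finite X] (D : Hyp P X p)
  {A0 : Subgroup P} {T : Sylow p P} {ι : Type} {Am L : ι → Subgroup P}

include D

theorem Frame.sym_model (hF : Frame X D A0 T Am L) (hp2 : p = 2) (Q : ∀ i, Pair X (Am i) (L i))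
    (hf : ∀ g : P, (∀ x : X, g • x = x) → g = 1) (h0 : Mem X p A0) {S : Set ι} (hS : S.Nonempty)
    (hadj : ∀ i ∈ S, ∀ j ∈ S, i ≠ j → (Q i).γ (Q j).v = 1)
    (hcross : ∀ i ∈ S, ∀ j ∉ S, comm (X := X) (L i) ≤ fixV (L j)) :
    ∃ (ρ : ↥(⨆ i : ↥S, L i) →* Equiv.Perm (Fin (2 * Nat.card S + 1)))
      (ψ : X →+ (Fin (2 * Nat.card S + 1) → ZMod 2)),
      Function.Bijective ρ ∧ (∀ x, ∑ o, ψ x o = 0) ∧
        (∀ w : Fin (2 * Nat.card S + 1) → ZMod 2, ∑ o, w o = 0 → ∃ x, ψ x = w) ∧
        (∀ x, ψ x = 0 ↔ x ∈ fixV (⨆ i : ↥S, L i)) ∧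
        ∀ (g : ↥(⨆ i : ↥S, L i)) (x : X) (o : Fin (2 * Nat.card S + 1)),
          ψ ((g : P) • x) o = ψ x ((ρ g)⁻¹ o) := by
  classical
  haveI := hF.fin
  haveI : Fintype ↥S := Fintype.ofFinite _
  haveI : Nonempty ↥S := hS.to_subtype
  have hexp := D.add_self_eq hp2
  set E := ⨆ i : ↥S, L i with hE
  let σα : X →+ ZMod 2 := ∑ j : ↥S, (Q j).α
  have hσα : ∀ x, σα x = ∑ j : ↥S, (Q j).α x := fun x => by
    simp [σα, AddMonoidHom.finsetSum_apply]
  let Ω := Option (↥S × Bool)
  let φ : X →+ (Ω → ZMod 2) := AddMonoidHom.mk'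
    (fun x (o : Option (↥S × Bool)) => o.elim (σα x) fun ib : ↥S × Bool => (Q ib.1).γ x + σα x + (if ib.2 then (Q ib.1).α x else 0))
    fun x y => by
      funext o
      rcases o with _ | ⟨i, b⟩
      · simp
      · cases b
        · simp only [Option.elim_some, Pi.add_apply, map_add, Bool.false_eq_true, if_false]; ring
        · simp only [Option.elim_some, Pi.add_apply, map_add, if_true]; ring
  have φn : ∀ x, φ x none = σα x := fun x => rfl
  have φt : ∀ x (i : ↥S), φ x (some (i, true)) = (Q i).γ x + σα x + (Q i).α x := fun x i => rfl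
  have φf : ∀ x (i : ↥S), φ x (some (i, false)) = (Q i).γ x + σα x := fun x i => by
    show (Q i).γ x + σα x + (if false = true then (Q i).α x else 0) = _
    simp
  have hsum : ∀ x, ∑ o, φ x o = 0 := fun x => by
    rw [Fintype.sum_option, φn, Fintype.sum_prod_type]
    simp only [Fintype.sum_bool, φt, φf]
    rw [Finset.sum_congr rfl (fun (i : ↥S) _ => show (Q i).γ x + σα x + (Q i).α x + ((Q i).γ x + σα x) =
      (Q i).α x by linear_combination zmod_two_self ((Q i).γ x + σα x)), ← hσα]
    exact zmod_two_self _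
  have hker : ∀ x, φ x = 0 ↔ x ∈ fixV E := by
    intro x
    refine ⟨fun h => fixV_iSup _ fun i => ((Q i).fix_iff x).2 ?_, fun h => ?_⟩
    · have hα : ∀ j : ↥S, (Q j).α x = 0 := fun j => by
        have h1 := congrFun h (some (j, true))
        have h2 := congrFun h (some (j, false))
        rw [φt, Pi.zero_apply] at h1
        rw [φf, Pi.zero_apply] at h2
        linear_combination h1 - h2
      refine ⟨hα i, ?_⟩
      have h2 := congrFun h (some (i, false))
      rw [φf, Pi.zero_apply, hσα, Finset.sum_eq_zero fun j _ => hα j, add_zero] at h2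
      exact h2
    · have h' : ∀ i : ↥S, (Q i).α x = 0 ∧ (Q i).γ x = 0 := fun i =>
        ((Q i).fix_iff x).1 (fixV_anti (le_iSup (fun i : ↥S => L i) i) h)
      funext o
      rcases o with _ | ⟨i, b⟩
      · rw [φn, hσα]; exact Finset.sum_eq_zero fun i _ => (h' i).1
      · cases b
        · rw [φf, hσα, (h' i).2, Finset.sum_eq_zero fun i _ => (h' i).1]; simp
        · rw [φt, hσα, (h' i).1, (h' i).2, Finset.sum_eq_zero fun i _ => (h' i).1]; simp
  -- values on the centres
  have hve : ∀ i j : ↥S, (Q j).α (Q i).e = 0 ∧ (Q j).γ (Q i).e = (if j = i then 1 else 0) ∧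
      (Q j).α (Q i).v = (if j = i then 1 else 0) ∧ (Q j).γ (Q i).v = (if j = i then 0 else 1) := by
    intro i j
    by_cases h : j = i
    · subst h; simp [Pair.αe, Pair.γe, Pair.αv, Pair.γv]
    · have h' : (j : ι) ≠ i := fun e => h (Subtype.ext e)
      obtain ⟨h1, h2, h3⟩ := hF.pair_e D Q h'
      simp [h, h1, h2, h3, hadj j j.2 i i.2 h']
  have hφe : ∀ i : ↥S, φ (Q i).e = fun o => if o = some (i, true) ∨ o = some (i, false) then 1 else 0 := by
    intro i
    funext o
    have hs : σα (Q i).e = 0 := by rw [hσα]; exact Finset.sum_eq_zero fun j _ => (hve i j).1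
    rcases o with _ | ⟨j, b⟩
    · simp [φn, hs]
    · cases b
      · simp [φf, hs, (hve i j).2.1]
      · simp [φt, hs, (hve i j).2.1, (hve i j).1]
  have hφv : ∀ i : ↥S, φ (Q i).v = fun o => if o = some (i, false) ∨ o = none then 1 else 0 := by
    intro i
    funext o
    have hs : σα (Q i).v = 1 := by
      rw [hσα, Finset.sum_congr rfl fun j _ => (hve i j).2.2.1]
      simp
    rcases o with _ | ⟨j, b⟩
    · simp [φn, hs]
    · cases b
      · rw [φf, hs, (hve i j).2.2.2]
        by_cases h : j = i <;> simp [h, zmod_two_self]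
      · rw [φt, hs, (hve i j).2.2.2, (hve i j).2.2.1]
        by_cases h : j = i <;> simp [h, zmod_two_self]
  -- the permutations of the generators
  have hga : ∀ (i : ↥S) x o, φ ((Q i).a • x) o = φ x (Equiv.swap (some (i, true)) (some (i, false)) o) := by
    intro i x o
    rw [(Q i).smul_a, map_add, map_nsmul, Pi.add_apply, Pi.smul_apply, hφe, nsmul_eq_mul,
      ZMod.natCast_zmod_val]
    simp only []
    have hd : φ x (some (i, true)) + φ x (some (i, false)) = (Q i).α x := by
      rw [φt, φf]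
      linear_combination zmod_two_self ((Q i).γ x + σα x)
    by_cases h1 : o = some (i, true)
    · subst h1
      rw [Equiv.swap_apply_left, if_pos (Or.inl rfl), mul_one]
      linear_combination -hd + zmod_two_self (φ x (some (i, true)))
    · by_cases h2 : o = some (i, false)
      · subst h2
        rw [Equiv.swap_apply_right, if_pos (Or.inr rfl), mul_one]
        linear_combination -hd + zmod_two_self (φ x (some (i, false)))
      · rw [Equiv.swap_apply_of_ne_of_ne h1 h2, if_neg (by tauto), mul_zero, add_zero]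
  have hgc : ∀ (i : ↥S) x o, φ ((Q i).c • x) o = φ x (Equiv.swap (some (i, false)) none o) := by
    intro i x o
    rw [(Q i).smul_c, map_add, map_nsmul, Pi.add_apply, Pi.smul_apply, hφv, nsmul_eq_mul,
      ZMod.natCast_zmod_val]
    simp only []
    have hd : φ x (some (i, false)) + φ x none = (Q i).γ x := by
      rw [φf, φn]
      linear_combination zmod_two_self (σα x)
    by_cases h1 : o = some (i, false)
    · subst h1
      rw [Equiv.swap_apply_left, if_pos (Or.inl rfl), mul_one]
      linear_combination -hd + zmod_two_self (φ x (some (i, false)))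
    · by_cases h2 : o = none
      · subst h2
        rw [Equiv.swap_apply_right, if_pos (Or.inr rfl), mul_one]
        linear_combination -hd + zmod_two_self (φ x none)
      · rw [Equiv.swap_apply_of_ne_of_ne h1 h2, if_neg (by tauto), mul_zero, add_zero]
  -- coordinates meet every even vector
  have himg : ∀ w : Ω → ZMod 2, ∑ o, w o = 0 → ∃ x, φ x = w := by
    intro w hw
    have hloc : ∀ i : ι, ∀ a b : ZMod 2, ∃ x : X, (Q i).α x = a ∧ (Q i).γ x = b := fun i a b =>
      ⟨a.val • (Q i).v + b.val • (Q i).e,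
        by rw [map_add, map_nsmul, map_nsmul, (Q i).αv, (Q i).αe]; simp,
        by rw [map_add, map_nsmul, map_nsmul, (Q i).γv, (Q i).γe]; simp⟩
    choose z hzα hzγ using hloc
    obtain ⟨y, hy⟩ := hF.exists_coords D hf h0 fun i => if h : i ∈ S then
      z i (w (some (⟨i, h⟩, true)) + w (some (⟨i, h⟩, false))) (w (some (⟨i, h⟩, false)) + w none) else 0
    have hval : ∀ i : ↥S, (Q i).α y = w (some (i, true)) + w (some (i, false)) ∧
        (Q i).γ y = w (some (i, false)) + w none := by
      intro i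
      have h1 := ((Q i).fix_iff _).1 (hy i)
      rw [dif_pos i.2, map_sub, map_sub, sub_eq_zero, sub_eq_zero, hzα, hzγ] at h1
      exact h1
    refine ⟨y, ?_⟩
    have hn : σα y = w none := by
      rw [hσα, Finset.sum_congr rfl fun i _ => (hval i).1]
      rw [Fintype.sum_option, Fintype.sum_prod_type] at hw
      simp only [Fintype.sum_bool] at hw
      linear_combination hw - zmod_two_self (w none)
    funext o
    rcases o with _ | ⟨i, b⟩
    · rw [φn, hn]
    · cases b
      · rw [φf, hn, (hval i).2]; linear_combination zmod_two_self (w none)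
      · rw [φt, hn, (hval i).2, (hval i).1]
        linear_combination zmod_two_self (w none) + zmod_two_self (w (some (i, false)))
  -- the representation
  let H : Subgroup P :=
    { carrier := {g | ∃ σ : Equiv.Perm Ω, ∀ x o, φ (g • x) o = φ x (σ⁻¹ o)}
      one_mem' := ⟨1, fun x o => by rw [one_smul]; simp⟩
      mul_mem' := fun {g k} ⟨σ, hσ⟩ ⟨τ, hτ⟩ => ⟨σ * τ, fun x o => by
        rw [mul_smul, hσ, hτ, mul_inv_rev, Equiv.Perm.mul_apply]⟩
      inv_mem' := fun {g} ⟨σ, hσ⟩ => ⟨σ⁻¹, fun x o => by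
        have h := hσ (g⁻¹ • x) (σ o)
        rw [smul_inv_smul, show σ⁻¹ (σ o) = o from σ.symm_apply_apply o] at h
        rw [inv_inv]; exact h.symm⟩ }
  have hEH : E ≤ H := iSup_le fun i => (Q i).le_close.trans ((Subgroup.closure_le H).2 (by
    rintro g (rfl | rfl)
    · exact ⟨Equiv.swap (some (i, true)) (some (i, false)), fun x o => by rw [hga, Equiv.swap_inv]⟩
    · exact ⟨Equiv.swap (some (i, false)) none, fun x o => by rw [hgc, Equiv.swap_inv]⟩))
  choose ρ0 hρ0 using fun g : ↥E => hEH g.2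
  have hc3 : 3 ≤ Fintype.card Ω := by
    have : 0 < Fintype.card ↥S := Fintype.card_pos
    show 3 ≤ Fintype.card (Option (↥S × Bool))
    rw [Fintype.card_option, Fintype.card_prod, Fintype.card_bool]; omega
  have huniq : ∀ {σ τ : Equiv.Perm Ω}, (∀ x o, φ x (σ⁻¹ o) = φ x (τ⁻¹ o)) → σ = τ := fun {σ τ} h =>
    inv_injective (perm_eq_of_even hc3 fun w hw o => by obtain ⟨x, rfl⟩ := himg w hw; exact h x o)
  let ρ : ↥E →* Equiv.Perm Ω := MonoidHom.mk' ρ0 fun g k => huniq fun x o => by
    rw [← hρ0, Subgroup.coe_mul, mul_smul, hρ0, hρ0, mul_inv_rev, Equiv.Perm.mul_apply]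
  have hinj : Function.Injective ρ := (injective_iff_map_eq_one ρ).2 fun g hg => Subtype.ext (hf _ fun x => by
    have h1 : φ ((g : P) • x - x) = 0 := by
      funext o
      rw [map_sub, Pi.sub_apply, hρ0, show ρ0 g = 1 from hg]
      simp
    refine sub_eq_zero.1 (hF.eq_zero D fun j => ?_)
    by_cases hj : j ∈ S
    · exact fixV_anti (le_iSup (fun i : ↥S => L i) ⟨j, hj⟩) ((hker _).1 h1)
    · exact iSup_le (fun i : ↥S => hcross i i.2 j hj)
        (comm_iSup_le (X := X) (fun i : ↥S => L i) (diff_mem_comm g.2 x)))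
  have hswap : ∀ (g : P) (hg : g ∈ E) (o1 o2 : Ω), (∀ x o, φ (g • x) o = φ x (Equiv.swap o1 o2 o)) →
      Equiv.swap o1 o2 ∈ ρ.range := fun g hg o1 o2 h =>
    ⟨⟨g, hg⟩, huniq fun x o => by
      show φ x ((ρ0 ⟨g, hg⟩)⁻¹ o) = _
      rw [Equiv.swap_inv, ← h x o, ← hρ0 ⟨g, hg⟩]⟩
  have ht : ∀ i : ↥S, Equiv.swap (some (i, true) : Ω) (some (i, false)) ∈ ρ.range := fun i =>
    hswap _ (le_iSup (fun i : ↥S => L i) i (hF.le D i (Q i).a_mem)) _ _ (hga i)
  have hfn : ∀ i : ↥S, Equiv.swap (some (i, false) : Ω) none ∈ ρ.range := fun i =>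
    hswap _ (le_iSup (fun i : ↥S => L i) i (Q i).c_mem) _ _ (hgc i)
  have hnone : ∀ o : Ω, o ≠ none → Equiv.swap o none ∈ ρ.range := by
    rintro (_ | ⟨i, b⟩) h
    · exact absurd rfl h
    · cases b
      · exact hfn i
      · have h1 := mul_mem (mul_mem (ht i) (hfn i)) (ht i)
        rwa [Equiv.swap_comm (some (i, true)) (some (i, false)), Equiv.swap_comm (some (i, false) : Ω) none,
          Equiv.swap_mul_swap_mul_swap (by simp) (by simp)] at h1
  have hall : ρ.range = ⊤ := by
    rw [eq_top_iff, ← Equiv.Perm.closure_isSwap, Subgroup.closure_le]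
    rintro _ ⟨a, b, hab, rfl⟩
    by_cases ha : a = none
    · subst ha; rw [Equiv.swap_comm]; exact hnone b (Ne.symm hab)
    · by_cases hb : b = none
      · subst hb; exact hnone a ha
      · have h1 := mul_mem (mul_mem (hnone a ha) (hnone b hb)) (hnone a ha)
        rw [Equiv.swap_comm a none, Equiv.swap_mul_swap_mul_swap hb (Ne.symm hab)] at h1
        exact h1
  have hcardΩ : Fintype.card Ω = 2 * Nat.card S + 1 := by
    rw [Nat.card_eq_fintype_card]; simp [Ω, Fintype.card_option, Fintype.card_prod]; ring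
  let e := Fintype.equivFinOfCardEq hcardΩ
  refine ⟨e.permCongrHom.toMonoidHom.comp ρ, AddMonoidHom.mk' (fun x o => φ x (e.symm o))
    (fun x y => funext fun o => congrFun (map_add φ x y) (e.symm o)), e.permCongrHom.bijective.comp ⟨hinj, MonoidHom.range_eq_top.1 hall⟩,
    fun x => ?_, fun w hw => ?_, fun x => ?_, fun g x o => ?_⟩
  · exact (Equiv.sum_comp e.symm (φ x)).trans (hsum x)
  · obtain ⟨x, hx⟩ := himg (fun o => w (e o)) ((Equiv.sum_comp e w).trans hw)
    exact ⟨x, funext fun o => (congrFun hx (e.symm o)).trans (congrArg w (e.apply_symm_apply o))⟩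
  · rw [← hker]
    refine ⟨fun h => funext fun o => ?_, fun h => funext fun o => ?_⟩
    · exact (congrArg (φ x) (e.symm_apply_apply o)).symm.trans (congrFun h (e o))
    · show φ x (e.symm o) = 0
      rw [h]; rfl
  · show φ ((g : P) • x) (e.symm o) = φ x (e.symm ((e.permCongrHom (ρ g))⁻¹ o))
    rw [hρ0, ← map_inv]
    show φ x ((ρ0 g)⁻¹ (e.symm o)) = φ x (e.symm (e ((ρ0 g)⁻¹ (e.symm o))))
    rw [e.symm_apply_apply]

end Cfsg.Agent.MovesFix
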