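import Mathlib
import Cfsg.Agent.MovesFix.SymModel

/-!
The planes fall into blocks acting as `SL₂` or as symmetric groups.
-/

set_option autoImplicit false
set_option linter.unusedSectionVars false
set_option linter.style.haveILetI false

namespace Cfsg.Agent.MovesFix

open scoped Pointwise MatrixGroups
open LAE79 (fixV mem_fixV)
open Fusion (cj mem_cj cj_cj cj_one cj_mono cj_eq_of_mem cj_eq_iff_mem_normalizer
  isPGroup_cj cj_inv_cj cj_cj_inv card_cj coe_smul_sylow conj_mem_cj)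

variable {P : Type*} [Group P] {X : Type*} [AddCommGroup X] [DistribMulAction P X] {p : ℕ}
  [Finite P] [hp : Fact p.Prime] [Finite X] (D : Hyp P X p)
  {A0 : Subgroup P} {T : Sylow p P} {ι : Type} {Am L : ι → Subgroup P}

/-- The group generated by the planes of a block. -/
def blockGrp {r : ℕ} (L : ι → Subgroup P) (f : ι → Fin r) (k : Fin r) : Subgroup P :=
  ⨆ i : ↥(f ⁻¹' {k}), L i

variable (X p) in
/-- `E` acts on `X / C_X(E)` as `SL₂(pⁿ)` or as a symmetric group on its natural module. -/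
def Model (E : Subgroup P) : Prop :=
  ∃ n : ℕ, 1 ≤ n ∧
    ((∃ (F : Type) (_ : Field F) (_ : Fintype F), Fintype.card F = p ^ n ∧
      ∃ (ρ : ↥E →* Matrix.SpecialLinearGroup (Fin 2) F) (ψ : X →+ (Fin 2 → F)),
        Function.Bijective ρ ∧ Function.Surjective ψ ∧ (∀ x, ψ x = 0 ↔ x ∈ fixV E) ∧
          ∀ (g : ↥E) (x : X), ψ ((g : P) • x) = (ρ g : Matrix (Fin 2) (Fin 2) F).mulVec (ψ x)) ∨
      (p = 2 ∧ ∃ (ρ : ↥E →* Equiv.Perm (Fin (2 ^ n + 1))) (ψ : X →+ (Fin (2 ^ n + 1) → ZMod 2)),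
        Function.Bijective ρ ∧ (∀ x, ∑ o, ψ x o = 0) ∧
          (∀ w : Fin (2 ^ n + 1) → ZMod 2, ∑ o, w o = 0 → ∃ x, ψ x = w) ∧
          (∀ x, ψ x = 0 ↔ x ∈ fixV E) ∧
          ∀ (g : ↥E) (x : X) (o : Fin (2 ^ n + 1)), ψ ((g : P) • x) o = ψ x ((ρ g)⁻¹ o)))

variable (X) in
/-- The blocks of planes: two planes share a block iff one moves the module of the other. -/
structure Blocks {r : ℕ} (L : ι → Subgroup P) (f : ι → Fin r) : Prop where
  surj : Function.Surjective f
  rel : ∀ i j, f i = f j ↔ ¬ comm (X := X) (L i) ≤ fixV (L j)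

theorem Blocks.cross {r : ℕ} {f : ι → Fin r} (hB : Blocks X L f) {k l : Fin r} (h : k ≠ l) :
    comm (X := X) (blockGrp L f k) ≤ fixV (blockGrp L f l) := by
  refine (comm_iSup_le _).trans (iSup_le fun i y hy => fixV_iSup _ fun j => ?_)
  have : ¬ f i = f j := by
    rw [show f i = k from i.2, show f j = l from j.2]; exact h
  rw [hB.rel, not_not] at this
  exact this hy

theorem iSup_blockGrp {r : ℕ} (f : ι → Fin r) : ⨆ k, blockGrp L f k = ⨆ i, L i :=
  le_antisymm (iSup_le fun _ => iSup_le fun i => le_iSup L i)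
    (iSup_le fun i => le_trans (le_iSup (fun j : ↥(f ⁻¹' {f i}) => L j) ⟨i, rfl⟩)
      (le_iSup (blockGrp L f) (f i)))

include D

theorem Frame.conj_rel (hF : Frame X D A0 T Am L) {t : P} (ht : t ∈ (T : Subgroup P)) {r : ℕ}
    {f : ι → Fin r} (hB : Blocks X L f) {i j i' j' : ι} (hi : cj t (L i) = L i') (hj : cj t (L j) = L j')
    (h : f i = f j) : f i' = f j' := by
  rw [hB.rel] at h ⊢
  refine fun h' => h fun y hy => ?_
  have h1 := h' (by rw [← hi]; exact smul_mem_comm_cj t (L i) hy)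
  rw [← hj, mem_fixV_map_conj, inv_smul_smul] at h1
  exact h1

theorem Frame.cj_block (hF : Frame X D A0 T Am L) {r : ℕ} {f : ι → Fin r} (hB : Blocks X L f)
    (k l : Fin r) : ∃ t ∈ (T : Subgroup P), cj t (blockGrp L f k) = blockGrp L f l := by
  obtain ⟨i, hi⟩ := hB.surj k
  obtain ⟨j, hj⟩ := hB.surj l
  obtain ⟨t, ht, -, htij⟩ := hF.trans i j
  refine ⟨t, ht, le_antisymm ?_ ?_⟩
  · show Subgroup.map _ _ ≤ _
    rw [blockGrp, Subgroup.map_iSup]
    refine iSup_le fun a => ?_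
    obtain ⟨b, -, hb⟩ := hF.act t ht a
    refine hb.le.trans (le_iSup (fun j : ↥(f ⁻¹' {l}) => L j) ⟨b, ?_⟩)
    show f b = l
    rw [← hj]
    exact hF.conj_rel D ht hB hb htij ((show f a = k from a.2).trans hi.symm)
  · refine iSup_le fun b => ?_
    obtain ⟨a, -, ha⟩ := hF.act t⁻¹ (inv_mem ht) b
    rw [← cj_cj_inv t (L b), ha]
    refine cj_mono t (le_iSup (fun j : ↥(f ⁻¹' {k}) => L j) ⟨a, ?_⟩)
    show f a = k
    rw [← hi]
    exact hF.conj_rel D (inv_mem ht) hB ha (by rw [← htij, cj_inv_cj])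
      ((show f b = l from b.2).trans hj.symm)

theorem Frame.card_fiber (hF : Frame X D A0 T Am L) {r : ℕ} {f : ι → Fin r} (hB : Blocks X L f)
    (k : Fin r) : r * Nat.card ↥(f ⁻¹' {k}) = Nat.card ι := by
  classical
  haveI := hF.fin
  have hle : ∀ k l, Nat.card ↥(f ⁻¹' {k}) ≤ Nat.card ↥(f ⁻¹' {l}) := fun k l => by
    obtain ⟨i, hi⟩ := hB.surj k
    obtain ⟨j, hj⟩ := hB.surj l
    obtain ⟨t, ht, -, htij⟩ := hF.trans i j
    choose σ hσA hσL using hF.act t ht
    refine Nat.card_le_card_of_injective (fun a => ⟨σ a, ?_⟩) fun a b e => ?_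
    · show f (σ a) = l
      rw [← hj]
      exact hF.conj_rel D ht hB (hσL a) htij ((show f a = k from a.2).trans hi.symm)
    · refine Subtype.ext (hF.inj ?_)
      rw [← cj_inv_cj t (Am a), hσA, show σ a = σ b from congrArg Subtype.val e, ← hσA, cj_inv_cj]
  rw [Nat.card_congr (Equiv.sigmaFiberEquiv f).symm, Nat.card_sigma, Finset.sum_congr rfl fun l _ =>
    show Nat.card {x // f x = l} = Nat.card ↥(f ⁻¹' {k}) from le_antisymm (hle l k) (hle k l)]
  simp

theorem Frame.card_dvd (hF : Frame X D A0 T Am L) : Nat.card ι ∣ Nat.card ↥(T : Subgroup P) := by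
  classical
  haveI := hF.fin
  haveI := hF.ne
  choose σ hσ using fun (t : ↥(T : Subgroup P)) i => hF.act t t.2 i
  letI : MulAction ↥(T : Subgroup P) ι :=
    { smul := σ
      one_smul := fun i => hF.inj (by
        show Am (σ 1 i) = Am i
        rw [← (hσ 1 i).1, Subgroup.coe_one, cj_one])
      mul_smul := fun s t i => hF.inj (by
        show Am (σ (s * t) i) = Am (σ s (σ t i))
        rw [← (hσ _ i).1, ← (hσ s _).1, ← (hσ t i).1, cj_cj, Subgroup.coe_mul]) }
  obtain ⟨i⟩ := hF.ne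
  have h1 : MulAction.orbit ↥(T : Subgroup P) i = Set.univ := Set.eq_univ_of_forall fun j => by
    obtain ⟨t, ht, e, -⟩ := hF.trans i j
    exact ⟨⟨t, ht⟩, hF.inj (by
      show Am (σ ⟨t, ht⟩ i) = Am j
      rw [← (hσ ⟨t, ht⟩ i).1]; exact e)⟩
  have h2 := (MulAction.stabilizer ↥(T : Subgroup P) i).index_dvd_card
  rw [MulAction.index_stabilizer, h1, Set.ncard_univ] at h2
  exact h2

theorem Frame.exists_blocks (hF : Frame X D A0 T Am L) (hf : ∀ g : P, (∀ x : X, g • x = x) → g = 1)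
    (h0 : Mem X p A0) :
    ∃ (r : ℕ) (f : ι → Fin r), 1 ≤ r ∧ Blocks X L f ∧ ∀ k, Model X p (blockGrp L f k) := by
  classical
  haveI := hF.fin
  haveI := hF.ne
  have hcard : ∀ i, Nat.card (Am i) = Nat.card A0 := fun i => Cls.card_eq D (hF.plane i).cls
  have hself : ∀ i, ¬ MovesFix.comm (X := X) (L i) ≤ fixV (L i) := fun i h =>
    (hF.plane i).comm_not_fix D ((comm_mono (hF.le D i)).trans h)
  obtain ⟨a, ha⟩ := IsPGroup.iff_card.1 h0.ea.isPGroup
  have hA1 : 1 < Nat.card A0 := by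
    haveI := (Subgroup.nontrivial_iff_ne_bot A0).2 h0.ne
    exact Finite.one_lt_card
  have ha0 : 1 ≤ a := by
    rcases a with _ | a
    · rw [ha, pow_zero] at hA1; omega
    · omega
  by_cases h3 : 3 ≤ Nat.card A0
  · obtain ⟨r, ⟨e⟩⟩ := Finite.exists_equiv_fin ι
    have hB : Blocks X L e := ⟨e.surjective, fun i j =>
      ⟨fun h => (e.injective h) ▸ hself i, fun h => by
        by_contra hne
        exact h (hF.cross D hf h0 (i := j) (j := i) (by rw [hcard]; exact h3)
          fun e' => hne (by rw [e']))⟩⟩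
    refine ⟨r, e, ?_, hB, fun k => ?_⟩
    · obtain ⟨i⟩ := hF.ne; exact Nat.one_le_iff_ne_zero.2 fun h => (h ▸ e i).elim0
    have hEk : blockGrp L e k = L (e.symm k) := le_antisymm
      (iSup_le fun i => le_of_eq (congrArg L (e.eq_symm_apply.2 i.2)))
      (le_iSup (fun i : ↥(e ⁻¹' {k}) => L i) ⟨e.symm k, e.apply_symm_apply k⟩)
    obtain ⟨F, iF, iFt, hFc, ⟨C⟩⟩ := (hF.plane (e.symm k)).nat
    rw [hEk]
    exact ⟨a, ha0, Or.inl ⟨F, iF, iFt, by rw [hFc, hcard, ha], C.ρ, C.ψ, ⟨C.ρinj, C.ρsurj⟩, C.ψsurj,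
      C.ker, C.equiv⟩⟩
  · have hA2 : Nat.card A0 = 2 := by omega
    have hp2 : p = 2 := by
      rw [hA2] at ha
      exact (Nat.prime_dvd_prime_iff_eq hp.out Nat.prime_two).1 (ha ▸ dvd_pow_self p (by omega))
    have hQ : ∀ i, Nonempty (Pair X (Am i) (L i)) := fun i =>
      (hF.plane i).exists_pair D hf h0 (by rw [hcard, hA2])
    let Q := fun i => (hQ i).some
    have hrel : ∀ {i j}, i ≠ j → (MovesFix.comm (X := X) (L i) ≤ fixV (L j) ↔ (Q j).γ (Q i).v = 0) := by
      intro i j hij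
      obtain ⟨h1, h2, h3'⟩ := hF.pair_e D Q hij.symm
      refine ⟨fun h => (((Q j).fix_iff _).1 (h (Q i).v_mem)).2, fun h => comm_le fun g hg x => ?_⟩
      refine ((Subgroup.closure_le _).2 ?_ : Subgroup.closure {(Q i).a, (Q i).c} ≤
        trivMod (fixV (L j))) ((Q i).le_close hg) x
      rintro g (rfl | rfl) y
      · rw [(Q i).smul_a, add_sub_cancel_left, (Q j).fix_iff, map_nsmul, map_nsmul, h1, h2]
        simp
      · rw [(Q i).smul_c, add_sub_cancel_left, (Q j).fix_iff, map_nsmul, map_nsmul, h3', h]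
        simp
    have hone : ∀ {i j}, i ≠ j → (¬ MovesFix.comm (X := X) (L i) ≤ fixV (L j) ↔ (Q j).γ (Q i).v = 1) :=
      fun {i j} hij => by
        rw [hrel hij]
        exact ⟨zmod_two_ne, fun h h' => one_ne_zero (h.symm.trans h')⟩
    let R : Setoid ι :=
      { r := fun i j => ¬ MovesFix.comm (X := X) (L i) ≤ fixV (L j)
        iseqv := ⟨hself, fun {i j} h => by
          by_cases hij : i = j
          · subst hij; exact h
          · rw [hrel (Ne.symm hij)]
            exact fun h' => h ((hrel hij).2 (hF.pair_symm D Q hp2 hf h0 hij h')),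
          fun {i j k} h h' => by
            by_cases hij : i = j
            · subst hij; exact h'
            by_cases hjk : j = k
            · subst hjk; exact h
            by_cases hik : i = k
            · subst hik; exact hself i
            rw [hone hij] at h
            rw [hone hjk] at h'
            rw [hone hik]
            exact hF.pair_trans D Q hp2 hf h0 (Ne.symm hjk) (Ne.symm hij) (Ne.symm hik) h' h⟩ }
    obtain ⟨r, ⟨e⟩⟩ := Finite.exists_equiv_fin (Quotient R)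
    let f : ι → Fin r := fun i => e (Quotient.mk R i)
    have hB : Blocks X L f := ⟨e.surjective.comp Quotient.mk_surjective, fun i j =>
      e.injective.eq_iff.trans Quotient.eq⟩
    refine ⟨r, f, ?_, hB, fun k => ?_⟩
    · obtain ⟨i⟩ := hF.ne; exact Nat.one_le_iff_ne_zero.2 fun h => (h ▸ f i).elim0
    have hne : (f ⁻¹' {k}).Nonempty := by obtain ⟨i, hi⟩ := hB.surj k; exact ⟨i, hi⟩
    obtain ⟨ρ, ψ, h1, h2, h3', h4, h5⟩ := hF.sym_model D hp2 Q hf h0 hne
      (fun i hi j hj hij => (hone (Ne.symm hij)).1 ((hB.rel j i).1 ((show f j = k from hj).trans hi.symm)))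
      (fun i hi j hj => not_not.1 fun h => hj (((hB.rel i j).2 h).symm.trans hi))
    obtain ⟨b, hb⟩ := IsPGroup.iff_card.1 T.2
    obtain ⟨c, -, hc⟩ := (Nat.dvd_prime_pow hp.out).1 (hb ▸ (Dvd.intro_left r (hF.card_fiber D hB k)).trans
      (hF.card_dvd D))
    have hN : 2 * Nat.card ↥(f ⁻¹' {k}) + 1 = 2 ^ (c + 1) + 1 := by rw [hc, hp2, pow_succ']
    refine ⟨c + 1, by omega, Or.inr ⟨hp2, ?_⟩⟩
    rw [← hN]
    exact ⟨ρ, ψ, h1, h2, h3', h4, h5⟩

end Cfsg.Agent.MovesFix
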