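import Mathlib
import Cfsg.Agent.MovesFix.Blocks

/-!
Every offender inside the Sylow subgroup is generated by members.
-/

set_option autoImplicit false
set_option linter.unusedSectionVars false
set_option linter.style.haveILetI false

namespace Cfsg.Agent.MovesFix

open scoped Pointwise MatrixGroups
open LAE79 (fixV mem_fixV)
open Fusion (cj mem_cj cj_cj cj_one cj_mono cj_eq_of_mem cj_eq_iff_mem_normalizer
  isPGroup_cj cj_inv_cj cj_cj_inv card_cj coe_smul_sylow conj_mem_cj)

/-- A nontrivial element of `SL₂` fixes only the multiples of a fixed vector. -/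
theorem sl2_fixed_line {F : Type*} [Field F] {M : Matrix.SpecialLinearGroup (Fin 2) F} (hM : M ≠ 1)
    {v w : Fin 2 → F} (hv1 : v 1 = 1) (hv : (M : Matrix (Fin 2) (Fin 2) F).mulVec v = v)
    (hw : (M : Matrix (Fin 2) (Fin 2) F).mulVec w = w) : w 0 = w 1 * v 0 := by
  by_contra hne
  refine hM (Subtype.ext (Matrix.ext_of_mulVec_single fun i => ?_))
  rw [Matrix.SpecialLinearGroup.coe_one, Matrix.one_mulVec]
  set r := w 0 - w 1 * v 0 with hr
  have hr0 : r ≠ 0 := sub_ne_zero.2 hne
  have h10 : (M : Matrix (Fin 2) (Fin 2) F).mulVec ![1, 0] = ![1, 0] := by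
    have e : (![1, 0] : Fin 2 → F) = r⁻¹ • (w - w 1 • v) := by
      funext j; fin_cases j
      · simp [hr, inv_mul_cancel₀ (sub_ne_zero.2 hne)]
      · simp [hv1]
    rw [e, Matrix.mulVec_smul, Matrix.mulVec_sub, Matrix.mulVec_smul, hv, hw]
  fin_cases i
  · have e : (Pi.single (0 : Fin 2) (1 : F)) = ![1, 0] := by funext j; fin_cases j <;> simp
    show (M : Matrix (Fin 2) (Fin 2) F).mulVec (Pi.single 0 1) = Pi.single 0 1
    rw [e, h10]
  · have e : (Pi.single (1 : Fin 2) (1 : F)) = v - v 0 • ![1, 0] := by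
      funext j; fin_cases j <;> simp [hv1]
    show (M : Matrix (Fin 2) (Fin 2) F).mulVec (Pi.single 1 1) = Pi.single 1 1
    rw [e, Matrix.mulVec_sub, Matrix.mulVec_smul, hv, h10]

variable {P : Type*} [Group P] {X : Type*} [AddCommGroup X] [DistribMulAction P X] {p : ℕ}
  [Finite P] [hp : Fact p.Prime] [Finite X] (D : Hyp P X p)
  {A0 : Subgroup P} {T : Sylow p P} {ι : Type} {Am L : ι → Subgroup P}

include D

theorem Frame.join_eq_iSup (hF : Frame X D A0 T Am L) : join A0 (T : Subgroup P) = ⨆ i, Am i :=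
  le_antisymm (sSup_le fun B hB => by obtain ⟨i, rfl⟩ := hF.surj B hB.1 hB.2; exact le_iSup Am i)
    (iSup_le fun i => le_join (hF.plane i).cls (hF.plane i).leT)

/-- A minimal offender of the Sylow subgroup is a member. -/
theorem Frame.mem_eq (hF : Frame X D A0 T Am L) (hf : ∀ g : P, (∀ x : X, g • x = x) → g = 1)
    (h0 : Mem X p A0) {A1 : Subgroup P} (h1 : Mem X p A1) (hT : A1 ≤ (T : Subgroup P)) :
    ∃ i, A1 = Am i := by
  by_contra hno
  push Not at hno
  have hmem : ∀ i, Mem X p (Am i) := fun i => cls_mem D h0 (hF.plane i).cls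
  have hc : ∀ i, ∀ a ∈ Am i, ∀ b ∈ A1, a * b = b * a := fun i =>
    Mem.commute D (hmem i) h1 (T.2.to_le (sup_le (hF.plane i).leT hT))
  set J := join A0 (T : Subgroup P) with hJ
  have hJ1 : ∀ a ∈ J, ∀ b ∈ A1, a * b = b * a := fun a ha b hb =>
    Subgroup.mem_centralizer_singleton_iff.1 ((iSup_le (fun i c hc' =>
      Subgroup.mem_centralizer_singleton_iff.2 (hc i c hc' b hb)) :
        ⨆ i, Am i ≤ Subgroup.centralizer ({b} : Set P)) (hF.join_eq_iSup D ▸ ha))
  have hfixle : fixV (V := X) J ≤ fixV A1 := fun x hx => by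
    refine (iSup_le fun i => comm_le_fix_of_commute D (hmem i) h1 (hc i) (fun e => hno i e.symm) :
      ⨆ i, MovesFix.comm (X := X) (Am i) ≤ fixV A1) (hF.fix_join D fun i => ?_)
    exact fixV_anti (le_join (hF.plane i).cls (hF.plane i).leT) hx
  have hle : A1 ≤ J := by
    have h2 := (wt_sup_eq D (ea_sup (memIn_commute D h0 T.2) h1.ea hJ1) (wt_join D h0 T.2) h1.weight).1
    rw [wt, fixV_sup, inf_eq_left.2 hfixle] at h2
    have h3 : Nat.card J = Nat.card ↥(J ⊔ A1) :=
      Nat.eq_of_mul_eq_mul_right (Nat.card_pos (α := fixV (V := X) J)) ((wt_join D h0 T.2).trans h2.symm)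
    rw [Subgroup.eq_of_le_of_card_ge (le_sup_left : J ≤ J ⊔ A1) h3.ge]
    exact le_sup_right
  obtain ⟨a, ha, ha1⟩ : ∃ a ∈ A1, a ≠ 1 := by
    by_contra h
    push Not at h
    exact h1.ne ((Subgroup.eq_bot_iff_forall _).2 h)
  have hdec : ∀ i, ∃ c ∈ Am i, ∀ x : X, (a • x - x) - (c • x - x) ∈ fixV (L i) := by
    intro i
    set N := trivMod (P := P) (fixV (V := X) (L i)) with hN
    have hnorm : Am i ≤ Subgroup.normalizer (N : Set P) := le_normalizer_trivMod fun g hg y hy => by
      rw [hy g (hF.le D i hg)]; exact hy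
    have hJN : J ≤ Am i ⊔ N := by
      rw [hJ, hF.join_eq_iSup D]
      refine iSup_le fun j => ?_
      by_cases e : j = i
      · rw [e]; exact le_sup_left
      · exact le_sup_of_le_right fun g hg x => hF.commA D e (diff_mem_comm hg x)
    have hm : a ∈ (Am i : Set P) * (N : Set P) := by
      rw [← Subgroup.coe_mul_of_left_le_normalizer_right _ _ hnorm]; exact hJN (hle ha)
    obtain ⟨c, hc', n, hn, rfl⟩ := hm
    refine ⟨c, hc', fun x => ?_⟩
    have h2 := hn x
    show (c * n) • x - x - (c • x - x) ∈ fixV (L i)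
    rw [mul_smul, sub_sub_sub_cancel_right, ← smul_sub, h2 c (hF.le D i hc')]
    exact h2
  obtain ⟨i, c, hc', hc1, hdiff⟩ : ∃ i, ∃ c ∈ Am i, c ≠ 1 ∧
      ∀ x : X, (a • x - x) - (c • x - x) ∈ fixV (L i) := by
    by_contra h
    push Not at h
    refine ha1 (hf a fun x => sub_eq_zero.1 (hF.eq_zero D fun i => ?_))
    obtain ⟨c, hc', hd⟩ := hdec i
    by_cases hc1 : c = 1
    · have := hd x
      rwa [hc1, one_smul, sub_self, sub_zero] at this
    · obtain ⟨y, hy⟩ := h i c hc' hc1
      exact absurd (hd y) hy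
  have hfix : fixV (V := X) A1 ≤ fixV (Am i) := fun x hx => by
    refine Mem.semireg D (hmem i) hc' hc1 (sub_eq_zero.1 ?_)
    have h2 := hdiff x
    rw [hx a ha, sub_self, zero_sub] at h2
    exact (hF.plane i).eq_zero_of_mem D hf h0 (diff_mem_comm hc' x) (neg_mem_iff.1 h2)
  have htop := Mem.sup_fix_eq_top D (hmem i) h1 (hc i) fun e => hno i e.symm
  rw [sup_eq_left.2 hfix] at htop
  have h4 := Mem.card_fix D (hmem i)
  rw [htop, AddSubgroup.card_top] at h4
  refine (hmem i).ne (Subgroup.card_eq_one.1 ?_)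
  exact Nat.eq_of_mul_eq_mul_right (Nat.card_pos (α := X)) (h4.trans (one_mul _).symm)

/-- Every offender inside the Sylow subgroup lies in the join of the members. -/
theorem Frame.offender_le (hF : Frame X D A0 T Am L) (hf : ∀ g : P, (∀ x : X, g • x = x) → g = 1)
    (h0 : Mem X p A0) {B : Subgroup P} (hB : EA p B) (hw : wt X B = Nat.card X)
    (hT : B ≤ (T : Subgroup P)) : B ≤ ⨆ i, Am i := by
  classical
  induction hn : Nat.card B using Nat.strong_induction_on generalizing B with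
  | _ n ih =>
    by_cases hne : B = ⊥
    · rw [hne]; exact bot_le
    obtain ⟨A1, ⟨hA1, hA1ne, hA1w⟩, hmin⟩ := Set.exists_min_image
      {C : Subgroup P | C ≤ B ∧ C ≠ ⊥ ∧ wt X C = Nat.card X} (fun C => Nat.card C) (Set.toFinite _)
      ⟨B, le_rfl, hne, hw⟩
    obtain ⟨i, hi⟩ := hF.mem_eq D hf h0 ⟨hB.mono hA1, hA1ne, hA1w, fun C hC hCne hCw =>
      Subgroup.eq_of_le_of_card_ge hC (hmin C ⟨hC.trans hA1, hCne, hCw⟩)⟩ (hA1.trans hT)
    subst hi
    have hP := hF.plane i
    have hAm := cls_mem D h0 hP.cls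
    have hq := Mem.quad D hAm
    set N := MovesFix.comm (X := X) (L i) with hN
    obtain ⟨F, _, _, hFc, ⟨C⟩⟩ := hP.nat
    obtain ⟨h, hh, hgen⟩ := hP.gen
    have hne' := hP.not_norm D hgen
    obtain ⟨x1, hx1⟩ := C.ψsurj ![0, 1]
    obtain ⟨c0, hc0, hd0⟩ := hP.exists_partner_disp D hf h0 hh hne' x1
    set y1 := h • c0 with hy1
    have hy11 : C.ψ y1 1 = 1 := by
      have := (C.line _).1 hd0
      rw [map_sub, Pi.sub_apply, sub_eq_zero] at this
      rw [← this, hx1]; simp
    have hy1N : y1 ∈ N := smul_mem_comm_self hh (comm_mono hP.le hc0)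
    have hzero : ∀ {x : X}, x ∈ N → C.ψ x = 0 → x = 0 := fun {x} hx h' =>
      AddSubgroup.mem_bot.1 ((hP.comm_inf_fix_self D hf h0).le ⟨hx, (C.ker x).1 h'⟩)
    obtain ⟨a0, ha0, ha01⟩ : ∃ a ∈ Am i, a ≠ 1 := by
      by_contra h'
      push Not at h'
      exact hAm.ne ((Subgroup.eq_bot_iff_forall _).2 h')
    have hlineA : ∀ {c : X}, c ∈ MovesFix.comm (X := X) (Am i) → C.ψ c 1 = 0 := fun hc =>
      (C.line _).1 (hq.comm_le_fix hc)
    have hLb : ∀ b ∈ B, cj b (Am i) = Am i ∧ cj b (L i) = L i := by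
      intro b hb
      obtain ⟨j, hj, hjL⟩ := hF.act b (hT hb) i
      have hbA : cj b (Am i) = Am i := cj_eq_of_mem (Subgroup.centralizer_le_normalizer _
        (Subgroup.mem_centralizer_iff.2 fun a ha => hB.comm a (hA1 ha) b hb))
      have hji : j = i := hF.inj (hj.symm.trans hbA)
      subst hji
      exact ⟨hj, hjL⟩
    have hbN : ∀ b ∈ B, ∀ y ∈ N, b • y ∈ N := fun b hb y hy => by
      have h1 := smul_mem_comm_cj b (L i) hy
      rwa [(hLb b hb).2] at h1
    have hbA : ∀ b ∈ B, ∀ y ∈ MovesFix.comm (X := X) (Am i), b • y ∈ MovesFix.comm (X := X) (Am i) :=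
      fun b hb y hy => by
        have h1 := smul_mem_comm_cj b (Am i) hy
        rwa [(hLb b hb).1] at h1
    have hreach : ∀ c ∈ MovesFix.comm (X := X) (Am i), ∃ a : ↥(Am i), (a : P) • y1 - y1 = c := by
      let f : ↥(Am i) → MovesFix.comm (X := X) (Am i) :=
        fun a => ⟨(a : P) • y1 - y1, diff_mem_comm a.2 y1⟩
      have hfi : Function.Injective f := fun a b e => C.tau_injective hP.le (by
        have h1 := congrFun (congrArg C.ψ (congrArg Subtype.val e)) 0
        simp only [f, C.psi_mem hP.le, hy11] at h1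
        simpa using h1)
      intro c hc
      obtain ⟨a, ha⟩ := (hfi.bijective_of_nat_card_le (by rw [hP.card_comm D hf h0])).2 ⟨c, hc⟩
      exact ⟨a, congrArg Subtype.val ha⟩
    -- the action on the axis is scalar, hence trivial
    have hscal : ∀ b ∈ B, ∀ c ∈ MovesFix.comm (X := X) (Am i), C.ψ (b • c) 0 = C.ψ c 0 * C.ψ (b • y1) 1 := by
      intro b hb c hc
      obtain ⟨a, rfl⟩ := hreach c hc
      have e : b • ((a : P) • y1 - y1) = (a : P) • (b • y1) - b • y1 := by
        rw [smul_sub, ← mul_smul, ← hB.comm (a : P) (hA1 a.2) b hb, mul_smul]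
      rw [e, C.psi_mem hP.le, C.psi_mem hP.le, hy11]
      simp
    have hfixA : ∀ b ∈ B, C.ψ (b • y1) 1 = 1 ∧ ∀ c ∈ MovesFix.comm (X := X) (Am i), b • c = c := by
      intro b hb
      obtain ⟨a0', ha0'⟩ : ∃ c ∈ MovesFix.comm (X := X) (Am i), C.ψ c 0 ≠ 0 := by
        refine ⟨a0 • y1 - y1, diff_mem_comm ha0 y1, fun h' => ha01 ?_⟩
        rw [C.psi_mem hP.le ⟨a0, ha0⟩, hy11] at h'
        have h2 : C.tau hP.le ⟨a0, ha0⟩ = 0 := by simpa using h'
        have h4 := C.tau_mul hP.le 1 1
        rw [one_mul] at h4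
        exact congrArg Subtype.val (C.tau_injective hP.le (h2.trans (left_eq_add.1 h4).symm))
      set l := C.ψ (b • y1) 1 with hl
      have hpow : ∀ k : ℕ, ∀ c ∈ MovesFix.comm (X := X) (Am i), C.ψ (b ^ k • c) 0 = C.ψ c 0 * l ^ k := by
        intro k
        induction k with
        | zero => intro c _; simp
        | succ k ihk =>
          intro c hc
          rw [pow_succ, mul_smul, ihk _ (hbA b hb c hc), hscal b hb c hc, pow_succ, mul_assoc, mul_comm l]
      have hlp : l ^ p = 1 := by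
        have h1 := hpow p a0' ha0'.1
        rw [hB.pow b hb, one_smul] at h1
        exact (left_eq_mul₀ ha0'.2).1 h1
      have hl1 : l = 1 := by
        obtain ⟨k, hk⟩ := IsPGroup.iff_card.1 hAm.ea.isPGroup
        have h1 : l ^ Fintype.card F = l := FiniteField.pow_card l
        rcases k with _ | k
        · rw [pow_zero, Subgroup.card_eq_one] at hk; exact absurd hk hAm.ne
        rw [hFc, hk, pow_succ', pow_mul, hlp, one_pow] at h1
        exact h1.symm
      refine ⟨hl1, fun c hc => sub_eq_zero.1 (hzero (sub_mem (hbN b hb c (comm_mono hP.le hc))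
        (comm_mono hP.le hc)) (funext fun j => ?_))⟩
      fin_cases j
      · show C.ψ (b • c - c) 0 = 0
        rw [map_sub, Pi.sub_apply, hscal b hb c hc, ← hl, hl1, mul_one, sub_self]
      · show C.ψ (b • c - c) 1 = 0
        rw [map_sub, Pi.sub_apply, hlineA (hbA b hb c hc), hlineA hc, sub_self]
    set B' := B ⊓ LAE79.pointwiseV N with hB'
    have hsplit : ∀ b ∈ B, ∃ a : ↥(Am i), (a : P)⁻¹ * b ∈ B' := by
      intro b hb
      obtain ⟨hl1, hbc⟩ := hfixA b hb
      have hd : b • y1 - y1 ∈ MovesFix.comm (X := X) (Am i) :=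
        hP.fix_inter D hf h0 (sub_mem (hbN b hb y1 hy1N) hy1N)
          ((C.line _).2 (by rw [map_sub, Pi.sub_apply, hl1, hy11, sub_self]))
      obtain ⟨a, ha⟩ := hreach _ hd
      rw [sub_left_inj] at ha
      set g := (a : P)⁻¹ * b with hg
      have hgB : g ∈ B := mul_mem (inv_mem (hA1 a.2)) hb
      have hgy : g • y1 = y1 := by rw [hg, mul_smul, ← ha, inv_smul_smul]
      have hgc := (hfixA g hgB).2
      refine ⟨a, hgB, fun y hy => ?_⟩
      obtain ⟨c, hc, d, hd', rfl⟩ := hP.mem_comm_of_gen D hgen hy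
      rw [smul_add, hgc c hc]
      congr 1
      -- the partner line
      obtain ⟨a', ha', ha'1⟩ : ∃ a' ∈ cj h (Am i), a' ≠ 1 :=
        ⟨h * a0 * h⁻¹, conj_mem_cj.2 ha0, fun e => ha01 (conj_eq_one_iff.1 e)⟩
      have hLL : cj h (Am i) ≤ L i := (cj_mono h hP.le).trans_eq (Fusion.cj_eq_self_of_mem hh)
      have hb' : g * a' * g⁻¹ ∈ L i := (hLb g hgB).2.le (conj_mem_cj.2 (hLL ha'))
      have hline : ∀ {k : P} (hk : k ∈ L i), k ≠ 1 → k • y1 = y1 → ∀ {w : X}, k • w = w →
          C.ψ w 0 = C.ψ w 1 * C.ψ y1 0 := by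
        intro k hk hk1 hky w hkw
        refine sl2_fixed_line (M := C.ρ ⟨k, hk⟩) (fun e => hk1 ?_) hy11 ?_ ?_
        · exact congrArg Subtype.val (C.ρinj (e.trans (map_one C.ρ).symm) : (⟨k, hk⟩ : ↥(L i)) = 1)
        · exact (C.equiv ⟨k, hk⟩ y1).symm.trans (congrArg C.ψ hky)
        · exact (C.equiv ⟨k, hk⟩ w).symm.trans (congrArg C.ψ hkw)
      have hfixh : ∀ {c : X}, c ∈ MovesFix.comm (X := X) (Am i) → a' • (h • c) = h • c := fun hc =>
        smul_mem_fixV_cj (t := h) (hq.comm_le_fix hc) a' ha'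
      have e1 := hline (hLL ha') ha'1 (hfixh hc0) (hfixh hd')
      have hconj : ∀ {w : X}, a' • w = w → (g * a' * g⁻¹) • (g • w) = g • w := fun {w} hw' => by
        rw [mul_smul, mul_smul, inv_smul_smul, hw']
      have hgy' := hconj (hfixh hc0)
      rw [← hy1, hgy] at hgy'
      have e2 := hline hb' (fun e => ha'1 (conj_eq_one_iff.1 e)) hgy' (hconj (hfixh hd'))
      have hs : C.ψ (g • (h • d)) 1 = C.ψ (h • d) 1 := by
        have hdN : h • d ∈ N := smul_mem_comm_self hh (comm_mono hP.le hd')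
        obtain ⟨x, hx, hxe⟩ : ∃ a'' : ↥(Am i), ∃ v : X, v = (a'' : P) • y1 - y1 ∧ C.ψ v 0 ≠ 0 :=
          ⟨⟨a0, ha0⟩, _, rfl, fun h' => ha01 (by
            rw [C.psi_mem hP.le ⟨a0, ha0⟩, hy11] at h'
            have h2 : C.tau hP.le ⟨a0, ha0⟩ = 0 := by simpa using h'
            have h4 := C.tau_mul hP.le 1 1
            rw [one_mul] at h4
            exact congrArg Subtype.val (C.tau_injective hP.le (h2.trans (left_eq_add.1 h4).symm)))⟩
        obtain ⟨rfl, hne0⟩ := hxe
        have h1 := congrArg C.ψ (hgc _ (diff_mem_comm x.2 (h • d)))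
        rw [show g • ((x : P) • (h • d) - h • d) = (x : P) • (g • h • d) - g • h • d by
          rw [smul_sub, ← mul_smul, ← hB.comm (x : P) (hA1 x.2) g hgB, mul_smul],
          C.psi_mem hP.le, C.psi_mem hP.le] at h1
        rw [C.psi_mem hP.le, hy11] at hne0
        exact mul_left_cancel₀ (by simpa using hne0) (congrFun h1 0)
      refine sub_eq_zero.1 (hzero (sub_mem (hbN g hgB _ (smul_mem_comm_self hh (comm_mono hP.le hd')))
        (smul_mem_comm_self hh (comm_mono hP.le hd'))) (funext fun j => ?_))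
      fin_cases j
      · show C.ψ (g • h • d - h • d) 0 = 0
        rw [map_sub, Pi.sub_apply, e1, e2, hs, sub_self]
      · show C.ψ (g • h • d - h • d) 1 = 0
        rw [map_sub, Pi.sub_apply, hs, sub_self]
    have hA1N : ¬ Am i ≤ B' := fun hle => by
      obtain ⟨a, ha⟩ := hreach (a0 • y1 - y1) (diff_mem_comm ha0 y1)
      have h1 := (hle ha0).2 y1 hy1N
      refine ha01 (congrArg Subtype.val (C.tau_injective hP.le (a₁ := ⟨a0, ha0⟩) (a₂ := 1) ?_))
      have h2 := congrFun (congrArg C.ψ (show a0 • y1 - y1 = ((1 : ↥(Am i)) : P) • y1 - y1 by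
        rw [h1, OneMemClass.coe_one, one_smul])) 0
      rw [C.psi_mem hP.le ⟨a0, ha0⟩, C.psi_mem hP.le, hy11] at h2
      simpa using h2
    have hlt : Nat.card B' < n := by
      rw [← hn]
      refine lt_of_le_of_ne (Subgroup.card_le_of_le inf_le_left) fun e => hA1N ?_
      rw [show B' = B from Subgroup.eq_of_le_of_card_ge inf_le_left e.ge]
      exact hA1
    have hcardB : Nat.card B ≤ Nat.card (Am i) * Nat.card B' := by
      rw [← Nat.card_prod]
      choose af haf using fun b : ↥B => hsplit b b.2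
      refine Nat.card_le_card_of_injective (fun b : ↥B => (af b, (⟨_, haf b⟩ : ↥B'))) fun b b' e => ?_
      have h1 : (af b : P) = af b' := congrArg (fun z : ↥(Am i) × ↥B' => (z.1 : P)) e
      have h2 : (af b : P)⁻¹ * b = (af b' : P)⁻¹ * b' := congrArg (fun z : ↥(Am i) × ↥B' => (z.2 : P)) e
      rw [h1] at h2
      exact Subtype.ext (mul_left_cancel h2)
    have hw' : wt X B' = Nat.card X := by
      refine le_antisymm (wt_le D (hB.mono inf_le_left)) ?_
      have hsub : fixV (V := X) B ⊔ N ≤ fixV B' :=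
        sup_le (fixV_anti inf_le_left) fun y hy g hg => hg.2 y hy
      have h1 := LocEven.Chermak.card_add_mul_le (fixV (V := X) B) N
      have h2 : Nat.card (fixV (V := X) B ⊓ N : AddSubgroup X) ≤ Nat.card (Am i) := by
        rw [← hP.card_comm D hf h0]
        exact AddSubgroup.card_le_of_le fun y hy =>
          hP.fix_inter D hf h0 hy.2 (fixV_anti hA1 hy.1)
      have h3 := hP.card_comm_le D hf h0
      have h4 := AddSubgroup.card_le_of_le hsub
      have h5 : Nat.card (fixV (V := X) B) * Nat.card (Am i) ≤ Nat.card (fixV (V := X) B') := by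
        refine Nat.le_of_mul_le_mul_right ?_ (Nat.card_pos (α := Am i))
        calc Nat.card (fixV (V := X) B) * Nat.card (Am i) * Nat.card (Am i)
            = Nat.card (fixV (V := X) B) * (Nat.card (Am i) * Nat.card (Am i)) := by ring
          _ ≤ Nat.card (fixV (V := X) B) * Nat.card N := Nat.mul_le_mul_left _ h3
          _ ≤ _ := h1
          _ ≤ Nat.card (fixV (V := X) B') * Nat.card (Am i) := Nat.mul_le_mul h4 h2
      calc Nat.card X = Nat.card B * Nat.card (fixV (V := X) B) := hw.symm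
        _ ≤ Nat.card (Am i) * Nat.card B' * Nat.card (fixV (V := X) B) := Nat.mul_le_mul_right _ hcardB
        _ = Nat.card B' * (Nat.card (fixV (V := X) B) * Nat.card (Am i)) := by ring
        _ ≤ _ := Nat.mul_le_mul_left _ h5
    have hih := ih _ hlt (hB.mono inf_le_left) hw' (inf_le_left.trans hT) rfl
    intro b hb
    obtain ⟨a, ha⟩ := hsplit b hb
    have := mul_mem (le_iSup Am i a.2) (hih ha)
    rwa [mul_inv_cancel_left] at this

end Cfsg.Agent.MovesFix
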