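import Mathlib
import Cfsg.Agent.MovesFix.Offender

/-!
The blocks on a module lying over the irreducible one.
-/

set_option autoImplicit false
set_option linter.unusedSectionVars false
set_option linter.style.haveILetI false

namespace Cfsg.Agent.MovesFix

open scoped Pointwise MatrixGroups
open LAE79 (fixV mem_fixV)
open Fusion (cj mem_cj cj_cj cj_one cj_mono cj_eq_of_mem cj_eq_iff_mem_normalizer
  isPGroup_cj cj_inv_cj cj_cj_inv card_cj coe_smul_sylow conj_mem_cj)

variable {P : Type*} [Group P] {X : Type*} [AddCommGroup X] [DistribMulAction P X] {p : ℕ}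
  {V : Type*} [AddCommGroup V] [DistribMulAction P V]

variable (V p) in
/-- `E` acts on `[V,E] / C_{[V,E]}(E)` as `SL₂(pⁿ)` or as a symmetric group on its natural module. -/
def SecModel (E : Subgroup P) : Prop :=
  ∃ n : ℕ, 1 ≤ n ∧
    ((∃ (F : Type) (_ : Field F) (_ : Fintype F), Fintype.card F = p ^ n ∧
      ∃ (ρ : ↥E →* Matrix.SpecialLinearGroup (Fin 2) F) (ψ : ↥(comm (X := V) E) →+ (Fin 2 → F)),
        Function.Bijective ρ ∧ Function.Surjective ψ ∧ (∀ u, ψ u = 0 ↔ (u : V) ∈ fixV E) ∧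
          ∀ (g : ↥E) (u v : ↥(comm (X := V) E)), (v : V) = (g : P) • (u : V) →
            ψ v = (ρ g : Matrix (Fin 2) (Fin 2) F).mulVec (ψ u)) ∨
      (p = 2 ∧ ∃ (ρ : ↥E →* Equiv.Perm (Fin (2 ^ n + 1)))
          (ψ : ↥(comm (X := V) E) →+ (Fin (2 ^ n + 1) → ZMod 2)),
        Function.Bijective ρ ∧ (∀ u, ∑ o, ψ u o = 0) ∧
          (∀ w : Fin (2 ^ n + 1) → ZMod 2, ∑ o, w o = 0 → ∃ u, ψ u = w) ∧
          (∀ u, ψ u = 0 ↔ (u : V) ∈ fixV E) ∧
          ∀ (g : ↥E) (u v : ↥(comm (X := V) E)), (v : V) = (g : P) • (u : V) →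
            ∀ o : Fin (2 ^ n + 1), ψ v o = ψ u ((ρ g)⁻¹ o)))

variable (V p) in
/-- `X` lies under the invariant subgroup `Y` of `V` with members fixing full preimages. -/
structure Over (A0 : Subgroup P) (Y : AddSubgroup V) (π : ↥Y →+ X) : Prop where
  inv : ∀ g : P, ∀ y ∈ Y, g • y ∈ Y
  surj : Function.Surjective π
  map : ∀ (g : P) (y z : ↥Y), (z : V) = g • (y : V) → π z = g • π y
  full : ∀ B, Cls A0 B → ∀ y : ↥Y, π y ∈ fixV B → (y : V) ∈ fixV B
  top : ∀ B, Cls A0 B → Y ⊔ fixV B = ⊤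

variable [Finite P] [hp : Fact p.Prime] [Finite X] (D : Hyp P X p)
  {A0 : Subgroup P} {T : Sylow p P} {ι : Type} {Am L : ι → Subgroup P}
  {Y : AddSubgroup V} {π : ↥Y →+ X}

include D

theorem Over.fix_plane (H : Over V A0 Y π) {A L : Subgroup P} (hP : Plane X D A0 T A L) {y : ↥Y}
    (h : π y ∈ fixV L) : (y : V) ∈ fixV L := by
  obtain ⟨g, hg, hgen⟩ := hP.gen
  rw [hgen, fixV_sup] at h ⊢
  exact ⟨H.full _ hP.cls y h.1, H.full _ (hP.cls.cj g) y h.2⟩

/-- The structure on the module `V`. -/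
theorem Frame.lift (hF : Frame X D A0 T Am L) (hf : ∀ g : P, (∀ x : X, g • x = x) → g = 1)
    (h0 : Mem X p A0) (H : Over V A0 Y π) {r : ℕ} {f : ι → Fin r} (hB : Blocks X L f)
    (hM : ∀ k, Model X p (blockGrp L f k)) :
    fixV (V := V) (⨆ k, blockGrp L f k) ⊔ (⨆ k, comm (X := V) (blockGrp L f k)) = ⊤ ∧
      (∀ k l, k ≠ l → comm (X := V) (blockGrp L f k) ≤ fixV (blockGrp L f l)) ∧
      ∀ k, SecModel p V (blockGrp L f k) := by
  classical
  have hfull : ∀ k, ∀ y : ↥Y, π y ∈ fixV (blockGrp L f k) → (y : V) ∈ fixV (blockGrp L f k) := fun k y hy =>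
    fixV_iSup _ fun i => H.fix_plane D (hF.plane i)
      (fixV_anti (le_iSup (fun i : ↥(f ⁻¹' {k}) => L i) i) hy)
  have hfixall : ∀ v : V, (∀ i, v ∈ fixV (L i)) → v ∈ fixV (⨆ k, blockGrp L f k) := fun v hv => by
    rw [iSup_blockGrp]; exact fixV_iSup _ hv
  -- every vector agrees with an element of `Y` up to fixed points
  have hVY : ∀ v : V, ∃ y : ↥Y, v - (y : V) ∈ fixV (⨆ k, blockGrp L f k) := by
    intro v
    have hgen : ∀ i, ∃ h ∈ L i, L i = Am i ⊔ cj h (Am i) := fun i => (hF.plane i).gen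
    choose h hh hgen using hgen
    have hcl : ∀ B, Cls A0 B → ∃ y : ↥Y, v - (y : V) ∈ fixV B := fun B hB => by
      obtain ⟨y, hy, w, hw, e⟩ := AddSubgroup.mem_sup.1 ((H.top B hB).ge (AddSubgroup.mem_top v))
      exact ⟨⟨y, hy⟩, by rw [← e, add_sub_cancel_left]; exact hw⟩
    choose yA hyA using fun i => hcl _ (hF.plane i).cls
    choose yC hyC using fun i => hcl _ ((hF.plane i).cls.cj (h i))
    choose d hd hd' using fun i => (hF.plane i).exists_partner_disp D hf h0 (hh i)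
      ((hF.plane i).not_norm D (hgen i)) (π (yC i) - π (yA i))
    obtain ⟨x, hx⟩ := hF.exists_coords D hf h0 fun i => π (yC i) - h i • d i
    obtain ⟨y, rfl⟩ := H.surj x
    refine ⟨y, hfixall _ fun i => ?_⟩
    rw [hgen i, fixV_sup]
    have hxi := hx i
    rw [hgen i, fixV_sup] at hxi
    refine ⟨?_, ?_⟩
    · have h1 : π (yA i - y) ∈ fixV (Am i) := by
        rw [map_sub, show π (yA i) - π y = -((π y - (π (yC i) - h i • d i)) +
          (π (yC i) - π (yA i) - h i • d i)) by abel]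
        exact neg_mem (add_mem hxi.1 (hd' i))
      have := add_mem (hyA i) (H.full _ (hF.plane i).cls _ h1)
      rwa [AddSubgroup.coe_sub, sub_add_sub_cancel] at this
    · have hq := (Mem.quad D (cls_mem D h0 (hF.plane i).cls)).comm_le_fix (hd i)
      have h1 : π (yC i - y) ∈ fixV (cj (h i) (Am i)) := by
        rw [map_sub, show π (yC i) - π y = h i • d i - (π y - (π (yC i) - h i • d i)) by abel]
        exact sub_mem (smul_mem_fixV_cj hq) hxi.2
      have := add_mem (hyC i) (H.full _ ((hF.plane i).cls.cj (h i)) _ h1)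
      rwa [AddSubgroup.coe_sub, sub_add_sub_cancel] at this
  have hdisp : ∀ k, comm (X := V) (blockGrp L f k) ≤
      ((comm (X := X) (blockGrp L f k)).comap π).map Y.subtype := fun k => comm_le fun g hg v => by
    obtain ⟨y, hy⟩ := hVY v
    have h1 := fixV_anti (le_iSup (blockGrp L f) k) hy g hg
    rw [smul_sub, sub_eq_sub_iff_sub_eq_sub] at h1
    refine ⟨⟨g • (y : V), H.inv g _ y.2⟩ - y, ?_, h1.symm⟩
    show π _ ∈ comm (X := X) (blockGrp L f k)
    rw [map_sub, H.map g y _ rfl]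
    exact diff_mem_comm hg _
  have hlift : ∀ k, comm (X := X) (blockGrp L f k) ≤
      ((comm (X := V) (blockGrp L f k)).comap Y.subtype).map π := fun k => comm_le fun g hg x => by
    obtain ⟨y, rfl⟩ := H.surj x
    exact ⟨⟨g • (y : V), H.inv g _ y.2⟩ - y, diff_mem_comm hg (y : V), by rw [map_sub, H.map g y _ rfl]⟩
  refine ⟨?_, fun k l hkl u hu => ?_, fun k => ?_⟩
  · refine eq_top_iff.2 fun v _ => ?_
    obtain ⟨y, hy⟩ := hVY v
    rw [← sub_add_cancel v (y : V)]
    refine add_mem (AddSubgroup.mem_sup_left hy) ?_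
    have h1 : π y ∈ ((⨆ k, comm (X := V) (blockGrp L f k)).comap Y.subtype).map π := by
      refine (hF.comm_top D).ge.trans (iSup_le fun i => ?_) (AddSubgroup.mem_top _)
      refine ((comm_mono (le_iSup (fun j : ↥(f ⁻¹' {f i}) => L j) ⟨i, rfl⟩)).trans (hlift (f i))).trans ?_
      exact AddSubgroup.map_mono (AddSubgroup.comap_mono
        (le_iSup (fun k => comm (X := V) (blockGrp L f k)) (f i)))
    obtain ⟨u, hu, hπu⟩ := h1
    rw [show (y : V) = (u : V) + ((y - u : ↥Y) : V) by rw [AddSubgroup.coe_sub]; abel]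
    refine add_mem (AddSubgroup.mem_sup_right hu) (AddSubgroup.mem_sup_left (hfixall _ fun i =>
      H.fix_plane D (hF.plane i) ?_))
    rw [map_sub, hπu, sub_self]
    exact zero_mem _
  · obtain ⟨u', hu', rfl⟩ := hdisp k hu
    exact hfull l u' (hB.cross hkl hu')
  · set E := blockGrp L f k with hE
    have hsup : ∀ x : X, ∃ u ∈ comm (X := X) E, x - u ∈ fixV E := by
      intro x
      have h1 : (⊤ : AddSubgroup X) ≤ comm E ⊔ fixV E := by
        rw [← hF.comm_top D]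
        refine iSup_le fun i => ?_
        by_cases hi : f i = k
        · exact le_sup_of_le_left (comm_mono (le_iSup (fun j : ↥(f ⁻¹' {k}) => L j) ⟨i, hi⟩))
        · exact le_sup_of_le_right
            ((comm_mono (le_iSup (fun j : ↥(f ⁻¹' {f i}) => L j) ⟨i, rfl⟩)).trans (hB.cross hi))
      obtain ⟨u, hu, w, hw, rfl⟩ := AddSubgroup.mem_sup.1 (h1 (AddSubgroup.mem_top x))
      exact ⟨u, hu, by rw [add_sub_cancel_left]; exact hw⟩
    have hsubY : comm (X := V) E ≤ Y := fun u hu => by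
      obtain ⟨u', -, rfl⟩ := hdisp k hu; exact u'.2
    let π' : ↥(comm (X := V) E) →+ X := π.comp (AddSubgroup.inclusion hsubY)
    have hker : ∀ u : ↥(comm (X := V) E), π' u ∈ fixV E ↔ (u : V) ∈ fixV E := fun u => by
      refine ⟨fun h => hfull k _ h, fun h g hg => ?_⟩
      exact (H.map g ⟨(u : V), hsubY u.2⟩ ⟨(u : V), hsubY u.2⟩ (h g hg).symm).symm
    have hequiv : ∀ (g : ↥E) (u v : ↥(comm (X := V) E)), (v : V) = (g : P) • (u : V) →
        π' v = (g : P) • π' u := fun g u v h =>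
      H.map (g : P) ⟨(u : V), hsubY u.2⟩ ⟨(v : V), hsubY v.2⟩ h
    have hlift' : ∀ x ∈ comm (X := X) E, ∃ u, π' u = x := fun x hx => by
      obtain ⟨y, hy, rfl⟩ := hlift k hx
      exact ⟨⟨(y : V), hy⟩, congrArg π (Subtype.ext rfl)⟩
    obtain ⟨n, hn, ⟨F, iF, iFt, hFc, ρ, ψ, hρ, hψ, hψ0, hψe⟩ | ⟨hp2, ρ, ψ, hρ, hψs, hψ, hψ0, hψe⟩⟩ := hM k
    · refine ⟨n, hn, Or.inl ⟨F, iF, iFt, hFc, ρ, ψ.comp π', hρ, fun w => ?_,
        fun u => (hψ0 _).trans (hker u), fun g u v h => ?_⟩⟩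
      · obtain ⟨x, hx⟩ := hψ w
        obtain ⟨u, hu, hxu⟩ := hsup x
        obtain ⟨u', rfl⟩ := hlift' u hu
        have h2 := (hψ0 _).2 hxu
        rw [map_sub, sub_eq_zero] at h2
        exact ⟨u', h2.symm.trans hx⟩
      · show ψ (π' v) = (ρ g : Matrix (Fin 2) (Fin 2) F).mulVec (ψ (π' u))
        rw [hequiv g u v h]; exact hψe g _
    · refine ⟨n, hn, Or.inr ⟨hp2, ρ, ψ.comp π', hρ, fun u => hψs _, fun w hw => ?_,
        fun u => (hψ0 _).trans (hker u), fun g u v h o => ?_⟩⟩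
      · obtain ⟨x, hx⟩ := hψ w hw
        obtain ⟨u, hu, hxu⟩ := hsup x
        obtain ⟨u', rfl⟩ := hlift' u hu
        have h2 := (hψ0 _).2 hxu
        rw [map_sub, sub_eq_zero] at h2
        exact ⟨u', h2.symm.trans hx⟩
      · show ψ (π' v) o = ψ (π' u) ((ρ g)⁻¹ o)
        rw [hequiv g u v h]; exact hψe g _ o

end Cfsg.Agent.MovesFix
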