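import Mathlib
import Cfsg.Agent.MovesFix.LiftStruct
import Cfsg.Agent.MovesFix.Module

/-!
The structure of a minimal group with an offender on a faithful module.
-/

set_option autoImplicit false
set_option linter.unusedSectionVars false
set_option linter.style.haveILetI false

namespace Cfsg.Agent.MovesFix

open scoped Pointwise MatrixGroups
open LAE79 (fixV mem_fixV)
open Fusion (cj mem_cj cj_cj cj_one cj_mono cj_eq_of_mem cj_eq_iff_mem_normalizer
  isPGroup_cj cj_inv_cj cj_cj_inv card_cj coe_smul_sylow conj_mem_cj)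

variable {P : Type*} [Group P] {p : ℕ} {V : Type*} [AddCommGroup V] [DistribMulAction P V]

variable (V) in
/-- The conclusion: blocks with their properties. -/
structure Decomp (T : Sylow p P) (S : Subgroup P) (r : ℕ) (E : Fin r → Subgroup P) : Prop where
  pos : 1 ≤ r
  commute : ∀ i j, i ≠ j → ∀ g ∈ E i, ∀ k ∈ E j, g * k = k * g
  disjoint : ∀ i, E i ⊓ (⨆ j ∈ {j | j ≠ i}, E j) = ⊥
  top : (⨆ i, E i) ⊔ (T : Subgroup P) = ⊤
  trans : ∀ i j, ∃ t ∈ (T : Subgroup P), cj t (E i) = E j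
  split : fixV (V := V) (⨆ i, E i) ⊔ (⨆ i, comm (X := V) (E i)) = ⊤
  cross : ∀ i j, i ≠ j → comm (X := V) (E i) ≤ fixV (E j)
  model : ∀ i, SecModel p V (E i)
  offender : ∀ B : Subgroup P, EA p B → Nat.card V ≤ wt V B → B ≤ ⨆ i, E i
  generated : ∀ N : Subgroup P, N.Normal → S ≤ N → ⨆ i, E i ≤ N

variable [Finite P] [hp : Fact p.Prime]

theorem fixV_quot_ne {X : Type*} [AddCommGroup X] [DistribMulAction P X] (π : V →+ X)
    (hπ : ∀ (g : P) v, π (g • v) = g • π v) {B : Subgroup P} {v : V} (h : v ∈ fixV B) : π v ∈ fixV B :=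
  fun b hb => by rw [← hπ, h b hb]

variable [Finite V]

/-- The blocks, given a section with full preimages. -/
theorem decomp_of_over {X : Type*} [AddCommGroup X] [DistribMulAction P X] [Finite X] (D : Hyp P X p)
    (hf : ∀ g : P, (∀ x : X, g • x = x) → g = 1) {A0 : Subgroup P} (h0 : Mem X p A0)
    {Y : AddSubgroup V} {π : ↥Y →+ X} (H : Over V A0 Y π)
    (hoffX : ∀ B : Subgroup P, EA p B → Nat.card V ≤ wt V B → wt X B = Nat.card X)
    {S : Subgroup P} (hA0 : A0 ≤ S) {A L : Subgroup P} {T1 : Sylow p P} (hP1 : Plane X D A0 T1 A L)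
    (T : Sylow p P) : ∃ (r : ℕ) (E : Fin r → Subgroup P), Decomp V T S r E := by
  classical
  obtain ⟨ι, Am, Lm, hF⟩ := exists_frame D hf h0 hP1
  obtain ⟨r, f, hr, hB, hM⟩ := hF.exists_blocks D hf h0
  obtain ⟨hsplit, hcross, hmodel⟩ := hF.lift D hf h0 H hB hM
  set E := blockGrp Lm f with hE
  have hEN : (⨆ k, E k) = ⨆ i, Lm i := iSup_blockGrp f
  have hcomm : ∀ i j, i ≠ j → ∀ g ∈ E i, ∀ k ∈ E j, g * k = k * g := by
    intro i j hij g hg k hk
    have key : ∀ x : X, (g * k) • x = (k * g) • x := fun x => by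
      have h1 := hB.cross hij (diff_mem_comm hg x) k hk
      have h2 := hB.cross hij.symm (diff_mem_comm hk x) g hg
      rw [smul_sub] at h1 h2
      rw [mul_smul, mul_smul, sub_eq_iff_eq_add.1 h1, sub_eq_iff_eq_add.1 h2]
      abel
    refine mul_inv_eq_one.1 (hf _ fun x => ?_)
    rw [mul_smul, key, smul_inv_smul]
  have hnormN : (⨆ k, E k).Normal := by
    rw [hEN, ← Subgroup.normalizer_eq_top_iff, ← top_le_iff, ← hF.sup_top D]
    exact sup_le Subgroup.le_normalizer fun t ht => cj_eq_iff_mem_normalizer.1 (hF.cj_iSup D ht)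
  have hEinv : ∀ i, (⨆ k, E k) ≤ Subgroup.normalizer (E i : Set P) := fun i => iSup_le fun j => by
    by_cases e : j = i
    · rw [e]; exact Subgroup.le_normalizer
    · exact le_trans (fun g hg => Subgroup.mem_centralizer_iff.2 fun k hk => (hcomm j i e g hg k hk).symm)
        (Subgroup.centralizer_le_normalizer _)
  obtain ⟨g0, hg0⟩ := Fusion.exists_cj_sylow T1 T
  have htopT : (⨆ k, E k) ⊔ (T : Subgroup P) = ⊤ := by
    have h1 : cj g0 ((⨆ k, E k) ⊔ (T1 : Subgroup P)) = ⊤ := by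
      rw [hEN, hF.sup_top D]
      exact Subgroup.map_top_of_surjective _ (MulAut.conj g0).surjective
    rw [← h1, ← hg0]
    show _ = Subgroup.map _ _
    rw [Subgroup.map_sup]
    exact congrArg (· ⊔ _) (cj_eq_of_mem (by rw [Subgroup.normalizer_eq_top_iff.2 hnormN]; trivial)).symm
  refine ⟨r, E, hr, hcomm, fun i => ?_, htopT, fun i j => ?_, hsplit, hcross, hmodel, fun B hBE hBw => ?_,
    fun N hN hoff => ?_⟩
  · refine eq_bot_iff.2 fun g hg => Subgroup.mem_bot.2 (hf g fun x => sub_eq_zero.1 (hF.eq_zero D fun a => ?_))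
    by_cases e : f a = i
    · have h1 : comm (X := X) (⨆ j ∈ {j | j ≠ i}, E j) ≤ fixV (E i) :=
        (comm_iSup_le _).trans (iSup_le fun j => (comm_iSup_le _).trans
          (iSup_le fun hj => hB.cross hj))
      exact fixV_anti (le_iSup (fun b : ↥(f ⁻¹' {i}) => Lm b) ⟨a, e⟩) (h1 (diff_mem_comm hg.2 x))
    · exact fixV_anti (le_iSup (fun b : ↥(f ⁻¹' {f a}) => Lm b) ⟨a, rfl⟩)
        (hB.cross (Ne.symm e) (diff_mem_comm hg.1 x))
  · obtain ⟨t1, ht1, he⟩ := hF.cj_block D hB i j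
    haveI := hnormN
    have hm : t1 ∈ ((⨆ k, E k : Subgroup P) : Set P) * ((T : Subgroup P) : Set P) := by
      rw [← Subgroup.normal_mul, htopT]; exact Subgroup.mem_top t1
    obtain ⟨n, hn, t, ht, rfl⟩ := hm
    refine ⟨t, ht, ?_⟩
    rw [← cj_cj] at he
    have h2 := congrArg (cj n⁻¹) he
    rw [cj_inv_cj] at h2
    rw [h2]
    exact cj_eq_of_mem (hEinv j (inv_mem hn))
  · have hBX := hoffX B hBE hBw
    obtain ⟨T2, hT2⟩ := hBE.isPGroup.exists_le_sylow
    obtain ⟨g, hg⟩ := Fusion.exists_cj_sylow T2 T1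
    have h1 := hF.offender_le D hf h0 (hBE.conj g) ((wt_map_conj g B).trans hBX)
      (hg ▸ cj_mono g hT2)
    intro b hb
    haveI := hnormN
    have h2 : g * b * g⁻¹ ∈ ⨆ k, E k := by
      rw [hEN]
      exact (iSup_mono fun i => hF.le D i) (h1 (conj_mem_cj.2 hb))
    have h3 := hnormN.conj_mem _ h2 g⁻¹
    simpa [mul_assoc] using h3
  · rw [hEN]
    haveI := hN
    have hA0N : A0 ≤ N := hA0.trans hoff
    refine iSup_le fun i => ?_
    obtain ⟨h, -, hgen⟩ := (hF.plane i).gen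
    have hAmN : ∀ {C : Subgroup P}, Cls A0 C → C ≤ N := by
      rintro C ⟨g, rfl⟩
      exact (cj_mono g hA0N).trans_eq (cj_eq_of_mem (by rw [Subgroup.normalizer_eq_top_iff.2 hN]; trivial))
    rw [hgen]
    exact sup_le (hAmN (hF.plane i).cls) (hAmN ((hF.plane i).cls.cj h))



set_option maxHeartbeats 2000000 in
/-- The structure theorem. -/
theorem exists_decomp (hmin : Cfsg.IsPMinimal p P) (hcore : Cfsg.pCore p P = ⊥)
    (hexp : ∀ v : V, p • v = 0) (hfaith : ∀ g : P, (∀ v : V, g • v = v) → g = 1)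
    {A : Subgroup P} (hA : EA p A) (hne : A ≠ ⊥) (hw : Nat.card V ≤ wt V A) (T : Sylow p P) :
    ∃ (r : ℕ) (E : Fin r → Subgroup P), Decomp V T A r E := by
  classical
  set K := Cfsg.pResidual p P with hK
  haveI hKn : K.Normal := normal_pResidual P p
  set Z := fixV (V := V) K with hZdef
  have hZ : ∀ g : P, ∀ z ∈ Z, g • z ∈ Z := by
    intro g z hz k hk
    have h1 := hz _ (hKn.conj_mem k hk g⁻¹)
    rw [mul_smul, mul_smul, inv_inv, inv_smul_eq_iff] at h1
    exact h1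
  have hnot : ¬ (⊤ : AddSubgroup V) ≤ Z := by
    intro h
    have hK0 : K = ⊥ := (Subgroup.eq_bot_iff_forall _).2 fun k hk =>
      hfaith k fun v => h (AddSubgroup.mem_top v) k hk
    have h1 := LocalP.pResidual_sup_eq_top T
    rw [← hK, hK0, bot_sup_eq] at h1
    exact (hmin T).1 (by rw [h1]; infer_instance)
  obtain ⟨W, ⟨hW, hWK⟩, hWmin⟩ := (Set.toFinite
    {W : AddSubgroup V | (∀ g : P, ∀ w ∈ W, g • w ∈ W) ∧ ¬ W ≤ Z}).exists_minimal
    ⟨⊤, fun _ _ _ => trivial, hnot⟩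
  set Y := W ⊔ Z with hYdef
  have hY : ∀ g : P, ∀ y ∈ Y, g • y ∈ Y := by
    intro g y hy
    obtain ⟨w, hw, z, hz, rfl⟩ := AddSubgroup.mem_sup.1 hy
    rw [smul_add]
    exact add_mem (AddSubgroup.mem_sup_left (hW g w hw)) (AddSubgroup.mem_sup_right (hZ g z hz))
  -- an element of order prime to `p` trivial on `Y` modulo `Z` fixes `Y`
  have hcop : ∀ k : P, (orderOf k).Coprime p → (∀ y ∈ Y, k • y - y ∈ Z) → ∀ y ∈ Y, k • y = y :=
    fun k hk h y hy => smul_eq_of_coprime hexp hk (h y hy k (Cores.mem_pResidual_of_coprime hk))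
  have hKY : ¬ ∀ k ∈ K, ∀ y ∈ Y, k • y - y ∈ Z := by
    intro h
    refine hWK fun w hw' k hk => ?_
    exact ((Subgroup.closure_le _).2 fun k (hk : (orderOf k).Coprime p) =>
      hcop k hk (h k (Cores.mem_pResidual_of_coprime hk)) w (AddSubgroup.mem_sup_left hw') :
        K ≤ MulAction.stabilizer P w) hk
  letI actY := subAct Y hY
  let Zy : AddSubgroup ↥Y := Z.comap Y.subtype
  letI actX := modAct (V := ↥Y) Zy fun g z hz => hZ g (z : V) hz
  haveI : Finite (↥Y ⧸ Zy) := Finite.of_surjective _ QuotientAddGroup.mk_surjective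
  let π : ↥Y →+ ↥Y ⧸ Zy := QuotientAddGroup.mk' Zy
  have hπ0 : ∀ {y : ↥Y}, π y = 0 ↔ (y : V) ∈ Z := fun {y} => QuotientAddGroup.eq_zero_iff y
  have hπ : ∀ (g : P) (y : ↥Y), π (g • y) = g • π y := fun _ _ => rfl
  have hsurj : Function.Surjective π := QuotientAddGroup.mk'_surjective Zy
  have htriv : ∀ g : P, (∀ x : ↥Y ⧸ Zy, g • x = x) → ∀ y ∈ Y, g • y - y ∈ Z := by
    intro g hg y hy
    have h1 : π (g • (⟨y, hy⟩ : ↥Y) - ⟨y, hy⟩) = 0 := by rw [map_sub, hπ, hg, sub_self]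
    exact hπ0.1 h1
  have hnofix : ¬ ∀ (k : P) (x : ↥Y ⧸ Zy), k ∈ K → k • x = x :=
    fun h => hKY fun k hk => htriv k fun x => h k x hk
  have hirr : ∀ Q : AddSubgroup (↥Y ⧸ Zy), (∀ g : P, ∀ y ∈ Q, g • y ∈ Q) → Q = ⊥ ∨ Q = ⊤ := fun Q hQ => by
    by_cases h : (Q.comap π).map Y.subtype ≤ Z
    · refine Or.inl (eq_bot_iff.2 fun x hx => ?_)
      obtain ⟨y, rfl⟩ := hsurj x
      exact AddSubgroup.mem_bot.2 (hπ0.2 (h ⟨y, hx, rfl⟩))
    · refine Or.inr (eq_top_iff.2 fun x _ => ?_)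
      obtain ⟨y, rfl⟩ := hsurj x
      set Q' := (Q.comap π).map Y.subtype with hQ'
      have hZQ : Z ≤ Q' := fun z hz => ⟨⟨z, AddSubgroup.mem_sup_right hz⟩, by
        show π _ ∈ Q
        rw [hπ0.2 hz]; exact zero_mem _, rfl⟩
      have hWQ : W ≤ Q' := by
        refine (hWmin (y := W ⊓ Q') ⟨fun g w hw => ⟨hW g w hw.1, ?_⟩, fun hle => h fun q hq => ?_⟩
          inf_le_left).trans inf_le_right
        · obtain ⟨w', hw', e⟩ := hw.2
          refine ⟨g • w', ?_, by rw [← e]; rfl⟩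
          show π (g • w') ∈ Q
          rw [hπ]; exact hQ g _ hw'
        · obtain ⟨q', hq', e⟩ := id hq
          obtain ⟨w, hw, z, hz, hwz⟩ := AddSubgroup.mem_sup.1 (e ▸ q'.2 : q ∈ Y)
          rw [← hwz]
          refine add_mem (hle ⟨hw, ?_⟩) hz
          have := sub_mem hq (hZQ hz)
          rwa [← hwz, add_sub_cancel_right] at this
      obtain ⟨y', hy', e⟩ := (sup_le hWQ hZQ) y.2
      have : y' = y := Subtype.ext e
      exact this ▸ hy'
  have D : Hyp P (↥Y ⧸ Zy) p :=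
    { pmin := hmin
      core := hcore
      faithp := fun g hg hgt => by
        let N : Subgroup P :=
          { carrier := {g | ∀ x : ↥Y ⧸ Zy, g • x = x}
            one_mem' := fun x => one_smul P x
            mul_mem' := fun {a b} ha hb x => by rw [mul_smul, hb, ha]
            inv_mem' := fun {a} ha x => inv_smul_eq_iff.2 (ha x).symm }
        haveI : N.Normal := ⟨fun n hn g x => by rw [mul_smul, mul_smul, hn, smul_inv_smul]⟩
        exact eq_one_of_mem_normal hmin hcore (N := N) (fun hle => hnofix fun k x hk => hle hk x) hgt hg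
      exp := fun x => by
        obtain ⟨y, rfl⟩ := hsurj x
        rw [← map_nsmul, show p • y = 0 from Subtype.ext (hexp _), map_zero]
      nontriv := by
        by_contra h
        rw [not_nontrivial_iff_subsingleton] at h
        exact hnofix fun k x _ => Subsingleton.elim _ _
      irr := hirr
      nofix := (hirr (fixV (V := ↥Y ⧸ Zy) (⊤ : Subgroup P)) fun g y hy k _ => by
        show k • g • y = g • y
        rw [hy g (Subgroup.mem_top g), hy k (Subgroup.mem_top k)]).resolve_right fun h =>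
          hnofix fun k x _ => (h.ge (AddSubgroup.mem_top x) : x ∈ fixV (⊤ : Subgroup P)) k (Subgroup.mem_top k) }
  have hfull0 : ∀ (B : Subgroup P) (y : ↥Y), (y : V) ∈ fixV B → π y ∈ fixV B := fun B y hy =>
    fixV_quot_ne π hπ fun b hb => Subtype.ext (hy b hb)
  -- counting
  have hbound : ∀ B : Subgroup P, EA p B → Nat.card V ≤ wt V B →
      Y ⊔ fixV B = ⊤ ∧ Z ≤ fixV B ∧ wt (↥Y ⧸ Zy) B = Nat.card (↥Y ⧸ Zy) ∧ wt V B = Nat.card V := by
    intro B hB hwB
    set R := fixV (V := V) B with hR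
    set RY := fixV (V := ↥Y) B with hRY
    have hcRY : Nat.card RY = Nat.card (R ⊓ Y : AddSubgroup V) := Nat.card_congr
      { toFun := fun y => ⟨((y : ↥Y) : V), fun b hb => congrArg Subtype.val (y.2 b hb), (y : ↥Y).2⟩
        invFun := fun v => ⟨⟨(v : V), v.2.2⟩, fun b hb => Subtype.ext (v.2.1 b hb)⟩
        left_inv := fun _ => rfl
        right_inv := fun _ => rfl }
    have h1 := card_eq_ker_mul_map π RY
    have hker : π.ker = Zy := QuotientAddGroup.ker_mk' Zy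
    rw [hker] at h1
    have h2 : Nat.card (RY ⊓ Zy : AddSubgroup ↥Y) ≤ Nat.card Zy := AddSubgroup.card_le_of_le inf_le_right
    have h3 : Nat.card B * Nat.card (RY.map π) ≤ wt (↥Y ⧸ Zy) B := by
      refine Nat.mul_le_mul_left _ (AddSubgroup.card_le_of_le ?_)
      rintro _ ⟨y, hy, rfl⟩
      exact fixV_quot_ne π hπ hy
    have h4 := wt_le D hB
    have hYcard : Nat.card Y = Nat.card Zy * Nat.card (↥Y ⧸ Zy) := by
      rw [AddSubgroup.card_eq_card_quotient_mul_card_addSubgroup Zy, mul_comm]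
    have h5 : Nat.card B * Nat.card (R ⊓ Y : AddSubgroup V) =
        Nat.card (RY ⊓ Zy : AddSubgroup ↥Y) * (Nat.card B * Nat.card (RY.map π)) := by
      rw [← hcRY, h1]; ring
    have h6 : Nat.card B * Nat.card (R ⊓ Y : AddSubgroup V) ≤ Nat.card Y := by
      rw [h5, hYcard]; exact Nat.mul_le_mul h2 (h3.trans h4)
    have h7 := LocEven.Chermak.card_add_mul_le R Y
    have h8 := AddSubgroup.card_le_card_addGroup (R ⊔ Y)
    have c1 : Nat.card V * Nat.card Y ≤ wt V B * Nat.card Y := Nat.mul_le_mul_right _ hwB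
    have c2 : wt V B * Nat.card Y ≤ Nat.card (R ⊔ Y : AddSubgroup V) *
        (Nat.card B * Nat.card (R ⊓ Y : AddSubgroup V)) := by
      rw [wt, mul_assoc, mul_left_comm (Nat.card (R ⊔ Y : AddSubgroup V))]
      exact Nat.mul_le_mul_left _ h7
    have c3 := Nat.mul_le_mul_left (Nat.card (R ⊔ Y : AddSubgroup V)) h6
    have htop : Nat.card V ≤ Nat.card (R ⊔ Y : AddSubgroup V) :=
      Nat.le_of_mul_le_mul_right (c1.trans (c2.trans c3)) Nat.card_pos
    have heq : Nat.card Y ≤ Nat.card B * Nat.card (R ⊓ Y : AddSubgroup V) :=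
      Nat.le_of_mul_le_mul_left ((c1.trans c2).trans (Nat.mul_le_mul_right _ h8)) Nat.card_pos
    rw [h5, hYcard] at heq
    have hz : Nat.card Zy ≤ Nat.card (RY ⊓ Zy : AddSubgroup ↥Y) := Nat.le_of_mul_le_mul_right
      (heq.trans (Nat.mul_le_mul_left _ (h3.trans h4))) Nat.card_pos
    refine ⟨by rw [sup_comm]; exact AddSubgroup.eq_top_of_card_eq _ (le_antisymm h8 htop),
      fun z hz' => ?_, le_antisymm h4 ?_, le_antisymm ?_ hwB⟩
    · have hzY : z ∈ Y := AddSubgroup.mem_sup_right hz'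
      have h9 : (⟨z, hzY⟩ : ↥Y) ∈ RY ⊓ Zy := by
        rw [AddSubgroup.eq_of_le_of_card_ge inf_le_right hz]; exact hz'
      exact fun b hb => congrArg Subtype.val (h9.1 b hb)
    · exact (Nat.le_of_mul_le_mul_left (heq.trans (Nat.mul_le_mul_right _ h2)) Nat.card_pos).trans h3
    · exact Nat.le_of_mul_le_mul_right ((c2.trans c3).trans (Nat.mul_le_mul_right _ h8)) Nat.card_pos
  -- the action on `X` is faithful
  have hY1 := (hbound A hA hw).1
  have hKtriv : ∀ k ∈ K, ∀ v : V, k • v - v ∈ Y := by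
    haveI : (trivMod (P := P) Y).Normal :=
      Subgroup.normalizer_eq_top_iff.1 (top_le_iff.1 (le_normalizer_trivMod fun g _ => hY g))
    by_contra hno
    obtain ⟨a, ha, ha1⟩ : ∃ a ∈ A, a ≠ 1 := by
      by_contra h
      push Not at h
      exact hne ((Subgroup.eq_bot_iff_forall _).2 h)
    refine ha1 (eq_one_of_mem_normal hmin hcore (N := trivMod Y) (fun hle => hno fun k hk v => hle hk v)
      ?_ ⟨1, by rw [pow_one]; exact hA.pow a ha⟩)
    intro v
    obtain ⟨y, hy, c, hc, rfl⟩ := AddSubgroup.mem_sup.1 (hY1.ge (AddSubgroup.mem_top v))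
    rw [smul_add, hc a ha, add_sub_add_right_eq_sub]
    exact sub_mem (hY a y hy) hy
  have hfX : ∀ g : P, (∀ x : ↥Y ⧸ Zy, g • x = x) → g = 1 := by
    intro g hg
    have hgc := Hyp.coprime_of_trivial D hg
    have hgY := hcop g hgc (htriv g hg)
    exact hfaith g fun v => smul_eq_of_coprime hexp hgc
      (hgY _ (hKtriv g (Cores.mem_pResidual_of_coprime hgc) v))
  -- a minimal member
  obtain ⟨E0, ⟨hE0A, hE0ne, hE0w⟩, hE0min⟩ := Set.exists_min_image
    {B : Subgroup P | B ≤ A ∧ B ≠ ⊥ ∧ Nat.card V ≤ wt V B} (fun B => Nat.card B) (Set.toFinite _)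
    ⟨A, le_rfl, hne, hw⟩
  have hE0 : EA p E0 := hA.mono hE0A
  obtain ⟨hE0top, hE0Z, hE0X, -⟩ := hbound E0 hE0 hE0w
  have hEq : Quad (X := V) E0 := quad_of_minimal (isPGroup_of_exp hexp) hE0.isPGroup hE0.comm
    (fun B hB => by
      by_cases hle : Nat.card V ≤ wt V B
      · exact (hbound B (hE0.mono hB) hle).2.2.2.le.trans hE0w
      · exact (not_le.1 hle).le.trans hE0w) fun B hB hBne hBw =>
      Subgroup.eq_of_le_of_card_ge hB (hE0min B ⟨hB.trans hE0A, hBne, hBw ▸ hE0w⟩)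
  obtain ⟨A0, ⟨hA0E, hA0ne, hA0w⟩, hA0min⟩ := Set.exists_min_image
    {B : Subgroup P | B ≤ E0 ∧ B ≠ ⊥ ∧ wt (↥Y ⧸ Zy) B = Nat.card (↥Y ⧸ Zy)} (fun B => Nat.card B)
    (Set.toFinite _) ⟨E0, le_rfl, hE0ne, hE0X⟩
  have h0 : Mem (↥Y ⧸ Zy) p A0 := ⟨hE0.mono hA0E, hA0ne, hA0w, fun B hB hBne hBw =>
    Subgroup.eq_of_le_of_card_ge hB (hA0min B ⟨hB.trans hA0E, hBne, hBw⟩)⟩
  have HU : Up p π A0 := ⟨hπ, hsurj, fun y => Subtype.ext (hexp _),
    fun a ha b hb y => Subtype.ext (hEq a (hA0E ha) b (hA0E hb) (y : V)),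
    fun a ha z hz => Subtype.ext (hE0Z (hπ0.1 hz) a (hA0E ha))⟩
  obtain ⟨T1, A1, A1', U, hS⟩ := exists_special D h0
  have hP1 := hS.plane D hfX h0
  have hcj : ∀ {g : P} {C : Subgroup P},
      (∀ y : ↥Y, π y ∈ fixV C → (y : V) ∈ fixV C) →
      ∀ y : ↥Y, π y ∈ fixV (cj g C) → (y : V) ∈ fixV (cj g C) := by
    intro g C hC y hy
    rw [mem_fixV_map_conj] at hy ⊢
    rw [← hπ] at hy
    exact hC _ hy
  have hfull : ∀ B, Cls A0 B → ∀ y : ↥Y, π y ∈ fixV B → (y : V) ∈ fixV B := by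
    intro B hB
    have h1 : ∀ y : ↥Y, π y ∈ fixV A1 → (y : V) ∈ fixV A1 := fun y hy b hb =>
      congrArg Subtype.val ((HU.full D h0 hS hy) b hb)
    obtain ⟨g, rfl⟩ := hB
    obtain ⟨g1, hg1⟩ := hS.cls
    rw [← cj_inv_cj g1 A0, hg1, cj_cj]
    exact hcj h1
  have hVtop : ∀ B, Cls A0 B → Y ⊔ fixV (V := V) B = ⊤ := by
    rintro B ⟨g, rfl⟩
    refine eq_top_iff.2 fun v _ => ?_
    obtain ⟨y, hy, c, hc, e⟩ := AddSubgroup.mem_sup.1 (hE0top.ge (AddSubgroup.mem_top (g⁻¹ • v)))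
    refine AddSubgroup.mem_sup.2 ⟨g • y, hY g y hy, g • c, smul_mem_fixV_cj (fixV_anti hA0E hc), ?_⟩
    rw [← smul_add, e, smul_inv_smul]
  have HO : Over V A0 Y π := ⟨hY, hsurj, fun g y z h => by
    rw [← hπ]; exact congrArg π (Subtype.ext h), hfull, hVtop⟩
  exact decomp_of_over D hfX h0 HO (fun B hB hB' => (hbound B hB hB').2.2.1)
    (hA0E.trans hE0A) hP1 T

end Cfsg.Agent.MovesFix
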