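import Mathlib
import Cfsg.Prelude.Def_BaumannBlocks
import Cfsg.Prelude.Def_PLocal
import Cfsg.Agent.MovesFix.Struct

/-!
Translation between a module and an elementary abelian normal subgroup.
-/

set_option autoImplicit false
set_option linter.unusedSectionVars false
set_option linter.style.haveILetI false

namespace Cfsg.Agent.MovesFix

open scoped MatrixGroups commutatorElement IsMulCommutative
open LAE79 (fixV mem_fixV)

variable {G : Type*} [Group G] {P : Type*} [Group P] {p : ℕ}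

/-- The preimage in `G` of a subgroup of `P`. -/
def pre {Q : Subgroup G} (q : ↥Q →* P) (E : Subgroup P) : Subgroup G := (E.comap q).map Q.subtype

theorem pre_le {Q : Subgroup G} (q : ↥Q →* P) (E : Subgroup P) : pre q E ≤ Q :=
  Subgroup.map_subtype_le _

theorem mem_pre {Q : Subgroup G} {q : ↥Q →* P} {E : Subgroup P} {x : G} :
    x ∈ pre q E ↔ ∃ h : x ∈ Q, q ⟨x, h⟩ ∈ E :=
  ⟨fun ⟨g, hg, e⟩ => e ▸ ⟨g.2, hg⟩, fun ⟨h, hx⟩ => ⟨⟨x, h⟩, hx, rfl⟩⟩

variable {V : Subgroup G} [IsMulCommutative V] [DistribMulAction P (Additive ↥V)]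

/-- The element of `G` under a vector. -/
abbrev toEl (v : Additive ↥V) : G := ((v.toMul : ↥V) : G)

/-- A subgroup of the module as a subgroup of `G`. -/
def toG (S : AddSubgroup (Additive ↥V)) : Subgroup G where
  carrier := {x | ∃ v ∈ S, toEl v = x}
  one_mem' := ⟨0, zero_mem S, rfl⟩
  mul_mem' := fun ⟨u, hu, e⟩ ⟨v, hv, e'⟩ => ⟨u + v, add_mem hu hv, by rw [← e, ← e']; rfl⟩
  inv_mem' := fun ⟨u, hu, e⟩ => ⟨-u, neg_mem hu, by rw [← e]; rfl⟩

theorem toEl_injective {u v : Additive ↥V} (h : toEl u = toEl v) : u = v :=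
  Additive.toMul.injective (Subtype.ext h)

theorem mem_toG {S : AddSubgroup (Additive ↥V)} {v : Additive ↥V} : toEl v ∈ toG S ↔ v ∈ S :=
  ⟨fun ⟨_, hu, e⟩ => toEl_injective e ▸ hu, fun h => ⟨v, h, rfl⟩⟩

theorem toG_le (S : AddSubgroup (Additive ↥V)) : toG S ≤ V := fun _ ⟨v, _, e⟩ => e ▸ (v.toMul : ↥V).2

variable {Q : Subgroup G} {q : ↥Q →* P}

/-- The action agrees with conjugation. -/
def Agree (V : Subgroup G) [IsMulCommutative V] [DistribMulAction P (Additive ↥V)] (q : ↥Q →* P) : Prop :=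
  Function.Surjective q ∧ ∀ (g : ↥Q) (v : Additive ↥V), toEl (q g • v) = (g : G) * toEl v * (g : G)⁻¹

variable (hq : Agree V q)

include hq

theorem Agree.mem_fix {E : Subgroup P} {v : Additive ↥V} :
    v ∈ fixV E ↔ toEl v ∈ Subgroup.centralizer (pre q E : Set G) := by
  rw [mem_fixV, Subgroup.mem_centralizer_iff]
  constructor
  · intro h x hx
    obtain ⟨hxQ, hxE⟩ := mem_pre.1 hx
    have h1 := congrArg toEl (h _ hxE)
    rw [hq.2] at h1
    exact mul_inv_eq_iff_eq_mul.1 h1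
  · intro h g hg
    obtain ⟨x, rfl⟩ := hq.1 g
    refine toEl_injective ?_
    rw [hq.2]
    exact mul_inv_eq_iff_eq_mul.2 (h _ (mem_pre.2 ⟨x.2, hg⟩))

theorem Agree.toG_fix (E : Subgroup P) :
    V ⊓ Subgroup.centralizer (pre q E : Set G) = toG (fixV (V := Additive ↥V) E) := by
  ext x
  refine ⟨fun h => ⟨Additive.ofMul ⟨x, h.1⟩, hq.mem_fix.2 h.2, rfl⟩, ?_⟩
  rintro ⟨v, hv, rfl⟩
  exact ⟨(v.toMul : ↥V).2, hq.mem_fix.1 hv⟩

theorem Agree.commutator (E : Subgroup P) : ⁅V, pre q E⁆ = toG (comm (X := Additive ↥V) E) := by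
  refine le_antisymm (Subgroup.commutator_le.2 fun v hv x hx => ?_) ?_
  · obtain ⟨hxQ, hxE⟩ := mem_pre.1 hx
    refine ⟨-(q ⟨x, hxQ⟩ • Additive.ofMul (⟨v, hv⟩ : ↥V) - Additive.ofMul (⟨v, hv⟩ : ↥V)),
      neg_mem (diff_mem_comm hxE _), ?_⟩
    rw [neg_sub, sub_eq_add_neg]
    show toEl (Additive.ofMul (⟨v, hv⟩ : ↥V)) * (toEl (q ⟨x, hxQ⟩ • Additive.ofMul (⟨v, hv⟩ : ↥V)))⁻¹ = _
    rw [hq.2, commutatorElement_def]
    show v * (x * v * x⁻¹)⁻¹ = _
    group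
  · let S : AddSubgroup (Additive ↥V) :=
      { carrier := {v | toEl v ∈ ⁅V, pre q E⁆}
        zero_mem' := one_mem ⁅V, pre q E⁆
        add_mem' := fun h h' => Subgroup.mul_mem ⁅V, pre q E⁆ h h'
        neg_mem' := fun h => Subgroup.inv_mem ⁅V, pre q E⁆ h }
    have hS : comm (X := Additive ↥V) E ≤ S := comm_le fun g hg v => by
      obtain ⟨x, rfl⟩ := hq.1 g
      show toEl (q x • v - v) ∈ ⁅V, pre q E⁆
      rw [sub_eq_add_neg]
      show toEl (q x • v) * (toEl v)⁻¹ ∈ _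
      rw [hq.2, Subgroup.commutator_comm]
      exact Subgroup.commutator_mem_commutator (mem_pre.2 ⟨x.2, hg⟩) (v.toMul : ↥V).2
    rintro x ⟨v, hv, rfl⟩
    exact hS hv

theorem Agree.split {r : ℕ} {E : Fin r → Subgroup P}
    (h : fixV (V := Additive ↥V) (⨆ i, E i) ⊔ (⨆ i, comm (X := Additive ↥V) (E i)) = ⊤) :
    (V ⊓ Subgroup.centralizer (((⨆ i, pre q (E i)) : Subgroup G) : Set G)) ⊔ (⨆ i, ⁅V, pre q (E i)⁆) = V := by
  refine le_antisymm (sup_le inf_le_left (iSup_le fun i => by rw [hq.commutator]; exact toG_le _))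
    fun x hx => ?_
  obtain ⟨a, ha, b, hb, e⟩ := AddSubgroup.mem_sup.1 (h.ge (AddSubgroup.mem_top (Additive.ofMul ⟨x, hx⟩)))
  rw [show x = toEl a * toEl b from congrArg toEl e.symm]
  refine mul_mem (Subgroup.mem_sup_left ⟨(a.toMul : ↥V).2, ?_⟩) (Subgroup.mem_sup_right ?_)
  · refine Subgroup.mem_centralizer_iff.2 fun g hg => ?_
    have hc : (⨆ i, pre q (E i)) ≤ Subgroup.centralizer ({toEl a} : Set G) := iSup_le fun i g hg =>
      Subgroup.mem_centralizer_singleton_iff.2 ((Subgroup.mem_centralizer_iff.1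
        (hq.mem_fix.1 (fixV_anti (le_iSup E i) ha))) g hg)
    exact Subgroup.mem_centralizer_singleton_iff.1 (hc hg)
  · let S : AddSubgroup (Additive ↥V) :=
      { carrier := {v | toEl v ∈ ⨆ i, ⁅V, pre q (E i)⁆}
        zero_mem' := one_mem (⨆ i, ⁅V, pre q (E i)⁆)
        add_mem' := fun h h' => Subgroup.mul_mem (⨆ i, ⁅V, pre q (E i)⁆) h h'
        neg_mem' := fun h => Subgroup.inv_mem (⨆ i, ⁅V, pre q (E i)⁆) h }
    refine (iSup_le fun i v hv => ?_ : ⨆ i, comm (X := Additive ↥V) (E i) ≤ S) hb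
    show toEl v ∈ ⨆ i, ⁅V, pre q (E i)⁆
    exact le_iSup (fun i => ⁅V, pre q (E i)⁆) i (by rw [hq.commutator]; exact mem_toG.2 hv)

theorem Agree.cross {E E' : Subgroup P} (h : comm (X := Additive ↥V) E ≤ fixV E') :
    ⁅⁅V, pre q E⁆, pre q E'⁆ = ⊥ := by
  rw [Subgroup.commutator_eq_bot_iff_le_centralizer, hq.commutator]
  rintro x ⟨v, hv, rfl⟩
  exact hq.mem_fix.1 (h hv)

theorem Agree.model {E : Subgroup P} (h : SecModel p (Additive ↥V) E) :
    ∃ n : ℕ, 1 ≤ n ∧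
      ((∃ (F : Type) (_ : Field F) (_ : Fintype F), Fintype.card F = p ^ n ∧
        (∃ ρ : ↥(pre q E) →* Matrix.SpecialLinearGroup (Fin 2) F, Function.Surjective ρ ∧
          ∀ e : ↥(pre q E), ρ e = 1 ↔ q ⟨e, pre_le q E e.2⟩ = 1) ∧
        Cfsg.ActsAsSL2OnSection F ⊤ (pre q E) ⁅V, pre q E⁆
          (⁅V, pre q E⁆ ⊓ Subgroup.centralizer ((pre q E : Subgroup G) : Set G))) ∨
      (p = 2 ∧ (∃ ρ : ↥(pre q E) →* Equiv.Perm (Fin (2 ^ n + 1)), Function.Surjective ρ ∧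
          ∀ e : ↥(pre q E), ρ e = 1 ↔ q ⟨e, pre_le q E e.2⟩ = 1) ∧
        Cfsg.ActsAsOddPermModuleOnSection (2 ^ n + 1) ⊤ (pre q E) ⁅V, pre q E⁆
          (⁅V, pre q E⁆ ⊓ Subgroup.centralizer ((pre q E : Subgroup G) : Set G)))) := by
  classical
  let res : ↥(pre q E) →* ↥E :=
    { toFun := fun e => ⟨q ⟨e, pre_le q E e.2⟩, (mem_pre.1 e.2).2⟩
      map_one' := Subtype.ext (map_one q)
      map_mul' := fun a b => Subtype.ext (map_mul q ⟨a, pre_le q E a.2⟩ ⟨b, pre_le q E b.2⟩) }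
  have hres : Function.Surjective res := fun g => by
    obtain ⟨x, hx⟩ := hq.1 g
    exact ⟨⟨x, mem_pre.2 ⟨x.2, hx ▸ g.2⟩⟩, Subtype.ext hx⟩
  have hone : ∀ e : ↥(pre q E), res e = 1 ↔ q ⟨e, pre_le q E e.2⟩ = 1 := fun e =>
    ⟨congrArg Subtype.val, fun h => Subtype.ext h⟩
  set U := ⁅V, pre q E⁆ with hU
  have hUV : U ≤ V := by rw [hU, hq.commutator]; exact toG_le _
  have hdown : ∀ u : ↥U, (Additive.ofMul ⟨(u : G), hUV u.2⟩ : Additive ↥V) ∈
      comm (X := Additive ↥V) E := fun u => mem_toG.1 (by rw [← hq.commutator]; exact u.2)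
  let κ : ↥U →* Multiplicative ↥(comm (X := Additive ↥V) E) :=
    { toFun := fun u => Multiplicative.ofAdd ⟨_, hdown u⟩
      map_one' := rfl
      map_mul' := fun _ _ => rfl }
  have hκ : Function.Surjective κ := fun m =>
    ⟨⟨toEl (Multiplicative.toAdd m : ↥(comm (X := Additive ↥V) E)).1, by
      rw [hU, hq.commutator]; exact mem_toG.2 (Multiplicative.toAdd m).2⟩, rfl⟩
  have hzero : ∀ u : ↥U, ((Multiplicative.toAdd (κ u) : ↥(comm (X := Additive ↥V) E)) : Additive ↥V) ∈ fixV E ↔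
      (u : G) ∈ U ⊓ Subgroup.centralizer ((pre q E : Subgroup G) : Set G) := fun u =>
    ⟨fun h => ⟨u.2, hq.mem_fix.1 h⟩, fun h => hq.mem_fix.2 h.2⟩
  have hfwd : ∀ x ∈ pre q E, ∀ u ∈ U, x * u * x⁻¹ ∈ U := fun x hx u hu => by
    rw [hU, hq.commutator] at hu ⊢
    obtain ⟨v, hv, rfl⟩ := hu
    obtain ⟨hxQ, hxE⟩ := mem_pre.1 hx
    refine ⟨q ⟨x, hxQ⟩ • v, ?_, hq.2 _ _⟩
    have h := smul_mem_comm_cj (q ⟨x, hxQ⟩) E hv
    rwa [Fusion.cj_eq_self_of_mem hxE] at h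
  have hnorm : pre q E ≤ Subgroup.normalizer (U : Set G) := fun x hx =>
    Subgroup.mem_normalizer_iff.2 fun u => ⟨fun hu => hfwd x hx u hu, fun hu => by
      have := hfwd x⁻¹ (inv_mem hx) _ hu
      simpa [mul_assoc] using this⟩
  have hact : ∀ (e : ↥(pre q E)) (u : ↥U), ∃ w : ↥U, (w : G) = (e : G) * (u : G) * (e : G)⁻¹ ∧
      ((Multiplicative.toAdd (κ w) : ↥(comm (X := Additive ↥V) E)) : Additive ↥V) = (res e : P) • ((Multiplicative.toAdd (κ u) : ↥(comm (X := Additive ↥V) E)) : Additive ↥V) :=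
    fun e u => ⟨⟨_, (Subgroup.mem_normalizer_iff.1 (hnorm e.2) _).1 u.2⟩, rfl,
      toEl_injective (hq.2 ⟨e, pre_le q E e.2⟩ (Multiplicative.toAdd (κ u) : ↥(comm (X := Additive ↥V) E)).1).symm⟩
  obtain ⟨n, hn, ⟨F, iF, iFt, hFc, ρ, ψ, hρ, hψ, hψ0, hψe⟩ | ⟨hp2, ρ, ψ, hρ, hψs, hψ, hψ0, hψe⟩⟩ := h
  · refine ⟨n, hn, Or.inl ⟨F, iF, iFt, hFc, ⟨ρ.comp res, hρ.2.comp hres, fun e => ?_⟩, hnorm, inf_le_left,
      ρ.comp res, (AddMonoidHom.toMultiplicative ψ).comp κ,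
      MonoidHom.range_eq_top.2 (hρ.2.comp hres), fun w => ?_, fun u => ?_, fun e u => ?_⟩⟩
    · rw [MonoidHom.comp_apply, map_eq_one_iff ρ hρ.1, hone]
    · obtain ⟨v, hv⟩ := hψ (Multiplicative.toAdd w)
      obtain ⟨u, hu⟩ := hκ (Multiplicative.ofAdd v)
      exact ⟨u, by show Multiplicative.ofAdd (ψ (Multiplicative.toAdd (κ u))) = w; rw [hu]; exact congrArg Multiplicative.ofAdd hv⟩
    · rw [← hzero, ← hψ0]
      exact ⟨fun h => congrArg Multiplicative.toAdd h, fun h => congrArg Multiplicative.ofAdd h⟩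
    · obtain ⟨w, hw, hw'⟩ := hact e u
      exact ⟨w, hw, hψe (res e) _ _ hw'⟩
  · refine ⟨n, hn, Or.inr ⟨hp2, ⟨ρ.comp res, hρ.2.comp hres, fun e => ?_⟩, hnorm, inf_le_left,
      ρ.comp res, (AddMonoidHom.toMultiplicative ψ).comp κ,
      MonoidHom.range_eq_top.2 (hρ.2.comp hres), fun u => hψs _, fun w hw => ?_, fun u => ?_, fun e u => ?_⟩⟩
    · rw [MonoidHom.comp_apply, map_eq_one_iff ρ hρ.1, hone]
    · obtain ⟨v, hv⟩ := hψ w hw
      obtain ⟨u, hu⟩ := hκ (Multiplicative.ofAdd v)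
      exact ⟨u, by show ψ (Multiplicative.toAdd (κ u)) = w; rw [hu]; exact hv⟩
    · rw [← hzero, ← hψ0]
      exact ⟨fun h => congrArg Multiplicative.toAdd h, fun h => congrArg Multiplicative.ofAdd h⟩
    · obtain ⟨w, hw, hw'⟩ := hact e u
      exact ⟨w, hw, hψe (res e) _ _ hw'⟩

end Cfsg.Agent.MovesFix
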