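import Mathlib
import Cfsg.Prelude.Def_BaumannBlocks
import Cfsg.Agent.Cores.Basic
import Cfsg.Agent.Modules.Thompson
import Cfsg.Agent.LocalEven.PMinimal
import Cfsg.Agent.MovesFix.Conv

/-!
A minimal group of characteristic `p` outside `C**(G,T)` induces on `Ω₁(Z(O_p(G)))` a minimal group
with trivial core and an offender.
-/

set_option autoImplicit false
set_option linter.unusedSectionVars false
set_option linter.style.haveILetI false

namespace Cfsg.Agent.MovesFix

open scoped Pointwise commutatorElement IsMulCommutative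
open LAE79 (fixV mem_fixV)
open Fusion (cj)

variable {G : Type*} [Group G] {p : ℕ}

theorem omegaOneCenter_le (X : Subgroup G) : Cfsg.omegaOneCenter p X ≤ X ⊓ Subgroup.centralizer (X : Set G) :=
  (Subgroup.closure_le _).2 fun _ hx => hx.1

theorem omegaOneCenter_elemAb (X : Subgroup G) : Cfsg.IsElementaryAbelian p (Cfsg.omegaOneCenter p X) := by
  have hle := omegaOneCenter_le (p := p) X
  have hc : ∀ a ∈ Cfsg.omegaOneCenter p X, ∀ b ∈ Cfsg.omegaOneCenter p X, a * b = b * a :=
    fun a ha b hb => Subgroup.mem_centralizer_iff.1 (hle hb).2 a (hle ha).1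
  refine ⟨Modules.comm_iff.2 hc, fun a ha => ?_⟩
  let S : Subgroup G :=
    { carrier := {x | x ∈ Cfsg.omegaOneCenter p X ∧ x ^ p = 1}
      one_mem' := ⟨one_mem _, one_pow p⟩
      mul_mem' := fun {a b} ha hb => ⟨mul_mem ha.1 hb.1, by
        rw [Commute.mul_pow (hc a ha.1 b hb.1), ha.2, hb.2, one_mul]⟩
      inv_mem' := fun {a} ha => ⟨inv_mem ha.1, by rw [inv_pow, ha.2, inv_one]⟩ }
  exact ((Subgroup.closure_le S).2 (fun x hx => ⟨Subgroup.subset_closure hx, hx.2⟩) ha).2

theorem omegaOneCenter_normal (X : Subgroup G) [X.Normal] : (Cfsg.omegaOneCenter p X).Normal := by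
  refine ⟨fun n hn g => ?_⟩
  haveI : (X ⊓ Subgroup.centralizer (X : Set G)).Normal := Subgroup.normal_inf_normal _ _
  have h : Cfsg.omegaOneCenter p X ≤ (Cfsg.omegaOneCenter p X).comap (MulAut.conj g).toMonoidHom :=
    (Subgroup.closure_le _).2 fun x hx => by
      refine Subgroup.subset_closure ⟨Subgroup.Normal.conj_mem ‹_› x hx.1 g, ?_⟩
      show (g * x * g⁻¹) ^ p = 1
      rw [conj_pow, hx.2, mul_one, mul_inv_cancel]
  exact h hn

theorem thompson_normal (p : ℕ) (G : Type*) [Group G] : (Cfsg.thompsonSubgroup p G).Normal := by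
  refine ⟨fun n hn g => ?_⟩
  have h : Cfsg.thompsonSubgroup p G ≤ (Cfsg.thompsonSubgroup p G).comap (MulAut.conj g).toMonoidHom :=
    sSup_le fun B hB => Subgroup.map_le_iff_le_comap.1 (le_sSup (by
      refine ⟨⟨Modules.comm_map _ hB.1.1, ?_⟩, fun B' hB' => ?_⟩
      · rintro _ ⟨b, hb, rfl⟩
        rw [← map_pow, hB.1.2 b hb, map_one]
      · rw [Subgroup.card_map_of_injective (MulAut.conj g).injective]
        exact hB.2 B' hB'))
  exact h hn

variable [Finite G] [hp : Fact p.Prime] (T : Sylow p G) {C : Subgroup G} [C.Normal]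

theorem exists_sylow_of_quot (S : Sylow p (G ⧸ C)) :
    ∃ S' : Sylow p G, (S : Subgroup (G ⧸ C)) = (S' : Subgroup G).map (QuotientGroup.mk' C) := by
  obtain ⟨S', rfl⟩ := Sylow.mapSurjective_surjective (QuotientGroup.mk'_surjective C) p S
  exact ⟨S', rfl⟩

variable (hmin : Cfsg.IsPMinimal p G)
include hmin

theorem eq_top_or_le (S : Sylow p G) {M : Subgroup G} (hM : IsCoatom M) (hSM : (S : Subgroup G) ≤ M)
    {H : Subgroup G} (hH : H ≠ ⊤) (h : (S : Subgroup G) ≤ H) : H ≤ M :=
  LocalEven.PMin.le_of_ne_top hmin S hM hSM h hH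

/-- A normal subgroup below the maximal subgroup gives a minimal quotient. -/
theorem isPMinimal_quot {M : Subgroup G} (hM : IsCoatom M) (hTM : (T : Subgroup G) ≤ M) (hCM : C ≤ M) :
    Cfsg.IsPMinimal p (G ⧸ C) := by
  intro S
  obtain ⟨S', hS'⟩ := exists_sylow_of_quot S
  obtain ⟨g, hg⟩ := MulAction.exists_smul_eq G T S'
  set M' := cj g M with hM'
  have hM'c : IsCoatom M' := (OrderIso.isCoatom_iff (MulEquiv.mapSubgroup (MulAut.conj g)) M).2 hM
  have hSM' : (S' : Subgroup G) ≤ M' := by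
    rw [← hg, Fusion.coe_smul_sylow]; exact Fusion.cj_mono g hTM
  have hCM' : C ≤ M' := (Fusion.cj_eq_of_mem (by
    rw [Subgroup.normalizer_eq_top_iff.2 (inferInstance : C.Normal)]; trivial : g ∈ Subgroup.normalizer (C : Set G))).ge.trans
      (Fusion.cj_mono g hCM)
  have hle : C ⊔ (S' : Subgroup G) ≤ M' := sup_le hCM' hSM'
  have hcomap : (S : Subgroup (G ⧸ C)).comap (QuotientGroup.mk' C) = C ⊔ (S' : Subgroup G) := by
    rw [hS', Subgroup.comap_map_eq, QuotientGroup.ker_mk', sup_comm]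
  refine ⟨fun hn => ?_, M'.map (QuotientGroup.mk' C), ⟨?_, ?_⟩, fun M2 hM2 => ?_⟩
  · have hN : (C ⊔ (S' : Subgroup G)).Normal := hcomap ▸ hn.comap _
    have h1 : Subgroup.normalizer ((S' : Subgroup G) : Set G) ≠ ⊤ := fun e =>
      (hmin S').1 (Subgroup.normalizer_eq_top_iff.1 e)
    have h2 := Sylow.normalizer_sup_eq_top (N := C ⊔ (S' : Subgroup G))
      (S'.subtype le_sup_right)
    rw [show ((S'.subtype le_sup_right : Sylow p ↥(C ⊔ (S' : Subgroup G))) : Subgroup _).map
      (C ⊔ (S' : Subgroup G)).subtype = (S' : Subgroup G) from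
        Subgroup.map_subgroupOf_eq_of_le le_sup_right] at h2
    exact hM'c.1 (top_le_iff.1 (h2.ge.trans (sup_le
      (eq_top_or_le hmin S' hM'c hSM' h1 Subgroup.le_normalizer) hle)))
  · have hc : (M'.map (QuotientGroup.mk' C)).comap (QuotientGroup.mk' C) = M' :=
      Subgroup.comap_map_eq_self (by rw [QuotientGroup.ker_mk']; exact hCM')
    refine ⟨fun e => hM'c.1 (by rw [← hc, e, Subgroup.comap_top]), fun H hH => ?_⟩
    have h1 : M' < H.comap (QuotientGroup.mk' C) := by
      conv_lhs => rw [← hc]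
      exact (Subgroup.comap_lt_comap_of_surjective (QuotientGroup.mk'_surjective C)).2 hH
    rw [← Subgroup.map_comap_eq_self_of_surjective (QuotientGroup.mk'_surjective C) H, hM'c.2 _ h1,
      Subgroup.map_top_of_surjective _ (QuotientGroup.mk'_surjective C)]
  · rw [hS']; exact Subgroup.map_mono hSM'
  · have h1 : M2.comap (QuotientGroup.mk' C) ≠ ⊤ := fun e => hM2.1.1 (by
      rw [← Subgroup.map_comap_eq_self_of_surjective (QuotientGroup.mk'_surjective C) M2, e,
        Subgroup.map_top_of_surjective _ (QuotientGroup.mk'_surjective C)])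
    have h2 : M2.comap (QuotientGroup.mk' C) ≤ M' := eq_top_or_le hmin S' hM'c hSM' h1 (by
      rw [← Subgroup.map_le_iff_le_comap, ← hS']; exact hM2.2)
    have h3 : M2 ≤ M'.map (QuotientGroup.mk' C) := by
      rw [← Subgroup.map_comap_eq_self_of_surjective (QuotientGroup.mk'_surjective C) M2]
      exact Subgroup.map_mono h2
    refine (hM2.1.le_iff.1 h3).resolve_left (fun e => hM'c.1 ?_) |>.symm
    rw [← Subgroup.comap_map_eq_self (f := QuotientGroup.mk' C) (H := M')
      (by rw [QuotientGroup.ker_mk']; exact hCM'), e, Subgroup.comap_top]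

theorem pCore_quot_eq_bot {M : Subgroup G} (hM : IsCoatom M) (hTM : (T : Subgroup G) ≤ M) (hCM : C ≤ M)
    (hQC : Cfsg.pCore p G ≤ C) : Cfsg.pCore p (G ⧸ C) = ⊥ := by
  set R := (Cfsg.pCore p (G ⧸ C)).comap (QuotientGroup.mk' C) with hR
  have hRT : R ≤ C ⊔ (T : Subgroup G) := by
    intro x hx
    have h1 : (QuotientGroup.mk' C) x ∈ (T : Subgroup G).map (QuotientGroup.mk' C) :=
      Cores.pCore_le_sylow (Sylow.mapSurjective (QuotientGroup.mk'_surjective C) T) hx
    have h2 : x ∈ ((T : Subgroup G).map (QuotientGroup.mk' C)).comap (QuotientGroup.mk' C) := h1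
    rwa [Subgroup.comap_map_eq, QuotientGroup.ker_mk', sup_comm] at h2
  haveI : R.Normal := (inferInstance : (Cfsg.pCore p (G ⧸ C)).Normal).comap _
  have hTR := LocalEven.PMin.inf_le_pCore_of_normal hmin T hM hTM (hRT.trans (sup_le hCM hTM))
  refine eq_bot_iff.2 fun y hy => ?_
  obtain ⟨x, rfl⟩ := QuotientGroup.mk'_surjective C y
  have hx : x ∈ ((C : Set G) * ((T : Subgroup G) : Set G)) := by
    rw [← Subgroup.normal_mul]; exact hRT hy
  obtain ⟨c, hc, t, ht, rfl⟩ := hx
  have hcR : c ∈ R := show QuotientGroup.mk' C c ∈ Cfsg.pCore p (G ⧸ C) by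
    rw [show QuotientGroup.mk' C c = 1 from (QuotientGroup.eq_one_iff c).2 hc]; exact one_mem _
  have htR : t ∈ R := by
    have := R.mul_mem (R.inv_mem hcR) (hy : c * t ∈ R)
    rwa [inv_mul_cancel_left] at this
  exact Subgroup.mem_bot.2 ((QuotientGroup.eq_one_iff _).2 (mul_mem hc (hQC (hTR ⟨htR, ht⟩))))

/-- `J(T)` does not centralise `V` outside `C**`. -/
theorem thompson_not_le {M : Subgroup G} (hM : IsCoatom M) (hTM : (T : Subgroup G) ≤ M) (hCM : C ≤ M) :
    Cfsg.thompsonSubgroupOf p (T : Subgroup G) ≤ C →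
      Subgroup.normalizer (Cfsg.thompsonSubgroupOf p (T : Subgroup G) : Set G) ⊔ C = ⊤ := by
  intro hle
  set J := Cfsg.thompsonSubgroupOf p (T : Subgroup G) with hJ
  have hS : ¬ p ∣ ((T : Subgroup G).subgroupOf C).index := by
    have h := LocalEven.not_dvd_relIndex_sylow_inf_subnormal T (inferInstance : C.Normal).isSubnormal
    rwa [Subgroup.inf_relIndex_right] at h
  set S : Sylow p C := ((T.2.comap_of_injective C.subtype C.subtype_injective)).toSylow hS
  have hfr := Sylow.normalizer_sup_eq_top S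
  rw [show (S : Subgroup C).map C.subtype = (T : Subgroup G) ⊓ C from
    (Subgroup.subgroupOf_map_subtype _ _)] at hfr
  refine top_le_iff.1 (hfr.ge.trans (sup_le (le_sup_of_le_left fun g hg => ?_) le_sup_right))
  rw [← Fusion.cj_eq_iff_mem_normalizer] at hg ⊢
  have hJT := Modules.thompsonSubgroupOf_le p (T : Subgroup G)
  have key : ∀ {g : G}, cj g ((T : Subgroup G) ⊓ C) = (T : Subgroup G) ⊓ C → cj g J ≤ J := by
    intro g hg
    conv_lhs => rw [hJ, Modules.thompsonSubgroupOf_eq_sSup]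
    rw [Fusion.cj, sSup_eq_iSup, Subgroup.map_iSup]
    refine iSup_le fun B => ?_
    rw [Subgroup.map_iSup]
    refine iSup_le fun hB => Modules.le_thompsonSubgroupOf ?_
    have hBJ : B ≤ (T : Subgroup G) ⊓ C := le_inf hB.1 ((Modules.le_thompsonSubgroupOf hB).trans hle)
    refine ⟨((Subgroup.map_mono hBJ).trans hg.le).trans inf_le_left, ⟨Modules.comm_map _ hB.2.1.1, ?_⟩,
      fun B' hB' hB'e => ?_⟩
    · rintro _ ⟨b, hb, rfl⟩
      rw [← map_pow, hB.2.1.2 b hb, map_one]
    · rw [Subgroup.card_map_of_injective (MulAut.conj g).injective]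
      exact hB.2.2 B' hB' hB'e
  refine le_antisymm (key hg) ?_
  have h1 : cj g⁻¹ ((T : Subgroup G) ⊓ C) = (T : Subgroup G) ⊓ C := by
    conv_lhs => rw [← hg]
    exact Fusion.cj_inv_cj g _
  have h2 := Fusion.cj_mono g (key h1)
  rwa [Fusion.cj_cj_inv] at h2

omit hmin

/-- A maximal elementary abelian subgroup maps to an offender. -/
theorem card_le_of_max {V B : Subgroup G} (hV : Cfsg.IsElementaryAbelian p V) (hB : Cfsg.IsElementaryAbelian p B)
    (hC : C = Subgroup.centralizer (V : Set G))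
    (hmax : ∀ B' : Subgroup G, B' ≤ V ⊔ B → Cfsg.IsElementaryAbelian p B' → Nat.card B' ≤ Nat.card B) :
    Nat.card V ≤ Nat.card (B.map (QuotientGroup.mk' C)) *
      Nat.card (V ⊓ Subgroup.centralizer (B : Set G) : Subgroup G) := by
  set W := V ⊔ (B ⊓ C) with hW
  have hcc : B ⊓ C ≤ Subgroup.centralizer (V : Set G) := inf_le_right.trans hC.le
  have hWe : Cfsg.IsElementaryAbelian p W := by
    refine ⟨Modules.comm_sup hV.1 (Modules.comm_mono inf_le_left hB.1) hcc, ?_⟩
    intro w hw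
    have hm : w ∈ ((V : Set G) * ((B ⊓ C : Subgroup G) : Set G)) := by
      rw [← Subgroup.coe_mul_of_right_le_normalizer_left _ _
        (hcc.trans (Subgroup.centralizer_le_normalizer _))]
      exact hw
    obtain ⟨v, hv, b, hb, rfl⟩ := hm
    rw [Commute.mul_pow (Subgroup.mem_centralizer_iff.1 (hcc hb) v hv), hV.2 v hv, hB.2 b hb.1, one_mul]
  have h1 := hmax W (sup_le le_sup_left (inf_le_left.trans le_sup_right)) hWe
  have h2 : Nat.card V * Nat.card (B ⊓ C : Subgroup G) ≤
      Nat.card W * Nat.card (V ⊓ (B ⊓ C) : Subgroup G) := by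
    let φ : ↥V × ↥(B ⊓ C : Subgroup G) → ↥W × ↥(V ⊓ (B ⊓ C) : Subgroup G) := fun q =>
      let w : ↥W := ⟨(q.1 : G) * q.2, mul_mem (Subgroup.mem_sup_left q.1.2) (Subgroup.mem_sup_right q.2.2)⟩
      let s := Classical.epsilon fun s : ↥V × ↥(B ⊓ C : Subgroup G) => (s.1 : G) * s.2 = w
      have hs : (s.1 : G) * s.2 = w :=
        Classical.epsilon_spec (p := fun s : ↥V × ↥(B ⊓ C : Subgroup G) => (s.1 : G) * s.2 = w) ⟨q, rfl⟩
      (w, ⟨(s.1 : G)⁻¹ * q.1, V.mul_mem (V.inv_mem s.1.2) q.1.2, by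
        rw [show (s.1 : G)⁻¹ * q.1 = (s.2 : G) * (q.2 : G)⁻¹ by
          rw [eq_mul_inv_iff_mul_eq, mul_assoc, show (q.1 : G) * q.2 = (w : G) from rfl, ← hs,
            inv_mul_cancel_left]]
        exact (B ⊓ C : Subgroup G).mul_mem s.2.2 ((B ⊓ C : Subgroup G).inv_mem q.2.2)⟩)
    rw [← Nat.card_prod, ← Nat.card_prod]
    refine Nat.card_le_card_of_injective φ fun a b e => ?_
    have e1 : (a.1 : G) * a.2 = (b.1 : G) * b.2 := congrArg (fun z : ↥W × _ => (z.1 : G)) e
    have e2 := congrArg (fun z : ↥W × ↥(V ⊓ (B ⊓ C) : Subgroup G) => (z.2 : G)) e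
    simp only [φ, e1, mul_right_inj] at e2
    rw [e2, mul_right_inj] at e1
    exact Prod.ext (Subtype.ext e2) (Subtype.ext e1)
  have h3 : Nat.card (V ⊓ (B ⊓ C) : Subgroup G) ≤
      Nat.card (V ⊓ Subgroup.centralizer (B : Set G) : Subgroup G) := by
    refine Subgroup.card_le_of_le fun x hx => ⟨hx.1, ?_⟩
    exact Subgroup.mem_centralizer_iff.2 fun b hb => Modules.comm_iff.1 hB.1 b hb x hx.2.1
  have h4 : Nat.card B = Nat.card (B.map (QuotientGroup.mk' C)) * Nat.card (B ⊓ C : Subgroup G) := by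
    let φ : ↥B →* G ⧸ C := (QuotientGroup.mk' C).comp B.subtype
    rw [show B.map (QuotientGroup.mk' C) = φ.range by
      rw [MonoidHom.range_eq_map, ← Subgroup.map_map, ← MonoidHom.range_eq_map, Subgroup.range_subtype],
      ← Nat.card_congr (QuotientGroup.quotientKerEquivRange φ).toEquiv,
      show Nat.card (B ⊓ C : Subgroup G) = Nat.card φ.ker from Nat.card_congr
        { toFun := fun x => ⟨⟨(x : G), x.2.1⟩, (QuotientGroup.eq_one_iff _).2 x.2.2⟩
          invFun := fun x => ⟨((x : ↥B) : G), (x : ↥B).2, (QuotientGroup.eq_one_iff _).1 x.2⟩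
          left_inv := fun _ => rfl
          right_inv := fun _ => rfl },
      ← Subgroup.card_eq_card_quotient_mul_card_subgroup]
  refine Nat.le_of_mul_le_mul_right ?_ (Nat.card_pos (α := ↥(B ⊓ C : Subgroup G)))
  calc Nat.card V * Nat.card (B ⊓ C : Subgroup G) ≤ _ := h2
    _ ≤ Nat.card B * _ := Nat.mul_le_mul h1 h3
    _ = _ := by rw [h4]; ring

end Cfsg.Agent.MovesFix
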